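import Mathlib
import Cfsg.Agent.H17.AutPSL0
import Cfsg.Agent.H5.Vec
import Cfsg.Prelude.Def_ClassicalGeometry

set_option autoImplicit false
set_option linter.all false

/-! Transvections in `SL_n`, `GL_n`. -/

namespace Cfsg.Agent.H16.Trv

open Matrix Cfsg.Agent.H12 Cfsg.Agent.H17

variable {F : Type*} [Field F] {n : ℕ}

lemma form {t : Matrix (Fin n) (Fin n) F} (h : Cfsg.IsTransvection t) :
    ∃ v f : Fin n → F, v ≠ 0 ∧ f ≠ 0 ∧ f ⬝ᵥ v = 0 ∧ t = tvm v f := by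
  obtain ⟨hr, hsq⟩ := h
  obtain ⟨v, f, hv, hf, hM⟩ := Cfsg.Agent.H5.exists_vecMulVec_of_rank_eq_one hr
  refine ⟨v, f, hv, hf, ?_, ?_⟩
  · rw [hM, vecMulVec_mul_vecMulVec] at hsq
    obtain ⟨i, hi⟩ : ∃ i, v i ≠ 0 := by
      by_contra hcon
      push Not at hcon
      exact hv (funext hcon)
    obtain ⟨j, hj⟩ : ∃ j, f j ≠ 0 := by
      by_contra hcon
      push Not at hcon
      exact hf (funext hcon)
    have h1 := congrFun (congrFun hsq i) j
    rw [vecMulVec_apply, Pi.smul_apply, Matrix.zero_apply] at h1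
    simp only [smul_eq_mul] at h1
    rcases mul_eq_zero.1 h1 with h2 | h2
    · exact absurd h2 hi
    · rcases mul_eq_zero.1 h2 with h3 | h3
      · exact h3
      · exact absurd h3 hj
  · unfold tvm
    rw [← hM]; abel

/-- a dilation fixing a vector and a functional -/
lemma exists_dil (hn : 3 ≤ n) {v f : Fin n → F} (hv : v ≠ 0) (hf : f ≠ 0) (h : f ⬝ᵥ v = 0) (c : F) (hc : c ≠ 0) :
    ∃ D : Matrix (Fin n) (Fin n) F, D.det = c ∧ D *ᵥ v = v ∧ f ᵥ* D = f := by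
  -- `a` in the kernel of `f` outside the line of `v`
  obtain ⟨u, hu⟩ := exists_dot_eq_one hv
  obtain ⟨a, ha, hfa, hua⟩ := exists_ne_zero_dot_dot hn f u
  obtain ⟨b0, hb0⟩ := exists_dot_eq_one ha
  set b : Fin n → F := b0 - (b0 ⬝ᵥ v) • u with hb
  have hbv : b ⬝ᵥ v = 0 := by rw [hb, sub_dotProduct, smul_dotProduct, hu, smul_eq_mul, mul_one, sub_self]
  have hba : b ⬝ᵥ a = 1 := by rw [hb, sub_dotProduct, smul_dotProduct, hua, hb0]; simp
  refine ⟨tvm ((c - 1) • a) b, ?_, ?_, ?_⟩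
  · have h1 := Matrix.det_one_add_replicateCol_mul_replicateRow (ι := Unit) ((c - 1) • a) b
    rw [← Matrix.vecMulVec_eq] at h1
    rw [tvm, h1, dotProduct_smul, hba]; simp
  · rw [tvm_mulVec, hbv, zero_smul, add_zero]
  · unfold tvm
    rw [vecMul_add, vecMul_one, vecMul_vecMulVec, dotProduct_smul, hfa]
    simp

/-- transvections are conjugate in `SL_n`, `n ≥ 3` -/
theorem conj_sl (hn : 3 ≤ n) (s t : SpecialLinearGroup (Fin n) F) (hs : Cfsg.IsTransvection (s : Matrix (Fin n) (Fin n) F))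
    (ht : Cfsg.IsTransvection (t : Matrix (Fin n) (Fin n) F)) : IsConj s t := by
  obtain ⟨v, f, hv, hf, hfv, hs'⟩ := form hs
  obtain ⟨v', f', hv', hf', hfv', ht'⟩ := form ht
  obtain ⟨g, hg1, hg2⟩ := exists_gl_pair hv hf hfv hv' hf' hfv'
  have hdet : (g : Matrix (Fin n) (Fin n) F).det ≠ 0 := (Matrix.isUnit_iff_isUnit_det _).1 g.isUnit |>.ne_zero
  obtain ⟨D, hD1, hD2, hD3⟩ := exists_dil hn hv hf hfv ((g : Matrix (Fin n) (Fin n) F).det)⁻¹ (inv_ne_zero hdet)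
  have hg3 : f' ᵥ* (g : Matrix (Fin n) (Fin n) F) = f := by
    rw [← hg2, vecMul_vecMul, ← Units.val_mul, inv_mul_cancel, Units.val_one, vecMul_one]
  set σ : SpecialLinearGroup (Fin n) F := ⟨(g : Matrix (Fin n) (Fin n) F) * D, by rw [det_mul, hD1, mul_inv_cancel₀ hdet]⟩ with hσ
  have hσv : (σ : Matrix (Fin n) (Fin n) F) *ᵥ v = v' := by
    show ((g : Matrix (Fin n) (Fin n) F) * D) *ᵥ v = v'
    rw [← mulVec_mulVec, hD2, hg1]
  have hσf : f' ᵥ* (σ : Matrix (Fin n) (Fin n) F) = f := by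
    show f' ᵥ* ((g : Matrix (Fin n) (Fin n) F) * D) = f
    rw [← vecMul_vecMul, hg3, hD3]
  rw [isConj_iff]
  refine ⟨σ, ?_⟩
  rw [mul_inv_eq_iff_eq_mul]
  apply sl_ext_mulVec
  intro x
  rw [sl_mul_mulVec, sl_mul_mulVec, hs', ht', tvm_mulVec, tvm_mulVec, mulVec_add, mulVec_smul, hσv, dotProduct_mulVec, hσf]

end Cfsg.Agent.H16.Trv
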