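import Mathlib

/-! Extensions of `A_6` of index 4: Sylow 2-subgroups intersect nontrivially. -/

set_option autoImplicit false

namespace Cfsg.Agent.H16.A6Syl

open Equiv
open scoped Pointwise

def s0 : Perm (Fin 6) := swap 0 1 * swap 2 3

theorem cent_card : (Finset.univ.filter (fun τ : Perm (Fin 6) => Perm.sign τ = 1 ∧ τ * s0 = s0 * τ)).card = 8 := by
  decide +kernel

theorem c3 : (Finset.univ.filter (fun τ : Perm (Fin 6) => Perm.sign τ = 1 ∧ τ * τ = 1 ∧ (s0 * τ) ^ 3 = 1)).card < 32 := by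
  decide +kernel

theorem c4 : (Finset.univ.filter (fun τ : Perm (Fin 6) => Perm.sign τ = 1 ∧ τ * τ = 1 ∧ (s0 * τ) ^ 4 = 1)).card < 32 := by
  decide +kernel

theorem c5 : (Finset.univ.filter (fun τ : Perm (Fin 6) => Perm.sign τ = 1 ∧ τ * τ = 1 ∧ (s0 * τ) ^ 5 = 1)).card < 32 := by
  decide +kernel

theorem ords : ∀ τ : Perm (Fin 6), Perm.sign τ = 1 → τ ^ 3 = 1 ∨ τ ^ 4 = 1 ∨ τ ^ 5 = 1 := by decide +kernel

theorem ninv : (Finset.univ.filter (fun τ : Perm (Fin 6) => Perm.sign τ = 1 ∧ τ * τ = 1 ∧ τ ≠ 1)).card = 45 := by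
  decide +kernel

theorem s0_cycle : s0.cycleType = {2, 2} := by decide +kernel

theorem conj_s0 {σ : Perm (Fin 6)} (h1 : Perm.sign σ = 1) (h2 : σ * σ = 1) (h3 : σ ≠ 1) :
    ∃ g : Perm (Fin 6), g * σ * g⁻¹ = s0 := by
  have ho : orderOf σ = 2 := orderOf_eq_prime (by rw [pow_two]; exact h2) h3
  obtain ⟨n, hn⟩ := Perm.cycleType_prime_order (σ := σ) (by rw [ho]; exact Nat.prime_two)
  rw [ho] at hn
  have hs := Perm.sum_cycleType_le σ
  rw [hn, Multiset.sum_replicate, Fintype.card_fin, smul_eq_mul] at hs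
  have hsg := Perm.sign_of_cycleType σ
  rw [hn, Multiset.sum_replicate, Multiset.card_replicate, h1] at hsg
  have hn' : n < 3 := by omega
  have hn1 : n = 1 := by
    interval_cases n
    · exact absurd hsg (by decide)
    · rfl
    · exact absurd hsg (by decide)
  subst hn1
  have hc : IsConj σ s0 := by
    rw [Perm.isConj_iff_cycleType_eq, hn, s0_cycle]
    rfl
  exact isConj_iff.1 hc

theorem main {G : Type*} [Group G] [Finite G] (N : Subgroup G) [hN : N.Normal]
    (e : N ≃* alternatingGroup (Fin 6)) (hidx : N.index = 4) (H : Sylow 2 G) (x : G) :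
    (H : Subgroup G) ⊓ MulAut.conj x • (H : Subgroup G) ≠ ⊥ := by
  classical
  intro hbot
  set P : Subgroup G := (H : Subgroup G) with hP
  have : Fact (Nat.Prime 2) := ⟨Nat.prime_two⟩
  -- orders
  have hA : Nat.card (alternatingGroup (Fin 6)) = 360 := by
    have := two_mul_nat_card_alternatingGroup (α := Fin 6)
    rw [Nat.card_eq_fintype_card (α := Perm (Fin 6)), Fintype.card_perm, Fintype.card_fin] at this
    have h6 : Nat.factorial 6 = 720 := rfl
    omega
  have hcN : Nat.card N = 360 := by rw [Nat.card_congr e.toEquiv, hA]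
  have hcG : Nat.card G = 1440 := by rw [← N.card_mul_index, hcN, hidx]
  have hcP : Nat.card P = 32 := by
    have := H.card_eq_multiplicity
    rw [hcG] at this
    have h2 : Nat.factorization 1440 2 = 5 := by
      rw [show (1440 : ℕ) = 2 ^ 5 * 45 by norm_num, Nat.factorization_mul (by norm_num) (by norm_num),
        Nat.factorization_pow]
      simp [Nat.Prime.factorization_self Nat.prime_two,
        Nat.factorization_eq_zero_of_not_dvd (show ¬ 2 ∣ 45 by norm_num)]
    rw [h2] at this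
    exact this
  -- a homomorphism to permutations
  let r : N →* Perm (Fin 6) := (alternatingGroup (Fin 6)).subtype.comp e.toMonoidHom
  have hrinj : Function.Injective r := by
    intro a b hab
    exact e.injective (Subtype.ext hab)
  have hrs : ∀ y, Perm.sign (r y) = 1 := fun y => (e y).2
  -- involutions
  let S : Set N := {y | y * y = 1 ∧ y ≠ 1}
  have hScard : Nat.card S = 45 := by
    have hsurj : ∀ τ : Perm (Fin 6), Perm.sign τ = 1 → ∃ y, r y = τ := by
      intro τ hτ
      exact ⟨e.symm ⟨τ, hτ⟩, by simp [r]⟩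
    have himg : ((Finset.univ.filter (fun τ : Perm (Fin 6) => Perm.sign τ = 1 ∧ τ * τ = 1 ∧ τ ≠ 1) : Finset _) : Set (Perm (Fin 6))) =
        r '' S := by
      ext τ
      simp only [Finset.coe_filter, Finset.mem_univ, true_and, Set.mem_ofPred_eq, Set.mem_image]
      constructor
      · rintro ⟨h1, h2, h3⟩
        obtain ⟨y, rfl⟩ := hsurj τ h1
        refine ⟨y, ⟨hrinj (by rw [map_mul, h2, map_one]), fun h => h3 (by rw [h, map_one])⟩, rfl⟩
      · rintro ⟨y, ⟨h1, h2⟩, rfl⟩
        exact ⟨hrs y, by rw [← map_mul, h1, map_one], fun h => h2 (hrinj (by rw [h, map_one]))⟩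
    have h1 : (r '' S).ncard = 45 := by
      rw [← himg, Set.ncard_coe_finset, ninv]
    rw [Set.ncard_image_of_injective _ hrinj] at h1
    exact h1
  -- P acts on S
  have hconjmem : ∀ (h : G) (y : N), h * y * h⁻¹ ∈ N := fun h y => hN.conj_mem _ y.2 h
  let act : P → S → S := fun h y => ⟨⟨h.1 * y.1.1 * h.1⁻¹, hconjmem _ _⟩, by
    obtain ⟨⟨y, hyN⟩, hy1, hy2⟩ := y
    have hy1' : y * y = 1 := congrArg Subtype.val hy1
    have hy2' : y ≠ 1 := fun h => hy2 (Subtype.ext h)
    constructor
    · apply Subtype.ext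
      change h.1 * y * h.1⁻¹ * (h.1 * y * h.1⁻¹) = 1
      have : h.1 * y * h.1⁻¹ * (h.1 * y * h.1⁻¹) = h.1 * (y * y) * h.1⁻¹ := by group
      rw [this, hy1']; group
    · intro h0
      have h0' : h.1 * y * h.1⁻¹ = 1 := congrArg Subtype.val h0
      apply hy2'
      have : y = h.1⁻¹ * (h.1 * y * h.1⁻¹) * h.1 := by group
      rw [this, h0']; group⟩
  letI : MulAction P S :=
    { smul := act
      one_smul := by
        intro y
        apply Subtype.ext; apply Subtype.ext
        change (1 : G) * y.1.1 * (1 : G)⁻¹ = y.1.1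
        group
      mul_smul := by
        intro a b y
        apply Subtype.ext; apply Subtype.ext
        change (a.1 * b.1) * y.1.1 * (a.1 * b.1)⁻¹ = a.1 * (b.1 * y.1.1 * b.1⁻¹) * a.1⁻¹
        group }
  have hPg : IsPGroup 2 P := H.isPGroup'
  obtain ⟨t, ht⟩ := hPg.nonempty_fixed_point_of_prime_not_dvd_card S (by rw [hScard]; norm_num)
  have htc : ∀ h ∈ P, h * t.1.1 * h⁻¹ = t.1.1 := by
    intro h hh
    have := ht ⟨h, hh⟩
    exact congrArg (fun z : S => z.1.1) this
  obtain ⟨⟨t, htN⟩, ht1, ht2⟩ := t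
  simp only at htc
  -- normalise t
  obtain ⟨g, hg⟩ := conj_s0 (σ := r ⟨t, htN⟩) (hrs _) (by rw [← map_mul, ht1, map_one])
    (fun h => ht2 (hrinj (by rw [h, map_one])))
  let ρ : N →* Perm (Fin 6) := (MulAut.conj g).toMonoidHom.comp r
  have hρinj : Function.Injective ρ := (MulAut.conj g).injective.comp hrinj
  have hρs : ∀ y, Perm.sign (ρ y) = 1 := by
    intro y
    have : ρ y = g * r y * g⁻¹ := rfl
    rw [this, Perm.sign_mul, Perm.sign_mul, hrs, Perm.sign_inv, mul_one, Int.units_mul_self]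
  have hρt : ρ ⟨t, htN⟩ = s0 := hg
  -- centralizer of t
  have hct : Nat.card (Subgroup.centralizer ({t} : Set G)) ≤ 32 := by
    set C := Subgroup.centralizer ({t} : Set G) with hC
    have h1 : Nat.card C = Nat.card (N.subgroupOf C) * N.relIndex C := (Subgroup.card_mul_index _).symm
    have h2 : N.relIndex C ∣ N.index := Subgroup.relIndex_dvd_index_of_normal N C
    rw [hidx] at h2
    have h3 : N.relIndex C ≤ 4 := Nat.le_of_dvd (by norm_num) h2
    have h4 : Nat.card (N.subgroupOf C) ≤ 8 := by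
      rw [← cent_card]
      let f : N.subgroupOf C → (Finset.univ.filter (fun τ : Perm (Fin 6) => Perm.sign τ = 1 ∧ τ * s0 = s0 * τ) : Finset _) :=
        fun y => ⟨ρ ⟨y.1.1, y.2⟩, by
          rw [Finset.mem_filter]
          refine ⟨Finset.mem_univ _, hρs _, ?_⟩
          rw [← hρt, ← map_mul, ← map_mul]
          congr 1
          apply Subtype.ext
          have this : (y.1.1 : G) ∈ Subgroup.centralizer ({t} : Set G) := y.1.2
          rw [Subgroup.mem_centralizer_singleton_iff] at this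
          exact this⟩
      have hf : Function.Injective f := by
        intro a b hab
        have h5 := hρinj (congrArg Subtype.val hab)
        have h6 : (a.1.1 : G) = b.1.1 := congrArg (fun z : N => (z : G)) h5
        exact Subtype.ext (Subtype.ext h6)
      have := Nat.card_le_card_of_injective f hf
      rw [Nat.card_eq_fintype_card (α := (Finset.univ.filter (fun τ : Perm (Fin 6) => Perm.sign τ = 1 ∧ τ * s0 = s0 * τ) : Finset _)),
        Fintype.card_coe] at this
      exact this
    rw [h1]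
    calc _ ≤ 8 * 4 := Nat.mul_le_mul h4 h3
      _ = 32 := by norm_num
  -- the centralizer of the conjugate
  set t' : G := x * t * x⁻¹ with ht'
  have ht'N : t' ∈ N := hN.conj_mem _ htN x
  have hcent : Subgroup.centralizer ({t'} : Set G) ≤ MulAut.conj x • P := by
    have h1 : P ≤ Subgroup.centralizer ({t} : Set G) := by
      intro h hh
      rw [Subgroup.mem_centralizer_singleton_iff]
      have := htc h hh
      rw [mul_inv_eq_iff_eq_mul] at this
      exact this
    have h2 : P = Subgroup.centralizer ({t} : Set G) :=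
      Subgroup.eq_of_le_of_card_ge h1 (by rw [hcP]; exact hct)
    intro y hy
    rw [Subgroup.mem_centralizer_singleton_iff] at hy
    rw [Subgroup.mem_pointwise_smul_iff_inv_smul_mem, h2, Subgroup.mem_centralizer_singleton_iff]
    have e1 : (MulAut.conj x)⁻¹ • y = x⁻¹ * y * x := by
      rw [← map_inv]
      simp [MulAut.smul_def]
    rw [e1]
    have : t = x⁻¹ * t' * x := by rw [ht']; group
    rw [this]
    calc x⁻¹ * y * x * (x⁻¹ * t' * x) = x⁻¹ * (y * t') * x := by group
      _ = x⁻¹ * (t' * y) * x := by rw [hy]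
      _ = _ := by group
  -- the orbit
  have hk : ∃ k, (k = 3 ∨ k = 4 ∨ k = 5) ∧ (t * t') ^ k = 1 := by
    have h1 := ords (ρ (⟨t, htN⟩ * ⟨t', ht'N⟩)) (hρs _)
    have key : ∀ k, ρ (⟨t, htN⟩ * ⟨t', ht'N⟩) ^ k = 1 → (t * t') ^ k = 1 := by
      intro k hk
      rw [← map_pow] at hk
      have := hρinj (hk.trans (map_one ρ).symm)
      exact congrArg Subtype.val this
    rcases h1 with h | h | h
    · exact ⟨3, Or.inl rfl, key 3 h⟩
    · exact ⟨4, Or.inr (Or.inl rfl), key 4 h⟩
    · exact ⟨5, Or.inr (Or.inr rfl), key 5 h⟩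
  obtain ⟨k, hk, hk'⟩ := hk
  have ht1' : t * t = 1 := congrArg Subtype.val ht1
  let f : P → (Finset.univ.filter (fun τ : Perm (Fin 6) => Perm.sign τ = 1 ∧ τ * τ = 1 ∧ (s0 * τ) ^ k = 1) : Finset _) :=
    fun h => ⟨ρ ⟨h.1 * t' * h.1⁻¹, hN.conj_mem _ ht'N h.1⟩, by
      rw [Finset.mem_filter]
      refine ⟨Finset.mem_univ _, hρs _, ?_, ?_⟩
      · rw [← map_mul, ← map_one ρ]
        congr 1
        apply Subtype.ext
        change h.1 * t' * h.1⁻¹ * (h.1 * t' * h.1⁻¹) = 1
        have : h.1 * t' * h.1⁻¹ * (h.1 * t' * h.1⁻¹) = h.1 * x * (t * t) * x⁻¹ * h.1⁻¹ := by rw [ht']; group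
        rw [this, ht1']; group
      · rw [← hρt, ← map_mul, ← map_pow, ← map_one ρ]
        congr 1
        apply Subtype.ext
        change (t * (h.1 * t' * h.1⁻¹)) ^ k = 1
        have h1 := htc h.1 h.2
        have h2 : t * (h.1 * t' * h.1⁻¹) = h.1 * (t * t') * h.1⁻¹ := by
          calc t * (h.1 * t' * h.1⁻¹) = (h.1 * t * h.1⁻¹) * (h.1 * t' * h.1⁻¹) := by rw [h1]
            _ = _ := by group
        rw [h2, conj_pow, hk']; group⟩
  have hf : Function.Injective f := by
    intro a b hab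
    have h5 := congrArg Subtype.val (hρinj (congrArg Subtype.val hab))
    change a.1 * t' * a.1⁻¹ = b.1 * t' * b.1⁻¹ at h5
    have h6 : b.1⁻¹ * a.1 ∈ Subgroup.centralizer ({t'} : Set G) := by
      rw [Subgroup.mem_centralizer_singleton_iff]
      calc b.1⁻¹ * a.1 * t' = b.1⁻¹ * (a.1 * t' * a.1⁻¹) * a.1 := by group
        _ = b.1⁻¹ * (b.1 * t' * b.1⁻¹) * a.1 := by rw [h5]
        _ = _ := by group
    have h7 : b.1⁻¹ * a.1 ∈ P ⊓ MulAut.conj x • P := ⟨P.mul_mem (P.inv_mem b.2) a.2, hcent h6⟩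
    rw [hbot, Subgroup.mem_bot] at h7
    apply Subtype.ext
    rw [inv_mul_eq_one] at h7
    exact h7.symm
  have hle := Nat.card_le_card_of_injective f hf
  rw [hcP] at hle
  have hlt : Nat.card (Finset.univ.filter (fun τ : Perm (Fin 6) => Perm.sign τ = 1 ∧ τ * τ = 1 ∧ (s0 * τ) ^ k = 1) : Finset _) < 32 := by
    rw [Nat.card_eq_fintype_card, Fintype.card_coe]
    rcases hk with rfl | rfl | rfl
    · exact c3
    · exact c4
    · exact c5
  exact absurd hle (not_le.2 hlt)

end Cfsg.Agent.H16.A6Syl
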