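import Mathlib

set_option autoImplicit false
set_option linter.all false

namespace Cfsg.Agent.H16.AbP

open Equiv

/-- the maximal product of a partition of `n` -/
def f : ℕ → ℕ
  | 0 => 1
  | 1 => 1
  | 2 => 2
  | 3 => 3
  | 4 => 4
  | (n + 5) => 3 * f (n + 2)

lemma f_add3 (n : ℕ) : 3 * f n ≤ f (n + 3) := by
  rcases n with _ | _ | n
  · simp [f]
  · simp [f]
  · show 3 * f (n + 2) ≤ f (n + 5); simp [f]

lemma f_pos : ∀ n, 1 ≤ f n
  | 0 => by simp [f]
  | 1 => by simp [f]
  | 2 => by simp [f]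
  | 3 => by simp [f]
  | 4 => by simp [f]
  | (n + 5) => by have := f_pos (n + 2); simp only [f]; omega

lemma f_add1 : ∀ n, f n ≤ f (n + 1)
  | 0 => by simp [f]
  | 1 => by simp [f]
  | 2 => by simp [f]
  | 3 => by simp [f]
  | 4 => by simp [f]
  | (n + 5) => by
    have := f_add1 (n + 2)
    show f (n + 5) ≤ f ((n + 1) + 5)
    simp only [f]
    have e : n + 1 + 2 = n + 2 + 1 := by ring
    rw [e]; omega

lemma f_add2 : ∀ n, 2 * f n ≤ f (n + 2)
  | 0 => by simp [f]
  | 1 => by simp [f]
  | 2 => by simp [f]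
  | 3 => by simp [f]
  | 4 => by simp [f]
  | (n + 5) => by
    have := f_add2 (n + 2)
    show 2 * f (n + 5) ≤ f ((n + 2) + 5)
    simp only [f]
    omega

lemma mul_f : ∀ (m : ℕ), 1 ≤ m → ∀ n, m * f n ≤ f (n + m) := by
  intro m
  induction m using Nat.strong_induction_on with
  | _ m ih =>
    intro hm n
    rcases m with _ | _ | _ | _ | _ | m
    · omega
    · have := f_add1 n; simpa using this
    · exact f_add2 n
    · exact f_add3 n
    · have h1 := f_add2 n
      have h2 := f_add2 (n + 2)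
      show 4 * f n ≤ f (n + 2 + 2)
      omega
    · have h1 := ih (m + 2) (by omega) (by omega) n
      have h2 := f_add3 (n + (m + 2))
      show (m + 5) * f n ≤ f (n + (m + 2) + 3)
      have h3 : 3 * ((m + 2) * f n) ≤ 3 * f (n + (m + 2)) := Nat.mul_le_mul_left _ h1
      have h4 : (m + 5) * f n ≤ 3 * ((m + 2) * f n) := by
        rw [← mul_assoc]; exact Nat.mul_le_mul_right _ (by omega)
      omega

lemma f_3k (k : ℕ) : f (3 * k) = 3 ^ k := by
  induction k with
  | zero => simp [f]
  | succ k ih =>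
    rcases k with _ | k
    · simp [f]
    · have e : 3 * (k + 1 + 1) = (3 * k + 1) + 5 := by ring
      rw [e]; simp only [f]
      have e2 : 3 * k + 1 + 2 = 3 * (k + 1) := by ring
      rw [e2, ih]; ring

lemma f_3k1 (k : ℕ) : f (3 * (k + 1) + 1) = 4 * 3 ^ k := by
  induction k with
  | zero => simp [f]
  | succ k ih =>
    have e : 3 * (k + 1 + 1) + 1 = (3 * k + 2) + 5 := by ring
    rw [e]; simp only [f]
    have e2 : 3 * k + 2 + 2 = 3 * (k + 1) + 1 := by ring
    rw [e2, ih]; ring

lemma f_3k2 (k : ℕ) : f (3 * k + 2) = 2 * 3 ^ k := by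
  induction k with
  | zero => simp [f]
  | succ k ih =>
    have e : 3 * (k + 1) + 2 = (3 * k) + 5 := by ring
    rw [e]; simp only [f]
    rw [ih]; ring

variable {α : Type*} [Fintype α] [DecidableEq α]

/-- an abelian permutation group supported on `S` has order at most `f |S|` -/
theorem card_le : ∀ (n : ℕ) (S : Finset α) (A : Subgroup (Perm α)), S.card = n → (∀ a ∈ A, ∀ b ∈ A, a * b = b * a) →
    (∀ a ∈ A, ∀ x ∉ S, a x = x) → Nat.card A ≤ f n := by
  intro n
  induction n using Nat.strong_induction_on with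
  | _ n ih =>
    intro S A hS hA hfix
    rcases S.eq_empty_or_nonempty with h0 | ⟨x, hx⟩
    · have : A = ⊥ := by
        rw [eq_bot_iff]
        intro a ha
        rw [Subgroup.mem_bot]
        ext y
        exact hfix a ha y (by rw [h0]; simp)
      rw [this, Subgroup.card_bot]
      exact f_pos n
    · classical
      let O : Finset α := (Set.toFinite (MulAction.orbit A x)).toFinset
      have hO : ∀ y, y ∈ O ↔ ∃ a ∈ A, a x = y := by
        intro y
        rw [Set.Finite.mem_toFinset, MulAction.mem_orbit_iff]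
        constructor
        · rintro ⟨a, ha⟩; exact ⟨a, a.2, ha⟩
        · rintro ⟨a, ha, h⟩; exact ⟨⟨a, ha⟩, h⟩
      have hxO : x ∈ O := (hO x).2 ⟨1, A.one_mem, rfl⟩
      have hOS : O ⊆ S := by
        intro y hy
        obtain ⟨a, ha, rfl⟩ := (hO y).1 hy
        by_contra hn
        have h1 := hfix a⁻¹ (A.inv_mem ha) _ hn
        rw [show a⁻¹ (a x) = x from a.symm_apply_apply x] at h1
        rw [← h1] at hn
        exact hn hx
      let B : Subgroup (Perm α) := (MulAction.stabilizer A x).map A.subtype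
      have hB : ∀ b, b ∈ B ↔ b ∈ A ∧ b x = x := by
        intro b
        rw [Subgroup.mem_map]
        constructor
        · rintro ⟨a, ha, rfl⟩; exact ⟨a.2, ha⟩
        · rintro ⟨ha, hb⟩; exact ⟨⟨b, ha⟩, hb, rfl⟩
      have hBc : Nat.card B = Nat.card (MulAction.stabilizer A x) :=
        (Nat.card_congr (Subgroup.equivMapOfInjective _ _ A.subtype_injective).toEquiv).symm
      have horb : Nat.card (MulAction.orbit A x) = O.card := by
        rw [Nat.card_coe_set_eq, Set.ncard_eq_toFinset_card _ (Set.toFinite _)]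
      have hcard : Nat.card A = O.card * Nat.card B := by
        rw [hBc, ← horb, mul_comm, Nat.card_coe_set_eq, ← MulAction.index_stabilizer, Subgroup.card_mul_index]
      have hOpos : 1 ≤ O.card := Finset.card_pos.2 ⟨x, hxO⟩
      have hle : O.card ≤ n := hS ▸ Finset.card_le_card hOS
      have hsd : (S \ O).card = n - O.card := by rw [Finset.card_sdiff_of_subset hOS, hS]
      have h2 := ih (n - O.card) (by omega) (S \ O) B hsd (fun a ha b hb => hA a ((hB a).1 ha).1 b ((hB b).1 hb).1) (by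
        intro b hb y hy
        obtain ⟨hbA, hbx⟩ := (hB b).1 hb
        by_cases hyS : y ∈ S
        · have hyO : y ∈ O := by
            by_contra hn; exact hy (Finset.mem_sdiff.2 ⟨hyS, hn⟩)
          obtain ⟨a, ha, rfl⟩ := (hO y).1 hyO
          have : b (a x) = a (b x) := congrArg (fun g : Perm α => g x) (hA b hbA a ha)
          rw [this, hbx]
        · exact hfix b hbA y hyS)
      rw [hcard]
      calc O.card * Nat.card B ≤ O.card * f (n - O.card) := Nat.mul_le_mul_left _ h2
        _ ≤ f (n - O.card + O.card) := mul_f _ hOpos _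
        _ = f n := by congr 1; omega

/-- there is an abelian subgroup of `S_n` of order `c` -/
def Has (n c : ℕ) : Prop := ∃ A : Subgroup (Perm (Fin n)), IsMulCommutative A ∧ Nat.card A = c

lemma has_le {n c : ℕ} (h : Has n c) : c ≤ f n := by
  obtain ⟨A, hA, rfl⟩ := h
  apply card_le n Finset.univ A (by simp)
  · intro a ha b hb
    exact congrArg Subtype.val (hA.is_comm.comm ⟨a, ha⟩ ⟨b, hb⟩)
  · intro a ha x hx; exact absurd (Finset.mem_univ _) hx

lemma has_bot (n : ℕ) : Has n 1 := ⟨⊥, ⟨⟨fun a b => Subsingleton.elim _ _⟩⟩, Subgroup.card_bot⟩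

lemma has_cyc (n : ℕ) : Has (n + 2) (n + 2) := by
  refine ⟨Subgroup.zpowers (finRotate (n + 2)), inferInstance, ?_⟩
  rw [Nat.card_zpowers, isCycle_finRotate.orderOf, support_finRotate]
  simp

lemma has_add {a b c d : ℕ} (h1 : Has a c) (h2 : Has b d) : Has (a + b) (c * d) := by
  obtain ⟨A, hA, rfl⟩ := h1
  obtain ⟨B, hB, rfl⟩ := h2
  let φ : Perm (Fin a) × Perm (Fin b) →* Perm (Fin (a + b)) :=
    (finSumFinEquiv.permCongrHom.toMonoidHom).comp (Perm.sumCongrHom (Fin a) (Fin b))
  have hφ : Function.Injective φ := by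
    intro x y h
    exact Perm.sumCongrHom_injective (finSumFinEquiv.permCongrHom.injective h)
  refine ⟨(A.prod B).map φ, ⟨⟨?_⟩⟩, ?_⟩
  · rintro ⟨_, ⟨x, hx, rfl⟩⟩ ⟨_, ⟨y, hy, rfl⟩⟩
    apply Subtype.ext
    show φ x * φ y = φ y * φ x
    rw [← map_mul, ← map_mul]
    congr 1
    apply Prod.ext
    · exact congrArg Subtype.val (hA.is_comm.comm ⟨x.1, hx.1⟩ ⟨y.1, hy.1⟩)
    · exact congrArg Subtype.val (hB.is_comm.comm ⟨x.2, hx.2⟩ ⟨y.2, hy.2⟩)
  · rw [← Nat.card_congr (Subgroup.equivMapOfInjective _ _ hφ).toEquiv, Nat.card_congr (Subgroup.prodEquiv A B).toEquiv, Nat.card_prod]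

lemma has_3k (k : ℕ) : Has (3 * k) (3 ^ k) := by
  induction k with
  | zero => exact has_bot 0
  | succ k ih => exact has_add ih (has_cyc 1)

end Cfsg.Agent.H16.AbP
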