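import Mathlib
import Cfsg.Agent.H16.AbP

set_option autoImplicit false
set_option linter.all false

namespace Cfsg.Agent.H16.AbP

open Equiv

/-- bound for abelian even permutation groups in degree `3k+2` -/
def g2 : ℕ → ℕ
  | 0 => 1
  | 1 => 5
  | (k + 2) => 16 * 3 ^ k

lemma g2_step (k : ℕ) : 3 * g2 k ≤ g2 (k + 1) := by
  rcases k with _ | _ | k
  · simp [g2]
  · simp [g2]
  · simp only [g2]; rw [pow_succ]; omega

lemma g2_one (k : ℕ) : f (3 * k + 1) ≤ g2 k := by
  rcases k with _ | k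
  · simp [f, g2]
  · rw [f_3k1]
    rcases k with _ | k
    · simp [g2]
    · simp only [g2]; rw [pow_succ]; omega

lemma g2_four (k : ℕ) (hk : 1 ≤ k) : 4 * f (3 * k + 2 - 4) ≤ g2 k := by
  obtain ⟨k, rfl⟩ := Nat.exists_eq_add_of_le' hk
  rcases k with _ | k
  · simp [f, g2]
  · have : 3 * (k + 1 + 1) + 2 - 4 = 3 * (k + 1) + 1 := by omega
    rw [this, f_3k1]
    simp only [g2]; omega

lemma g2_big (k m : ℕ) (hm : 4 ≤ m) (hmk : m ≤ 3 * k + 2) : m * f (3 * k + 2 - m) ≤ g2 k := by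
  have hk : 1 ≤ k := by omega
  have h4 := g2_four k hk
  rcases Nat.lt_or_ge m 6 with h | h
  · obtain rfl | rfl : m = 4 ∨ m = 5 := by omega
    · exact h4
    · obtain ⟨k, rfl⟩ := Nat.exists_eq_add_of_le' hk
      have : 3 * (k + 1) + 2 - 5 = 3 * k := by omega
      rw [this, f_3k]
      rcases k with _ | k
      · simp [g2]
      · simp only [g2]; rw [pow_succ]; omega
  · have h1 := mul_f (m - 4) (by omega) (3 * k + 2 - m)
    have h2 : 3 * k + 2 - m + (m - 4) = 3 * k + 2 - 4 := by omega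
    rw [h2] at h1
    have h3 : m * f (3 * k + 2 - m) ≤ 4 * ((m - 4) * f (3 * k + 2 - m)) := by
      rw [← mul_assoc]; exact Nat.mul_le_mul_right _ (by omega)
    omega

variable {α : Type*} [Fintype α] [DecidableEq α]

/-- orbit data: passing from `A` to the stabilizer of `x` -/
lemma orbit_step (S : Finset α) (A : Subgroup (Perm α)) (hA : ∀ a ∈ A, ∀ b ∈ A, a * b = b * a)
    (hfix : ∀ a ∈ A, ∀ x ∉ S, a x = x) (x : α) (hx : x ∈ S) :
    ∃ (O : Finset α) (B : Subgroup (Perm α)), (∀ y, y ∈ O ↔ ∃ a ∈ A, a x = y) ∧ x ∈ O ∧ O ⊆ S ∧ (∀ b, b ∈ B ↔ b ∈ A ∧ b x = x) ∧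
      Nat.card A = O.card * Nat.card B ∧ (∀ b ∈ B, ∀ y ∉ S \ O, b y = y) ∧ 1 ≤ O.card ∧ O.card ≤ S.card ∧ (S \ O).card = S.card - O.card ∧
      (∀ a ∈ B, ∀ b ∈ B, a * b = b * a) := by
  classical
  let O : Finset α := (Set.toFinite (MulAction.orbit A x)).toFinset
  have hO : ∀ y, y ∈ O ↔ ∃ a ∈ A, a x = y := by
    intro y
    rw [Set.Finite.mem_toFinset, MulAction.mem_orbit_iff]
    constructor
    · rintro ⟨a, ha⟩; exact ⟨a, a.2, ha⟩
    · rintro ⟨a, ha, h⟩; exact ⟨⟨a, ha⟩, h⟩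
  have hxO : x ∈ O := (hO x).2 ⟨1, A.one_mem, rfl⟩
  have hOS : O ⊆ S := by
    intro y hy
    obtain ⟨a, ha, rfl⟩ := (hO y).1 hy
    by_contra hn
    have h1 := hfix a⁻¹ (A.inv_mem ha) _ hn
    rw [show a⁻¹ (a x) = x from a.symm_apply_apply x] at h1
    rw [← h1] at hn
    exact hn hx
  let B : Subgroup (Perm α) := (MulAction.stabilizer A x).map A.subtype
  have hB : ∀ b, b ∈ B ↔ b ∈ A ∧ b x = x := by
    intro b
    rw [Subgroup.mem_map]
    constructor
    · rintro ⟨a, ha, rfl⟩; exact ⟨a.2, ha⟩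
    · rintro ⟨ha, hb⟩; exact ⟨⟨b, ha⟩, hb, rfl⟩
  have hBc : Nat.card B = Nat.card (MulAction.stabilizer A x) :=
    (Nat.card_congr (Subgroup.equivMapOfInjective _ _ A.subtype_injective).toEquiv).symm
  have horb : Nat.card (MulAction.orbit A x) = O.card := by
    rw [Nat.card_coe_set_eq, Set.ncard_eq_toFinset_card _ (Set.toFinite _)]
  have hcard : Nat.card A = O.card * Nat.card B := by
    rw [hBc, ← horb, mul_comm, Nat.card_coe_set_eq, ← MulAction.index_stabilizer, Subgroup.card_mul_index]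
  refine ⟨O, B, hO, hxO, hOS, hB, hcard, ?_, Finset.card_pos.2 ⟨x, hxO⟩, Finset.card_le_card hOS, Finset.card_sdiff_of_subset hOS,
    fun a ha b hb => hA a ((hB a).1 ha).1 b ((hB b).1 hb).1⟩
  intro b hb y hy
  obtain ⟨hbA, hbx⟩ := (hB b).1 hb
  by_cases hyS : y ∈ S
  · have hyO : y ∈ O := by
      by_contra hn; exact hy (Finset.mem_sdiff.2 ⟨hyS, hn⟩)
    obtain ⟨a, ha, rfl⟩ := (hO y).1 hyO
    have : b (a x) = a (b x) := congrArg (fun g : Perm α => g x) (hA b hbA a ha)
    rw [this, hbx]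
  · exact hfix b hbA y hyS

/-- in degree `3k+2` an abelian group of even permutations has order at most `g2 k` -/
theorem card_le_alt : ∀ (k : ℕ) (S : Finset α) (A : Subgroup (Perm α)), S.card = 3 * k + 2 → (∀ a ∈ A, ∀ b ∈ A, a * b = b * a) →
    (∀ a ∈ A, ∀ x ∉ S, a x = x) → (∀ a ∈ A, Perm.sign a = 1) → Nat.card A ≤ g2 k := by
  intro k
  induction k with
  | zero =>
    intro S A hS hA hfix hsg
    have hA1 : A = ⊥ := by
      rw [eq_bot_iff]
      intro a ha
      rw [Subgroup.mem_bot]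
      by_contra hne
      have hsub : a.support ⊆ S := by
        intro x hx
        by_contra hn
        exact (Perm.mem_support.1 hx) (hfix a ha x hn)
      have h2 : a.support.card ≤ 2 := by
        have := Finset.card_le_card hsub; omega
      have h3 := Perm.two_le_card_support_of_ne_one hne
      have h4 : a.IsSwap := Perm.card_support_eq_two.1 (by omega)
      have h5 := h4.sign_eq
      rw [hsg a ha] at h5
      exact absurd h5 (by decide)
    rw [hA1, Subgroup.card_bot]; simp [g2]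
  | succ k ih =>
    intro S A hS hA hfix hsg
    -- sizes of orbits
    have key : ∀ x ∈ S, ∀ (O : Finset α) (B : Subgroup (Perm α)), (∀ y, y ∈ O ↔ ∃ a ∈ A, a x = y) → O ⊆ S → (∀ b, b ∈ B ↔ b ∈ A ∧ b x = x) →
        Nat.card A = O.card * Nat.card B → (∀ b ∈ B, ∀ y ∉ S \ O, b y = y) → 1 ≤ O.card → O.card ≤ S.card → (S \ O).card = S.card - O.card →
        (∀ a ∈ B, ∀ b ∈ B, a * b = b * a) → O.card ≠ 2 → Nat.card A ≤ g2 (k + 1) := by
      intro x hx O B hO hOS hB hcard hBfix h1 h2 h3 hBc hne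
      rw [hcard]
      rcases Nat.lt_or_ge O.card 4 with h | h
      · obtain h5 | h5 : O.card = 1 ∨ O.card = 3 := by omega
        · rw [h5, one_mul]
          have := card_le _ (S \ O) B rfl hBc hBfix
          rw [h3, hS, h5, show 3 * (k + 1) + 2 - 1 = 3 * (k + 1) + 1 by omega] at this
          exact this.trans (g2_one _)
        · rw [h5]
          have := ih (S \ O) B (by rw [h3, hS, h5]; omega) hBc hBfix (fun a ha => hsg a ((hB a).1 ha).1)
          exact (Nat.mul_le_mul_left 3 this).trans (g2_step k)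
      · have := card_le _ (S \ O) B rfl hBc hBfix
        rw [h3, hS] at this
        exact (Nat.mul_le_mul_left _ this).trans (g2_big (k + 1) _ h (by omega))
    have hSne : S.Nonempty := by rw [← Finset.card_pos]; omega
    obtain ⟨x, hx⟩ := hSne
    obtain ⟨O, B, hO, hxO, hOS, hB, hcard, hBfix, h1, h2, h3, hBc⟩ := orbit_step S A hA hfix x hx
    by_cases hO2 : O.card = 2
    swap
    · exact key x hx O B hO hOS hB hcard hBfix h1 h2 h3 hBc hO2
    have hS2 : (S \ O).Nonempty := by rw [← Finset.card_pos]; omega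
    obtain ⟨y, hy⟩ := hS2
    have hyS : y ∈ S := (Finset.mem_sdiff.1 hy).1
    obtain ⟨O', B', hO', hyO', hOS', hB', hcard', hBfix', h1', h2', h3', hBc'⟩ := orbit_step S A hA hfix y hyS
    by_cases hO2' : O'.card = 2
    swap
    · exact key y hyS O' B' hO' hOS' hB' hcard' hBfix' h1' h2' h3' hBc' hO2'
    -- both orbits of size two; C = B ∩ B'
    obtain ⟨P, C, hP, hyP, hPS, hC, hcardC, hCfix, k1, k2, k3, hCc⟩ := orbit_step (S \ O) B hBc hBfix y hy
    have hPO' : P ⊆ O' := by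
      intro z hz
      obtain ⟨b, hb, rfl⟩ := (hP z).1 hz
      exact (hO' _).2 ⟨b, ((hB b).1 hb).1, rfl⟩
    have hP2 : P.card ≤ 2 := hO2' ▸ Finset.card_le_card hPO'
    have hdisj : Disjoint O O' := by
      rw [Finset.disjoint_left]
      intro z hz hz'
      obtain ⟨a, ha, haz⟩ := (hO z).1 hz
      obtain ⟨b, hb, hbz⟩ := (hO' z).1 hz'
      have : y ∈ O := by
        rw [hO]
        refine ⟨b⁻¹ * a, A.mul_mem (A.inv_mem hb) ha, ?_⟩
        rw [Perm.mul_apply, haz, ← hbz]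
        exact b.symm_apply_apply y
      exact (Finset.mem_sdiff.1 hy).2 this
    have hCfix2 : ∀ c ∈ C, ∀ z ∉ S \ (O ∪ O'), c z = z := by
      intro c hc z hz
      obtain ⟨hcB, hcy⟩ := (hC c).1 hc
      by_cases hzO' : z ∈ O'
      · obtain ⟨a, ha, rfl⟩ := (hO' z).1 hzO'
        have : c (a y) = a (c y) := congrArg (fun g : Perm α => g y) (hA c ((hB c).1 hcB).1 a ha)
        rw [this, hcy]
      · by_cases hzO : z ∈ O
        · exact hBfix c hcB z (fun h => (Finset.mem_sdiff.1 h).2 hzO)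
        · apply hfix c ((hB c).1 hcB).1
          intro hzS
          apply hz
          rw [Finset.mem_sdiff, Finset.mem_union]
          exact ⟨hzS, fun h => h.elim hzO hzO'⟩
    have hcU : (S \ (O ∪ O')).card = 3 * (k + 1) + 2 - 4 := by
      rw [Finset.card_sdiff_of_subset (Finset.union_subset hOS hOS'), Finset.card_union_of_disjoint hdisj, hO2, hO2', hS]
    have h5 := card_le _ (S \ (O ∪ O')) C rfl hCc hCfix2
    rw [hcU] at h5
    have h6 : Nat.card A ≤ 4 * Nat.card C := by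
      rw [hcard, hcardC, hO2]
      calc 2 * (P.card * Nat.card C) ≤ 2 * (2 * Nat.card C) := Nat.mul_le_mul_left _ (Nat.mul_le_mul_right _ hP2)
        _ = 4 * Nat.card C := by ring
    exact h6.trans ((Nat.mul_le_mul_left 4 h5).trans (g2_four (k + 1) (by omega)))

/-- there is an abelian subgroup of `A_n` of order `c` -/
def HasA (n c : ℕ) : Prop := ∃ A : Subgroup (Perm (Fin n)), A ≤ alternatingGroup (Fin n) ∧ IsMulCommutative A ∧ Nat.card A = c

lemma hasA_bot (n : ℕ) : HasA n 1 := ⟨⊥, bot_le, ⟨⟨fun a b => Subsingleton.elim _ _⟩⟩, Subgroup.card_bot⟩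

lemma hasA_three : HasA 3 3 := by
  refine ⟨Subgroup.zpowers (finRotate 3), ?_, inferInstance, ?_⟩
  · rw [Subgroup.zpowers_le, Perm.mem_alternatingGroup, sign_finRotate]; decide
  · rw [Nat.card_zpowers, isCycle_finRotate.orderOf, support_finRotate]
    simp

lemma hasA_four : HasA 4 4 := by
  classical
  have h4 : Nat.card (Fin 4) = 4 := by simp
  haveI : IsMulCommutative (alternatingGroup.kleinFour (Fin 4)) := (alternatingGroup.kleinFour_isKleinFour h4).isMulCommutative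
  refine ⟨(alternatingGroup.kleinFour (Fin 4)).map (alternatingGroup (Fin 4)).subtype, ?_, ⟨⟨?_⟩⟩, ?_⟩
  · rw [Subgroup.map_le_iff_le_comap]; intro x _; exact x.2
  · rintro ⟨_, ⟨x, hx, rfl⟩⟩ ⟨_, ⟨y, hy, rfl⟩⟩
    apply Subtype.ext
    show (alternatingGroup (Fin 4)).subtype x * (alternatingGroup (Fin 4)).subtype y = (alternatingGroup (Fin 4)).subtype y * (alternatingGroup (Fin 4)).subtype x
    rw [← map_mul, ← map_mul]
    congr 1
    exact congrArg Subtype.val (this.is_comm.comm ⟨x, hx⟩ ⟨y, hy⟩)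
  · rw [← Nat.card_congr (Subgroup.equivMapOfInjective _ _ (alternatingGroup (Fin 4)).subtype_injective).toEquiv]
    exact (alternatingGroup.kleinFour_isKleinFour h4).card_four

lemma hasA_add {a b c d : ℕ} (h1 : HasA a c) (h2 : HasA b d) : HasA (a + b) (c * d) := by
  obtain ⟨A, hAl, hA, rfl⟩ := h1
  obtain ⟨B, hBl, hB, rfl⟩ := h2
  let φ : Perm (Fin a) × Perm (Fin b) →* Perm (Fin (a + b)) :=
    (finSumFinEquiv.permCongrHom.toMonoidHom).comp (Perm.sumCongrHom (Fin a) (Fin b))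
  have hφ : Function.Injective φ := by
    intro x y h
    exact Perm.sumCongrHom_injective (finSumFinEquiv.permCongrHom.injective h)
  refine ⟨(A.prod B).map φ, ?_, ⟨⟨?_⟩⟩, ?_⟩
  · rintro _ ⟨x, hx, rfl⟩
    rw [Perm.mem_alternatingGroup]
    have h3 : Perm.sign x.1 = 1 := Perm.mem_alternatingGroup.1 (hAl hx.1)
    have h4 : Perm.sign x.2 = 1 := Perm.mem_alternatingGroup.1 (hBl hx.2)
    show Perm.sign (finSumFinEquiv.permCongr (Perm.sumCongr x.1 x.2)) = 1
    rw [Perm.sign_permCongr, Perm.sign_sumCongr, h3, h4, one_mul]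
  · rintro ⟨_, ⟨x, hx, rfl⟩⟩ ⟨_, ⟨y, hy, rfl⟩⟩
    apply Subtype.ext
    show φ x * φ y = φ y * φ x
    rw [← map_mul, ← map_mul]
    congr 1
    apply Prod.ext
    · exact congrArg Subtype.val (hA.is_comm.comm ⟨x.1, hx.1⟩ ⟨y.1, hy.1⟩)
    · exact congrArg Subtype.val (hB.is_comm.comm ⟨x.2, hx.2⟩ ⟨y.2, hy.2⟩)
  · rw [← Nat.card_congr (Subgroup.equivMapOfInjective _ _ hφ).toEquiv, Nat.card_congr (Subgroup.prodEquiv A B).toEquiv, Nat.card_prod]

lemma hasA_3k (k : ℕ) : HasA (3 * k) (3 ^ k) := by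
  induction k with
  | zero => exact hasA_bot 0
  | succ k ih => exact hasA_add ih hasA_three

lemma HasA.toAlt {n c : ℕ} (h : HasA n c) : ∃ A : Subgroup (alternatingGroup (Fin n)), IsMulCommutative A ∧ Nat.card A = c := by
  obtain ⟨A, hAl, hA, rfl⟩ := h
  refine ⟨A.subgroupOf (alternatingGroup (Fin n)), ⟨⟨?_⟩⟩, Nat.card_congr (Subgroup.subgroupOfEquivOfLe hAl).toEquiv⟩
  rintro ⟨x, hx⟩ ⟨y, hy⟩
  apply Subtype.ext
  apply Subtype.ext
  have h : (x : Perm (Fin n)) * (y : Perm (Fin n)) = (y : Perm (Fin n)) * (x : Perm (Fin n)) :=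
    congrArg Subtype.val (hA.is_comm.comm ⟨x.1, hx⟩ ⟨y.1, hy⟩)
  exact h

lemma alt_le {n c : ℕ} (h : ∃ A : Subgroup (alternatingGroup (Fin n)), IsMulCommutative A ∧ Nat.card A = c) :
    c ≤ f n ∧ ∀ k, n = 3 * k + 2 → c ≤ g2 k := by
  obtain ⟨A, hA, rfl⟩ := h
  have e : Nat.card A = Nat.card (A.map (alternatingGroup (Fin n)).subtype) :=
    Nat.card_congr (Subgroup.equivMapOfInjective _ _ (alternatingGroup (Fin n)).subtype_injective).toEquiv
  have hc : ∀ a ∈ A.map (alternatingGroup (Fin n)).subtype, ∀ b ∈ A.map (alternatingGroup (Fin n)).subtype, a * b = b * a := by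
    rintro _ ⟨x, hx, rfl⟩ _ ⟨y, hy, rfl⟩
    rw [← map_mul, ← map_mul]
    congr 1
    exact congrArg Subtype.val (hA.is_comm.comm ⟨x, hx⟩ ⟨y, hy⟩)
  constructor
  · rw [e]
    exact card_le n Finset.univ _ (by simp) hc (fun a _ x hx => absurd (Finset.mem_univ _) hx)
  · intro k hk
    rw [e]
    apply card_le_alt k Finset.univ _ (by simp [hk]) hc (fun a _ x hx => absurd (Finset.mem_univ _) hx)
    rintro _ ⟨x, hx, rfl⟩
    exact Perm.mem_alternatingGroup.1 x.2

end Cfsg.Agent.H16.AbP
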