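import Mathlib
import Cfsg.Agent.H16.AbP2

set_option autoImplicit false
set_option linter.all false
set_option maxHeartbeats 400000

/-! Abelian subgroups of the alternating group of the largest order are conjugate. -/

namespace Cfsg.Agent.H16.AbMax

open Equiv Cfsg.Agent.H16.AbP

/-- matching maps with equinumerous fibres -/
theorem match_fib {α α' β : Type*} (f : α → β) (g : α' → β) (h : ∀ b, Nonempty ({x // f x = b} ≃ {x // g x = b})) :
    ∃ e : α ≃ α', ∀ x, g (e x) = f x := by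
  let e : α ≃ α' := (Equiv.sigmaFiberEquiv f).symm.trans ((Equiv.sigmaCongrRight fun b => (h b).some).trans (Equiv.sigmaFiberEquiv g))
  refine ⟨e, fun x => ?_⟩
  change g (((h (f x)).some ⟨x, rfl⟩).1) = f x
  exact ((h (f x)).some ⟨x, rfl⟩).2

section
variable {α : Type} [Fintype α] [DecidableEq α]

/-- the size of a class -/
noncomputable def sz (s : Setoid α) (q : Quotient s) : ℕ := Nat.card {x : α // Quotient.mk s x = q}

theorem match_st (s t : Setoid α) (h : ∀ j, Nat.card {q : Quotient s // sz s q = j} = Nat.card {q : Quotient t // sz t q = j}) :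
    ∃ σ : Perm α, ∀ x y, s x y ↔ t (σ x) (σ y) := by
  classical
  obtain ⟨e, he⟩ := match_fib (sz s) (sz t) (fun j => Finite.card_eq.1 (h j))
  obtain ⟨σ, hσ⟩ := match_fib (fun x : α => e (Quotient.mk s x)) (fun x : α => Quotient.mk t x) (fun q' => by
    refine Finite.card_eq.1 ?_
    have h1 : Nat.card {x : α // e (Quotient.mk s x) = q'} = sz s (e.symm q') := by
      unfold sz
      apply Nat.card_congr
      exact Equiv.subtypeEquivRight fun x => by rw [Equiv.eq_symm_apply]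
    rw [h1, ← he, Equiv.apply_symm_apply]
    rfl)
  refine ⟨σ, fun x y => ?_⟩
  have h1 : s x y ↔ Quotient.mk s x = Quotient.mk s y := Quotient.eq.symm
  have h2 : t (σ x) (σ y) ↔ Quotient.mk t (σ x) = Quotient.mk t (σ y) := Quotient.eq.symm
  rw [h1, h2, hσ, hσ, e.injective.eq_iff]

/-- permutations acting trivially or freely on the classes, involutions on classes of size four -/
def E (s : Setoid α) : Set (Perm α) :=
  {g | (∀ x, s x (g x)) ∧ (∀ x y, s x y → g x = x → g y = y) ∧ (∀ x, Nat.card {y // s x y} = 4 → g (g x) = x)}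

theorem E_conj {s t : Setoid α} {σ : Perm α} (h : ∀ x y, s x y ↔ t (σ x) (σ y)) {g : Perm α} (hg : g ∈ E s) : σ * g * σ⁻¹ ∈ E t := by
  obtain ⟨h1, h2, h3⟩ := hg
  have hs : ∀ x, σ (σ⁻¹ x) = x := fun x => σ.apply_symm_apply x
  have hs' : ∀ x, σ⁻¹ (σ x) = x := fun x => σ.symm_apply_apply x
  refine ⟨fun x => ?_, fun x y hxy hx => ?_, fun x hx => ?_⟩
  · have := (h _ _).1 (h1 (σ⁻¹ x))
    rw [hs] at this
    exact this
  · have hxy' : s (σ⁻¹ x) (σ⁻¹ y) := by rw [h, hs, hs]; exact hxy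
    have hx' : g (σ⁻¹ x) = σ⁻¹ x := by
      have h5 : σ (g (σ⁻¹ x)) = x := hx
      calc g (σ⁻¹ x) = σ⁻¹ (σ (g (σ⁻¹ x))) := (hs' _).symm
        _ = σ⁻¹ x := by rw [h5]
    have := h2 _ _ hxy' hx'
    change σ (g (σ⁻¹ y)) = y
    rw [this, hs]
  · have hx' : Nat.card {y // s (σ⁻¹ x) y} = 4 := by
      rw [← hx]
      apply Nat.card_congr
      refine Equiv.subtypeEquiv σ fun y => ?_
      rw [h, hs]
    have := h3 _ hx'
    change σ (g (σ⁻¹ (σ (g (σ⁻¹ x))))) = x
    rw [hs', this, hs]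

variable (A : Subgroup (Perm α))

/-- the orbit relation -/
def st : Setoid α where
  r x y := ∃ a ∈ A, a x = y
  iseqv := ⟨fun x => ⟨1, A.one_mem, rfl⟩, fun {x y} ⟨a, ha, h⟩ => ⟨a⁻¹, A.inv_mem ha, by rw [← h]; exact a.symm_apply_apply x⟩,
    fun {x y z} ⟨a, ha, h⟩ ⟨b, hb, h'⟩ => ⟨b * a, A.mul_mem hb ha, by rw [Perm.mul_apply, h, h']⟩⟩

theorem st_iff {x y : α} : st A x y ↔ ∃ a ∈ A, a x = y := Iff.rfl

/-- the product of the transitive constituents -/
def hat : Subgroup (Perm α) where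
  carrier := {g | ∀ x, ∃ a ∈ A, ∀ y, st A x y → g y = a y}
  one_mem' := fun x => ⟨1, A.one_mem, fun y _ => rfl⟩
  mul_mem' := by
    intro g h hg hh x
    obtain ⟨a, ha, h1⟩ := hg x
    obtain ⟨b, hb, h2⟩ := hh x
    refine ⟨a * b, A.mul_mem ha hb, fun y hy => ?_⟩
    rw [Perm.mul_apply, Perm.mul_apply, h2 y hy, h1]
    exact (st A).trans hy ⟨b, hb, rfl⟩
  inv_mem' := by
    intro g hg x
    obtain ⟨a, ha, h1⟩ := hg x
    refine ⟨a⁻¹, A.inv_mem ha, fun y hy => ?_⟩
    have h2 := h1 (a⁻¹ y) ((st A).trans hy ⟨a⁻¹, A.inv_mem ha, rfl⟩)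
    have h3 : a (a⁻¹ y) = y := a.apply_symm_apply y
    rw [h3] at h2
    calc g⁻¹ y = g⁻¹ (g (a⁻¹ y)) := by rw [h2]
      _ = a⁻¹ y := g.symm_apply_apply _

variable {A}

theorem le_hat : A ≤ hat A := fun a ha x => ⟨a, ha, fun y _ => rfl⟩

theorem fix_orbit (hA : ∀ a ∈ A, ∀ b ∈ A, a * b = b * a) {a : Perm α} (ha : a ∈ A) {x y : α} (hxy : st A x y) (h : a x = x) : a y = y := by
  obtain ⟨b, hb, rfl⟩ := hxy
  have : a (b x) = b (a x) := congrArg (fun g : Perm α => g x) (hA a ha b hb)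
  rw [this, h]

/-- if the order is large, the group is the product of its transitive constituents -/
theorem hat_eq (hA : ∀ a ∈ A, ∀ b ∈ A, a * b = b * a) (hbig : f (Fintype.card α) < 2 * Nat.card A) : hat A = A := by
  have h1 : Nat.card (hat A) ≤ f (Fintype.card α) := by
    apply card_le _ Finset.univ (hat A) (by simp)
    · intro g hg h hh
      ext y
      obtain ⟨a, ha, h1⟩ := hg y
      obtain ⟨b, hb, h2⟩ := hh y
      have e1 : g (h y) = a (b y) := by rw [h2 y ((st A).refl y), h1 _ ⟨b, hb, rfl⟩]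
      have e2 : h (g y) = b (a y) := by rw [h1 y ((st A).refl y), h2 _ ⟨a, ha, rfl⟩]
      change g (h y) = h (g y)
      rw [e1, e2]
      exact congrArg (fun g : Perm α => g y) (hA a ha b hb)
    · intro a _ x hx; exact absurd (Finset.mem_univ _) hx
  have h2 : Nat.card A ∣ Nat.card (hat A) := Subgroup.card_dvd_of_le le_hat
  obtain ⟨j, hj⟩ := h2
  have h3 : 0 < Nat.card (hat A) := Nat.card_pos
  have hj1 : j = 1 := by
    have : j < 2 := by
      by_contra hn
      push Not at hn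
      have : Nat.card A * 2 ≤ Nat.card A * j := Nat.mul_le_mul_left _ hn
      omega
    have : j ≠ 0 := by rintro rfl; omega
    omega
  rw [hj1, mul_one] at hj
  exact (Subgroup.eq_of_le_of_card_ge le_hat hj.le).symm

/-- the class sizes -/
theorem class_size (hA : ∀ a ∈ A, ∀ b ∈ A, a * b = b * a) (x : α) :
    ∃ B : ℕ, Nat.card A = Nat.card {y // st A x y} * B ∧ B ≤ f (Fintype.card α - Nat.card {y // st A x y}) ∧
      1 ≤ Nat.card {y // st A x y} ∧ Nat.card {y // st A x y} ≤ Fintype.card α := by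
  obtain ⟨O, B, hO, hxO, hOS, hB, hcard, hBfix, h1, h2, h3, hBc⟩ := orbit_step Finset.univ A hA (fun a _ x hx => absurd (Finset.mem_univ _) hx) x (Finset.mem_univ _)
  have e : Nat.card {y // st A x y} = O.card := by
    rw [← Nat.card_eq_fintype_card.trans (Fintype.card_coe O)]
    apply Nat.card_congr
    exact Equiv.subtypeEquivRight fun y => (hO y).symm
  rw [e]
  refine ⟨Nat.card B, hcard, ?_, h1, h2⟩
  have := card_le _ (Finset.univ \ O) B rfl hBc hBfix
  rwa [h3] at this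

end

end Cfsg.Agent.H16.AbMax
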