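import Mathlib
import Cfsg.Agent.H16.AbMax

set_option autoImplicit false
set_option linter.all false
set_option maxHeartbeats 400000

/-! Abelian subgroups of the alternating group of the largest order are conjugate: local structure. -/

namespace Cfsg.Agent.H16.AbMax

open Equiv Cfsg.Agent.H16.AbP

section
variable {α : Type} [Fintype α] [DecidableEq α] {A : Subgroup (Perm α)} (hA : ∀ a ∈ A, ∀ b ∈ A, a * b = b * a)
  (hh : hat A = A) (hev : ∀ a ∈ A, Perm.sign a = 1)
include hA hh hev

theorem no_two (x : α) : Nat.card {y // st A x y} ≠ 2 := by
  intro h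
  obtain ⟨⟨y, hy⟩, hyx, hu⟩ := (Nat.card_eq_two_iff' (⟨x, (st A).refl x⟩ : {y // st A x y})).1 h
  have hxy : y ≠ x := fun h => hyx (Subtype.ext h)
  have hall : ∀ z, st A x z → z = x ∨ z = y := by
    intro z hz
    by_cases h : z = x
    · exact Or.inl h
    · exact Or.inr (congrArg Subtype.val (hu ⟨z, hz⟩ (fun h' => h (congrArg Subtype.val h'))))
  obtain ⟨a, ha, hax⟩ := hy
  have hay : a y = x := by
    rcases hall (a y) ((st A).trans ⟨a, ha, hax⟩ ⟨a, ha, rfl⟩) with h | h
    · exact h
    · exfalso
      apply hxy
      apply a.injective
      rw [h, hax]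
  have hg : swap x y ∈ hat A := by
    intro z
    by_cases hz : st A x z
    · refine ⟨a, ha, fun w hw => ?_⟩
      rcases hall w ((st A).trans hz hw) with h | h
      · rw [h, swap_apply_left, hax]
      · rw [h, swap_apply_right, hay]
    · refine ⟨1, A.one_mem, fun w hw => ?_⟩
      rw [swap_apply_of_ne_of_ne, Perm.one_apply]
      · rintro rfl; exact hz ((st A).symm hw)
      · rintro rfl; exact hz ((st A).trans ⟨a, ha, hax⟩ ((st A).symm hw))
  rw [hh] at hg
  have := hev _ hg
  rw [Perm.sign_swap (Ne.symm hxy)] at this
  exact absurd this (by decide)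

theorem four (x : α) (h4 : Nat.card {y // st A x y} = 4) {a : Perm α} (ha : a ∈ A) : a (a x) = x := by
  classical
  by_contra hne
  have hst : ∀ v, st A x v → st A x (a v) := fun v hv => (st A).trans hv ⟨a, ha, rfl⟩
  let O : Finset α := Finset.univ.filter (fun v => st A x v)
  have hO : ∀ v, v ∈ O ↔ st A x v := fun v => by simp [O]
  have hOc : O.card = 4 := by
    rw [← h4, ← Nat.card_eq_fintype_card.trans (Fintype.card_coe O)]
    apply Nat.card_congr
    exact Equiv.subtypeEquivRight fun y => hO y
  obtain ⟨y, hy⟩ : ∃ y, y = a x := ⟨_, rfl⟩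
  obtain ⟨z, hz⟩ : ∃ z, z = a y := ⟨_, rfl⟩
  obtain ⟨w, hw⟩ : ∃ w, w = a z := ⟨_, rfl⟩
  have hxO : st A x x := (st A).refl x
  have hyO : st A x y := by rw [hy]; exact hst _ hxO
  have hzO : st A x z := by rw [hz]; exact hst _ hyO
  have hwO : st A x w := by rw [hw]; exact hst _ hzO
  have hzx : z ≠ x := by rw [hz, hy]; exact hne
  have hyx : y ≠ x := by
    intro h
    apply hzx
    rw [hz, h, ← hy, h]
  have hzy : z ≠ y := by
    intro h
    apply hyx
    apply a.injective
    rw [← hz, h, ← hy]
  have hwz : w ≠ z := by
    intro h
    apply hzy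
    apply a.injective
    rw [← hw, h, ← hz]
  have hwy : w ≠ y := by
    intro h
    apply hzx
    apply a.injective
    rw [← hw, h, ← hy]
  have hwx : w ≠ x := by
    intro h
    obtain ⟨v, hvO, hv⟩ : ∃ v ∈ O, v ∉ ({x, y, z} : Finset α) := by
      by_contra hn
      push Not at hn
      have h1 : O ⊆ {x, y, z} := hn
      have h2 := Finset.card_le_card h1
      have h3 : ({x, y, z} : Finset α).card ≤ 3 := Finset.card_le_three
      omega
    simp only [Finset.mem_insert, Finset.mem_singleton, not_or] at hv
    obtain ⟨v1, v2, v3⟩ := hv
    have hav : a v = v := by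
      by_contra hav
      have h5 : ({x, y, z, v, a v} : Finset α) ⊆ O := by
        intro t ht
        simp only [Finset.mem_insert, Finset.mem_singleton] at ht
        rw [hO]
        rcases ht with rfl | rfl | rfl | rfl | rfl
        · exact hxO
        · exact hyO
        · exact hzO
        · exact (hO _).1 hvO
        · exact hst _ ((hO _).1 hvO)
      have h6 := Finset.card_le_card h5
      have k1 : a v ≠ y := by rw [hy]; exact fun h => v1 (a.injective h)
      have k2 : a v ≠ z := by rw [hz]; exact fun h => v2 (a.injective h)
      have k3 : a v ≠ x := by rw [← h, hw]; exact fun h => v3 (a.injective h)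
      have h7 : ({x, y, z, v, a v} : Finset α).card = 5 := by
        rw [Finset.card_insert_of_notMem, Finset.card_insert_of_notMem, Finset.card_insert_of_notMem, Finset.card_insert_of_notMem, Finset.card_singleton]
        · rw [Finset.mem_singleton]; exact fun h => hav h.symm
        · simp only [Finset.mem_insert, Finset.mem_singleton, not_or]
          exact ⟨fun h => v3 h.symm, fun h => k2 h.symm⟩
        · simp only [Finset.mem_insert, Finset.mem_singleton, not_or]
          exact ⟨hzy.symm, fun h => v2 h.symm, fun h => k1 h.symm⟩
        · simp only [Finset.mem_insert, Finset.mem_singleton, not_or]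
          exact ⟨hyx.symm, hzx.symm, fun h => v1 h.symm, fun h => k3 h.symm⟩
      omega
    have := fix_orbit hA ha ((st A).symm ((hO v).1 hvO)) hav
    exact hyx (by rw [hy]; exact this)
  have hOeq : ({x, y, z, w} : Finset α) = O := by
    apply Finset.eq_of_subset_of_card_le
    · intro t ht
      simp only [Finset.mem_insert, Finset.mem_singleton] at ht
      rw [hO]
      rcases ht with rfl | rfl | rfl | rfl
      · exact hxO
      · exact hyO
      · exact hzO
      · exact hwO
    · rw [hOc, Finset.card_insert_of_notMem, Finset.card_insert_of_notMem, Finset.card_insert_of_notMem, Finset.card_singleton]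
      · rw [Finset.mem_singleton]; exact hwz.symm
      · simp only [Finset.mem_insert, Finset.mem_singleton, not_or]
        exact ⟨hzy.symm, hwy.symm⟩
      · simp only [Finset.mem_insert, Finset.mem_singleton, not_or]
        exact ⟨hyx.symm, hzx.symm, hwx.symm⟩
  have hall : ∀ v, st A x v → v = x ∨ v = y ∨ v = z ∨ v = w := by
    intro v hv
    have := (hO v).2 hv
    rw [← hOeq] at this
    simpa using this
  have haw : a w = x := by
    rcases hall (a w) (hst _ hwO) with h | h | h | h
    · exact h
    · exact absurd (a.injective (h.trans hy)) hwx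
    · exact absurd (a.injective (h.trans hz)) hwy
    · exact absurd (a.injective (h.trans hw)) hwz
  have hg : swap x y * swap y z * swap z w ∈ hat A := by
    intro v
    by_cases hv : st A x v
    · refine ⟨a, ha, fun t ht => ?_⟩
      rcases hall t ((st A).trans hv ht) with h | h | h | h
      · rw [h, Perm.mul_apply, Perm.mul_apply, swap_apply_of_ne_of_ne hzx.symm hwx.symm, swap_apply_of_ne_of_ne hyx.symm hzx.symm,
          swap_apply_left, ← hy]
      · rw [h, Perm.mul_apply, Perm.mul_apply, swap_apply_of_ne_of_ne hzy.symm hwy.symm, swap_apply_left, swap_apply_of_ne_of_ne hzx hzy, ← hz]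
      · rw [h, Perm.mul_apply, Perm.mul_apply, swap_apply_left, swap_apply_of_ne_of_ne hwy hwz, swap_apply_of_ne_of_ne hwx hwy, ← hw]
      · rw [h, Perm.mul_apply, Perm.mul_apply, swap_apply_right, swap_apply_right, swap_apply_right, haw]
    · refine ⟨1, A.one_mem, fun t ht => ?_⟩
      have hk : ∀ s, st A x s → t ≠ s := by
        rintro s hs rfl
        exact hv ((st A).trans hs ((st A).symm ht))
      rw [Perm.mul_apply, Perm.mul_apply, swap_apply_of_ne_of_ne (hk z hzO) (hk w hwO), swap_apply_of_ne_of_ne (hk y hyO) (hk z hzO),
        swap_apply_of_ne_of_ne (hk x hxO) (hk y hyO), Perm.one_apply]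
  rw [hh] at hg
  have := hev _ hg
  rw [Perm.sign_mul, Perm.sign_mul, Perm.sign_swap hyx.symm, Perm.sign_swap hzy.symm, Perm.sign_swap hwz.symm] at this
  exact absurd this (by decide)

/-- the group is determined by its orbits -/
theorem eq_E (hsz : ∀ x, Nat.card {y // st A x y} = 3 ∨ Nat.card {y // st A x y} = 4) (g : Perm α) : g ∈ A ↔ g ∈ E (st A) := by
  classical
  constructor
  · intro hg
    exact ⟨fun x => ⟨g, hg, rfl⟩, fun x y hxy hx => fix_orbit hA hg hxy hx, fun x hx => four hA hh hev x hx hg⟩
  · rintro ⟨h1, h2, h3⟩
    rw [← hh]
    intro x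
    obtain ⟨a, ha, hax⟩ := h1 x
    refine ⟨a, ha, ?_⟩
    let O : Finset α := Finset.univ.filter (fun v => st A x v)
    have hO : ∀ v, v ∈ O ↔ st A x v := fun v => by simp [O]
    have hOc : O.card = Nat.card {y // st A x y} := by
      rw [← Nat.card_eq_fintype_card.trans (Fintype.card_coe O)]
      apply Nat.card_congr
      exact Equiv.subtypeEquivRight fun y => hO y
    have hsta : ∀ v, st A x v → st A x (a v) := fun v hv => (st A).trans hv ⟨a, ha, rfl⟩
    have hstg : ∀ v, st A x v → st A x (g v) := fun v hv => (st A).trans hv (h1 v)
    by_cases hgx : g x = x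
    · intro y hy
      rw [h2 x y hy hgx, fix_orbit hA ha hy (hax.trans hgx)]
    obtain ⟨y, hy⟩ : ∃ y, y = g x := ⟨_, rfl⟩
    have hyx : y ≠ x := by rw [hy]; exact hgx
    have hyO : st A x y := by rw [hy]; exact hstg _ ((st A).refl x)
    have hay : a x = y := by rw [hy]; exact hax
    -- no fixed points
    have hgf : ∀ v, st A x v → g v ≠ v := fun v hv h => hgx (h2 v x ((st A).symm hv) h)
    have haf : ∀ v, st A x v → a v ≠ v := fun v hv h => hgx (by rw [← hax]; exact fix_orbit hA ha ((st A).symm hv) h)
    rcases hsz x with h | h
    · -- three points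
      obtain ⟨z, hzO, hz⟩ : ∃ z ∈ O, z ∉ ({x, y} : Finset α) := by
        by_contra hn
        push Not at hn
        have h4 : O ⊆ {x, y} := hn
        have h5 := Finset.card_le_card h4
        have h6 : ({x, y} : Finset α).card ≤ 2 := Finset.card_le_two
        omega
      simp only [Finset.mem_insert, Finset.mem_singleton, not_or] at hz
      have hzO' := (hO z).1 hzO
      have hOeq : ({x, y, z} : Finset α) = O := by
        apply Finset.eq_of_subset_of_card_le
        · intro t ht
          simp only [Finset.mem_insert, Finset.mem_singleton] at ht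
          rw [hO]
          rcases ht with rfl | rfl | rfl
          · exact (st A).refl _
          · exact hyO
          · exact hzO'
        · rw [hOc, h, Finset.card_insert_of_notMem, Finset.card_insert_of_notMem, Finset.card_singleton]
          · rw [Finset.mem_singleton]; exact fun h => hz.2 h.symm
          · simp only [Finset.mem_insert, Finset.mem_singleton, not_or]
            exact ⟨hyx.symm, fun h => hz.1 h.symm⟩
      have hall : ∀ v, st A x v → v = x ∨ v = y ∨ v = z := by
        intro v hv
        have := (hO v).2 hv
        rw [← hOeq] at this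
        simpa using this
      -- a permutation without fixed points sending x to y
      have key : ∀ b : Perm α, (∀ v, st A x v → st A x (b v)) → (∀ v, st A x v → b v ≠ v) → b x = y → b y = z ∧ b z = x := by
        intro b b1 b2 b3
        have hbz : b z = x := by
          rcases hall (b z) (b1 _ hzO') with h | h | h
          · exact h
          · exact absurd (b.injective (h.trans b3.symm)) hz.1
          · exact absurd h (b2 _ hzO')
        refine ⟨?_, hbz⟩
        rcases hall (b y) (b1 _ hyO) with h | h | h
        · exact absurd (b.injective (h.trans hbz.symm)) (fun h' => hz.2 h'.symm)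
        · exact absurd h (b2 _ hyO)
        · exact h
      obtain ⟨g1, g2⟩ := key g hstg hgf hy.symm
      obtain ⟨a1, a2⟩ := key a hsta haf hay
      intro v hv
      rcases hall v hv with h | h | h
      · rw [h, hay]; exact hy.symm
      · rw [h, g1, a1]
      · rw [h, g2, a2]
    · -- four points
      obtain ⟨z, hzO, hz⟩ : ∃ z ∈ O, z ∉ ({x, y} : Finset α) := by
        by_contra hn
        push Not at hn
        have h4 : O ⊆ {x, y} := hn
        have h5 := Finset.card_le_card h4
        have h6 : ({x, y} : Finset α).card ≤ 2 := Finset.card_le_two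
        omega
      simp only [Finset.mem_insert, Finset.mem_singleton, not_or] at hz
      have hzO' := (hO z).1 hzO
      obtain ⟨w, hwO, hw⟩ : ∃ w ∈ O, w ∉ ({x, y, z} : Finset α) := by
        by_contra hn
        push Not at hn
        have h4 : O ⊆ {x, y, z} := hn
        have h5 := Finset.card_le_card h4
        have h6 : ({x, y, z} : Finset α).card ≤ 3 := Finset.card_le_three
        omega
      simp only [Finset.mem_insert, Finset.mem_singleton, not_or] at hw
      have hwO' := (hO w).1 hwO
      have hOeq : ({x, y, z, w} : Finset α) = O := by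
        apply Finset.eq_of_subset_of_card_le
        · intro t ht
          simp only [Finset.mem_insert, Finset.mem_singleton] at ht
          rw [hO]
          rcases ht with rfl | rfl | rfl | rfl
          · exact (st A).refl _
          · exact hyO
          · exact hzO'
          · exact hwO'
        · rw [hOc, h, Finset.card_insert_of_notMem, Finset.card_insert_of_notMem, Finset.card_insert_of_notMem, Finset.card_singleton]
          · rw [Finset.mem_singleton]; exact fun h => hw.2.2 h.symm
          · simp only [Finset.mem_insert, Finset.mem_singleton, not_or]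
            exact ⟨fun h => hz.2 h.symm, fun h => hw.2.1 h.symm⟩
          · simp only [Finset.mem_insert, Finset.mem_singleton, not_or]
            exact ⟨hyx.symm, fun h => hz.1 h.symm, fun h => hw.1 h.symm⟩
      have hall : ∀ v, st A x v → v = x ∨ v = y ∨ v = z ∨ v = w := by
        intro v hv
        have := (hO v).2 hv
        rw [← hOeq] at this
        simpa using this
      have key : ∀ b : Perm α, (∀ v, st A x v → st A x (b v)) → (∀ v, st A x v → b v ≠ v) → b x = y → b (b x) = x → b y = x ∧ b z = w ∧ b w = z := by
        intro b b1 b2 b3 b4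
        rw [b3] at b4
        refine ⟨b4, ?_, ?_⟩
        · rcases hall (b z) (b1 _ hzO') with h | h | h | h
          · exact absurd (b.injective (h.trans b4.symm)) hz.2
          · exact absurd (b.injective (h.trans b3.symm)) hz.1
          · exact absurd h (b2 _ hzO')
          · exact h
        · rcases hall (b w) (b1 _ hwO') with h | h | h | h
          · exact absurd (b.injective (h.trans b4.symm)) hw.2.1
          · exact absurd (b.injective (h.trans b3.symm)) hw.1
          · exact h
          · exact absurd h (b2 _ hwO')
      obtain ⟨g1, g2, g3⟩ := key g hstg hgf hy.symm (h3 x h)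
      obtain ⟨a1, a2, a3⟩ := key a hsta haf hay (four hA hh hev x h ha)
      intro v hv
      rcases hall v hv with h | h | h | h
      · rw [h, hay]; exact hy.symm
      · rw [h, g1, a1]
      · rw [h, g2, a2]
      · rw [h, g3, a3]

end

end Cfsg.Agent.H16.AbMax
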