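import Mathlib
import Cfsg.Agent.H16.AbMax2

set_option autoImplicit false
set_option linter.all false
set_option maxHeartbeats 400000

/-! Abelian subgroups of the alternating group of the largest order are conjugate. -/

namespace Cfsg.Agent.H16.AbMax

open Equiv Cfsg.Agent.H16.AbP
open scoped Pointwise

theorem num_half {k r : ℕ} (hr : r < 3) (hrk : r ≤ k) (hk : 1 ≤ k) : f (3 * k + r) < 2 * (4 ^ r * 3 ^ (k - r)) := by
  obtain rfl | rfl | rfl : r = 0 ∨ r = 1 ∨ r = 2 := by omega
  · have : 0 < 3 ^ k := by positivity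
    rw [add_zero, f_3k, pow_zero, Nat.sub_zero]; omega
  · obtain ⟨j, rfl⟩ : ∃ j, k = j + 1 := ⟨k - 1, by omega⟩
    have : 0 < 3 ^ j := by positivity
    rw [f_3k1, Nat.add_sub_cancel, pow_one]; omega
  · obtain ⟨j, rfl⟩ : ∃ j, k = j + 2 := ⟨k - 2, by omega⟩
    have : 0 < 3 ^ j := by positivity
    rw [f_3k2, Nat.add_sub_cancel, pow_succ, pow_succ]; norm_num; omega

theorem num_size {k r m : ℕ} (hr : r < 3) (hrk : r ≤ k) (hk : 1 ≤ k) (hm1 : 1 ≤ m) (hmn : m ≤ 3 * k + r) (hm2 : m ≠ 2)
    (h : 4 ^ r * 3 ^ (k - r) ≤ m * f (3 * k + r - m)) : m = 3 ∨ m = 4 := by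
  by_contra hcon
  have hcases : m = 1 ∨ m = 5 ∨ 6 ≤ m := by omega
  have h6 : 6 ≤ m → m * f (3 * k + r - m) ≤ 3 * f (3 * k + r - 4) := by
    intro hm
    have h1 := mul_f (m - 4) (by omega) (3 * k + r - m)
    have h2 : 3 * k + r - m + (m - 4) = 3 * k + r - 4 := by omega
    rw [h2] at h1
    have h3 : m * f (3 * k + r - m) ≤ 3 * ((m - 4) * f (3 * k + r - m)) := by
      rw [← mul_assoc]; exact Nat.mul_le_mul_right _ (by omega)
    omega
  obtain rfl | rfl | rfl : r = 0 ∨ r = 1 ∨ r = 2 := by omega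
  · obtain ⟨j, rfl⟩ : ∃ j, k = j + 1 := ⟨k - 1, by omega⟩
    rw [add_zero, pow_zero, Nat.sub_zero, one_mul] at h
    have hp : 0 < 3 ^ j := by positivity
    rcases hcases with h1 | h1 | h1
    · rw [h1, show 3 * (j + 1) - 1 = 3 * j + 2 by omega, f_3k2, pow_succ] at h
      omega
    · obtain ⟨i, rfl⟩ : ∃ i, j = i + 1 := ⟨j - 1, by omega⟩
      rw [h1, show 3 * (i + 1 + 1) - 5 = 3 * i + 1 by omega] at h
      rcases i with _ | i
      · simp [f] at h
      · have hp : 0 < 3 ^ i := by positivity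
        rw [f_3k1, pow_succ, pow_succ, pow_succ] at h
        omega
    · have h2 := h.trans (h6 h1)
      obtain ⟨i, rfl⟩ : ∃ i, j = i + 1 := ⟨j - 1, by omega⟩
      rw [add_zero, show 3 * (i + 1 + 1) - 4 = 3 * i + 2 by omega, f_3k2, pow_succ, pow_succ] at h2
      have hp : 0 < 3 ^ i := by positivity
      omega
  · obtain ⟨j, rfl⟩ : ∃ j, k = j + 1 := ⟨k - 1, by omega⟩
    rw [Nat.add_sub_cancel, pow_one] at h
    have hp : 0 < 3 ^ j := by positivity
    rcases hcases with h1 | h1 | h1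
    · rw [h1, show 3 * (j + 1) + 1 - 1 = 3 * (j + 1) by omega, f_3k, pow_succ] at h
      omega
    · obtain ⟨i, rfl⟩ : ∃ i, j = i + 1 := ⟨j - 1, by omega⟩
      rw [h1, show 3 * (i + 1 + 1) + 1 - 5 = 3 * i + 2 by omega, f_3k2, pow_succ] at h
      have hp : 0 < 3 ^ i := by positivity
      omega
    · have h2 := h.trans (h6 h1)
      rw [show 3 * (j + 1) + 1 - 4 = 3 * j by omega, f_3k] at h2
      omega
  · obtain ⟨j, rfl⟩ : ∃ j, k = j + 2 := ⟨k - 2, by omega⟩
    rw [Nat.add_sub_cancel] at h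
    norm_num at h
    have hp : 0 < 3 ^ j := by positivity
    rcases hcases with h1 | h1 | h1
    · rw [h1, show 3 * (j + 2) + 2 - 1 = 3 * (j + 1 + 1) + 1 by omega, f_3k1, pow_succ] at h
      omega
    · rw [h1, show 3 * (j + 2) + 2 - 5 = 3 * (j + 1) by omega, f_3k, pow_succ] at h
      omega
    · have h2 := (show 16 * 3 ^ j ≤ _ from h).trans (h6 h1)
      rw [show 3 * (j + 2) + 2 - 4 = 3 * (j + 1) + 1 by omega, f_3k1] at h2
      omega

theorem num_count {k r a c : ℕ} (hr : r < 3) (hrk : r ≤ k) (h1 : 3 * a + 4 * c = 3 * k + r) (h2 : 4 ^ r * 3 ^ (k - r) ≤ 3 ^ a * 4 ^ c) :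
    a = k - r ∧ c = r := by
  obtain ⟨d, hd⟩ : ∃ d, c = r + 3 * d := ⟨(c - r) / 3, by omega⟩
  have hk : k - r = a + 4 * d := by omega
  rw [hk, hd, pow_add, pow_add, pow_mul, pow_mul] at h2
  have h3 : (3 ^ 4) ^ d ≤ (4 ^ 3) ^ d := by
    have hp : 0 < 4 ^ r * 3 ^ a := by positivity
    apply Nat.le_of_mul_le_mul_left _ hp
    calc 4 ^ r * 3 ^ a * (3 ^ 4) ^ d = 4 ^ r * (3 ^ a * (3 ^ 4) ^ d) := by ring
      _ ≤ 3 ^ a * (4 ^ r * (4 ^ 3) ^ d) := h2
      _ = 4 ^ r * 3 ^ a * (4 ^ 3) ^ d := by ring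
  have hd0 : d = 0 := by
    by_contra hne
    have : (4 ^ 3) ^ d < (3 ^ 4) ^ d := Nat.pow_lt_pow_left (by norm_num) hne
    omega
  omega

section
variable {α : Type} [Fintype α] [DecidableEq α] {A : Subgroup (Perm α)}

theorem sz_mk (x : α) : sz (st A) (Quotient.mk _ x) = Nat.card {y // st A x y} := by
  unfold sz
  apply Nat.card_congr
  refine Equiv.subtypeEquivRight fun y => ?_
  rw [Quotient.eq]
  exact ⟨fun h => (st A).symm h, fun h => (st A).symm h⟩

theorem count (hA : ∀ a ∈ A, ∀ b ∈ A, a * b = b * a) (hsz : ∀ x, Nat.card {y // st A x y} = 3 ∨ Nat.card {y // st A x y} = 4) :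
    3 * Nat.card {q : Quotient (st A) // sz (st A) q = 3} + 4 * Nat.card {q : Quotient (st A) // sz (st A) q = 4} = Fintype.card α ∧
    Nat.card A ≤ 3 ^ Nat.card {q : Quotient (st A) // sz (st A) q = 3} * 4 ^ Nat.card {q : Quotient (st A) // sz (st A) q = 4} := by
  classical
  have hq : ∀ q : Quotient (st A), sz (st A) q = 3 ∨ sz (st A) q = 4 := by
    intro q
    obtain ⟨x, rfl⟩ := Quotient.exists_rep q
    rw [sz_mk]; exact hsz x
  have hc : ∀ j, Nat.card {q : Quotient (st A) // sz (st A) q = j} = (Finset.univ.filter (fun q => sz (st A) q = j)).card := by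
    intro j
    rw [Nat.card_eq_fintype_card, Fintype.card_subtype]
  constructor
  · have h1 : Fintype.card α = ∑ q : Quotient (st A), sz (st A) q := by
      rw [← Nat.card_eq_fintype_card, Nat.card_congr (Equiv.sigmaFiberEquiv (Quotient.mk (st A))).symm, Nat.card_sigma]
      rfl
    have h2 : ∑ q : Quotient (st A), sz (st A) q = ∑ q : Quotient (st A), ((if sz (st A) q = 3 then 3 else 0) + (if sz (st A) q = 4 then 4 else 0)) := by
      apply Finset.sum_congr rfl
      intro q _
      rcases hq q with h | h <;> simp [h]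
    rw [h1, h2, Finset.sum_add_distrib, ← Finset.sum_filter, ← Finset.sum_filter, Finset.sum_const, Finset.sum_const, smul_eq_mul, smul_eq_mul,
      hc, hc, mul_comm 3, mul_comm 4]
  · let φ : A → ∀ q : Quotient (st A), {x : α // Quotient.mk (st A) x = q} := fun a q => ⟨a.1 q.out, by
      have h1 : Quotient.mk (st A) (a.1 q.out) = Quotient.mk (st A) q.out := Quotient.sound ((st A).symm ⟨a.1, a.2, rfl⟩)
      rw [h1]; exact q.out_eq⟩
    have hφ : Function.Injective φ := by
      intro a b hab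
      apply Subtype.ext
      ext x
      have h1 : a.1 (Quotient.mk (st A) x).out = b.1 (Quotient.mk (st A) x).out := congrArg Subtype.val (congrFun hab (Quotient.mk (st A) x))
      have h2 : st A (Quotient.mk (st A) x).out x := Quotient.exact (Quotient.mk (st A) x).out_eq
      have h3 : (b.1⁻¹ * a.1) (Quotient.mk (st A) x).out = (Quotient.mk (st A) x).out := by
        rw [Perm.mul_apply, h1]; exact b.1.symm_apply_apply _
      have h4 := fix_orbit hA (A.mul_mem (A.inv_mem b.2) a.2) h2 h3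
      have h5 : b.1⁻¹ (a.1 x) = x := h4
      calc a.1 x = b.1 (b.1⁻¹ (a.1 x)) := (b.1.apply_symm_apply _).symm
        _ = b.1 x := by rw [h5]
    have h1 := Nat.card_le_card_of_injective φ hφ
    rw [Nat.card_pi] at h1
    have h2 : ∏ q : Quotient (st A), Nat.card {x : α // Quotient.mk (st A) x = q} = ∏ q : Quotient (st A), ((if sz (st A) q = 3 then 3 else 1) * (if sz (st A) q = 4 then 4 else 1)) := by
      apply Finset.prod_congr rfl
      intro q _
      change sz (st A) q = _
      rcases hq q with h | h <;> simp [h]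
    rw [h2, Finset.prod_mul_distrib, ← Finset.prod_filter, ← Finset.prod_filter, Finset.prod_const, Finset.prod_const] at h1
    rw [hc, hc]
    exact h1

/-- conjugacy in the symmetric group, and then in the alternating group -/
theorem conj_main {k r : ℕ} (hr : r < 3) (hrk : r ≤ k) (hk : 1 ≤ k) (hcα : Fintype.card α = 3 * k + r) {A B : Subgroup (Perm α)}
    (hA : ∀ a ∈ A, ∀ b ∈ A, a * b = b * a) (hB : ∀ a ∈ B, ∀ b ∈ B, a * b = b * a) (hAe : ∀ a ∈ A, Perm.sign a = 1)
    (hBe : ∀ a ∈ B, Perm.sign a = 1) (hAm : 4 ^ r * 3 ^ (k - r) ≤ Nat.card A) (hBm : 4 ^ r * 3 ^ (k - r) ≤ Nat.card B) :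
    ∃ g : Perm α, Perm.sign g = 1 ∧ ∀ x, x ∈ B ↔ g⁻¹ * x * g ∈ A := by
  classical
  have main : ∀ {C : Subgroup (Perm α)} (hC : ∀ a ∈ C, ∀ b ∈ C, a * b = b * a) (hCe : ∀ a ∈ C, Perm.sign a = 1) (hCm : 4 ^ r * 3 ^ (k - r) ≤ Nat.card C),
      hat C = C ∧ (∀ x, Nat.card {y // st C x y} = 3 ∨ Nat.card {y // st C x y} = 4) ∧ Nat.card {q : Quotient (st C) // sz (st C) q = 3} = k - r ∧
        Nat.card {q : Quotient (st C) // sz (st C) q = 4} = r := by
    intro C hC hCe hCm
    have h1 : hat C = C := by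
      apply hat_eq hC
      rw [hcα]
      have := num_half hr hrk hk
      omega
    have h2 : ∀ x, Nat.card {y // st C x y} = 3 ∨ Nat.card {y // st C x y} = 4 := by
      intro x
      obtain ⟨b, e1, e2, e3, e4⟩ := class_size hC x
      rw [hcα] at e2 e4
      apply num_size hr hrk hk e3 e4 (no_two hC h1 hCe x)
      refine hCm.trans ?_
      rw [e1]
      exact Nat.mul_le_mul_left _ e2
    obtain ⟨c1, c2⟩ := count hC h2
    rw [hcα] at c1
    obtain ⟨d1, d2⟩ := num_count hr hrk c1 (hCm.trans c2)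
    exact ⟨h1, h2, d1, d2⟩
  obtain ⟨a1, a2, a3, a4⟩ := main hA hAe hAm
  obtain ⟨b1, b2, b3, b4⟩ := main hB hBe hBm
  have hq : ∀ {C : Subgroup (Perm α)} (hC : ∀ x, Nat.card {y // st C x y} = 3 ∨ Nat.card {y // st C x y} = 4) (j : ℕ), j ≠ 3 → j ≠ 4 →
      Nat.card {q : Quotient (st C) // sz (st C) q = j} = 0 := by
    intro C hC j h3 h4
    rw [Nat.card_eq_zero]
    left
    refine ⟨?_⟩
    rintro ⟨q, hq⟩
    obtain ⟨x, rfl⟩ := Quotient.exists_rep q
    rw [sz_mk] at hq
    rcases hC x with h | h <;> omega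
  obtain ⟨σ, hσ⟩ := match_st (st A) (st B) (by
    intro j
    by_cases h3 : j = 3
    · subst h3; rw [a3, b3]
    · by_cases h4 : j = 4
      · subst h4; rw [a4, b4]
      · rw [hq a2 j h3 h4, hq b2 j h3 h4])
  have fin : ∀ σ : Perm α, (∀ x y, st A x y ↔ st B (σ x) (σ y)) → ∀ x, x ∈ B ↔ σ⁻¹ * x * σ ∈ A := by
    intro σ hσ x
    rw [eq_E hB b1 hBe b2, eq_E hA a1 hAe a2]
    constructor
    · intro hx
      have := E_conj (s := st B) (t := st A) (σ := σ⁻¹) (by
        intro x y
        rw [hσ]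
        have hs : ∀ x, σ (σ⁻¹ x) = x := fun x => σ.apply_symm_apply x
        rw [hs, hs]) hx
      rwa [inv_inv] at this
    · intro hx
      have := E_conj hσ hx
      have e : σ * (σ⁻¹ * x * σ) * σ⁻¹ = x := by group
      rwa [e] at this
  rcases Int.units_eq_one_or (Perm.sign σ) with hs | hs
  · exact ⟨σ, hs, fin σ hσ⟩
  · -- modify by a transposition inside an orbit of `B`
    haveI : Nonempty α := by
      rw [← Fintype.card_pos_iff, hcα]; omega
    obtain ⟨x⟩ := ‹Nonempty α›
    obtain ⟨y, hy, hyx⟩ : ∃ y, st B x y ∧ y ≠ x := by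
      by_contra hn
      push Not at hn
      have h1 : Nat.card {y // st B x y} ≤ 1 := by
        haveI : Subsingleton {y // st B x y} := ⟨fun a b => Subtype.ext ((hn a.1 a.2).trans (hn b.1 b.2).symm)⟩
        exact Finite.card_le_one_iff_subsingleton.2 this
      rcases b2 x with h | h <;> omega
    refine ⟨swap x y * σ, by rw [Perm.sign_mul, hs, Perm.sign_swap hyx.symm]; decide, fin _ ?_⟩
    have hsw : ∀ u, st B u (swap x y u) := by
      intro u
      by_cases h1 : u = x
      · rw [h1, swap_apply_left]; exact hy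
      · by_cases h2 : u = y
        · rw [h2, swap_apply_right]; exact (st B).symm hy
        · rw [swap_apply_of_ne_of_ne h1 h2]
    intro u v
    rw [hσ]
    change _ ↔ st B (swap x y (σ u)) (swap x y (σ v))
    constructor
    · intro h
      exact (st B).trans ((st B).symm (hsw _)) ((st B).trans h (hsw _))
    · intro h
      exact (st B).trans (hsw _) ((st B).trans h ((st B).symm (hsw _)))

end

theorem exists_large (n : ℕ) {k r : ℕ} (hr : r < 3) (hrk : r ≤ k) (hn : n = 3 * k + r) :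
    ∃ A : Subgroup (alternatingGroup (Fin n)), IsMulCommutative A ∧ Nat.card A = 4 ^ r * 3 ^ (k - r) := by
  subst hn
  apply HasA.toAlt
  obtain rfl | rfl | rfl : r = 0 ∨ r = 1 ∨ r = 2 := by omega
  · rw [pow_zero, one_mul]; exact hasA_3k k
  · obtain ⟨j, rfl⟩ : ∃ j, k = j + 1 := ⟨k - 1, by omega⟩
    have := hasA_add hasA_four (hasA_3k j)
    rw [show 4 + 3 * j = 3 * (j + 1) + 1 by ring] at this
    rw [Nat.add_sub_cancel, pow_one]; exact this
  · obtain ⟨j, rfl⟩ : ∃ j, k = j + 2 := ⟨k - 2, by omega⟩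
    have := hasA_add (hasA_add hasA_four hasA_four) (hasA_3k j)
    rw [show 4 + 4 + 3 * j = 3 * (j + 2) + 2 by ring] at this
    rw [Nat.add_sub_cancel]; exact this

theorem alt_conj (n : ℕ) (A B : Subgroup (alternatingGroup (Fin n))) (hA : IsMulCommutative A) (hB : IsMulCommutative B)
    (hAmax : ∀ C : Subgroup (alternatingGroup (Fin n)), IsMulCommutative C → Nat.card C ≤ Nat.card A)
    (hBmax : ∀ C : Subgroup (alternatingGroup (Fin n)), IsMulCommutative C → Nat.card C ≤ Nat.card B) :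
    ∃ g : alternatingGroup (Fin n), B = MulAut.conj g • A := by
  classical
  obtain ⟨k, r, hr, hn⟩ : ∃ k r, r < 3 ∧ n = 3 * k + r := ⟨n / 3, n % 3, Nat.mod_lt _ (by norm_num), (Nat.div_add_mod n 3).symm⟩
  by_cases hk : 1 ≤ k ∧ r ≤ k
  · obtain ⟨hk, hrk⟩ := hk
    obtain ⟨C, hC1, hC2⟩ := exists_large n hr hrk hn
    have cA := hAmax C hC1
    have cB := hBmax C hC1
    rw [hC2] at cA cB
    have e : ∀ D : Subgroup (alternatingGroup (Fin n)), Nat.card (D.map (alternatingGroup (Fin n)).subtype) = Nat.card D := fun D =>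
      (Nat.card_congr (Subgroup.equivMapOfInjective _ _ (alternatingGroup (Fin n)).subtype_injective).toEquiv).symm
    have hc : ∀ D : Subgroup (alternatingGroup (Fin n)), IsMulCommutative D → ∀ a ∈ D.map (alternatingGroup (Fin n)).subtype,
        ∀ b ∈ D.map (alternatingGroup (Fin n)).subtype, a * b = b * a := by
      rintro D hD _ ⟨x, hx, rfl⟩ _ ⟨y, hy, rfl⟩
      rw [← map_mul, ← map_mul]
      congr 1
      exact congrArg Subtype.val (hD.is_comm.comm ⟨x, hx⟩ ⟨y, hy⟩)
    have hs : ∀ D : Subgroup (alternatingGroup (Fin n)), ∀ a ∈ D.map (alternatingGroup (Fin n)).subtype, Perm.sign a = 1 := by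
      rintro D _ ⟨x, hx, rfl⟩
      exact Perm.mem_alternatingGroup.1 x.2
    obtain ⟨g, hg1, hg2⟩ := conj_main hr hrk hk (by simp [hn]) (hc A hA) (hc B hB) (hs A) (hs B) (by rw [e]; exact cA) (by rw [e]; exact cB)
    refine ⟨⟨g, Perm.mem_alternatingGroup.2 hg1⟩, ?_⟩
    have hmem : ∀ (D : Subgroup (alternatingGroup (Fin n))) (x : alternatingGroup (Fin n)), (x : Perm (Fin n)) ∈ D.map (alternatingGroup (Fin n)).subtype ↔ x ∈ D := by
      intro D x
      constructor
      · rintro ⟨y, hy, hyx⟩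
        rwa [← Subtype.ext hyx]
      · intro hx; exact ⟨x, hx, rfl⟩
    ext x
    rw [Subgroup.mem_pointwise_smul_iff_inv_smul_mem, ← hmem B, hg2, ← map_inv, MulAut.smul_def, MulAut.conj_apply, ← hmem A]
    simp
  · -- small degrees
    have hsm : n ≤ 2 ∨ n = 5 := by omega
    rcases hsm with hn2 | hn5
    · have hsub : Subsingleton (alternatingGroup (Fin n)) := by
        obtain rfl | rfl | rfl : n = 0 ∨ n = 1 ∨ n = 2 := by omega
        · infer_instance
        · infer_instance
        · rw [← Finite.card_le_one_iff_subsingleton, Nat.card_eq_fintype_card]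
          decide
      refine ⟨1, ?_⟩
      rw [map_one, one_smul]
      ext x
      rw [Subsingleton.elim x 1]
      exact ⟨fun _ => A.one_mem, fun _ => B.one_mem⟩
    · subst hn5
      have h60 : Nat.card (alternatingGroup (Fin 5)) = 60 := by
        rw [Nat.card_eq_fintype_card]; decide +kernel
      haveI : Fact (Nat.Prime 5) := ⟨by norm_num⟩
      have hle : ∀ D : Subgroup (alternatingGroup (Fin 5)), IsMulCommutative D → Nat.card D ≤ 5 := by
        intro D hD
        exact (alt_le (n := 5) ⟨D, hD, rfl⟩).2 1 rfl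
      obtain ⟨P⟩ : Nonempty (Sylow 5 (alternatingGroup (Fin 5))) := inferInstance
      have hP : ∀ P : Sylow 5 (alternatingGroup (Fin 5)), Nat.card P = 5 := by
        intro P
        rw [Sylow.card_eq_multiplicity, h60]
        have : Nat.factorization 60 5 = 1 := by
          rw [show (60 : ℕ) = 5 * 12 by norm_num, Nat.factorization_mul (by norm_num) (by norm_num)]
          simp [Nat.Prime.factorization (show Nat.Prime 5 by norm_num), Nat.factorization_eq_zero_of_not_dvd (show ¬ 5 ∣ 12 by norm_num)]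
        rw [this, pow_one]
      have hPc : IsMulCommutative P := by
        haveI := isCyclic_of_prime_card (hP P)
        infer_instance
      have cA : Nat.card A = 5 := le_antisymm (hle A hA) ((hP P).symm.le.trans (hAmax _ hPc))
      have cB : Nat.card B = 5 := le_antisymm (hle B hB) ((hP P).symm.le.trans (hBmax _ hPc))
      have hcard : (60 : ℕ).factorization 5 = 1 := by
        have h1 := hP P
        rw [Sylow.card_eq_multiplicity, h60] at h1
        have : 5 ^ (Nat.factorization 60 5) = 5 ^ 1 := by rw [h1, pow_one]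
        exact Nat.pow_right_injective (le_refl 2 |>.trans (by norm_num)) this
      let PA : Sylow 5 (alternatingGroup (Fin 5)) := Sylow.ofCard A (by rw [cA, h60, hcard, pow_one])
      let PB : Sylow 5 (alternatingGroup (Fin 5)) := Sylow.ofCard B (by rw [cB, h60, hcard, pow_one])
      obtain ⟨g, hg⟩ := MulAction.exists_smul_eq (alternatingGroup (Fin 5)) PA PB
      refine ⟨g, ?_⟩
      have := congrArg (fun S : Sylow 5 (alternatingGroup (Fin 5)) => S.toSubgroup) hg
      exact this.symm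

end Cfsg.Agent.H16.AbMax
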