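import Mathlib

set_option autoImplicit false
set_option linter.all false

/-! Borel--Tits flag of a `p`-subgroup of `SL_n(q)`. -/

namespace Cfsg.Agent.H16.BTFlag

open Module

section
variable {F : Type*} [Field F] {n : ℕ}

abbrev SLn (n : ℕ) (F : Type*) [Field F] := Matrix.SpecialLinearGroup (Fin n) F

/-- vectors fixed by `U` modulo `W` -/
def nxt (U : Subgroup (SLn n F)) (W : Submodule F (Fin n → F)) : Submodule F (Fin n → F) where
  carrier := {v | ∀ u ∈ U, (u : Matrix (Fin n) (Fin n) F).mulVec v - v ∈ W}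
  zero_mem' := fun u _ => by simp
  add_mem' := fun {a b} ha hb u hu => by
    rw [Matrix.mulVec_add, add_sub_add_comm]
    exact W.add_mem (ha u hu) (hb u hu)
  smul_mem' := fun c a ha u hu => by
    rw [Matrix.mulVec_smul, ← smul_sub]
    exact W.smul_mem c (ha u hu)

lemma mem_nxt {U : Subgroup (SLn n F)} {W : Submodule F (Fin n → F)} {v : Fin n → F} :
    v ∈ nxt U W ↔ ∀ u ∈ U, (u : Matrix (Fin n) (Fin n) F).mulVec v - v ∈ W := Iff.rfl

lemma nxt_mono (U : Subgroup (SLn n F)) {W W' : Submodule F (Fin n → F)} (h : W ≤ W') : nxt U W ≤ nxt U W' :=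
  fun v hv u hu => h (hv u hu)

/-- the filtration -/
def fl (U : Subgroup (SLn n F)) : ℕ → Submodule F (Fin n → F)
  | 0 => ⊥
  | (k + 1) => nxt U (fl U k)

lemma fl_le (U : Subgroup (SLn n F)) (k : ℕ) : fl U k ≤ fl U (k + 1) := by
  induction k with
  | zero => exact bot_le
  | succ k ih => exact nxt_mono U ih

lemma fl_norm (U : Subgroup (SLn n F)) {g : SLn n F} (hg : g ∈ Subgroup.normalizer (U : Set (SLn n F))) (k : ℕ) :
    ∀ v ∈ fl U k, (g : Matrix (Fin n) (Fin n) F).mulVec v ∈ fl U k := by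
  induction k with
  | zero =>
    intro v hv
    have : v = 0 := (Submodule.mem_bot F).1 hv
    rw [this, Matrix.mulVec_zero]
    exact Submodule.zero_mem _
  | succ k ih =>
    intro v hv u hu
    have h1 : g⁻¹ * u * g ∈ U := by
      have := (Subgroup.mem_normalizer_iff.1 (inv_mem hg) u).1 hu
      simpa using this
    have h2 := ih _ (hv _ h1)
    have h3 : (g : Matrix (Fin n) (Fin n) F).mulVec (((g⁻¹ * u * g : SLn n F) : Matrix (Fin n) (Fin n) F).mulVec v - v)
        = (u : Matrix (Fin n) (Fin n) F).mulVec ((g : Matrix (Fin n) (Fin n) F).mulVec v) - (g : Matrix (Fin n) (Fin n) F).mulVec v := by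
      have h4 : g * (g⁻¹ * u * g) = u * g := by group
      rw [Matrix.mulVec_sub, Matrix.mulVec_mulVec, ← Matrix.SpecialLinearGroup.coe_mul, Matrix.mulVec_mulVec, ← Matrix.SpecialLinearGroup.coe_mul, h4]
    rw [← h3]
    exact h2

lemma fl_map (U : Subgroup (SLn n F)) {g : SLn n F} (hg : g ∈ Subgroup.normalizer (U : Set (SLn n F))) (k : ℕ) :
    (fl U k).map (Matrix.mulVecLin (g : Matrix (Fin n) (Fin n) F)) = fl U k := by
  apply le_antisymm
  · rintro _ ⟨v, hv, rfl⟩
    exact fl_norm U hg k v hv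
  · intro v hv
    refine ⟨((g⁻¹ : SLn n F) : Matrix (Fin n) (Fin n) F).mulVec v, fl_norm U (inv_mem hg) k v hv, ?_⟩
    rw [Matrix.mulVecLin_apply, Matrix.mulVec_mulVec, ← Matrix.SpecialLinearGroup.coe_mul, mul_inv_cancel, Matrix.SpecialLinearGroup.coe_one, Matrix.one_mulVec]

/-- progress of the filtration -/
lemma lt_nxt [Finite F] (p : ℕ) [Fact p.Prime] [CharP F p] {U : Subgroup (SLn n F)} (hU : IsPGroup p ↥U) {W : Submodule F (Fin n → F)}
    (hinv : ∀ u ∈ U, ∀ v ∈ W, (u : Matrix (Fin n) (Fin n) F).mulVec v ∈ W) (hW : W ≠ ⊤) : ∃ v, v ∉ W ∧ v ∈ nxt U W := by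
  classical
  haveI : Fintype F := Fintype.ofFinite F
  by_contra hcon
  push Not at hcon
  letI act : MulAction ↥U ((Fin n → F) ⧸ W) :=
    { smul := fun u x => Submodule.mapQ W W (Matrix.mulVecLin ((u : SLn n F) : Matrix (Fin n) (Fin n) F)) (fun v hv => hinv u u.2 v hv) x
      one_smul := by
        intro x
        obtain ⟨v, rfl⟩ := Submodule.Quotient.mk_surjective W x
        have h1 : (((1 : ↥U) : SLn n F) : Matrix (Fin n) (Fin n) F).mulVec v = v := by
          rw [Subgroup.coe_one, Matrix.SpecialLinearGroup.coe_one, Matrix.one_mulVec]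
        exact congrArg (Submodule.Quotient.mk (p := W)) h1
      mul_smul := by
        intro a b x
        obtain ⟨v, rfl⟩ := Submodule.Quotient.mk_surjective W x
        have h1 : (((a * b : ↥U) : SLn n F) : Matrix (Fin n) (Fin n) F).mulVec v
            = (((a : ↥U) : SLn n F) : Matrix (Fin n) (Fin n) F).mulVec ((((b : ↥U) : SLn n F) : Matrix (Fin n) (Fin n) F).mulVec v) := by
          simp [Matrix.mulVec_mulVec]
        exact congrArg (Submodule.Quotient.mk (p := W)) h1 }
  haveI : Finite (Fin n → F) := inferInstance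
  haveI : Finite ((Fin n → F) ⧸ W) := inferInstance
  have hmod := hU.card_modEq_card_fixedPoints (α := (Fin n → F) ⧸ W)
  have hfix : Nat.card (MulAction.fixedPoints ↥U ((Fin n → F) ⧸ W)) = 1 := by
    rw [Nat.card_eq_one_iff_unique]
    refine ⟨⟨fun a b => ?_⟩, ⟨⟨0, fun g => ?_⟩⟩⟩
    · have key : ∀ a : MulAction.fixedPoints ↥U ((Fin n → F) ⧸ W), (a : (Fin n → F) ⧸ W) = 0 := by
        intro a
        obtain ⟨v, hv⟩ := Submodule.Quotient.mk_surjective W (a : (Fin n → F) ⧸ W)
        rw [← hv, Submodule.Quotient.mk_eq_zero]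
        by_contra hvW
        apply hcon v hvW
        intro u hu
        have h1 := a.2 ⟨u, hu⟩
        rw [← hv] at h1
        have h2 : Submodule.Quotient.mk (p := W) ((u : Matrix (Fin n) (Fin n) F).mulVec v) = Submodule.Quotient.mk v := h1
        exact (Submodule.Quotient.eq W).1 h2
      exact Subtype.ext (by rw [key a, key b])
    · show Submodule.mapQ W W _ _ 0 = 0
      rw [map_zero]
  rw [hfix] at hmod
  haveI : Nontrivial ((Fin n → F) ⧸ W) := Submodule.Quotient.nontrivial_iff.2 hW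
  have h1 : Nat.card ((Fin n → F) ⧸ W) = Nat.card F ^ finrank F ((Fin n → F) ⧸ W) := Module.natCard_eq_pow_finrank
  have h2 : 0 < finrank F ((Fin n → F) ⧸ W) := Module.finrank_pos
  have h3 : p ∣ Nat.card F := by
    rw [Nat.card_eq_fintype_card]
    obtain ⟨e, _, he⟩ := FiniteField.card F p
    rw [he]
    exact dvd_pow_self p e.ne_zero
  have h4 : p ∣ Nat.card ((Fin n → F) ⧸ W) := by
    rw [h1]
    exact dvd_pow h3 h2.ne'
  have h5 := (Nat.modEq_zero_iff_dvd.2 h4).symm.trans hmod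
  have h6 : p ∣ 1 := (Nat.modEq_zero_iff_dvd.1 h5.symm)
  exact (Fact.out : p.Prime).one_lt.ne' (Nat.dvd_one.1 h6)

theorem flag [Finite F] (p : ℕ) [Fact p.Prime] [CharP F p]
    (U : Subgroup (SLn n F)) (hU : IsPGroup p ↥U) (hne : U ≠ ⊥) :
    ∃ (k : ℕ) (V : Fin (k + 2) → Submodule F (Fin n → F)), 1 ≤ k ∧ StrictMono V ∧ V 0 = ⊥ ∧ V (Fin.last (k + 1)) = ⊤ ∧
      (∀ g ∈ Subgroup.normalizer (U : Set (SLn n F)), ∀ i, (V i).map (Matrix.mulVecLin (g : Matrix (Fin n) (Fin n) F)) = V i) ∧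
      (∀ u ∈ U, ∀ i : Fin (k + 1), ∀ v ∈ V i.succ, (u : Matrix (Fin n) (Fin n) F).mulVec v - v ∈ V (Fin.castSucc i)) := by
  classical
  have hinv : ∀ k, ∀ u ∈ U, ∀ v ∈ fl U k, (u : Matrix (Fin n) (Fin n) F).mulVec v ∈ fl U k :=
    fun k u hu => fl_norm U (Subgroup.le_normalizer hu) k
  have hlt : ∀ k, fl U k ≠ ⊤ → fl U k < fl U (k + 1) := by
    intro k hk
    obtain ⟨v, hv1, hv2⟩ := lt_nxt p hU (hinv k) hk
    exact lt_of_le_of_ne (fl_le U k) (fun h => hv1 (by rw [h]; exact hv2))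
  have hex : ∃ m, fl U m = ⊤ := by
    by_contra hcon
    push Not at hcon
    have h1 : ∀ k, k ≤ finrank F (fl U k) := by
      intro k
      induction k with
      | zero => exact Nat.zero_le _
      | succ k ih => exact lt_of_le_of_lt ih (Submodule.finrank_lt_finrank_of_lt (hlt k (hcon k)))
    have h2 := h1 (n + 1)
    have h3 := Submodule.finrank_le (fl U (n + 1))
    rw [Module.finrank_fin_fun] at h3
    omega
  obtain ⟨m, hm⟩ : ∃ m, m = Nat.find hex := ⟨_, rfl⟩
  have hmtop : fl U m = ⊤ := by rw [hm]; exact Nat.find_spec hex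
  have hmin : ∀ j < m, fl U j ≠ ⊤ := fun j hj => Nat.find_min hex (by rw [← hm]; exact hj)
  have h1 : fl U 1 ≠ ⊤ := by
    intro h
    apply hne
    rw [Subgroup.eq_bot_iff_forall]
    intro u hu
    apply Subtype.ext
    apply Matrix.ext_of_mulVec_single
    intro i
    have : (Pi.single i 1 : Fin n → F) ∈ fl U 1 := by rw [h]; trivial
    have h2 := this u hu
    have h3 : (u : Matrix (Fin n) (Fin n) F).mulVec (Pi.single i 1) - Pi.single i 1 = 0 := (Submodule.mem_bot F).1 h2
    rw [sub_eq_zero] at h3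
    rw [Matrix.SpecialLinearGroup.coe_one, Matrix.one_mulVec]
    exact h3
  have h0 : fl U 0 ≠ ⊤ := fun h => h1 (by
    have := fl_le U 0
    rw [h] at this
    exact top_le_iff.1 this)
  have hm2 : 2 ≤ m := by
    by_contra hcon
    have : m = 0 ∨ m = 1 := by omega
    rcases this with h | h
    · rw [h] at hmtop; exact h0 hmtop
    · rw [h] at hmtop; exact h1 hmtop
  obtain ⟨k, rfl⟩ : ∃ k, m = k + 1 := ⟨m - 1, by omega⟩
  refine ⟨k, fun i => fl U (i : ℕ), by omega, ?_, rfl, hmtop, ?_, ?_⟩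
  · rw [Fin.strictMono_iff_lt_succ]
    intro i
    exact hlt _ (hmin _ i.2)
  · intro g hg i
    exact fl_map U hg _
  · intro u hu i v hv
    exact hv u hu

end

end Cfsg.Agent.H16.BTFlag
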