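import Mathlib
import Cfsg.Agent.H16.SSim2

set_option autoImplicit false
set_option linter.all false

/-! Counting sequences of monic polynomials of given weighted degree. -/

namespace Cfsg.Agent.H16.ClsGL

open Polynomial Cfsg.Agent.H16.SSim

variable (F : Type*) [Field F] [Fintype F]

open Classical in
noncomputable def Mj : ℕ → Finset F[X]
  | 0 => {1}
  | (m+1) => Finset.univ.image (fun x : Fˣ × (Fin m → F) => SSim.mk m (x.1 : F) x.2)

variable {F} in
lemma mem_Mj {f : F[X]} (hf : f.Monic) (h0 : f.coeff 0 ≠ 0) : f ∈ Mj F f.natDegree := by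
  classical
  rcases hd : f.natDegree with _ | m
  · unfold Mj
    rw [Finset.mem_singleton]
    exact Polynomial.eq_one_of_monic_natDegree_zero hf hd
  · unfold Mj
    rw [Finset.mem_image]
    refine ⟨(Units.mk0 _ h0, fun i => f.coeff (i.val + 1)), Finset.mem_univ _, ?_⟩
    apply monic_ext (m := m) (mk_monic _ _ _) hf (mk_natDegree _ _ _) hd
    · rw [mk_coeff_zero]; rfl
    · intro i; rw [mk_coeff_succ]

/-- number bound -/
def Nj (q : ℝ) : ℕ → ℝ
  | 0 => 1
  | (m+1) => (q - 1) * q ^ m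

lemma card_Mj (j : ℕ) : ((Mj F j).card : ℝ) ≤ Nj (Fintype.card F) j := by
  classical
  rcases j with _ | m
  · unfold Mj Nj; simp
  · unfold Mj Nj
    have h1 : (Finset.univ.image (fun x : Fˣ × (Fin m → F) => SSim.mk m (x.1 : F) x.2)).card ≤ (Fintype.card F - 1) * Fintype.card F ^ m := by
      refine le_trans Finset.card_image_le ?_
      rw [Finset.card_univ, Fintype.card_prod, Fintype.card_units, Fintype.card_fun, Fintype.card_fin]
    have h2 : ((Fintype.card F - 1 : ℕ) : ℝ) = (Fintype.card F : ℝ) - 1 := by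
      rw [Nat.cast_sub Fintype.card_pos]; simp
    calc ((Finset.univ.image (fun x : Fˣ × (Fin m → F) => SSim.mk m (x.1 : F) x.2)).card : ℝ) ≤ (((Fintype.card F - 1) * Fintype.card F ^ m : ℕ) : ℝ) := by exact_mod_cast h1
      _ = _ := by rw [Nat.cast_mul, h2, Nat.cast_pow]

open Classical in
noncomputable def Dk : ℕ → ℕ → Finset (List F[X])
  | 0, n => if n = 0 then {[]} else ∅
  | (k+1), n => (Finset.range (n+1)).biUnion fun j => if (k+1)*j ≤ n then ((Mj F j) ×ˢ Dk k (n-(k+1)*j)).image (fun x => x.1 :: x.2) else ∅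

/-- list of the first `k` terms, reversed -/
def Lk {α : Type*} (G : ℕ → α) : ℕ → List α
  | 0 => []
  | (k+1) => G k :: Lk G k

lemma Lk_inj {α : Type*} {G G' : ℕ → α} : ∀ k, Lk G k = Lk G' k → ∀ i < k, G i = G' i
  | 0, _, i, hi => absurd hi (Nat.not_lt_zero i)
  | (k+1), h, i, hi => by
    unfold Lk at h
    rw [List.cons.injEq] at h
    rcases Nat.lt_succ_iff_lt_or_eq.1 hi with h1 | h1
    · exact Lk_inj k h.2 i h1
    · rw [h1]; exact h.1

variable {F} in
lemma mem_Dk {G : ℕ → F[X]} (hG : ∀ i, (G i).Monic ∧ (G i).coeff 0 ≠ 0) : ∀ k n, ∑ i ∈ Finset.range k, (i + 1) * (G i).natDegree = n → Lk G k ∈ Dk F k n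
  | 0, n, h => by
    classical
    rw [Finset.sum_range_zero] at h
    unfold Dk Lk
    rw [if_pos h.symm]
    exact Finset.mem_singleton_self _
  | (k+1), n, h => by
    classical
    rw [Finset.sum_range_succ] at h
    unfold Dk Lk
    rw [Finset.mem_biUnion]
    have h1 : (k + 1) * (G k).natDegree ≤ n := by omega
    refine ⟨(G k).natDegree, ?_, ?_⟩
    · rw [Finset.mem_range]
      have : (G k).natDegree ≤ (k + 1) * (G k).natDegree := Nat.le_mul_of_pos_left _ (Nat.succ_pos k)
      omega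
    · rw [if_pos h1, Finset.mem_image]
      refine ⟨(G k, Lk G k), ?_, rfl⟩
      rw [Finset.mem_product]
      exact ⟨mem_Mj (hG k).1 (hG k).2, mem_Dk hG k _ (by omega)⟩

noncomputable def be (q : ℝ) (k n : ℕ) : ℝ := if n = 0 then 1 else q ^ n * (1 - (q⁻¹) ^ k)

lemma S_bound {q : ℝ} (hq : 1 ≤ q) (k : ℕ) : ∀ J n : ℕ, ∑ j ∈ Finset.range J, (if (k+1)*(j+1) ≤ n then (q - 1) * q ^ j * be q k (n - (k+1)*(j+1)) else 0) ≤ (q - 1) * q ^ n * (q⁻¹) ^ (k+1)
  | 0, n => by
    rw [Finset.sum_range_zero]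
    have h1 : 0 ≤ q := by linarith
    have h2 : 0 ≤ q - 1 := by linarith
    positivity
  | (J+1), n => by
    have hq0 : 0 < q := by linarith
    have hq1 : 0 ≤ q - 1 := by linarith
    rw [Finset.sum_range_succ']
    by_cases hn : k + 1 ≤ n
    · obtain ⟨m, rfl⟩ := Nat.exists_eq_add_of_le hn
      have ih := S_bound hq k J m
      have h1 : ∑ j ∈ Finset.range J, (if (k+1)*(j+1+1) ≤ k+1+m then (q - 1) * q ^ (j+1) * be q k (k+1+m - (k+1)*(j+1+1)) else 0) =
          q * ∑ j ∈ Finset.range J, (if (k+1)*(j+1) ≤ m then (q - 1) * q ^ j * be q k (m - (k+1)*(j+1)) else 0) := by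
        rw [Finset.mul_sum]
        apply Finset.sum_congr rfl
        intro j _
        have e1 : (k+1)*(j+1+1) = (k+1) + (k+1)*(j+1) := by ring
        rw [e1]
        by_cases h2 : (k+1)*(j+1) ≤ m
        · rw [if_pos (by omega), if_pos h2]
          have e2 : k + 1 + m - ((k+1) + (k+1)*(j+1)) = m - (k+1)*(j+1) := by omega
          rw [e2, pow_succ]; ring
        · rw [if_neg (by omega), if_neg h2, mul_zero]
      rw [h1]
      have e3 : (k+1)*(0+1) = k+1 := by ring
      rw [e3, if_pos (by omega), pow_zero, mul_one]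
      have e4 : k + 1 + m - (k+1) = m := by omega
      rw [e4]
      have e5 : q ^ (k+1+m) * (q⁻¹) ^ (k+1) = q ^ m := by
        rw [pow_add, mul_comm (q ^ (k+1)), mul_assoc, ← mul_pow, mul_inv_cancel₀ hq0.ne', one_pow, mul_one]
      rw [mul_assoc (q-1), e5]
      rcases Nat.eq_zero_or_pos m with hm | hm
      · subst hm
        have h3 : ∑ j ∈ Finset.range J, (if (k+1)*(j+1) ≤ 0 then (q - 1) * q ^ j * be q k (0 - (k+1)*(j+1)) else 0) = 0 := by
          apply Finset.sum_eq_zero
          intro j _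
          rw [if_neg]
          have : 0 < (k+1)*(j+1) := Nat.mul_pos (Nat.succ_pos _) (Nat.succ_pos _)
          omega
        rw [h3, mul_zero, zero_add]
        unfold be
        rw [if_pos rfl, pow_zero]
      · unfold be at ih ⊢
        rw [if_neg hm.ne']
        have h4 := mul_le_mul_of_nonneg_left ih hq0.le
        have e6 : q * ((q - 1) * q ^ m * (q⁻¹) ^ (k+1)) = (q - 1) * q ^ m * (q⁻¹) ^ k := by
          rw [pow_succ]
          have : q * ((q - 1) * q ^ m * ((q⁻¹) ^ k * q⁻¹)) = (q * q⁻¹) * ((q - 1) * q ^ m * (q⁻¹) ^ k) := by ring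
          rw [this, mul_inv_cancel₀ hq0.ne', one_mul]
        rw [e6] at h4
        calc _ ≤ (q - 1) * q ^ m * (q⁻¹) ^ k + (q - 1) * (q ^ m * (1 - (q⁻¹) ^ k)) := by linarith
          _ = _ := by ring
    · have h1 : ∀ j : ℕ, ¬ (k+1)*(j+1) ≤ n := by
        intro j h
        have : (k+1) * 1 ≤ (k+1)*(j+1) := Nat.mul_le_mul_left _ (by omega)
        omega
      rw [Finset.sum_eq_zero (fun j _ => by rw [if_neg]; exact h1 (j+1)), if_neg (h1 0), add_zero]
      positivity

lemma card_Dk (k n : ℕ) : ((Dk F k n).card : ℝ) ≤ be (Fintype.card F) k n := by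
  classical
  set q : ℝ := (Fintype.card F : ℝ) with hq
  have hq1 : 1 ≤ q := by rw [hq]; exact_mod_cast Fintype.card_pos
  have hq0 : 0 < q := by linarith
  induction k generalizing n with
  | zero =>
    unfold Dk be
    by_cases h : n = 0
    · rw [if_pos h, if_pos h]; simp
    · rw [if_neg h, if_neg h]; simp
  | succ k ih =>
    have h1 : ((Dk F (k+1) n).card : ℝ) ≤ ∑ j ∈ Finset.range (n+1), (if (k+1)*j ≤ n then Nj q j * be q k (n-(k+1)*j) else 0) := by
      have h2 : (Dk F (k+1) n).card ≤ ∑ j ∈ Finset.range (n+1), (if (k+1)*j ≤ n then (Mj F j).card * (Dk F k (n-(k+1)*j)).card else 0) := by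
        rw [Dk]
        refine le_trans Finset.card_biUnion_le (Finset.sum_le_sum fun j _ => ?_)
        by_cases h : (k+1)*j ≤ n
        · rw [if_pos h, if_pos h]
          refine le_trans Finset.card_image_le ?_
          rw [Finset.card_product]
        · rw [if_neg h, if_neg h]; simp
      refine le_trans (Nat.cast_le.2 h2) ?_
      rw [Nat.cast_sum]
      apply Finset.sum_le_sum
      intro j _
      by_cases h : (k+1)*j ≤ n
      · rw [if_pos h, if_pos h, Nat.cast_mul]
        have hN : 0 ≤ Nj q j := le_trans (Nat.cast_nonneg _) (card_Mj F j)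
        exact mul_le_mul (card_Mj F j) (ih _) (Nat.cast_nonneg _) hN
      · rw [if_neg h, if_neg h]; simp
    refine le_trans h1 ?_
    rw [Finset.sum_range_succ']
    have h3 := S_bound hq1 k n n
    have e1 : ∑ j ∈ Finset.range n, (if (k+1)*(j+1) ≤ n then Nj q (j+1) * be q k (n-(k+1)*(j+1)) else 0) =
        ∑ j ∈ Finset.range n, (if (k+1)*(j+1) ≤ n then (q - 1) * q ^ j * be q k (n - (k+1)*(j+1)) else 0) := rfl
    rw [e1, mul_zero, if_pos (Nat.zero_le n)]
    have e2 : Nj q 0 * be q k (n - 0) = be q k n := by unfold Nj; rw [one_mul, Nat.sub_zero]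
    rw [e2]
    rcases Nat.eq_zero_or_pos n with hn | hn
    · subst hn
      rw [Finset.sum_range_zero, zero_add]
      unfold be
      rw [if_pos rfl, if_pos rfl]
    · refine le_trans (add_le_add_left h3 _) ?_
      unfold be
      rw [if_neg hn.ne', if_neg hn.ne', pow_succ]
      have : (q - 1) * q ^ n * ((q⁻¹) ^ k * q⁻¹) = q ^ n * (q⁻¹) ^ k * (q * q⁻¹) - q ^ n * ((q⁻¹) ^ k * q⁻¹) := by ring
      rw [this, mul_inv_cancel₀ hq0.ne']
      apply le_of_eq
      ring

theorem card_Dk_le (k n : ℕ) : (Dk F k n).card ≤ Fintype.card F ^ n := by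
  have h := card_Dk F k n
  have hq1 : (1:ℝ) ≤ (Fintype.card F : ℝ) := by exact_mod_cast Fintype.card_pos
  have h2 : be (Fintype.card F : ℝ) k n ≤ (Fintype.card F : ℝ) ^ n := by
    unfold be
    by_cases hn : n = 0
    · rw [if_pos hn, hn, pow_zero]
    · rw [if_neg hn]
      have h3 : 0 ≤ ((Fintype.card F : ℝ)⁻¹) ^ k := by positivity
      have h4 : (0:ℝ) ≤ (Fintype.card F : ℝ) ^ n := by positivity
      nlinarith
  exact_mod_cast le_trans h h2

end Cfsg.Agent.H16.ClsGL
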