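import Mathlib
import Cfsg.Agent.H16.ClsGL1

set_option autoImplicit false
set_option linter.all false
set_option maxHeartbeats 400000

/-! The number of conjugacy classes of `GL_n(q)` is at most `q ^ n`. -/

namespace Cfsg.Agent.H16.ClsGL

open Polynomial Module Cfsg.Agent.H16.SSim

universe u v w

variable {F : Type u} [Field F]

abbrev QM (f : F[X]) := F[X] ⧸ (Submodule.span F[X] ({f} : Set F[X]))

theorem exists_data {V : Type v} [AddCommGroup V] [Module F V] [FiniteDimensional F V] (φ : Module.End F V) :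
    ∃ (ι : Type u) (_ : Fintype ι) (P : ι → F[X]) (e : ι → ℕ), (∀ j, (P j).Monic ∧ Irreducible (P j)) ∧ (∀ j, 1 ≤ e j) ∧
      Nonempty (AEval' φ ≃ₗ[F[X]] ((j : ι) → QM (P j ^ e j))) := by
  classical
  have htors : Module.IsTorsion F[X] (AEval' φ) := Module.AEval.isTorsion_of_finiteDimensional F V φ
  obtain ⟨ι, _, p, hp, e, ⟨θ⟩⟩ := Module.equiv_directSum_of_isTorsion htors
  let θ1 := θ.trans (DirectSum.linearEquivFunOnFintype F[X] ι (fun j => F[X] ⧸ F[X] ∙ p j ^ e j))
  let r : ((j : ι) → (F[X] ⧸ F[X] ∙ p j ^ e j)) →ₗ[F[X]] ((j : {j : ι // 1 ≤ e j}) → (F[X] ⧸ F[X] ∙ p j.1 ^ e j.1)) :=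
    LinearMap.pi fun j => LinearMap.proj j.1
  have hr : ∀ x (j : {j : ι // 1 ≤ e j}), r x j = x j.1 := fun _ _ => rfl
  have hbij : Function.Bijective r := by
    constructor
    · intro x y hxy
      funext j
      by_cases hj : 1 ≤ e j
      · exact congrFun hxy ⟨j, hj⟩
      · have h0 : e j = 0 := by omega
        have hs : Subsingleton (F[X] ⧸ F[X] ∙ p j ^ e j) := by
          rw [Submodule.Quotient.subsingleton_iff, h0, pow_zero]
          exact Ideal.span_singleton_one
        exact Subsingleton.elim _ _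
    · intro y
      refine ⟨fun j => if h : 1 ≤ e j then y ⟨j, h⟩ else 0, ?_⟩
      funext j
      rw [hr]
      exact dif_pos j.2
  let θ2 := LinearEquiv.ofBijective r hbij
  have hspan : ∀ j : {j : ι // 1 ≤ e j}, (Submodule.span F[X] ({p j.1 ^ e j.1} : Set F[X])) = Submodule.span F[X] ({(normalize (p j.1)) ^ e j.1} : Set F[X]) := by
    intro j
    exact Ideal.span_singleton_eq_span_singleton.2 ((normalize_associated _).symm.pow_pow)
  let θ3 : ((j : {j : ι // 1 ≤ e j}) → (F[X] ⧸ F[X] ∙ p j.1 ^ e j.1)) ≃ₗ[F[X]] ((j : {j : ι // 1 ≤ e j}) → QM ((normalize (p j.1)) ^ e j.1)) :=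
    LinearEquiv.piCongrRight fun j => Submodule.quotEquivOfEq _ _ (hspan j)
  refine ⟨{j : ι // 1 ≤ e j}, inferInstance, fun j => normalize (p j.1), fun j => e j.1, ?_, fun j => j.2, ⟨θ1.trans (θ2.trans θ3)⟩⟩
  intro j
  exact ⟨Polynomial.monic_normalize (hp j.1).ne_zero, (normalize_associated _).symm.irreducible (hp j.1)⟩

/-- invariants -/
noncomputable def GG {ι : Type*} [Fintype ι] (P : ι → F[X]) (e : ι → ℕ) (i : ℕ) : F[X] := ∏ j ∈ Finset.univ.filter (fun j => e j = i + 1), P j

lemma GG_monic {ι : Type*} [Fintype ι] {P : ι → F[X]} {e : ι → ℕ} (hP : ∀ j, (P j).Monic ∧ Irreducible (P j)) (i : ℕ) : (GG P e i).Monic :=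
  monic_prod_of_monic _ _ fun j _ => (hP j).1

lemma GG_coeff {ι : Type*} [Fintype ι] {P : ι → F[X]} {e : ι → ℕ} (h0 : ∀ j, (P j).coeff 0 ≠ 0) (i : ℕ) : (GG P e i).coeff 0 ≠ 0 := by
  unfold GG
  rw [coeff_zero_eq_eval_zero, eval_prod]
  exact Finset.prod_ne_zero_iff.2 fun j _ => by rw [← coeff_zero_eq_eval_zero]; exact h0 j

lemma sum_GG {ι : Type*} [Fintype ι] {P : ι → F[X]} {e : ι → ℕ} (hP : ∀ j, (P j).Monic ∧ Irreducible (P j)) (he : ∀ j, 1 ≤ e j) {n : ℕ}
    (hn : ∑ j, e j * (P j).natDegree = n) : ∑ i ∈ Finset.range n, (i + 1) * (GG P e i).natDegree = n := by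
  classical
  have hle : ∀ j, e j ≤ n := by
    intro j
    have h1 := (hP j).2.natDegree_pos
    have h2 : e j * (P j).natDegree ≤ ∑ j, e j * (P j).natDegree := Finset.single_le_sum (f := fun j => e j * (P j).natDegree) (fun _ _ => Nat.zero_le _) (Finset.mem_univ j)
    have h3 : e j * 1 ≤ e j * (P j).natDegree := Nat.mul_le_mul_left _ h1
    omega
  have h1 : ∀ i ∈ Finset.range n, (i + 1) * (GG P e i).natDegree = ∑ j ∈ Finset.univ.filter (fun j => e j - 1 = i), e j * (P j).natDegree := by
    intro i _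
    unfold GG
    rw [natDegree_prod_of_monic _ _ (fun j _ => (hP j).1), Finset.mul_sum]
    have : Finset.univ.filter (fun j => e j = i + 1) = Finset.univ.filter (fun j => e j - 1 = i) := by
      ext j
      simp only [Finset.mem_filter, Finset.mem_univ, true_and]
      have := he j
      omega
    rw [this]
    apply Finset.sum_congr rfl
    intro j hj
    have h2 := (Finset.mem_filter.1 hj).2
    have h3 := he j
    have : i + 1 = e j := by omega
    rw [this]
  rw [Finset.sum_congr rfl h1, Finset.sum_fiberwise_of_maps_to]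
  · exact hn
  · intro j _
    rw [Finset.mem_range]
    have := hle j
    have := he j
    omega

lemma GG_one {ι : Type*} [Fintype ι] {P : ι → F[X]} {e : ι → ℕ} (hP : ∀ j, (P j).Monic ∧ Irreducible (P j)) {n : ℕ}
    (hn : ∑ j, e j * (P j).natDegree = n) {i : ℕ} (hi : n ≤ i) : GG P e i = 1 := by
  classical
  unfold GG
  apply Finset.prod_eq_one
  intro j hj
  exfalso
  have h0 := (Finset.mem_filter.1 hj).2
  have h1 := (hP j).2.natDegree_pos
  have h2 : e j * (P j).natDegree ≤ ∑ j, e j * (P j).natDegree := Finset.single_le_sum (f := fun j => e j * (P j).natDegree) (fun _ _ => Nat.zero_le _) (Finset.mem_univ j)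
  have h3 : e j * 1 ≤ e j * (P j).natDegree := Nat.mul_le_mul_left _ h1
  omega

theorem iso_match {ι : Type v} {ι' : Type w} [Fintype ι] [Fintype ι'] {P : ι → F[X]} {e : ι → ℕ} {P' : ι' → F[X]} {e' : ι' → ℕ}
    (hP : ∀ j, (P j).Monic ∧ Irreducible (P j)) (he : ∀ j, 1 ≤ e j) (hP' : ∀ j, (P' j).Monic ∧ Irreducible (P' j)) (he' : ∀ j, 1 ≤ e' j)
    (hG : ∀ i, GG P e i = GG P' e' i) : Nonempty (((j : ι) → QM (P j ^ e j)) ≃ₗ[F[X]] ((j : ι') → QM (P' j ^ e' j))) := by
  classical
  let f : ι → ℕ × F[X] := fun j => (e j, P j)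
  let f' : ι' → ℕ × F[X] := fun j => (e' j, P' j)
  have hcard : ∀ y : ℕ × F[X], Nonempty ({j // f j = y} ≃ {j // f' j = y}) := by
    rintro ⟨i, Q⟩
    rcases i with _ | i
    · haveI : IsEmpty {j // f j = (0, Q)} := ⟨fun j => by
        have h1 := congrArg Prod.fst j.2
        have h2 := he j.1
        change e j.1 = 0 at h1
        omega⟩
      haveI : IsEmpty {j // f' j = (0, Q)} := ⟨fun j => by
        have h1 := congrArg Prod.fst j.2
        have h2 := he' j.1
        change e' j.1 = 0 at h1
        omega⟩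
      exact ⟨Equiv.equivOfIsEmpty _ _⟩
    · let T : Multiset F[X] := (Finset.univ.filter (fun j => e j = i + 1)).val.map P
      let T' : Multiset F[X] := (Finset.univ.filter (fun j => e' j = i + 1)).val.map P'
      have hT : T = T' := by
        rw [← Multiset.rel_eq]
        have h1 : Multiset.Rel Associated T T' := by
          apply UniqueFactorizationMonoid.factors_unique
          · intro x hx
            obtain ⟨j, _, rfl⟩ := Multiset.mem_map.1 hx
            exact (hP j).2
          · intro x hx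
            obtain ⟨j, _, rfl⟩ := Multiset.mem_map.1 hx
            exact (hP' j).2
          · have h2 : T.prod = T'.prod := hG i
            rw [h2]
            exact Associated.refl _
        refine h1.mono ?_
        intro a ha b hb hab
        obtain ⟨j, _, rfl⟩ := Multiset.mem_map.1 ha
        obtain ⟨j', _, rfl⟩ := Multiset.mem_map.1 hb
        exact Polynomial.eq_of_monic_of_associated (hP j).1 (hP' j').1 hab
      have hc : Fintype.card {j // f j = (i + 1, Q)} = Multiset.count Q T := by
        rw [Fintype.card_subtype, Multiset.count_map]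
        change _ = ((Finset.univ.filter (fun j => e j = i + 1)).filter (fun j => Q = P j)).card
        congr 1
        ext j
        simp only [Finset.mem_filter, Finset.mem_univ, true_and]
        change (e j, P j) = (i + 1, Q) ↔ _
        rw [Prod.mk.injEq, eq_comm (a := Q)]
      have hc' : Fintype.card {j // f' j = (i + 1, Q)} = Multiset.count Q T' := by
        rw [Fintype.card_subtype, Multiset.count_map]
        change _ = ((Finset.univ.filter (fun j => e' j = i + 1)).filter (fun j => Q = P' j)).card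
        congr 1
        ext j
        simp only [Finset.mem_filter, Finset.mem_univ, true_and]
        change (e' j, P' j) = (i + 1, Q) ↔ _
        rw [Prod.mk.injEq, eq_comm (a := Q)]
      exact ⟨Fintype.equivOfCardEq (by rw [hc, hc', hT])⟩
  let eqv := fun y => Classical.choice (hcard y)
  let σ : ι ≃ ι' := (Equiv.sigmaFiberEquiv f).symm.trans ((Equiv.sigmaCongrRight fun y => (eqv y)).trans (Equiv.sigmaFiberEquiv f'))
  have hσ : ∀ j, f' (σ j) = f j := by
    intro j
    exact (eqv (f j) ⟨j, rfl⟩).2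
  have hspan : ∀ j, (Submodule.span F[X] ({P j ^ e j} : Set F[X])) = Submodule.span F[X] ({P' (σ j) ^ e' (σ j)} : Set F[X]) := by
    intro j
    have h1 := congrArg Prod.fst (hσ j)
    have h2 := congrArg Prod.snd (hσ j)
    change e' (σ j) = e j at h1
    change P' (σ j) = P j at h2
    rw [h1, h2]
  exact ⟨(LinearEquiv.piCongrRight fun j => Submodule.quotEquivOfEq _ _ (hspan j)).trans
    (LinearEquiv.piCongrLeft F[X] (fun j' => QM (P' j' ^ e' j')) σ)⟩

end Cfsg.Agent.H16.ClsGL
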