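import Mathlib
import Cfsg.Agent.H16.ClsGL2

set_option autoImplicit false
set_option linter.all false
set_option maxHeartbeats 400000

/-! The number of conjugacy classes of `GL_n(q)` is at most `q ^ n`. -/

namespace Cfsg.Agent.H16.ClsGL

open Polynomial Module Matrix Cfsg.Agent.H16.SSim

universe u v w

variable {F : Type u} [Field F]

theorem deg_sum {V : Type v} [AddCommGroup V] [Module F V] [FiniteDimensional F V] (φ : Module.End F V) {ι : Type*} [Fintype ι] {P : ι → F[X]} {e : ι → ℕ}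
    (hP : ∀ j, (P j).Monic ∧ Irreducible (P j)) (θ : AEval' φ ≃ₗ[F[X]] ((j : ι) → QM (P j ^ e j))) :
    ∑ j, e j * (P j).natDegree = finrank F V := by
  classical
  haveI : ∀ j, Module.Finite F (QM (P j ^ e j)) := fun j => ((hP j).1.pow _).finite_quotient
  have h1 : finrank F (AEval' φ) = finrank F ((j : ι) → QM (P j ^ e j)) := (θ.restrictScalars F).finrank_eq
  have h2 : finrank F (AEval' φ) = finrank F V := (AEval'.of φ).finrank_eq.symm
  rw [← h2, h1, Module.finrank_pi_fintype]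
  apply Finset.sum_congr rfl
  intro j _
  rw [← natDegree_pow]
  exact (finrank_quotient_span_eq_natDegree (f := P j ^ e j)).symm

theorem coeff_ne {V : Type v} [AddCommGroup V] [Module F V] [FiniteDimensional F V] {φ : Module.End F V} (hφ : Function.Injective φ) {ι : Type*} [Fintype ι] {P : ι → F[X]} {e : ι → ℕ}
    (hP : ∀ j, (P j).Monic ∧ Irreducible (P j)) (he : ∀ j, 1 ≤ e j) (θ : AEval' φ ≃ₗ[F[X]] ((j : ι) → QM (P j ^ e j))) (j : ι) : (P j).coeff 0 ≠ 0 := by
  classical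
  intro h0
  obtain ⟨r, hr⟩ := X_dvd_iff.2 h0
  have hinj : ∀ m : AEval' φ, (X : F[X]) • m = 0 → m = 0 := by
    intro m hm
    obtain ⟨v, rfl⟩ := (AEval'.of φ).surjective m
    rw [AEval'.X_smul_of, map_eq_zero_iff _ (AEval'.of φ).injective] at hm
    rw [(map_eq_zero_iff φ hφ).1 hm, map_zero]
  let y : (j : ι) → QM (P j ^ e j) := Pi.single j (Submodule.Quotient.mk (r * P j ^ (e j - 1)))
  have hy : (X : F[X]) • y = 0 := by
    change (X : F[X]) • (Pi.single j (Submodule.Quotient.mk (r * P j ^ (e j - 1))) : (j : ι) → QM (P j ^ e j)) = 0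
    rw [← Pi.single_smul, ← Submodule.Quotient.mk_smul, smul_eq_mul, ← mul_assoc, ← hr, ← pow_succ', Nat.sub_add_cancel (he j)]
    have : (Submodule.Quotient.mk (P j ^ e j) : QM (P j ^ e j)) = 0 := by
      rw [Submodule.Quotient.mk_eq_zero]
      exact Submodule.mem_span_singleton_self _
    rw [this, Pi.single_zero]
  have h1 : θ.symm y = 0 := hinj _ (by rw [← map_smul, hy, map_zero])
  have h2 : y = 0 := (map_eq_zero_iff _ θ.symm.injective).1 h1
  have h3 : (Submodule.Quotient.mk (r * P j ^ (e j - 1)) : QM (P j ^ e j)) = 0 := by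
    have := congrFun h2 j
    change (Pi.single j (Submodule.Quotient.mk (r * P j ^ (e j - 1))) : (j : ι) → QM (P j ^ e j)) j = 0 at this
    rwa [Pi.single_eq_same] at this
  rw [Submodule.Quotient.mk_eq_zero] at h3
  have h4 : P j ^ e j ∣ r * P j ^ (e j - 1) := Ideal.mem_span_singleton.1 h3
  have h5 : P j ^ e j = P j * P j ^ (e j - 1) := by rw [← pow_succ', Nat.sub_add_cancel (he j)]
  rw [h5] at h4
  have hne : P j ^ (e j - 1) ≠ 0 := pow_ne_zero _ (hP j).1.ne_zero
  have h6 : P j ∣ r := (mul_dvd_mul_iff_right hne).1 h4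
  have hr0 : r ≠ 0 := by rintro rfl; rw [mul_zero] at hr; exact (hP j).1.ne_zero hr
  have h7 := natDegree_le_of_dvd h6 hr0
  rw [hr, natDegree_X_mul hr0] at h7
  omega

theorem isConj_of_equiv {n : ℕ} {g h : GL (Fin n) F} (θ : AEval' (toLin' (g : Matrix (Fin n) (Fin n) F)) ≃ₗ[F[X]] AEval' (toLin' (h : Matrix (Fin n) (Fin n) F))) :
    IsConj g h := by
  set f := toLin' (g : Matrix (Fin n) (Fin n) F) with hf
  set f' := toLin' (h : Matrix (Fin n) (Fin n) F) with hf'
  let ε : (Fin n → F) ≃ₗ[F] (Fin n → F) := (AEval'.of f).trans ((θ.restrictScalars F).trans (AEval'.of f').symm)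
  have hε : ∀ v, ε (f v) = f' (ε v) := by
    intro v
    have h1 : AEval'.of f (f v) = (X : F[X]) • AEval'.of f v := (AEval'.X_smul_of f v).symm
    show (AEval'.of f').symm (θ (AEval'.of f (f v))) = f' ((AEval'.of f').symm (θ (AEval'.of f v)))
    rw [h1, map_smul]
    simp
  obtain ⟨P, hP⟩ := gl_conj_iff g h ε (fun v => hε v)
  rw [isConj_iff]
  exact ⟨P, by rw [hP, mul_inv_cancel_right]⟩

theorem card_classes_le [Fintype F] (n : ℕ) : Nat.card (ConjClasses (GL (Fin n) F)) ≤ Fintype.card F ^ n := by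
  classical
  have key : ∀ c : ConjClasses (GL (Fin n) F), ∃ (g : GL (Fin n) F) (ι : Type u) (_ : Fintype ι) (P : ι → F[X]) (e : ι → ℕ), ConjClasses.mk g = c ∧
      (∀ j, (P j).Monic ∧ Irreducible (P j)) ∧ (∀ j, 1 ≤ e j) ∧ Nonempty (AEval' (toLin' (g : Matrix (Fin n) (Fin n) F)) ≃ₗ[F[X]] ((j : ι) → QM (P j ^ e j))) := by
    intro c
    obtain ⟨g, rfl⟩ := ConjClasses.exists_rep c
    obtain ⟨ι, hι, P, e, h1, h2, h3⟩ := exists_data (toLin' (g : Matrix (Fin n) (Fin n) F))
    exact ⟨g, ι, hι, P, e, rfl, h1, h2, h3⟩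
  choose g ι hι P e hg hP he hθ using key
  have hsum : ∀ c, ∑ j, e c j * (P c j).natDegree = n := by
    intro c
    obtain ⟨θ⟩ := hθ c
    rw [deg_sum _ (hP c) θ, finrank_fin_fun]
  have hco : ∀ c j, (P c j).coeff 0 ≠ 0 := by
    intro c j
    obtain ⟨θ⟩ := hθ c
    refine coeff_ne (φ := toLin' (g c : Matrix (Fin n) (Fin n) F)) ?_ (hP c) (he c) θ j
    intro x y hxy
    rw [toLin'_apply, toLin'_apply] at hxy
    have h1 := congrArg (fun v => ((g c)⁻¹ : GL (Fin n) F).val *ᵥ v) hxy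
    simp only [mulVec_mulVec, ← Units.val_mul, inv_mul_cancel, Units.val_one, one_mulVec] at h1
    exact h1
  have hmem : ∀ c, Lk (GG (P c) (e c)) n ∈ Dk F n n := fun c =>
    mem_Dk (fun i => ⟨GG_monic (hP c) i, GG_coeff (hco c) i⟩) n n (sum_GG (hP c) (he c) (hsum c))
  have hinj : Function.Injective (fun c => (⟨Lk (GG (P c) (e c)) n, hmem c⟩ : {x // x ∈ Dk F n n})) := by
    intro c d hcd
    have h1 : Lk (GG (P c) (e c)) n = Lk (GG (P d) (e d)) n := congrArg Subtype.val hcd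
    have h2 : ∀ i, GG (P c) (e c) i = GG (P d) (e d) i := by
      intro i
      by_cases hi : i < n
      · exact Lk_inj n h1 i hi
      · rw [GG_one (hP c) (hsum c) (by omega), GG_one (hP d) (hsum d) (by omega)]
    obtain ⟨η⟩ := iso_match (hP c) (he c) (hP d) (he d) h2
    obtain ⟨θ⟩ := hθ c
    obtain ⟨θ'⟩ := hθ d
    have h3 := isConj_of_equiv (θ.trans (η.trans θ'.symm))
    rw [← hg c, ← hg d]
    exact ConjClasses.mk_eq_mk_iff_isConj.2 h3
  calc Nat.card (ConjClasses (GL (Fin n) F)) ≤ Nat.card {x // x ∈ Dk F n n} := Nat.card_le_card_of_injective _ hinj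
    _ = (Dk F n n).card := by rw [Nat.card_eq_fintype_card, Fintype.card_coe]
    _ ≤ _ := card_Dk_le F n n

end Cfsg.Agent.H16.ClsGL
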