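import Mathlib

set_option autoImplicit false
set_option linter.all false

/-! Free groups in `SL₂(F[X])` and laws in `PSL₂` over large fields. -/

namespace Cfsg.Agent.H16

open Polynomial

/-- `U_s c U_{-s}` with `c = (1 t; 0 1)(1 0; t 1)`. -/
def lawA {R : Type*} [CommRing R] (t s : R) : Matrix.SpecialLinearGroup (Fin 2) R :=
  ⟨!![1 + t ^ 2 + s * t, -s * (1 + t ^ 2 + s * t) + t + s; t, 1 - s * t], by
    rw [Matrix.det_fin_two_of]; ring⟩

lemma lawA_coe {R : Type*} [CommRing R] (t s : R) : ((lawA t s : Matrix.SpecialLinearGroup (Fin 2) R) : Matrix (Fin 2) (Fin 2) R) =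
  !![1 + t ^ 2 + s * t, -s * (1 + t ^ 2 + s * t) + t + s; t, 1 - s * t] := rfl

section
variable {F : Type*} [Field F]

/-- centre of the region -/
noncomputable def lr (F : Type*) [Field F] (x : ℕ × Bool) : F[X] := (if x.2 then X else 0) + X ^ (x.1 + 2)

lemma lr_sub (x y : ℕ × Bool) (h : x ≠ y) : 0 < (lr F x - lr F y).degree := by
  obtain ⟨i, b⟩ := x
  obtain ⟨j, c⟩ := y
  by_cases hij : i = j
  · subst hij
    have hbc : b ≠ c := fun e => h (by rw [e])
    have key : (lr F (i, b) - lr F (i, c)).coeff 1 ≠ 0 := by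
      cases b <;> cases c <;> simp_all [lr]
    have := le_degree_of_ne_zero key
    exact lt_of_lt_of_le (by norm_num) this
  · have key : (lr F (i, b) - lr F (j, c)).coeff (i + 2) ≠ 0 := by
      have e : ∀ b : Bool, ((if b then X else 0 : F[X])).coeff (i + 2) = 0 := by
        intro b; cases b <;> simp [coeff_X]
      simp only [lr, coeff_sub, coeff_add, e, coeff_X_pow, zero_add, if_true]
      rw [if_neg (by omega)]; simp
    have := le_degree_of_ne_zero key
    refine lt_of_lt_of_le ?_ this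
    exact_mod_cast Nat.succ_pos _

/-- regions -/
def Reg (x : ℕ × Bool) (p q : F[X]) : Prop :=
  if x.2 then q ≠ 0 ∧ (p - (X + X ^ (x.1 + 2)) * q).degree ≤ q.degree
  else p - X ^ (x.1 + 2) * q ≠ 0 ∧ (q + X * (p - X ^ (x.1 + 2) * q)).degree < (p - X ^ (x.1 + 2) * q).degree

lemma Reg.weak {x : ℕ × Bool} {p q : F[X]} (h : Reg x p q) : q ≠ 0 ∧ (p - lr F x * q).degree ≤ q.degree := by
  obtain ⟨i, b⟩ := x
  cases b
  · obtain ⟨h1, h2⟩ : p - X ^ (i + 2) * q ≠ 0 ∧ (q + X * (p - X ^ (i + 2) * q)).degree < (p - X ^ (i + 2) * q).degree := by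
      simpa [Reg] using h
    have e : lr F (i, false) = X ^ (i + 2) := by simp [lr]
    rw [e]
    set r := p - X ^ (i + 2) * q with hr
    have h3 : r.degree < (X * r).degree := by
      rw [degree_mul, degree_X]
      have : r.degree ≠ ⊥ := by rwa [Ne, degree_eq_bot]
      rw [degree_eq_natDegree h1]
      exact_mod_cast (by omega : r.natDegree < 1 + r.natDegree)
    have h4 : (q + X * r).degree < (X * r).degree := h2.trans h3
    have h5 : q.degree = (X * r).degree := by
      have : q = (q + X * r) - X * r := by ring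
      rw [this, degree_sub_eq_right_of_degree_lt h4]
    refine ⟨?_, ?_⟩
    · intro h0
      rw [h0, degree_zero] at h5
      rw [← h5] at h3
      exact not_lt_bot h3
    · rw [h5]; exact h3.le
  · obtain ⟨h1, h2⟩ : q ≠ 0 ∧ (p - (X + X ^ (i + 2)) * q).degree ≤ q.degree := by simpa [Reg] using h
    have e : lr F (i, true) = X + X ^ (i + 2) := by simp [lr]
    rw [e]
    exact ⟨h1, h2⟩

lemma Reg.disj {x y : ℕ × Bool} {p q : F[X]} (h : Reg x p q) (h' : Reg y p q) : x = y := by
  by_contra hxy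
  obtain ⟨h1, h2⟩ := h.weak
  obtain ⟨_, h3⟩ := h'.weak
  have h4 : ((lr F x - lr F y) * q).degree ≤ q.degree := by
    have : (lr F x - lr F y) * q = (p - lr F y * q) - (p - lr F x * q) := by ring
    rw [this]
    exact (degree_sub_le _ _).trans (max_le h3 h2)
  rw [degree_mul] at h4
  have h5 := lr_sub (F := F) x y hxy
  have h6 : lr F x - lr F y ≠ 0 := by
    intro h0; rw [h0, degree_zero] at h5; exact not_lt_bot h5
  rw [degree_eq_natDegree h1, degree_eq_natDegree h6] at h4
  rw [degree_eq_natDegree h6] at h5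
  have h7 : 0 < (lr F x - lr F y).natDegree := by exact_mod_cast h5
  have h8 : (lr F x - lr F y).natDegree + q.natDegree ≤ q.natDegree := by exact_mod_cast h4
  omega

/-- the letter -/
noncomputable def lawL (F : Type*) [Field F] (i : ℕ) : Matrix.SpecialLinearGroup (Fin 2) F[X] := lawA X (X ^ (i + 2))

lemma step_true (i : ℕ) (M : Matrix.SpecialLinearGroup (Fin 2) F[X]) (h : ¬ Reg (i, false) (M 0 0) (M 1 0)) :
    Reg (i, true) ((lawL F i * M) 0 0) ((lawL F i * M) 1 0) := by
  have hdet : M 0 0 * M 1 1 - M 0 1 * M 1 0 = 1 := by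
    have := M.2; rwa [Matrix.det_fin_two] at this
  have e0 : (lawL F i * M) 0 0 = (1 + X ^ 2 + X ^ (i + 2) * X) * M 0 0 + (-X ^ (i + 2) * (1 + X ^ 2 + X ^ (i + 2) * X) + X + X ^ (i + 2)) * M 1 0 := by
    rw [Matrix.SpecialLinearGroup.coe_mul, Matrix.mul_apply, Fin.sum_univ_two, lawL, lawA_coe]; simp
  have e1 : (lawL F i * M) 1 0 = X * M 0 0 + (1 - X ^ (i + 2) * X) * M 1 0 := by
    rw [Matrix.SpecialLinearGroup.coe_mul, Matrix.mul_apply, Fin.sum_univ_two, lawL, lawA_coe]; simp
  rw [e0, e1]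
  set p := M 0 0
  set q := M 1 0
  have hnr : ¬ (p - X ^ (i + 2) * q ≠ 0 ∧ (q + X * (p - X ^ (i + 2) * q)).degree < (p - X ^ (i + 2) * q).degree) := by
    simpa [Reg] using h
  have hpq : ¬ (p = 0 ∧ q = 0) := by
    rintro ⟨h1, h2⟩
    rw [h1, h2] at hdet
    simp at hdet
  have goal : q + X * (p - X ^ (i + 2) * q) ≠ 0 ∧ (p - X ^ (i + 2) * q).degree ≤ (q + X * (p - X ^ (i + 2) * q)).degree := by
    by_cases h0 : p - X ^ (i + 2) * q = 0
    · rw [h0, mul_zero, add_zero, degree_zero]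
      refine ⟨fun hq => hpq ⟨?_, hq⟩, bot_le⟩
      rw [hq, mul_zero, sub_zero] at h0
      exact h0
    · have h2 : (p - X ^ (i + 2) * q).degree ≤ (q + X * (p - X ^ (i + 2) * q)).degree := by
        by_contra hlt
        exact hnr ⟨h0, not_le.1 hlt⟩
      refine ⟨fun hz => ?_, h2⟩
      rw [hz, degree_zero, le_bot_iff, degree_eq_bot] at h2
      exact h0 h2
  have : Reg (i, true) ((1 + X ^ 2 + X ^ (i + 2) * X) * p + (-X ^ (i + 2) * (1 + X ^ 2 + X ^ (i + 2) * X) + X + X ^ (i + 2)) * q) (X * p + (1 - X ^ (i + 2) * X) * q) := by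
    have e2 : X * p + (1 - X ^ (i + 2) * X) * q = q + X * (p - X ^ (i + 2) * q) := by ring
    have e3 : (1 + X ^ 2 + X ^ (i + 2) * X) * p + (-X ^ (i + 2) * (1 + X ^ 2 + X ^ (i + 2) * X) + X + X ^ (i + 2)) * q
        - (X + X ^ (i + 2)) * (q + X * (p - X ^ (i + 2) * q)) = p - X ^ (i + 2) * q := by ring
    simp only [Reg, if_true]
    rw [e2, e3]
    exact goal
  exact this

lemma step_false (i : ℕ) (M : Matrix.SpecialLinearGroup (Fin 2) F[X]) (h : ¬ Reg (i, true) (M 0 0) (M 1 0)) :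
    Reg (i, false) (((lawL F i)⁻¹ * M) 0 0) (((lawL F i)⁻¹ * M) 1 0) := by
  have hdet : M 0 0 * M 1 1 - M 0 1 * M 1 0 = 1 := by
    have := M.2; rwa [Matrix.det_fin_two] at this
  have e0 : ((lawL F i)⁻¹ * M) 0 0 = (1 - X ^ (i + 2) * X) * M 0 0 - (-X ^ (i + 2) * (1 + X ^ 2 + X ^ (i + 2) * X) + X + X ^ (i + 2)) * M 1 0 := by
    rw [Matrix.SpecialLinearGroup.coe_mul, Matrix.mul_apply, Fin.sum_univ_two, Matrix.SpecialLinearGroup.coe_inv, lawL, lawA_coe, Matrix.adjugate_fin_two_of]; simp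
    ring
  have e1 : ((lawL F i)⁻¹ * M) 1 0 = -X * M 0 0 + (1 + X ^ 2 + X ^ (i + 2) * X) * M 1 0 := by
    rw [Matrix.SpecialLinearGroup.coe_mul, Matrix.mul_apply, Fin.sum_univ_two, Matrix.SpecialLinearGroup.coe_inv, lawL, lawA_coe, Matrix.adjugate_fin_two_of]; simp
  rw [e0, e1]
  set p := M 0 0
  set q := M 1 0
  have hnr : ¬ (q ≠ 0 ∧ (p - (X + X ^ (i + 2)) * q).degree ≤ q.degree) := by
    simpa [Reg] using h
  have hpq : ¬ (p = 0 ∧ q = 0) := by
    rintro ⟨h1, h2⟩
    rw [h1, h2] at hdet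
    simp at hdet
  have goal : p - (X + X ^ (i + 2)) * q ≠ 0 ∧ q.degree < (p - (X + X ^ (i + 2)) * q).degree := by
    by_cases h0 : q = 0
    · rw [h0, mul_zero, sub_zero, degree_zero]
      have hp : p ≠ 0 := fun hp => hpq ⟨hp, h0⟩
      exact ⟨hp, bot_lt_iff_ne_bot.2 (by rwa [Ne, degree_eq_bot])⟩
    · have h2 : q.degree < (p - (X + X ^ (i + 2)) * q).degree := by
        by_contra hlt
        exact hnr ⟨h0, not_lt.1 hlt⟩
      refine ⟨fun hz => ?_, h2⟩
      rw [hz, degree_zero] at h2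
      exact not_lt_bot h2
  have e2 : (1 - X ^ (i + 2) * X) * p - (-X ^ (i + 2) * (1 + X ^ 2 + X ^ (i + 2) * X) + X + X ^ (i + 2)) * q
      - X ^ (i + 2) * (-X * p + (1 + X ^ 2 + X ^ (i + 2) * X) * q) = p - (X + X ^ (i + 2)) * q := by ring
  have e3 : -X * p + (1 + X ^ 2 + X ^ (i + 2) * X) * q + X * (p - (X + X ^ (i + 2)) * q) = q := by ring
  simp only [Reg]
  rw [e2, e3]
  simpa using goal

/-- value of a letter -/
noncomputable def lawV (F : Type*) [Field F] (x : ℕ × Bool) : Matrix.SpecialLinearGroup (Fin 2) F[X] :=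
  if x.2 then lawL F x.1 else (lawL F x.1)⁻¹

lemma step (x : ℕ × Bool) (M : Matrix.SpecialLinearGroup (Fin 2) F[X]) (h : ¬ Reg (x.1, !x.2) (M 0 0) (M 1 0)) :
    Reg x ((lawV F x * M) 0 0) ((lawV F x * M) 1 0) := by
  obtain ⟨i, b⟩ := x
  cases b
  · simpa [lawV] using step_false i M (by simpa using h)
  · simpa [lawV] using step_true i M (by simpa using h)

theorem reg_prod : ∀ (L : List (ℕ × Bool)) (x : ℕ × Bool), FreeGroup.IsReduced (x :: L) →
    Reg x ((((x :: L).map (lawV F)).prod) 0 0) ((((x :: L).map (lawV F)).prod) 1 0) := by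
  intro L
  induction L with
  | nil =>
    intro x _
    rw [List.map_cons, List.prod_cons]
    apply step
    intro h
    exact h.weak.1 (by simp)
  | cons y L ih =>
    intro x hx
    rw [List.map_cons, List.prod_cons]
    apply step
    intro h
    have h1 := ih y (by
      unfold FreeGroup.IsReduced at hx ⊢
      exact hx.tail)
    have h2 := h.disj h1
    unfold FreeGroup.IsReduced at hx
    rw [List.isChain_cons_cons] at hx
    have h3 := hx.1 (by rw [← h2])
    rw [← h2] at h3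
    simp at h3

theorem lower_left_ne_zero (w : FreeGroup ℕ) (hw : w ≠ 1) : (FreeGroup.lift (lawL F) w) 1 0 ≠ 0 := by
  have h1 : FreeGroup.lift (lawL F) w = (w.toWord.map (lawV F)).prod := by
    conv_lhs => rw [← FreeGroup.mk_toWord (x := w)]
    rw [FreeGroup.lift_mk]
    congr 1
    apply List.map_congr_left
    rintro ⟨i, b⟩ _
    cases b <;> simp [lawV]
  rw [h1]
  have hred := FreeGroup.isReduced_toWord (x := w)
  have hne : w.toWord ≠ [] := fun h => hw (FreeGroup.toWord_eq_nil_iff.1 h)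
  obtain ⟨x, L, hL⟩ : ∃ x L, w.toWord = x :: L := List.exists_cons_of_ne_nil hne
  rw [hL] at hred ⊢
  exact (reg_prod L x hred).weak.1

/-! degree bound -/

/-- all entries have degree at most `d` -/
def MDeg (M : Matrix.SpecialLinearGroup (Fin 2) F[X]) (d : ℕ) : Prop := ∀ i j, (M i j).natDegree ≤ d

lemma MDeg.mul {M N : Matrix.SpecialLinearGroup (Fin 2) F[X]} {d e : ℕ} (hM : MDeg M d) (hN : MDeg N e) : MDeg (M * N) (d + e) := by
  intro i j
  rw [Matrix.SpecialLinearGroup.coe_mul, Matrix.mul_apply, Fin.sum_univ_two]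
  refine (natDegree_add_le _ _).trans (max_le ?_ ?_)
  · exact natDegree_mul_le.trans (Nat.add_le_add (hM _ _) (hN _ _))
  · exact natDegree_mul_le.trans (Nat.add_le_add (hM _ _) (hN _ _))

lemma MDeg.inv {M : Matrix.SpecialLinearGroup (Fin 2) F[X]} {d : ℕ} (hM : MDeg M d) : MDeg M⁻¹ d := by
  intro i j
  rw [Matrix.SpecialLinearGroup.coe_inv, Matrix.adjugate_fin_two]
  fin_cases i <;> fin_cases j
  · exact hM 1 1
  · show (-(M 0 1)).natDegree ≤ d
    rw [natDegree_neg]; exact hM 0 1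
  · show (-(M 1 0)).natDegree ≤ d
    rw [natDegree_neg]; exact hM 1 0
  · exact hM 0 0

lemma MDeg.one : MDeg (1 : Matrix.SpecialLinearGroup (Fin 2) F[X]) 0 := by
  intro i j
  rw [Matrix.SpecialLinearGroup.coe_one, Matrix.one_apply]
  split_ifs <;> simp

lemma lawL_deg (i : ℕ) : MDeg (lawL F i) (2 * i + 10) := by
  intro a b
  have h1 : (1 + X ^ 2 + X ^ (i + 2) * X : F[X]).natDegree ≤ i + 3 := by compute_degree
  have h2 : (-X ^ (i + 2) * (1 + X ^ 2 + X ^ (i + 2) * X) + X + X ^ (i + 2) : F[X]).natDegree ≤ 2 * i + 10 := by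
    compute_degree <;> omega
  have h3 : (1 - X ^ (i + 2) * X : F[X]).natDegree ≤ i + 3 := by compute_degree
  fin_cases a <;> fin_cases b
  · exact h1.trans (by omega)
  · exact h2
  · show (X : F[X]).natDegree ≤ _
    rw [natDegree_X]; omega
  · exact h3.trans (by omega)

/-- a bound for the degree -/
def wdeg (L : List (ℕ × Bool)) : ℕ := (L.map fun x => 2 * x.1 + 10).sum

lemma prod_deg (L : List (ℕ × Bool)) : MDeg ((L.map (lawV F)).prod) (wdeg L) := by
  induction L with
  | nil => exact MDeg.one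
  | cons x L ih =>
    rw [List.map_cons, List.prod_cons]
    have : MDeg (lawV F x) (2 * x.1 + 10) := by
      unfold lawV
      split_ifs
      · exact lawL_deg _
      · exact (lawL_deg _).inv
    exact this.mul ih

end

/-- laws fail in `SL₂` modulo scalars over large finite fields -/
theorem law_SL2 (w : FreeGroup ℕ) (hw : w ≠ 1) : ∃ N : ℕ, ∀ (F : Type*) [Field F] [Fintype F], N ≤ Fintype.card F →
    ∃ f : ℕ → Matrix.SpecialLinearGroup (Fin 2) F, (FreeGroup.lift f w) 1 0 ≠ 0 := by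
  refine ⟨wdeg w.toWord + 1, fun F _ _ hF => ?_⟩
  have h0 := lower_left_ne_zero (F := F) w hw
  have h1 : FreeGroup.lift (lawL F) w = (w.toWord.map (lawV F)).prod := by
    conv_lhs => rw [← FreeGroup.mk_toWord (x := w)]
    rw [FreeGroup.lift_mk]
    congr 1
    apply List.map_congr_left
    rintro ⟨i, b⟩ _
    cases b <;> simp [lawV]
  have h2 : ((FreeGroup.lift (lawL F) w) 1 0).natDegree < Fintype.card F := by
    rw [h1]
    exact lt_of_le_of_lt (prod_deg w.toWord 1 0) (by omega)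
  obtain ⟨t, ht⟩ : ∃ t : F, ((FreeGroup.lift (lawL F) w) 1 0).eval t ≠ 0 := by
    by_contra hcon
    push Not at hcon
    apply h0
    exact Polynomial.eq_zero_of_natDegree_lt_card_of_eval_eq_zero _ (f := (id : F → F)) Function.injective_id (fun x => hcon x) h2
  refine ⟨fun i => Matrix.SpecialLinearGroup.map (Polynomial.evalRingHom t) (lawL F i), ?_⟩
  have e : FreeGroup.lift (fun i => Matrix.SpecialLinearGroup.map (Polynomial.evalRingHom t) (lawL F i)) w
      = Matrix.SpecialLinearGroup.map (Polynomial.evalRingHom t) (FreeGroup.lift (lawL F) w) := by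
    have : FreeGroup.lift (fun i => Matrix.SpecialLinearGroup.map (Polynomial.evalRingHom t) (lawL F i))
      = (Matrix.SpecialLinearGroup.map (Polynomial.evalRingHom t)).comp (FreeGroup.lift (lawL F)) := by
      ext i
      simp
    rw [this]; rfl
  rw [e]
  exact ht

end Cfsg.Agent.H16
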