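import Mathlib
import Cfsg.Agent.H16.LawA

set_option autoImplicit false
set_option linter.all false

/-! Laws: finite groups embed in alternating groups; failure in `A_n`, `PSL₂(F)`; transfer. -/

namespace Cfsg.Agent.H16

/-- a finite group embeds in `A_n` for all large `n` -/
theorem exists_hom_alt (H : Type*) [Group H] [Finite H] (n : ℕ) (hn : 2 * Nat.card H ≤ n) :
    ∃ φ : H →* alternatingGroup (Fin n), Function.Injective φ := by
  classical
  haveI := Fintype.ofFinite H
  have hcard : Fintype.card (Fin 2 × H) ≤ Fintype.card (Fin n) := by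
    rw [Fintype.card_prod, Fintype.card_fin, Fintype.card_fin, ← Nat.card_eq_fintype_card]; exact hn
  obtain ⟨ι⟩ := Function.Embedding.nonempty_of_card_le hcard
  let ψ : H →* Equiv.Perm (Fin 2 × H) :=
    { toFun := fun h => Equiv.prodCongrRight fun _ => Equiv.mulLeft h
      map_one' := by ext x <;> simp
      map_mul' := fun a b => by ext x <;> simp [mul_assoc] }
  have hψ : Function.Injective ψ := by
    intro a b hab
    have := congrArg (fun σ : Equiv.Perm (Fin 2 × H) => (σ (0, 1)).2) hab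
    simpa [ψ] using this
  have hsign : ∀ h, Equiv.Perm.sign (ψ h) = 1 := by
    intro h
    show Equiv.Perm.sign (Equiv.prodCongrRight fun _ => Equiv.mulLeft h) = 1
    rw [Equiv.Perm.sign_prodCongrRight, Finset.prod_const, Finset.card_univ, Fintype.card_fin]
    exact Int.units_sq _
  let χ := (Equiv.Perm.viaEmbeddingHom ι).comp ψ
  have hχ : Function.Injective χ := (Equiv.Perm.viaEmbeddingHom_injective ι).comp hψ
  have hmem : ∀ h, χ h ∈ alternatingGroup (Fin n) := by
    intro h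
    rw [Equiv.Perm.mem_alternatingGroup]
    show Equiv.Perm.sign (Equiv.Perm.viaEmbedding (ψ h) ι) = 1
    unfold Equiv.Perm.viaEmbedding
    rw [Equiv.Perm.sign_extendDomain, hsign]
  exact ⟨χ.codRestrict _ hmem, fun a b hab => hχ (congrArg Subtype.val hab)⟩

lemma lift_comp {G H : Type*} [Group G] [Group H] (φ : G →* H) (f : ℕ → G) (w : FreeGroup ℕ) :
    FreeGroup.lift (fun i => φ (f i)) w = φ (FreeGroup.lift f w) := by
  have : FreeGroup.lift (fun i => φ (f i)) = φ.comp (FreeGroup.lift f) := by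
    ext i; simp
  rw [this]; rfl

lemma sl2_not_center {F : Type*} [Field F] (A : Matrix.SpecialLinearGroup (Fin 2) F) (h : A 1 0 ≠ 0) :
    A ∉ Subgroup.center (Matrix.SpecialLinearGroup (Fin 2) F) := by
  intro hc
  rw [Matrix.SpecialLinearGroup.mem_center_iff] at hc
  obtain ⟨r, _, hr⟩ := hc
  apply h
  rw [← hr]
  simp

/-- laws fail in `PSL₂` over large finite fields -/
theorem law_PSL2 (w : FreeGroup ℕ) (hw : w ≠ 1) : ∃ N : ℕ, ∀ (F : Type*) [Field F] [Fintype F], N ≤ Fintype.card F →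
    ∃ f : ℕ → Matrix.ProjectiveSpecialLinearGroup (Fin 2) F, FreeGroup.lift f w ≠ 1 := by
  obtain ⟨N, hN⟩ := law_SL2 w hw
  refine ⟨N, fun F _ _ hF => ?_⟩
  obtain ⟨f, hf⟩ := hN F hF
  refine ⟨fun i => QuotientGroup.mk' (Subgroup.center (Matrix.SpecialLinearGroup (Fin 2) F)) (f i), ?_⟩
  rw [lift_comp]
  intro h
  rw [QuotientGroup.mk'_apply, QuotientGroup.eq_one_iff] at h
  exact sl2_not_center _ hf h

/-- laws fail in large alternating groups -/
theorem law_Alt (w : FreeGroup ℕ) (hw : w ≠ 1) : ∃ N : ℕ, ∀ n : ℕ, N ≤ n → ∃ f : ℕ → alternatingGroup (Fin n), FreeGroup.lift f w ≠ 1 := by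
  obtain ⟨N, hN⟩ := law_SL2.{0} w hw
  obtain ⟨p, hp, hprime⟩ := Nat.exists_infinite_primes N
  haveI : Fact p.Prime := ⟨hprime⟩
  obtain ⟨f, hf⟩ := hN (ZMod p) (by rw [ZMod.card]; exact hp)
  refine ⟨2 * Nat.card (Matrix.SpecialLinearGroup (Fin 2) (ZMod p)), fun n hn => ?_⟩
  obtain ⟨φ, hφ⟩ := exists_hom_alt (Matrix.SpecialLinearGroup (Fin 2) (ZMod p)) n hn
  refine ⟨fun i => φ (f i), ?_⟩
  rw [lift_comp]
  intro h
  have h1 : FreeGroup.lift f w = 1 := hφ (by rw [h, map_one])
  rw [h1] at hf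
  simp at hf

end Cfsg.Agent.H16
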