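import Mathlib
import Cfsg.Agent.H16.LawB
import Cfsg.Agent.H5.LinBasic

set_option autoImplicit false
set_option linter.all false

/-! Laws in `SL_n(F)` and transfer to overgroups modulo centres. -/

namespace Cfsg.Agent.H16

/-- some value of the word is not central -/
def LawF (w : FreeGroup ℕ) (H : Type*) [Group H] : Prop := ∃ f : ℕ → H, FreeGroup.lift f w ∉ Subgroup.center H

lemma LawF.of_injective {w : FreeGroup ℕ} {H H' : Type*} [Group H] [Group H'] (h : LawF w H) (φ : H →* H')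
    (hφ : Function.Injective φ) : LawF w H' := by
  obtain ⟨f, hf⟩ := h
  refine ⟨fun i => φ (f i), fun hc => hf ?_⟩
  rw [lift_comp, Subgroup.mem_center_iff] at hc
  rw [Subgroup.mem_center_iff]
  intro g
  apply hφ
  rw [map_mul, map_mul]
  exact hc (φ g)

lemma LawF.quot {w : FreeGroup ℕ} {Gt G : Type*} [Group Gt] [Group G] (h : LawF w Gt) (e : G ≃* Gt ⧸ Subgroup.center Gt) :
    ∃ f : ℕ → G, FreeGroup.lift f w ≠ 1 := by
  obtain ⟨f, hf⟩ := h
  refine ⟨fun i => e.symm (QuotientGroup.mk' _ (f i)), fun h1 => hf ?_⟩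
  have h2 := lift_comp (e.symm.toMonoidHom.comp (QuotientGroup.mk' (Subgroup.center Gt))) f w
  have h3 : FreeGroup.lift (fun i => e.symm (QuotientGroup.mk' (Subgroup.center Gt) (f i))) w
      = e.symm (QuotientGroup.mk' (Subgroup.center Gt) (FreeGroup.lift f w)) := h2
  rw [h3, EmbeddingLike.map_eq_one_iff, QuotientGroup.mk'_apply, QuotientGroup.eq_one_iff] at h1
  exact h1

theorem lawF_SL2 (w : FreeGroup ℕ) (hw : w ≠ 1) : ∃ N : ℕ, ∀ (F : Type) [Field F] [Fintype F], N ≤ Fintype.card F →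
    LawF w (Matrix.SpecialLinearGroup (Fin 2) F) := by
  obtain ⟨N, hN⟩ := law_SL2 w hw
  refine ⟨N, fun F _ _ hF => ?_⟩
  obtain ⟨f, hf⟩ := hN F hF
  exact ⟨f, sl2_not_center _ hf⟩

theorem lawF_Alt (w : FreeGroup ℕ) (hw : w ≠ 1) : ∃ N : ℕ, ∀ n : ℕ, N ≤ n → LawF w (alternatingGroup (Fin n)) := by
  obtain ⟨N, hN⟩ := lawF_SL2 w hw
  obtain ⟨p, hp, hprime⟩ := Nat.exists_infinite_primes N
  haveI : Fact p.Prime := ⟨hprime⟩
  have h := hN (ZMod p) (by rw [ZMod.card]; exact hp)
  refine ⟨2 * Nat.card (Matrix.SpecialLinearGroup (Fin 2) (ZMod p)), fun n hn => ?_⟩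
  obtain ⟨φ, hφ⟩ := exists_hom_alt (Matrix.SpecialLinearGroup (Fin 2) (ZMod p)) n hn
  exact h.of_injective φ hφ

/-- block embedding -/
def slBlock (ι κ : Type*) [Fintype ι] [DecidableEq ι] [Fintype κ] [DecidableEq κ] (R : Type*) [CommRing R] :
    Matrix.SpecialLinearGroup ι R →* Matrix.SpecialLinearGroup (ι ⊕ κ) R where
  toFun A := ⟨Matrix.fromBlocks (A : Matrix ι ι R) 0 0 1, by
    rw [Matrix.det_fromBlocks_zero₂₁, Matrix.det_one, mul_one]; exact A.2⟩
  map_one' := by
    apply Subtype.ext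
    show Matrix.fromBlocks ((1 : Matrix.SpecialLinearGroup ι R) : Matrix ι ι R) 0 0 1 = 1
    rw [Matrix.SpecialLinearGroup.coe_one, Matrix.fromBlocks_one]
  map_mul' A B := by
    apply Subtype.ext
    show Matrix.fromBlocks ((A * B : Matrix.SpecialLinearGroup ι R) : Matrix ι ι R) 0 0 1 = Matrix.fromBlocks (A : Matrix ι ι R) 0 0 1 * Matrix.fromBlocks (B : Matrix ι ι R) 0 0 1
    rw [Matrix.fromBlocks_multiply, Matrix.SpecialLinearGroup.coe_mul]
    simp

lemma slBlock_coe {ι κ : Type*} [Fintype ι] [DecidableEq ι] [Fintype κ] [DecidableEq κ] {R : Type*} [CommRing R]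
    (A : Matrix.SpecialLinearGroup ι R) : ((slBlock ι κ R A : Matrix.SpecialLinearGroup (ι ⊕ κ) R) : Matrix (ι ⊕ κ) (ι ⊕ κ) R)
      = Matrix.fromBlocks (A : Matrix ι ι R) 0 0 1 := rfl

lemma slBlock_injective {ι κ : Type*} [Fintype ι] [DecidableEq ι] [Fintype κ] [DecidableEq κ] {R : Type*} [CommRing R] :
    Function.Injective (slBlock ι κ R) := by
  intro A B h
  have h1 := congrArg (fun M : Matrix.SpecialLinearGroup (ι ⊕ κ) R => (M : Matrix (ι ⊕ κ) (ι ⊕ κ) R)) h
  simp only [slBlock_coe] at h1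
  exact Subtype.ext (Matrix.fromBlocks_inj.1 h1).1

/-- reindexing -/
def slRe {ι κ : Type*} [Fintype ι] [DecidableEq ι] [Fintype κ] [DecidableEq κ] (R : Type*) [CommRing R] (e : ι ≃ κ) :
    Matrix.SpecialLinearGroup ι R →* Matrix.SpecialLinearGroup κ R where
  toFun A := ⟨Matrix.reindex e e (A : Matrix ι ι R), by rw [Matrix.det_reindex_self]; exact A.2⟩
  map_one' := by
    apply Subtype.ext
    simp
  map_mul' A B := by
    apply Subtype.ext
    show Matrix.reindex e e ((A * B : Matrix.SpecialLinearGroup ι R) : Matrix ι ι R) = Matrix.reindex e e (A : Matrix ι ι R) * Matrix.reindex e e (B : Matrix ι ι R)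
    rw [Matrix.SpecialLinearGroup.coe_mul]
    simp [Matrix.submatrix_mul_equiv]

lemma slRe_coe {ι κ : Type*} [Fintype ι] [DecidableEq ι] [Fintype κ] [DecidableEq κ] {R : Type*} [CommRing R] (e : ι ≃ κ)
    (A : Matrix.SpecialLinearGroup ι R) : ((slRe R e A : Matrix.SpecialLinearGroup κ R) : Matrix κ κ R)
      = Matrix.reindex e e (A : Matrix ι ι R) := rfl

lemma slRe_injective {ι κ : Type*} [Fintype ι] [DecidableEq ι] [Fintype κ] [DecidableEq κ] {R : Type*} [CommRing R] (e : ι ≃ κ) :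
    Function.Injective (slRe R e) := by
  intro A B h
  have h1 := congrArg (fun M : Matrix.SpecialLinearGroup κ R => (M : Matrix κ κ R)) h
  simp only [slRe_coe] at h1
  exact Subtype.ext ((Matrix.reindex e e).injective h1)

/-- permutation matrices -/
def altSL (ι : Type*) [Fintype ι] [DecidableEq ι] (R : Type*) [CommRing R] :
    alternatingGroup ι →* Matrix.SpecialLinearGroup ι R where
  toFun σ := ⟨(σ : Equiv.Perm ι)⁻¹.permMatrix R, by
    rw [Matrix.det_permutation, Equiv.Perm.sign_inv, Equiv.Perm.mem_alternatingGroup.1 σ.2]; simp⟩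
  map_one' := by
    apply Subtype.ext
    simp
  map_mul' σ τ := by
    apply Subtype.ext
    show ((σ * τ : alternatingGroup ι) : Equiv.Perm ι)⁻¹.permMatrix R = (σ : Equiv.Perm ι)⁻¹.permMatrix R * (τ : Equiv.Perm ι)⁻¹.permMatrix R
    rw [← Matrix.permMatrix_mul, Subgroup.coe_mul, _root_.mul_inv_rev]

lemma altSL_coe {ι : Type*} [Fintype ι] [DecidableEq ι] {R : Type*} [CommRing R] (σ : alternatingGroup ι) :
  ((altSL ι R σ : Matrix.SpecialLinearGroup ι R) : Matrix ι ι R) = (σ : Equiv.Perm ι)⁻¹.permMatrix R := rfl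

lemma altSL_injective {ι : Type*} [Fintype ι] [DecidableEq ι] {R : Type*} [CommRing R] [Nontrivial R] :
    Function.Injective (altSL ι R) := by
  intro σ τ h
  have h1 := congrArg (fun M : Matrix.SpecialLinearGroup ι R => (M : Matrix ι ι R)) h
  simp only [altSL_coe] at h1
  have h2 : (σ : Equiv.Perm ι)⁻¹ = (τ : Equiv.Perm ι)⁻¹ := by
    ext i
    have h3 := congrFun (congrFun h1 i) ((σ : Equiv.Perm ι)⁻¹ i)
    rw [Equiv.Perm.permMatrix, Equiv.Perm.permMatrix, PEquiv.toMatrix_apply, PEquiv.toMatrix_apply, Equiv.toPEquiv_apply, Equiv.toPEquiv_apply] at h3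
    simp only [Option.mem_def, Option.some.injEq, if_true] at h3
    by_contra hne
    rw [if_neg (fun e => hne e.symm)] at h3
    exact one_ne_zero h3
  exact Subtype.ext (inv_injective h2)

/-- words have non-central values in `SL_n(F)` unless `n` and `|F|` are bounded -/
theorem lawF_SL (w : FreeGroup ℕ) (hw : w ≠ 1) : ∃ N : ℕ, ∀ (F : Type) [Field F] [Fintype F] (n : ℕ), 2 ≤ n →
    (N ≤ n ∨ N ≤ Fintype.card F) → LawF w (Matrix.SpecialLinearGroup (Fin n) F) := by
  obtain ⟨N1, h1⟩ := lawF_SL2 w hw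
  obtain ⟨N2, h2⟩ := lawF_Alt w hw
  refine ⟨max N1 N2, fun F _ _ n hn h => ?_⟩
  rcases h with h | h
  · exact (h2 n ((le_max_right _ _).trans h)).of_injective _ (altSL_injective (R := F))
  · have := h1 F ((le_max_left _ _).trans h)
    obtain ⟨k, rfl⟩ := Nat.exists_eq_add_of_le hn
    exact (this.of_injective _ (slBlock_injective (κ := Fin k))).of_injective _ (slRe_injective finSumFinEquiv)

/-- a perfect group maps into the derived group -/
theorem LawF.comm {w : FreeGroup ℕ} {H Γ : Type*} [Group H] [Group Γ] (h : LawF w H) (hp : commutator H = ⊤) (φ : H →* Γ)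
    (hφ : Function.Injective φ) : LawF w (commutator Γ) := by
  have hmem : ∀ x, φ x ∈ commutator Γ := by
    intro x
    have hx : x ∈ commutator H := by rw [hp]; exact Subgroup.mem_top x
    have : (commutator H).map φ ≤ commutator Γ := by
      rw [commutator_def, commutator_def, Subgroup.map_commutator]
      exact Subgroup.commutator_mono le_top le_top
    exact this (Subgroup.mem_map_of_mem φ hx)
  exact h.of_injective (φ.codRestrict _ hmem) (fun a b hab => hφ (congrArg Subtype.val hab))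

end Cfsg.Agent.H16
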