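import Mathlib
import Cfsg.Prelude.Def_Classical
import Cfsg.Agent.H16.LawC

set_option autoImplicit false
set_option linter.all false

/-! Laws in symplectic and orthogonal groups. -/

namespace Cfsg.Agent.H16

open Matrix

variable {F : Type*} [Field F]

/-- `diag(A, A^{-T})` -/
def dblM (m : ℕ) (F : Type*) [Field F] : Matrix.SpecialLinearGroup (Fin m) F →* Matrix (Fin m ⊕ Fin m) (Fin m ⊕ Fin m) F where
  toFun A := Matrix.fromBlocks (A : Matrix (Fin m) (Fin m) F) 0 0 ((A⁻¹ : Matrix.SpecialLinearGroup (Fin m) F) : Matrix (Fin m) (Fin m) F)ᵀ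
  map_one' := by
    rw [inv_one, Matrix.SpecialLinearGroup.coe_one, Matrix.transpose_one, Matrix.fromBlocks_one]
  map_mul' A B := by
    rw [_root_.mul_inv_rev, Matrix.SpecialLinearGroup.coe_mul, Matrix.SpecialLinearGroup.coe_mul, Matrix.transpose_mul, Matrix.fromBlocks_multiply]
    simp

lemma dblM_apply {m : ℕ} (A : Matrix.SpecialLinearGroup (Fin m) F) : dblM m F A = Matrix.fromBlocks (A : Matrix (Fin m) (Fin m) F) 0 0 ((A⁻¹ : Matrix.SpecialLinearGroup (Fin m) F) : Matrix (Fin m) (Fin m) F)ᵀ := rfl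

lemma inv_mul_coe {m : ℕ} (A : Matrix.SpecialLinearGroup (Fin m) F) : ((A⁻¹ : Matrix.SpecialLinearGroup (Fin m) F) : Matrix (Fin m) (Fin m) F) * (A : Matrix (Fin m) (Fin m) F) = 1 := by
  rw [← Matrix.SpecialLinearGroup.coe_mul, inv_mul_cancel, Matrix.SpecialLinearGroup.coe_one]

lemma mul_inv_coe {m : ℕ} (A : Matrix.SpecialLinearGroup (Fin m) F) : (A : Matrix (Fin m) (Fin m) F) * ((A⁻¹ : Matrix.SpecialLinearGroup (Fin m) F) : Matrix (Fin m) (Fin m) F) = 1 := by
  rw [← Matrix.SpecialLinearGroup.coe_mul, mul_inv_cancel, Matrix.SpecialLinearGroup.coe_one]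

lemma dblM_injective {m : ℕ} : Function.Injective (dblM m F) := by
  intro A B h
  rw [dblM_apply, dblM_apply] at h
  exact Subtype.ext (Matrix.fromBlocks_inj.1 h).1

/-- into the symplectic group -/
def slSp (m : ℕ) (F : Type*) [Field F] : Matrix.SpecialLinearGroup (Fin m) F →* Matrix.symplecticGroup (Fin m) F :=
  (dblM m F).codRestrict _ (by
    intro A
    rw [SymplecticGroup.mem_iff, dblM_apply, Matrix.J, Matrix.fromBlocks_multiply, Matrix.fromBlocks_transpose, Matrix.fromBlocks_multiply]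
    have h1 := mul_inv_coe A
    have h2 : ((A⁻¹ : Matrix.SpecialLinearGroup (Fin m) F) : Matrix (Fin m) (Fin m) F)ᵀ * (A : Matrix (Fin m) (Fin m) F)ᵀ = 1 := by
      rw [← Matrix.transpose_mul, h1, Matrix.transpose_one]
    simp only [Matrix.mul_zero, Matrix.zero_mul, add_zero, zero_add, Matrix.mul_neg, Matrix.mul_one, Matrix.neg_mul, Matrix.transpose_transpose,
      Matrix.transpose_zero, h1, h2, neg_zero])

lemma slSp_injective {m : ℕ} : Function.Injective (slSp m F) := by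
  intro A B h
  exact dblM_injective (congrArg Subtype.val h)

lemma dblM_form {m : ℕ} (A : Matrix.SpecialLinearGroup (Fin m) F) (x : Fin m ⊕ Fin m → F) :
    ∑ i, (dblM m F A *ᵥ x) (.inl i) * (dblM m F A *ᵥ x) (.inr i) = ∑ i, x (.inl i) * x (.inr i) := by
  have h0 : ∀ i, (dblM m F A *ᵥ x) (.inl i) = ((A : Matrix (Fin m) (Fin m) F) *ᵥ (x ∘ Sum.inl)) i := by
    intro i
    rw [dblM_apply, Matrix.fromBlocks_mulVec]
    simp
  have h1 : ∀ i, (dblM m F A *ᵥ x) (.inr i) = (((A⁻¹ : Matrix.SpecialLinearGroup (Fin m) F) : Matrix (Fin m) (Fin m) F)ᵀ *ᵥ (x ∘ Sum.inr)) i := by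
    intro i
    rw [dblM_apply, Matrix.fromBlocks_mulVec]
    simp
  simp only [h0, h1]
  have h2 : ∑ i, ((A : Matrix (Fin m) (Fin m) F) *ᵥ (x ∘ Sum.inl)) i * (((A⁻¹ : Matrix.SpecialLinearGroup (Fin m) F) : Matrix (Fin m) (Fin m) F)ᵀ *ᵥ (x ∘ Sum.inr)) i
    = ((A : Matrix (Fin m) (Fin m) F) *ᵥ (x ∘ Sum.inl)) ⬝ᵥ (((A⁻¹ : Matrix.SpecialLinearGroup (Fin m) F) : Matrix (Fin m) (Fin m) F)ᵀ *ᵥ (x ∘ Sum.inr)) := rfl
  rw [h2, Matrix.mulVec_transpose, dotProduct_comm, ← Matrix.dotProduct_mulVec, Matrix.mulVec_mulVec, inv_mul_coe, Matrix.one_mulVec, dotProduct_comm]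
  rfl

/-- unit matrices from a group -/
lemma toHomUnits_inj {G M : Type*} [Group G] [Monoid M] (f : G →* M) (hf : Function.Injective f) : Function.Injective f.toHomUnits := by
  intro a b h
  apply hf
  have := congrArg (fun u : Mˣ => (u : M)) h
  simpa using this

/-- block sum with the identity on the left -/
def blkL (α β : Type*) [Fintype α] [DecidableEq α] [Fintype β] [DecidableEq β] (F : Type*) [Field F] : Matrix β β F →* Matrix (α ⊕ β) (α ⊕ β) F where
  toFun A := Matrix.fromBlocks 1 0 0 A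
  map_one' := Matrix.fromBlocks_one
  map_mul' A B := by rw [Matrix.fromBlocks_multiply]; simp

def blkR (α β : Type*) [Fintype α] [DecidableEq α] [Fintype β] [DecidableEq β] (F : Type*) [Field F] : Matrix α α F →* Matrix (α ⊕ β) (α ⊕ β) F where
  toFun A := Matrix.fromBlocks A 0 0 1
  map_one' := Matrix.fromBlocks_one
  map_mul' A B := by rw [Matrix.fromBlocks_multiply]; simp

lemma blkL_inj (α β : Type*) [Fintype α] [DecidableEq α] [Fintype β] [DecidableEq β] : Function.Injective (blkL α β F) := by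
  intro A B h
  exact (Matrix.fromBlocks_inj.1 h).2.2.2

lemma blkR_inj (α β : Type*) [Fintype α] [DecidableEq α] [Fintype β] [DecidableEq β] : Function.Injective (blkR α β F) := by
  intro A B h
  exact (Matrix.fromBlocks_inj.1 h).1

/-- a hom into matrices preserving `Q` gives a hom into the isometry group -/
lemma exists_isom {G ι : Type} [Group G] [Fintype ι] [DecidableEq ι] (Q : (ι → F) → F) (f : G →* Matrix ι ι F) (hf : Function.Injective f)
    (hQ : ∀ g v, Q (f g *ᵥ v) = Q v) : ∃ φ : G →* Cfsg.isometryGroup F Q, Function.Injective φ := by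
  have hmem : ∀ g, f.toHomUnits g ∈ Cfsg.isometryGroup F Q := by
    intro g u v
    show Q (((f.toHomUnits g : (Matrix ι ι F)ˣ) : Matrix ι ι F) *ᵥ u) = Q u
    rw [MonoidHom.coe_toHomUnits]
    exact hQ g u
  exact ⟨f.toHomUnits.codRestrict _ hmem, fun a b hab => toHomUnits_inj f hf (congrArg Subtype.val hab)⟩

lemma isom_plus (m : ℕ) (F : Type) [Field F] : ∃ φ : Matrix.SpecialLinearGroup (Fin m) F →* Cfsg.isometryGroup F (Cfsg.quadFormPlus m F), Function.Injective φ :=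
  exists_isom _ (dblM m F) dblM_injective (fun g v => dblM_form g v)

lemma isom_odd (m : ℕ) (F : Type) [Field F] : ∃ φ : Matrix.SpecialLinearGroup (Fin m) F →* Cfsg.isometryGroup F (Cfsg.quadFormOdd m F), Function.Injective φ := by
  refine exists_isom _ ((blkL Unit (Fin m ⊕ Fin m) F).comp (dblM m F)) ((blkL_inj _ _).comp dblM_injective) (fun g v => ?_)
  show Cfsg.quadFormOdd m F (Matrix.fromBlocks 1 0 0 (dblM m F g) *ᵥ v) = Cfsg.quadFormOdd m F v
  have h0 : (Matrix.fromBlocks 1 0 0 (dblM m F g) *ᵥ v) (.inl ()) = v (.inl ()) := by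
    rw [Matrix.fromBlocks_mulVec]; simp
  have h1 : ∀ j, ((Matrix.fromBlocks 1 0 0 (dblM m F g) : Matrix (Unit ⊕ (Fin m ⊕ Fin m)) (Unit ⊕ (Fin m ⊕ Fin m)) F) *ᵥ v) (.inr j) = (dblM m F g *ᵥ (v ∘ Sum.inr)) j := by
    intro j
    rw [Matrix.fromBlocks_mulVec]; simp
  unfold Cfsg.quadFormOdd
  simp only [h0, h1]
  rw [dblM_form]
  rfl

lemma isom_minus (m : ℕ) (F : Type) [Field F] (a b : F) : ∃ φ : Matrix.SpecialLinearGroup (Fin m) F →* Cfsg.isometryGroup F (Cfsg.quadFormMinus m F a b), Function.Injective φ := by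
  refine exists_isom _ ((blkR (Fin m ⊕ Fin m) (Fin 2) F).comp (dblM m F)) ((blkR_inj _ _).comp dblM_injective) (fun g v => ?_)
  show Cfsg.quadFormMinus m F a b (Matrix.fromBlocks (dblM m F g) 0 0 1 *ᵥ v) = Cfsg.quadFormMinus m F a b v
  have h0 : ∀ j, (Matrix.fromBlocks (dblM m F g) 0 0 1 *ᵥ v) (.inr j) = v (.inr j) := by
    intro j
    rw [Matrix.fromBlocks_mulVec]; simp
  have h1 : ∀ j, ((Matrix.fromBlocks (dblM m F g) 0 0 1 : Matrix ((Fin m ⊕ Fin m) ⊕ Fin 2) ((Fin m ⊕ Fin m) ⊕ Fin 2) F) *ᵥ v) (.inl j) = (dblM m F g *ᵥ (v ∘ Sum.inl)) j := by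
    intro j
    rw [Matrix.fromBlocks_mulVec]; simp
  unfold Cfsg.quadFormMinus
  simp only [h0, h1]
  rw [dblM_form]
  rfl

/-- all the families except unitary -/
theorem lawF_classical (w : FreeGroup ℕ) (hw : w ≠ 1) : ∃ N : ℕ, ∀ (F : Type) [Field F] [Fintype F] (m : ℕ), (N ≤ m ∨ N ≤ Fintype.card F) →
    (2 ≤ m → LawF w (Matrix.symplecticGroup (Fin m) F)) ∧ 
    (3 ≤ m → LawF w (Cfsg.Omega F (Cfsg.quadFormPlus m F)) ∧ LawF w (Cfsg.Omega F (Cfsg.quadFormOdd m F)) ∧
      ∀ a b, LawF w (Cfsg.Omega F (Cfsg.quadFormMinus m F a b))) := by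
  obtain ⟨N, hN⟩ := lawF_SL w hw
  refine ⟨N, fun F _ _ m h => ⟨fun hm => ?_, fun hm => ?_⟩⟩
  · exact (hN F m hm h).of_injective _ slSp_injective
  · have hL := hN F m (by omega) h
    have hp : commutator (Matrix.SpecialLinearGroup (Fin m) F) = ⊤ := Cfsg.Agent.H5.SL_commutator_eq_top_of_three (by rw [Fintype.card_fin]; exact hm)
    obtain ⟨φ1, h1⟩ := isom_plus m F
    obtain ⟨φ2, h2⟩ := isom_odd m F
    refine ⟨hL.comm hp φ1 h1, hL.comm hp φ2 h2, fun a b => ?_⟩
    obtain ⟨φ3, h3⟩ := isom_minus m F a b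
    exact hL.comm hp φ3 h3

end Cfsg.Agent.H16
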