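import Mathlib
import Cfsg.Prelude.Def_Classical
import Cfsg.Agent.H16.LawD
import Cfsg.Agent.H5.UnitBasic

set_option autoImplicit false
set_option linter.all false

/-! Laws in unitary groups. -/

namespace Cfsg.Agent.H16

open Matrix

section
variable {F : Type} [Field F] [Fintype F] {q : ℕ} {σ : F →+* F}

/-- fixed subfield -/
def fixK (σ : F →+* F) : Subfield F := σ.eqLocusField (RingHom.id F)

lemma mem_fixK {x : F} : x ∈ fixK σ ↔ σ x = x := Iff.rfl

lemma card_fixK (hF : Fintype.card F = q ^ 2) (hσ2 : ∀ x, σ (σ x) = x) (hσ1 : σ ≠ RingHom.id F) : q ≤ Nat.card (fixK σ) := by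
  obtain ⟨ω, hω⟩ : ∃ ω, σ ω ≠ ω := by
    by_contra hcon
    push Not at hcon
    exact hσ1 (RingHom.ext hcon)
  have hω' : ω - σ ω ≠ 0 := fun h => hω (sub_eq_zero.1 h).symm
  have hsurj : Function.Surjective (fun p : fixK σ × fixK σ => (p.1 : F) + (p.2 : F) * ω) := by
    intro x
    have hb : (x - σ x) / (ω - σ ω) ∈ fixK σ := by
      rw [mem_fixK, map_div₀, map_sub, map_sub, hσ2, hσ2, ← neg_sub x, ← neg_sub ω, neg_div_neg_eq]
    have ha : x - (x - σ x) / (ω - σ ω) * ω ∈ fixK σ := by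
      rw [mem_fixK, map_sub, map_mul, mem_fixK.1 hb]
      have : (x - σ x) / (ω - σ ω) * (ω - σ ω) = x - σ x := div_mul_cancel₀ _ hω'
      linear_combination this
    exact ⟨(⟨_, ha⟩, ⟨_, hb⟩), by simp⟩
  have h1 := Nat.card_le_card_of_surjective _ hsurj
  rw [Nat.card_prod, Nat.card_eq_fintype_card (α := F), hF, pow_two] at h1
  exact Nat.mul_self_le_mul_self_iff.1 h1

/-- the hyperbolic basis -/
lemma exists_T (hσ2 : ∀ x, σ (σ x) = x) (hσ1 : σ ≠ RingHom.id F) :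
    ∃ (T T' : Matrix (Fin 2) (Fin 2) F) (ε : F), T * T' = 1 ∧ T' * T = 1 ∧
      ∀ x y : Fin 2 → F, ∑ i, (T *ᵥ x) i * σ ((T *ᵥ y) i) = ε * (x 0 * σ (y 1) - x 1 * σ (y 0)) := by
  obtain ⟨z, hz⟩ : ∃ z, σ z ≠ z := by
    by_contra hcon
    push Not at hcon
    exact hσ1 (RingHom.ext hcon)
  have hz0 : z ≠ 0 := by rintro rfl; exact hz (map_zero σ)
  have hsz0 : σ z ≠ 0 := by rwa [Ne, map_eq_zero]
  obtain ⟨α, hα0, hα⟩ := Cfsg.Agent.H5.norm_surj hσ1 hσ2 (c := -1) (by rw [map_neg, map_one]) (neg_ne_zero.2 one_ne_zero)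
  set u := z / σ z with hu
  have hu1 : u * σ u = 1 := by
    rw [hu, map_div₀, hσ2]; field_simp
  have hune : u ≠ 1 := by
    intro h
    rw [hu, div_eq_one_iff_eq hsz0] at h
    exact hz h.symm
  have hu0 : u ≠ 0 := by rw [hu]; exact div_ne_zero hz0 hsz0
  have hsu : σ u ≠ 1 := by
    intro h
    rw [h, mul_one] at hu1
    exact hune hu1
  set ε := z - σ z with hε
  have hε0 : ε ≠ 0 := fun h => hz (sub_eq_zero.1 h).symm
  have hsε : σ ε = -ε := by rw [hε, map_sub, hσ2]; ring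
  -- 1 + α σ(α u) = 1 - σ u
  set c := 1 - σ u with hc
  have hc0 : c ≠ 0 := fun h => hsu (sub_eq_zero.1 h).symm
  set l := σ (ε / c) with hl
  have hl0 : l ≠ 0 := by rw [hl, Ne, map_eq_zero]; exact div_ne_zero hε0 hc0
  have hslc : σ l * c = ε := by rw [hl, hσ2]; field_simp
  have hslc' : l * (1 - u) = -ε := by
    have := congrArg σ hslc
    rw [map_mul, hσ2, hsε, hc, map_sub, map_one, hσ2] at this
    exact this
  have hdet : (!![1, l; α, l * (α * u)] : Matrix (Fin 2) (Fin 2) F).det ≠ 0 := by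
    rw [Matrix.det_fin_two_of]
    have : 1 * (l * (α * u)) - l * α = l * α * (u - 1) := by ring
    rw [this]
    exact mul_ne_zero (mul_ne_zero hl0 hα0) (sub_ne_zero.2 hune)
  refine ⟨!![1, l; α, l * (α * u)], (!![1, l; α, l * (α * u)])⁻¹, ε, Matrix.mul_nonsing_inv _ (isUnit_iff_ne_zero.2 hdet),
    Matrix.nonsing_inv_mul _ (isUnit_iff_ne_zero.2 hdet), ?_⟩
  intro x y
  have e0 : ∀ x : Fin 2 → F, (!![1, l; α, l * (α * u)] *ᵥ x) 0 = x 0 + l * x 1 := by
    intro x; simp [Matrix.mulVec, dotProduct, Fin.sum_univ_two]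
  have e1 : ∀ x : Fin 2 → F, (!![1, l; α, l * (α * u)] *ᵥ x) 1 = α * x 0 + l * (α * u) * x 1 := by
    intro x; simp [Matrix.mulVec, dotProduct, Fin.sum_univ_two]
  rw [Fin.sum_univ_two, e0, e0, e1, e1]
  simp only [map_add, map_mul]
  set sl := σ l
  set su := σ u
  set sa := σ α
  set y0 := σ (y 0)
  set y1 := σ (y 1)
  -- hα : α * sa = -1, hu1 : u * su = 1, hslc : sl * c = ε, hslc' : l * (1-u) = -ε
  linear_combination (x 0 * y0 + x 1 * y0 * l * u + x 0 * y1 * sl * su + x 1 * y1 * l * sl * (u * su)) * hα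
    + (-(x 1 * y1 * l * sl)) * hu1 + x 0 * y1 * hslc + x 1 * y0 * hslc'

lemma mem_SU_block {k n : ℕ} (hσ : ∀ x, σ x = x ^ q) (e : Fin 2 ⊕ Fin k ≃ Fin n) (B : Matrix.SpecialLinearGroup (Fin 2) F)
    (hB : ∀ x y : Fin 2 → F, ∑ i, ((B : Matrix (Fin 2) (Fin 2) F) *ᵥ x) i * σ (((B : Matrix (Fin 2) (Fin 2) F) *ᵥ y) i) = ∑ i, x i * σ (y i)) :
    slRe F e (slBlock (Fin 2) (Fin k) F B) ∈ Cfsg.SU n F q := by
  intro u v
  show Cfsg.hermForm n F q (((slRe F e (slBlock (Fin 2) (Fin k) F B) : Matrix.SpecialLinearGroup (Fin n) F) : Matrix (Fin n) (Fin n) F) *ᵥ u)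
    (((slRe F e (slBlock (Fin 2) (Fin k) F B) : Matrix.SpecialLinearGroup (Fin n) F) : Matrix (Fin n) (Fin n) F) *ᵥ v) = Cfsg.hermForm n F q u v
  have key : ∀ w : Fin n → F, ((slRe F e (slBlock (Fin 2) (Fin k) F B) : Matrix.SpecialLinearGroup (Fin n) F) : Matrix (Fin n) (Fin n) F) *ᵥ w
    = (Matrix.fromBlocks (B : Matrix (Fin 2) (Fin 2) F) 0 0 1 *ᵥ (w ∘ e)) ∘ e.symm := by
    intro w
    rw [slRe_coe, slBlock_coe, Matrix.reindex_apply, Matrix.submatrix_mulVec_equiv, Equiv.symm_symm]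
  unfold Cfsg.hermForm
  simp only [← hσ]
  rw [← Equiv.sum_comp e, ← Equiv.sum_comp e (fun i => u i * σ (v i)), Fintype.sum_sum_type, Fintype.sum_sum_type]
  rw [key, key]
  congr 1
  · have := hB ((u ∘ e) ∘ Sum.inl) ((v ∘ e) ∘ Sum.inl)
    simp only [Function.comp_apply, Equiv.symm_apply_apply, Matrix.fromBlocks_mulVec, Sum.elim_inl, Matrix.zero_mulVec, add_zero]
    exact this
  · apply Finset.sum_congr rfl
    intro i _
    simp only [Function.comp_apply, Equiv.symm_apply_apply, Matrix.fromBlocks_mulVec, Sum.elim_inr, Matrix.zero_mulVec, zero_add, Matrix.one_mulVec]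

theorem exists_SU_hom {n : ℕ} (hσ : ∀ x, σ x = x ^ q) (hσ2 : ∀ x, σ (σ x) = x) (hσ1 : σ ≠ RingHom.id F) (hn : 2 ≤ n) :
    ∃ φ : Matrix.SpecialLinearGroup (Fin 2) (fixK σ) →* Cfsg.SU n F q, Function.Injective φ := by
  obtain ⟨T, T', ε, h1, h2, hT⟩ := exists_T (F := F) hσ2 hσ1
  obtain ⟨k, rfl⟩ := Nat.exists_eq_add_of_le hn
  let cj : Matrix.SpecialLinearGroup (Fin 2) (fixK σ) →* Matrix.SpecialLinearGroup (Fin 2) F :=
    { toFun := fun A => ⟨T * ((Matrix.SpecialLinearGroup.map (fixK σ).subtype A : Matrix.SpecialLinearGroup (Fin 2) F) : Matrix (Fin 2) (Fin 2) F) * T', by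
        rw [Matrix.det_mul, Matrix.det_mul, Matrix.SpecialLinearGroup.det_coe, mul_one, ← Matrix.det_mul, h1, Matrix.det_one]⟩
      map_one' := by
        apply Subtype.ext
        show T * ((Matrix.SpecialLinearGroup.map (fixK σ).subtype 1 : Matrix.SpecialLinearGroup (Fin 2) F) : Matrix (Fin 2) (Fin 2) F) * T' = 1
        rw [map_one, Matrix.SpecialLinearGroup.coe_one, mul_one, h1]
      map_mul' := fun A B => by
        apply Subtype.ext
        show T * ((Matrix.SpecialLinearGroup.map (fixK σ).subtype (A * B) : Matrix.SpecialLinearGroup (Fin 2) F) : Matrix (Fin 2) (Fin 2) F) * T'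
          = (T * ((Matrix.SpecialLinearGroup.map (fixK σ).subtype A : Matrix.SpecialLinearGroup (Fin 2) F) : Matrix (Fin 2) (Fin 2) F) * T')
            * (T * ((Matrix.SpecialLinearGroup.map (fixK σ).subtype B : Matrix.SpecialLinearGroup (Fin 2) F) : Matrix (Fin 2) (Fin 2) F) * T')
        rw [map_mul, Matrix.SpecialLinearGroup.coe_mul]
        simp only [Matrix.mul_assoc]
        rw [← Matrix.mul_assoc T' T, h2, Matrix.one_mul] }
  have hcj : ∀ A, ((cj A : Matrix.SpecialLinearGroup (Fin 2) F) : Matrix (Fin 2) (Fin 2) F)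
    = T * ((Matrix.SpecialLinearGroup.map (fixK σ).subtype A : Matrix.SpecialLinearGroup (Fin 2) F) : Matrix (Fin 2) (Fin 2) F) * T' := fun A => rfl
  have hinj : Function.Injective cj := by
    intro A B hAB
    have h3 := congrArg (fun M : Matrix.SpecialLinearGroup (Fin 2) F => (M : Matrix (Fin 2) (Fin 2) F)) hAB
    simp only [hcj] at h3
    have h4 : ∀ M : Matrix (Fin 2) (Fin 2) F, T' * (T * M * T') * T = M := by
      intro M
      simp only [Matrix.mul_assoc]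
      rw [h2, Matrix.mul_one, ← Matrix.mul_assoc, h2, Matrix.one_mul]
    have h5 := congrArg (fun M => T' * M * T) h3
    simp only [h4] at h5
    have h6 : Matrix.SpecialLinearGroup.map (fixK σ).subtype A = Matrix.SpecialLinearGroup.map (fixK σ).subtype B := Subtype.ext h5
    apply Subtype.ext
    ext i j
    have h7 := congrFun (congrFun h5 i) j
    exact h7
  have hmem : ∀ A, slRe F finSumFinEquiv (slBlock (Fin 2) (Fin k) F (cj A)) ∈ Cfsg.SU (2 + k) F q := by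
    intro A
    apply mem_SU_block hσ
    intro x y
    rw [hcj]
    set M := ((Matrix.SpecialLinearGroup.map (fixK σ).subtype A : Matrix.SpecialLinearGroup (Fin 2) F) : Matrix (Fin 2) (Fin 2) F) with hM
    have hx : ∀ x : Fin 2 → F, (T * M * T') *ᵥ x = T *ᵥ (M *ᵥ (T' *ᵥ x)) := by
      intro x; rw [Matrix.mulVec_mulVec, Matrix.mulVec_mulVec, Matrix.mul_assoc]
    have hx' : ∀ x : Fin 2 → F, x = T *ᵥ (T' *ᵥ x) := by
      intro x; rw [Matrix.mulVec_mulVec, h1, Matrix.one_mulVec]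
    rw [hx, hx]
    conv_rhs => rw [hx' x, hx' y]
    rw [hT, hT]
    congr 1
    set x' := T' *ᵥ x
    set y' := T' *ᵥ y
    have hMσ : ∀ i j, σ (M i j) = M i j := fun i j => (A i j).2
    have hdet : M 0 0 * M 1 1 - M 0 1 * M 1 0 = 1 := by
      have := (Matrix.SpecialLinearGroup.map (fixK σ).subtype A).2
      rwa [Matrix.det_fin_two] at this
    have e : ∀ (z : Fin 2 → F) i, (M *ᵥ z) i = M i 0 * z 0 + M i 1 * z 1 := by
      intro z i; simp [Matrix.mulVec, dotProduct, Fin.sum_univ_two]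
    simp only [e, map_add, map_mul, hMσ]
    linear_combination (x' 0 * σ (y' 1) - x' 1 * σ (y' 0)) * hdet
  let φ := ((slRe F finSumFinEquiv).comp (slBlock (Fin 2) (Fin k) F)).comp cj
  refine ⟨φ.codRestrict _ hmem, fun a b hab => hinj (slBlock_injective (slRe_injective _ (congrArg Subtype.val hab)))⟩

/-- permutation matrices are unitary -/
theorem exists_SU_alt (n : ℕ) (hσ : ∀ x, σ x = x ^ q) : ∃ φ : alternatingGroup (Fin n) →* Cfsg.SU n F q, Function.Injective φ := by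
  have hmem : ∀ s, altSL (Fin n) F s ∈ Cfsg.SU n F q := by
    intro s u v
    show Cfsg.hermForm n F q (((altSL (Fin n) F s : Matrix.SpecialLinearGroup (Fin n) F) : Matrix (Fin n) (Fin n) F) *ᵥ u)
      (((altSL (Fin n) F s : Matrix.SpecialLinearGroup (Fin n) F) : Matrix (Fin n) (Fin n) F) *ᵥ v) = Cfsg.hermForm n F q u v
    rw [altSL_coe, Matrix.permMatrix_mulVec, Matrix.permMatrix_mulVec]
    unfold Cfsg.hermForm
    exact Equiv.sum_comp (s : Equiv.Perm (Fin n))⁻¹ (fun i => u i * v i ^ q)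
  exact ⟨(altSL (Fin n) F).codRestrict _ hmem, fun a b hab => altSL_injective (congrArg Subtype.val hab)⟩

end

theorem lawF_SU (w : FreeGroup ℕ) (hw : w ≠ 1) : ∃ N : ℕ, ∀ (F : Type) [Field F] [Fintype F] (n q : ℕ), Fintype.card F = q ^ 2 → 2 ≤ n →
    (N ≤ n ∨ N ≤ q) → LawF w (Cfsg.SU n F q) := by
  obtain ⟨N1, h1⟩ := lawF_SL2 w hw
  obtain ⟨N2, h2⟩ := lawF_Alt w hw
  refine ⟨max N1 N2, fun F _ _ n q hF hn h => ?_⟩
  obtain ⟨σ, hσ, hσ2, hσ1⟩ := Cfsg.Agent.H5.exists_frob hF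
  rcases h with h | h
  · obtain ⟨φ, hφ⟩ := exists_SU_alt (F := F) n hσ
    exact (h2 n ((le_max_right _ _).trans h)).of_injective φ hφ
  · obtain ⟨φ, hφ⟩ := exists_SU_hom (F := F) (n := n) hσ hσ2 hσ1 hn
    haveI : Fintype (fixK σ) := Fintype.ofFinite _
    have h3 := card_fixK hF hσ2 hσ1
    rw [Nat.card_eq_fintype_card] at h3
    exact (h1 (fixK σ) (((le_max_left _ _).trans h).trans h3)).of_injective φ hφ

end Cfsg.Agent.H16
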