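import Mathlib
import Cfsg.Agent.H16.SylTwo2
import Cfsg.Agent.H16.Torus2
import Cfsg.Agent.H3.Perm
import Cfsg.Agent.H3.Clifford
import Cfsg.Agent.H3.Basic2

set_option autoImplicit false
set_option linter.all false

namespace Cfsg.Agent.H16

open Matrix Cfsg Cfsg.Agent.H3
open scoped ComplexConjugate

/-- number of ℓ'-degree irreducible characters -/
noncomputable def mk (ℓ : ℕ) (N : Type*) [Group N] : ℕ := Nat.card {ψ : IrrCharacter N // ¬ ℓ ∣ charDegree (ψ : N → ℂ)}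

lemma cd_eq {N : Type*} [Group N] (ψ : IrrCharacter N) : charDegree (ψ : N → ℂ) = ndeg ψ := by
  unfold charDegree
  rw [ndeg_eq, Complex.natCast_re, Nat.floor_natCast]

universe u

lemma mk_congr {N N' : Type u} [Group N] [Group N'] (e : N ≃* N') (ℓ : ℕ) : mk ℓ N = mk ℓ N' := by
  unfold mk
  apply Nat.card_congr
  refine (Equiv.subtypeEquiv (p := fun ψ : IrrCharacter N' => ¬ ℓ ∣ charDegree (ψ : N' → ℂ)) (q := fun ψ : IrrCharacter N => ¬ ℓ ∣ charDegree (ψ : N → ℂ)) ?_ ?_).symm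
  · exact
      { toFun := fun χ => ⟨fun h => (χ : N' → ℂ) (e h), (isIrr_comp_equiv_iff e).2 χ.2⟩
        invFun := fun χ => ⟨fun h => (χ : N → ℂ) (e.symm h), (isIrr_comp_equiv_iff e.symm).2 χ.2⟩
        left_inv := fun χ => by apply Subtype.ext; funext h; simp
        right_inv := fun χ => by apply Subtype.ext; funext h; simp }
  · intro χ
    unfold charDegree
    simp

lemma mk_all {N : Type*} [Group N] [Finite N] {ℓ : ℕ} (h : ∀ ψ : IrrCharacter N, ¬ ℓ ∣ ndeg ψ) : mk ℓ N = Nat.card (ConjClasses N) := by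
  rw [← card_irr_eq]
  unfold mk
  apply Nat.card_congr
  apply Equiv.subtypeUnivEquiv
  intro ψ
  rw [cd_eq]; exact h ψ

open scoped Classical in
lemma mk_sum {N : Type*} [Group N] [Fintype (IrrCharacter N)] (ℓ : ℕ) : mk ℓ N = ∑ ψ : IrrCharacter N, if ¬ ℓ ∣ ndeg ψ then 1 else 0 := by
  unfold mk
  rw [Nat.card_eq_fintype_card, Fintype.card_subtype, Finset.card_filter]
  refine Finset.sum_congr rfl fun ψ _ => ?_
  rw [cd_eq]

/-- degrees at most two when there is an abelian subgroup of index two -/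
lemma ndeg_le_two {N : Type*} [Group N] [Finite N] (A : Subgroup N) (hA : ∀ a ∈ A, ∀ b ∈ A, a * b = b * a) (hi : Nat.card N = 2 * Nat.card A) (ψ : IrrCharacter N) :
    ndeg ψ ≤ 2 := by
  have h1 := irr_degree_le_index ψ.2 (ndeg_eq ψ) A hA
  have h := A.index_mul_card
  rw [hi] at h
  rw [Nat.eq_of_mul_eq_mul_right Nat.card_pos h] at h1
  exact h1

/-- odd degree characters of a group with k = |A|/2+3 classes and abelian index two subgroup -/
lemma mk_two_dicyclic {N : Type*} [Group N] [Finite N] (A : Subgroup N) (hA : ∀ a ∈ A, ∀ b ∈ A, a * b = b * a) (hi : Nat.card N = 2 * Nat.card A)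
    (hk : 2 * Nat.card (ConjClasses N) = Nat.card A + 6) : mk 2 N = 4 := by
  classical
  haveI := Fintype.ofFinite (IrrCharacter N)
  have hd : ∀ ψ : IrrCharacter N, ndeg ψ = 1 ∨ ndeg ψ = 2 := by
    intro ψ
    have := ndeg_le_two A hA hi ψ
    have := ndeg_pos ψ
    omega
  have h1 := sum_ndeg_sq (G := N)
  have h2 : ∑ ψ : IrrCharacter N, ndeg ψ ^ 2 + 3 * ∑ ψ : IrrCharacter N, (if ¬ 2 ∣ ndeg ψ then 1 else 0) = 4 * Fintype.card (IrrCharacter N) := by
    rw [Finset.mul_sum, ← Finset.sum_add_distrib, ← Finset.card_univ, Finset.card_eq_sum_ones, Finset.mul_sum]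
    refine Finset.sum_congr rfl fun ψ _ => ?_
    rcases hd ψ with h | h <;> rw [h] <;> norm_num
  rw [← mk_sum, h1, ← Nat.card_eq_fintype_card, card_irr_eq, hi] at h2
  omega

section

variable {F : Type u} [Field F] [Fintype F] [DecidableEq F]

local notation "SL₂" => Matrix.SpecialLinearGroup (Fin 2) F
local notation "M₂" => Matrix (Fin 2) (Fin 2) F

/-- indicator -/
noncomputable def bb (ℓ n : ℕ) : ℕ := open Classical in if ¬ ℓ ∣ n then 1 else 0

theorem mk_SL2 (hodd : Odd (Fintype.card F)) (ℓ : ℕ) : 2 * mk ℓ (Matrix.SpecialLinearGroup (Fin 2) F) =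
    2 * (bb ℓ 1 + bb ℓ (Fintype.card F)) + 4 * bb ℓ ((Fintype.card F + 1) / 2) + (Fintype.card F - 3) * bb ℓ (Fintype.card F + 1) +
      (Fintype.card F - 1) * bb ℓ (Fintype.card F - 1) + 4 * bb ℓ ((Fintype.card F - 1) / 2) := by
  classical
  haveI := Fintype.ofFinite (IrrCharacter SL₂)
  obtain ⟨α₀, hα1, hα2⟩ := exists_quad (F := F) hodd
  obtain ⟨ψ₁, ψ₂, i1', i2', hne12, hPS, hdeg12, _⟩ := PS_halves α₀ hα2 hα1
  obtain ⟨hE, hC2, hC3⟩ := card_cuspS_odd (F := F) hodd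
  have hP := card_setPS_odd (F := F) hodd
  have hf : ∀ ψ : IrrCharacter SL₂, (if ¬ ℓ ∣ ndeg ψ then 1 else 0) = bb ℓ (ndeg ψ) := by
    intro ψ; unfold bb; congr
  rw [mk_sum, Finset.sum_congr rfl (fun ψ _ => hf ψ), sl2_sum_odd hα2 hα1 (ψ₁ := ⟨ψ₁, i1'⟩) (ψ₂ := ⟨ψ₂, i2'⟩) (fun h => hne12 (congrArg Subtype.val h)) hPS,
    ← Finset.sum_filter_add_sum_filter_not (setCS F) (fun χ => ndeg χ = Fintype.card F - 1)]
  have hs := congrFun hPS 1
  rw [PS_one, Pi.add_apply, ← hdeg12] at hs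
  have d1 : ndeg (⟨ψ₁, i1'⟩ : IrrCharacter SL₂) = (Fintype.card F + 1) / 2 := by
    have h := ndeg_eq (⟨ψ₁, i1'⟩ : IrrCharacter SL₂)
    change ψ₁ 1 = _ at h
    rw [h] at hs
    have : Fintype.card F + 1 = ndeg (⟨ψ₁, i1'⟩ : IrrCharacter SL₂) + ndeg (⟨ψ₁, i1'⟩ : IrrCharacter SL₂) := by exact_mod_cast hs
    omega
  have d2 : ndeg (⟨ψ₂, i2'⟩ : IrrCharacter SL₂) = (Fintype.card F + 1) / 2 := by
    have h := ndeg_eq (⟨ψ₂, i2'⟩ : IrrCharacter SL₂)
    change ψ₂ 1 = _ at h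
    rw [hdeg12, h] at hs
    have : Fintype.card F + 1 = ndeg (⟨ψ₂, i2'⟩ : IrrCharacter SL₂) + ndeg (⟨ψ₂, i2'⟩ : IrrCharacter SL₂) := by exact_mod_cast hs
    omega
  have s1 : ∑ χ ∈ setPS F, bb ℓ (ndeg χ) = (setPS F).card * bb ℓ (Fintype.card F + 1) := by
    rw [Finset.sum_congr rfl (g := fun _ => bb ℓ (Fintype.card F + 1)), Finset.sum_const, smul_eq_mul]
    intro χ hχ
    obtain ⟨α, _, he⟩ := mem_setPS.1 hχ
    have h := ndeg_eq χ
    rw [he, PS_one] at h
    have : Fintype.card F + 1 = ndeg χ := by exact_mod_cast h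
    rw [this]
  have s2 : ∑ χ ∈ Finset.filter (fun χ => ndeg χ = Fintype.card F - 1) (setCS F), bb ℓ (ndeg χ) =
      (Finset.filter (fun χ => ndeg χ = Fintype.card F - 1) (setCS F)).card * bb ℓ (Fintype.card F - 1) := by
    rw [Finset.sum_congr rfl (g := fun _ => bb ℓ (Fintype.card F - 1)), Finset.sum_const, smul_eq_mul]
    intro χ hχ
    rw [(Finset.mem_filter.1 hχ).2]
  have s3 : ∑ χ ∈ Finset.filter (fun χ => ¬ ndeg χ = Fintype.card F - 1) (setCS F), bb ℓ (ndeg χ) =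
      2 * bb ℓ ((Fintype.card F - 1) / 2) := by
    rw [Finset.sum_congr rfl (g := fun _ => bb ℓ ((Fintype.card F - 1) / 2)), Finset.sum_const, smul_eq_mul, hC2]
    intro χ hχ
    rw [Finset.mem_filter] at hχ
    have := hC3 χ hχ.1 hχ.2
    congr 1
    omega
  rw [s1, s2, s3, d1, d2, ndeg_i1, ndeg_iSt]
  have e1 : 2 * ((setPS F).card * bb ℓ (Fintype.card F + 1)) = (Fintype.card F - 3) * bb ℓ (Fintype.card F + 1) := by
    rw [← hP]; ring
  have e2 : 2 * ((Finset.filter (fun χ => ndeg χ = Fintype.card F - 1) (setCS F)).card * bb ℓ (Fintype.card F - 1)) = (Fintype.card F - 1) * bb ℓ (Fintype.card F - 1) := by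
    rw [← mul_assoc, hE]
  rw [← e1, ← e2]
  ring

/-- odd ℓ dividing q-1 or q+1 -/
theorem mckay_odd (hodd : Odd (Fintype.card F)) (ℓ : ℕ) [hℓ : Fact ℓ.Prime] (hℓ2 : ℓ ≠ 2) (P : Sylow ℓ SL₂)
    (hdvd : ℓ ∣ Fintype.card F - 1 ∨ ℓ ∣ Fintype.card F + 1) :
    mk ℓ (Matrix.SpecialLinearGroup (Fin 2) F) = mk ℓ (Subgroup.normalizer ((P : Subgroup SL₂) : Set SL₂)) := by
  have h2 := two_ne hodd
  have hℓ3 : 3 ≤ ℓ := by have := hℓ.out.two_le; omega
  obtain ⟨z, hzs, ht4, hzo, hC, hN, htype⟩ := sylow_odd hodd ℓ hℓ2 P hdvd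
  have hk := card_conj_norm_tor hzs h2 ht4
  rw [← hN] at hk
  have hTN : Subgroup.centralizer ({z} : Set SL₂) ≤ Subgroup.normalizer ((P : Subgroup SL₂) : Set SL₂) := by
    rw [hN]; exact Subgroup.le_normalizer
  have hcard : Nat.card ((Subgroup.centralizer ({z} : Set SL₂)).subgroupOf (Subgroup.normalizer ((P : Subgroup SL₂) : Set SL₂))) = Nat.card (Subgroup.centralizer ({z} : Set SL₂)) :=
    Nat.card_congr (Subgroup.subgroupOfEquivOfLe hTN).toEquiv
  have hall : ∀ ψ : IrrCharacter (Subgroup.normalizer ((P : Subgroup SL₂) : Set SL₂)), ¬ ℓ ∣ ndeg ψ := by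
    intro ψ hd
    have h1 := ndeg_le_two ((Subgroup.centralizer ({z} : Set SL₂)).subgroupOf (Subgroup.normalizer ((P : Subgroup SL₂) : Set SL₂))) (by
      intro a ha b hb
      apply Subtype.ext
      exact cent_comm hzs (Subgroup.mem_subgroupOf.1 ha) (Subgroup.mem_subgroupOf.1 hb)) (by
      rw [hcard, hN]; exact card_norm_tor hzs h2 ht4) ψ
    have := Nat.le_of_dvd (ndeg_pos ψ) hd
    omega
  rw [mk_all hall]
  have hG := mk_SL2 (F := F) hodd ℓ
  have hq : 1 < Fintype.card F := Fintype.one_lt_card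
  obtain ⟨k, hkq⟩ := hodd
  have hq3 : 3 ≤ Fintype.card F := by omega
  have hno2 : ¬ ℓ ∣ 2 := fun h => hℓ2 ((Nat.prime_dvd_prime_iff_eq hℓ.out Nat.prime_two).1 h)
  have hno1 : ¬ ℓ ∣ 1 := fun h => hℓ.out.one_lt.ne' (Nat.dvd_one.1 h)
  have b1 : bb ℓ 1 = 1 := by unfold bb; rw [if_pos hno1]
  have hhalf : ∀ a, ℓ ∣ 2 * a → ℓ ∣ a := fun a h => ((Nat.Prime.dvd_mul hℓ.out).1 h).resolve_left hno2
  rcases htype with ⟨hd, l, hl, hll, ht⟩ | ⟨hd, ht⟩
  · rw [card_cent_sl2_split z hl hll ht] at hk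
    have n1 : ¬ ℓ ∣ Fintype.card F + 1 := by
      intro h
      have := Nat.dvd_sub h hd
      have e : Fintype.card F + 1 - (Fintype.card F - 1) = 2 := by omega
      rw [e] at this; exact hno2 this
    have n2 : ¬ ℓ ∣ Fintype.card F := by
      intro h
      have := Nat.dvd_sub h hd
      have e : Fintype.card F - (Fintype.card F - 1) = 1 := by omega
      rw [e] at this; exact hno1 this
    have n3 : ¬ ℓ ∣ (Fintype.card F + 1) / 2 := by
      intro h
      apply n1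
      have e : Fintype.card F + 1 = 2 * ((Fintype.card F + 1) / 2) := by omega
      rw [e]; exact h.mul_left _
    have n4 : ℓ ∣ (Fintype.card F - 1) / 2 := by
      apply hhalf
      have e : 2 * ((Fintype.card F - 1) / 2) = Fintype.card F - 1 := by omega
      rw [e]; exact hd
    have b2 : bb ℓ (Fintype.card F) = 1 := by unfold bb; rw [if_pos n2]
    have b3 : bb ℓ ((Fintype.card F + 1) / 2) = 1 := by unfold bb; rw [if_pos n3]
    have b4 : bb ℓ (Fintype.card F + 1) = 1 := by unfold bb; rw [if_pos n1]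
    have b5 : bb ℓ (Fintype.card F - 1) = 0 := by unfold bb; rw [if_neg (not_not.2 hd)]
    have b6 : bb ℓ ((Fintype.card F - 1) / 2) = 0 := by unfold bb; rw [if_neg (not_not.2 n4)]
    rw [b1, b2, b3, b4, b5, b6] at hG
    omega
  · rw [card_cent_sl2_ell z ht] at hk
    have n1 : ¬ ℓ ∣ Fintype.card F - 1 := by
      intro h
      have := Nat.dvd_sub hd h
      have e : Fintype.card F + 1 - (Fintype.card F - 1) = 2 := by omega
      rw [e] at this; exact hno2 this
    have n2 : ¬ ℓ ∣ Fintype.card F := by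
      intro h
      have := Nat.dvd_sub hd h
      have e : Fintype.card F + 1 - Fintype.card F = 1 := by omega
      rw [e] at this; exact hno1 this
    have n3 : ¬ ℓ ∣ (Fintype.card F - 1) / 2 := by
      intro h
      apply n1
      have e : Fintype.card F - 1 = 2 * ((Fintype.card F - 1) / 2) := by omega
      rw [e]; exact h.mul_left _
    have n4 : ℓ ∣ (Fintype.card F + 1) / 2 := by
      apply hhalf
      have e : 2 * ((Fintype.card F + 1) / 2) = Fintype.card F + 1 := by omega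
      rw [e]; exact hd
    have b2 : bb ℓ (Fintype.card F) = 1 := by unfold bb; rw [if_pos n2]
    have b3 : bb ℓ ((Fintype.card F - 1) / 2) = 1 := by unfold bb; rw [if_pos n3]
    have b4 : bb ℓ (Fintype.card F - 1) = 1 := by unfold bb; rw [if_pos n1]
    have b5 : bb ℓ (Fintype.card F + 1) = 0 := by unfold bb; rw [if_neg (not_not.2 hd)]
    have b6 : bb ℓ ((Fintype.card F + 1) / 2) = 0 := by unfold bb; rw [if_neg (not_not.2 n4)]
    rw [b1, b2, b3, b4, b5, b6] at hG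
    omega

/-- the trivial case -/
theorem mckay_triv (ℓ : ℕ) [hℓ : Fact ℓ.Prime] (P : Sylow ℓ SL₂) (hnd : ¬ ℓ ∣ Nat.card SL₂) :
    mk ℓ (Matrix.SpecialLinearGroup (Fin 2) F) = mk ℓ (Subgroup.normalizer ((P : Subgroup SL₂) : Set SL₂)) := by
  have hP : (P : Subgroup SL₂) = ⊥ := by
    rw [← Subgroup.card_eq_one]
    have h1 := P.card_eq_multiplicity
    rw [Nat.factorization_eq_zero_of_not_dvd hnd, pow_zero] at h1
    exact h1
  have hN : Subgroup.normalizer ((P : Subgroup SL₂) : Set SL₂) = ⊤ := by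
    rw [eq_top_iff]
    intro x _
    rw [Subgroup.mem_normalizer_iff]
    intro g
    rw [hP, Subgroup.mem_bot, Subgroup.mem_bot, mul_inv_eq_one]
    constructor
    · rintro rfl; simp
    · intro h; simpa using h
  rw [hN]
  exact (mk_congr Subgroup.topEquiv ℓ).symm

end

end Cfsg.Agent.H16
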