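import Mathlib
import Cfsg.Agent.H16.McKay

set_option autoImplicit false
set_option linter.all false

namespace Cfsg.Agent.H16

open Matrix Cfsg Cfsg.Agent.H3
open scoped ComplexConjugate commutatorElement

universe u

section

variable {F : Type u} [Field F] [Fintype F] [DecidableEq F]

local notation "SL₂" => Matrix.SpecialLinearGroup (Fin 2) F
local notation "M₂" => Matrix (Fin 2) (Fin 2) F

variable {S : Sylow 2 (Matrix.SpecialLinearGroup (Fin 2) F)} {z y : Matrix.SpecialLinearGroup (Fin 2) F}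

lemma S2D.index_two (h : S2D S z y) : ((Subgroup.centralizer ({z} : Set SL₂)).subgroupOf (S : Subgroup SL₂)).index = 2 := by
  rw [Subgroup.index_eq_two_iff]
  refine ⟨⟨y, h.yS⟩, ?_⟩
  rintro ⟨b, hb⟩
  rw [Subgroup.mem_subgroupOf, Subgroup.mem_subgroupOf]
  show Xor (b * y ∈ Subgroup.centralizer ({z} : Set SL₂)) (b ∈ Subgroup.centralizer ({z} : Set SL₂))
  by_cases hbT : b ∈ Subgroup.centralizer ({z} : Set SL₂)
  · right
    refine ⟨hbT, fun h1 => h.yT ?_⟩
    have := mul_mem (inv_mem hbT) h1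
    rwa [inv_mul_cancel_left] at this
  · left
    refine ⟨?_, hbT⟩
    rw [Subgroup.mem_centralizer_singleton_iff]
    have h3 := h.inv hb hbT z⁻¹ (inv_mem h.zT)
    have h4 := h.inv h.yS h.yT z h.zT
    have h5 : y * z = z⁻¹ * y := by rw [← h4]; group
    rw [inv_inv] at h3
    rw [mul_assoc, h5, ← mul_assoc]
    nth_rewrite 2 [← h3]; group

lemma S2D.card_two (h : S2D S z y) : Nat.card (S : Subgroup SL₂) = 2 * Nat.card ((Subgroup.centralizer ({z} : Set SL₂)).subgroupOf (S : Subgroup SL₂)) := by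
  have h1 := Subgroup.index_mul_card ((Subgroup.centralizer ({z} : Set SL₂)).subgroupOf (S : Subgroup SL₂))
  rw [h.index_two] at h1
  exact h1.symm

lemma S2D.m1S (h : S2D S z y) : (-1 : SL₂) ∈ (S : Subgroup SL₂) := by rw [← h.hz]; exact mul_mem h.zS h.zS

lemma S2D.mkk_S (h : S2D S z y) : Cfsg.Agent.H16.mk 2 (S : Subgroup SL₂) = 4 := by
  have hcomm : ∀ a ∈ (Subgroup.centralizer ({z} : Set SL₂)).subgroupOf (S : Subgroup SL₂), ∀ b ∈ (Subgroup.centralizer ({z} : Set SL₂)).subgroupOf (S : Subgroup SL₂), a * b = b * a := by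
    intro x hx y hy
    apply Subtype.ext
    exact cent_comm h.ns (Subgroup.mem_subgroupOf.1 hx) (Subgroup.mem_subgroupOf.1 hy)
  apply mk_two_dicyclic ((Subgroup.centralizer ({z} : Set SL₂)).subgroupOf (S : Subgroup SL₂)) hcomm h.card_two
  apply card_conjClasses_dicyclic _ hcomm h.card_two
  · intro x hx t ht
    apply Subtype.ext
    exact h.inv x.2 (fun h' => hx (Subgroup.mem_subgroupOf.2 h')) t (Subgroup.mem_subgroupOf.1 ht)
  · have hneg := neg_one_ne_one (F := F) h.two
    have e : {t : (S : Subgroup SL₂) // t ∈ (Subgroup.centralizer ({z} : Set SL₂)).subgroupOf (S : Subgroup SL₂) ∧ t * t = 1} ≃ ({1, -1} : Finset SL₂) :=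
      { toFun := fun t => ⟨t.1, by
          rw [Finset.mem_insert, Finset.mem_singleton]
          exact pm_one h.two (congrArg Subtype.val t.2.2)⟩
        invFun := fun s => ⟨⟨s.1, by
            have := s.2
            rw [Finset.mem_insert, Finset.mem_singleton] at this
            rcases this with h1 | h1
            · rw [h1]; exact one_mem _
            · rw [h1]; exact h.m1S⟩, by
            have := s.2
            rw [Finset.mem_insert, Finset.mem_singleton] at this
            constructor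
            · rw [Subgroup.mem_subgroupOf]
              rcases this with h1 | h1
              · show s.1 ∈ _
                rw [h1]; exact one_mem _
              · show s.1 ∈ _
                rw [h1, ← h.hz]; exact mul_mem h.zT h.zT
            · apply Subtype.ext
              show s.1 * s.1 = 1
              rcases this with h1 | h1
              · rw [h1, one_mul]
              · rw [h1]; simp⟩
        left_inv := fun t => rfl
        right_inv := fun s => rfl }
    rw [Nat.card_congr e, Nat.card_eq_fintype_card, Fintype.card_coe, Finset.card_pair hneg.symm]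

lemma S2D.card_eight (h : S2D S z y) (h8 : ¬ 8 ∣ Nat.card (Subgroup.centralizer ({z} : Set SL₂))) : Nat.card (S : Subgroup SL₂) = 8 := by
  have h1 : Nat.card ((Subgroup.centralizer ({z} : Set SL₂)).subgroupOf (S : Subgroup SL₂)) = 4 := by
    apply le_antisymm
    · have hinj : Function.Injective (fun t : ((Subgroup.centralizer ({z} : Set SL₂)).subgroupOf (S : Subgroup SL₂)) => ((⟨((t : (S : Subgroup SL₂)) : SL₂), by
          have := h.tor_cases h8 (t : (S : Subgroup SL₂)).2 (Subgroup.mem_subgroupOf.1 t.2)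
          simpa using this⟩ : ({1, -1, z, -z} : Finset SL₂)))) := by
        intro a b hab
        have := congrArg Subtype.val hab
        exact Subtype.ext (Subtype.ext this)
      have h3 := Nat.card_le_card_of_injective _ hinj
      rw [Nat.card_eq_fintype_card (α := ({1, -1, z, -z} : Finset SL₂)), Fintype.card_coe] at h3
      exact le_trans h3 Finset.card_le_four
    · apply Nat.le_of_dvd Nat.card_pos
      have h3 := orderOf_dvd_natCard (⟨⟨z, h.zS⟩, Subgroup.mem_subgroupOf.2 h.zT⟩ : ((Subgroup.centralizer ({z} : Set SL₂)).subgroupOf (S : Subgroup SL₂)))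
      rw [Subgroup.orderOf_mk, Subgroup.orderOf_mk, orderOf_four h.two h.hz] at h3
      exact h3
  rw [h.card_two, h1]

lemma S2D.comm_index (h : S2D S z y) (h8 : ¬ 8 ∣ Nat.card (Subgroup.centralizer ({z} : Set SL₂))) :
    (commutator (Subgroup.normalizer ((S : Subgroup SL₂) : Set SL₂))).index = 3 := by
  set N := Subgroup.normalizer ((S : Subgroup SL₂) : Set SL₂) with hN
  have hSN : (S : Subgroup SL₂) ≤ N := Subgroup.le_normalizer
  have hcardN := h.norm_card h8
  have hcS : Nat.card ((S : Subgroup SL₂).subgroupOf N) = Nat.card (S : Subgroup SL₂) := Nat.card_congr (Subgroup.subgroupOfEquivOfLe hSN).toEquiv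
  have hidx : ((S : Subgroup SL₂).subgroupOf N).index = 3 := by
    have h1 := Subgroup.index_mul_card ((S : Subgroup SL₂).subgroupOf N)
    rw [hcS, ← hN] at *
    rw [hcardN] at h1
    exact Nat.eq_of_mul_eq_mul_right Nat.card_pos h1
  haveI hnorm : ((S : Subgroup SL₂).subgroupOf N).Normal := Subgroup.normal_in_normalizer
  have hle : commutator N ≤ (S : Subgroup SL₂).subgroupOf N := by
    haveI : Fact (Nat.Prime 3) := ⟨Nat.prime_three⟩
    have hq : Nat.card (N ⧸ (S : Subgroup SL₂).subgroupOf N) = 3 := hidx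
    haveI := isCyclic_of_prime_card hq
    letI := IsCyclic.commGroup (α := N ⧸ (S : Subgroup SL₂).subgroupOf N)
    have := Abelianization.commutator_subset_ker (QuotientGroup.mk' ((S : Subgroup SL₂).subgroupOf N))
    rwa [QuotientGroup.ker_mk'] at this
  have hge : (S : Subgroup SL₂).subgroupOf N ≤ commutator N := by
    obtain ⟨w, hw1, hw2⟩ := h.exists_w
    have hwN : w ∈ N := h.w_norm h8 hw1 hw2
    have hyN : y ∈ N := hSN h.yS
    have hzN : z ∈ N := hSN h.zS
    have hzi : (z * y) * (z * y) = -1 := by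
      calc z * y * (z * y) = z * (y * z) * y := by group
        _ = -1 := by rw [h.yz, mul_neg, neg_mul, ← mul_assoc, h.hz, mul_assoc, h.sq h.yS h.yT]; simp
    have c1 : (⟨z, hzN⟩ : N) ∈ commutator N := by
      have : (⟨z, hzN⟩ : N) = ⁅(⟨w, hwN⟩ : N), (⟨y, hyN⟩ : N)⁆ := by
        apply Subtype.ext
        show z = w * y * w⁻¹ * y⁻¹
        rw [hw2]; group
      rw [this]
      exact Subgroup.commutator_mem_commutator (Subgroup.mem_top _) (Subgroup.mem_top _)
    have hzy : w * (z * y) * w⁻¹ = z := by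
      calc w * (z * y) * w⁻¹ = (w * z * w⁻¹) * (w * y * w⁻¹) := by group
        _ = y * (z * y) := by rw [hw1, hw2]
        _ = y * z * y := by group
        _ = z := by rw [h.yz, neg_mul, mul_assoc, h.sq h.yS h.yT]; simp
    have c2 : (⟨y, hyN⟩ : N) ∈ commutator N := by
      have : (⟨y, hyN⟩ : N) = ⁅(⟨w, hwN⟩ : N), (⟨z * y, mul_mem hzN hyN⟩ : N)⁆ := by
        apply Subtype.ext
        show y = w * (z * y) * w⁻¹ * (z * y)⁻¹
        rw [hzy, inv_eq_neg_of_sq hzi, mul_neg, ← mul_assoc, h.hz]; simp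
      rw [this]
      exact Subgroup.commutator_mem_commutator (Subgroup.mem_top _) (Subgroup.mem_top _)
    have c3 : (⟨-1, hSN h.m1S⟩ : N) ∈ commutator N := by
      have : (⟨-1, hSN h.m1S⟩ : N) = ⟨z, hzN⟩ * ⟨z, hzN⟩ := by
        apply Subtype.ext
        show -1 = z * z
        rw [h.hz]
      rw [this]; exact mul_mem c1 c1
    rintro ⟨x, hx⟩ hxS
    have hxS' : x ∈ (S : Subgroup SL₂) := Subgroup.mem_subgroupOf.1 hxS
    rcases h.mem_cases h8 hxS' with h3 | h3 | h3 | h3 | h3 | h3 | h3 | h3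
    · have : (⟨x, hx⟩ : N) = 1 := Subtype.ext h3
      rw [this]; exact one_mem _
    · have : (⟨x, hx⟩ : N) = ⟨-1, hSN h.m1S⟩ := Subtype.ext h3
      rw [this]; exact c3
    · have : (⟨x, hx⟩ : N) = ⟨z, hzN⟩ := Subtype.ext h3
      rw [this]; exact c1
    · have : (⟨x, hx⟩ : N) = ⟨-1, hSN h.m1S⟩ * ⟨z, hzN⟩ := Subtype.ext (by show x = -1 * z; rw [h3]; simp)
      rw [this]; exact mul_mem c3 c1
    · have : (⟨x, hx⟩ : N) = ⟨y, hyN⟩ := Subtype.ext h3
      rw [this]; exact c2
    · have : (⟨x, hx⟩ : N) = ⟨-1, hSN h.m1S⟩ * ⟨y, hyN⟩ := Subtype.ext (by show x = -1 * y; rw [h3]; simp)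
      rw [this]; exact mul_mem c3 c2
    · have : (⟨x, hx⟩ : N) = ⟨z, hzN⟩ * ⟨y, hyN⟩ := Subtype.ext h3
      rw [this]; exact mul_mem c1 c2
    · have : (⟨x, hx⟩ : N) = ⟨-1, hSN h.m1S⟩ * (⟨z, hzN⟩ * ⟨y, hyN⟩) := Subtype.ext (by show x = -1 * (z * y); rw [h3]; simp)
      rw [this]; exact mul_mem c3 (mul_mem c1 c2)
  rw [le_antisymm hle hge, hidx]

lemma S2D.mkk_N (h : S2D S z y) (h8 : ¬ 8 ∣ Nat.card (Subgroup.centralizer ({z} : Set SL₂))) :
    Cfsg.Agent.H16.mk 2 (Subgroup.normalizer ((S : Subgroup SL₂) : Set SL₂)) = 4 := by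
  classical
  set N := Subgroup.normalizer ((S : Subgroup SL₂) : Set SL₂) with hN
  haveI := Fintype.ofFinite (IrrCharacter N)
  have hcard : Nat.card N = 24 := by
    have h1 := h.norm_card h8
    have h3 := h.card_eight h8
    change Nat.card N = 3 * Nat.card (S : Subgroup SL₂) at h1
    rw [h1, h3]
  have hlin : ∑ ψ : IrrCharacter N, (if ndeg ψ = 1 then 1 else 0) = 3 := by
    have h1 := card_linear_irr (G := N)
    rw [h.comm_index h8, Nat.card_eq_fintype_card, Fintype.card_subtype, Finset.card_filter] at h1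
    rw [← h1]
    refine Finset.sum_congr rfl fun ψ _ => ?_
    rw [ndeg_eq]
    have : ((ndeg ψ : ℂ) = 1) ↔ ndeg ψ = 1 := by exact_mod_cast Iff.rfl
    simp only [this]
  have hsq := sum_ndeg_sq (G := N)
  rw [hcard] at hsq
  rw [mk_sum]
  have hA : 9 * ∑ ψ : IrrCharacter N, (if ¬ 2 ∣ ndeg ψ then 1 else 0) ≤ ∑ ψ : IrrCharacter N, ndeg ψ ^ 2 + 8 * ∑ ψ : IrrCharacter N, (if ndeg ψ = 1 then 1 else 0) := by
    rw [Finset.mul_sum, Finset.mul_sum, ← Finset.sum_add_distrib]
    refine Finset.sum_le_sum fun ψ _ => ?_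
    by_cases h1 : ndeg ψ = 1
    · rw [h1]; norm_num
    · rw [if_neg h1]
      by_cases h3 : 2 ∣ ndeg ψ
      · rw [if_neg (not_not.2 h3)]; omega
      · rw [if_pos h3]
        have h4 := ndeg_pos ψ
        have h5 : 3 ≤ ndeg ψ := by omega
        nlinarith
  have hB : ∃ M : ℕ, ∑ ψ : IrrCharacter N, ndeg ψ ^ 2 = 4 * M + ∑ ψ : IrrCharacter N, (if ¬ 2 ∣ ndeg ψ then 1 else 0) := by
    have : ∀ ψ : IrrCharacter N, ∃ m : ℕ, ndeg ψ ^ 2 = 4 * m + (if ¬ 2 ∣ ndeg ψ then 1 else 0) := by
      intro ψ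
      rcases Nat.even_or_odd (ndeg ψ) with ⟨k, hk⟩ | ⟨k, hk⟩
      · refine ⟨k * k, ?_⟩
        rw [if_neg (by rw [not_not, hk]; exact ⟨k, by ring⟩), hk]; ring
      · refine ⟨k * k + k, ?_⟩
        rw [if_pos (by rw [hk]; omega), hk]; ring
    choose m hm using this
    refine ⟨∑ ψ : IrrCharacter N, m ψ, ?_⟩
    rw [Finset.mul_sum, ← Finset.sum_add_distrib]
    exact Finset.sum_congr rfl fun ψ _ => hm ψ
  have hC : ∑ ψ : IrrCharacter N, (if ndeg ψ = 1 then 1 else 0) ≤ ∑ ψ : IrrCharacter N, (if ¬ 2 ∣ ndeg ψ then 1 else 0) := by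
    refine Finset.sum_le_sum fun ψ _ => ?_
    split_ifs with h1 h3 <;> omega
  obtain ⟨M, hM⟩ := hB
  rw [hlin] at hA hC
  rw [hsq] at hA hM
  omega

/-- McKay for ℓ = 2 -/
theorem mckay_two (hodd : Odd (Fintype.card F)) (S : Sylow 2 (Matrix.SpecialLinearGroup (Fin 2) F)) :
    mk 2 (Matrix.SpecialLinearGroup (Fin 2) F) = mk 2 (Subgroup.normalizer ((S : Subgroup SL₂) : Set SL₂)) := by
  have hG := mk_SL2 (F := F) hodd 2
  obtain ⟨z, y, h⟩ := exists_S2D hodd S
  have hN : mk 2 (Subgroup.normalizer ((S : Subgroup SL₂) : Set SL₂)) = 4 := by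
    by_cases h8 : 8 ∣ Nat.card (Subgroup.centralizer ({z} : Set SL₂))
    · rw [h.norm_eq h8]; exact h.mkk_S
    · exact h.mkk_N h8
  rw [hN]
  have hq : 1 < Fintype.card F := Fintype.one_lt_card
  obtain ⟨k, hkq⟩ := hodd
  have b1 : bb 2 1 = 1 := by unfold bb; rw [if_pos (by omega)]
  have b2 : bb 2 (Fintype.card F) = 1 := by unfold bb; rw [if_pos (by omega)]
  have b3 : bb 2 (Fintype.card F + 1) = 0 := by unfold bb; rw [if_neg (by omega)]
  have b4 : bb 2 (Fintype.card F - 1) = 0 := by unfold bb; rw [if_neg (by omega)]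
  have b5 : bb 2 ((Fintype.card F + 1) / 2) + bb 2 ((Fintype.card F - 1) / 2) = 1 := by
    unfold bb
    have e1 : (Fintype.card F + 1) / 2 = k + 1 := by omega
    have e2 : (Fintype.card F - 1) / 2 = k := by omega
    rw [e1, e2]
    split_ifs <;> omega
  rw [b1, b2, b3, b4] at hG
  omega

end

end Cfsg.Agent.H16
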