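import Mathlib
import Cfsg.Agent.H16.McKay2
import Cfsg.Agent.S2437

set_option autoImplicit false
set_option linter.all false

namespace Cfsg.Agent.H16

open Matrix Cfsg Cfsg.Agent.H3
open scoped ComplexConjugate

universe u

section

variable {F : Type u} [Field F] [Fintype F] [DecidableEq F]

local notation "SL₂" => Matrix.SpecialLinearGroup (Fin 2) F
local notation "M₂" => Matrix (Fin 2) (Fin 2) F

/-- the unipotent radical -/
noncomputable def UU (F : Type u) [Field F] [Fintype F] [DecidableEq F] : Subgroup (Matrix.SpecialLinearGroup (Fin 2) F) := (uhom F).range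

lemma mem_UU {g : SL₂} : g ∈ UU F ↔ ∃ x : F, us 1 x = g := by
  unfold UU
  rw [MonoidHom.mem_range]
  constructor
  · rintro ⟨x, hx⟩; exact ⟨Multiplicative.toAdd x, hx⟩
  · rintro ⟨x, hx⟩; exact ⟨Multiplicative.ofAdd x, hx⟩

lemma card_UU : Nat.card (UU F) = Fintype.card F := by
  have hinj : Function.Injective (uhom F) := by
    intro x y h
    have h1 : us 1 (Multiplicative.toAdd x) = us 1 (Multiplicative.toAdd y) := h
    have := congrArg (fun m : SL₂ => (m : M₂) 0 1) h1
    simp only [us_coe] at this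
    simpa using this
  unfold UU
  rw [← Nat.card_congr (MonoidHom.ofInjective hinj).toEquiv, Nat.card_eq_fintype_card]
  exact Fintype.card_congr (Equiv.refl _)

lemma norm_UU : Subgroup.normalizer ((UU F : Subgroup SL₂) : Set SL₂) = (Cfsg.upperTriangularGL 2 F).comap (tg F) := by
  have key : ∀ g : SL₂, (g : M₂) 1 0 = 0 → ∀ x ∈ UU F, g * x * g⁻¹ ∈ UU F := by
    intro g hg x hx
    obtain ⟨t, rfl⟩ := mem_UU.1 hx
    obtain ⟨a, _, _, ha⟩ := eq_us hg
    rw [ha]
    set s := (g : M₂) 0 1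
    rw [mem_UU]
    refine ⟨(a : F) * a * t, ?_⟩
    rw [eq_mul_inv_iff_mul_eq]
    apply sl_ext
    rw [Matrix.SpecialLinearGroup.coe_mul, Matrix.SpecialLinearGroup.coe_mul, us_coe, us_coe, us_coe]
    ext i j
    fin_cases i <;> fin_cases j <;> simp [Matrix.mul_apply, Fin.sum_univ_two]
    have := a.ne_zero
    field_simp
    ring
  ext g
  rw [mem_comap_upper_iff]
  constructor
  · intro hg
    have h1 := (Subgroup.mem_normalizer_iff.1 hg (us 1 1)).1 (mem_UU.2 ⟨1, rfl⟩)
    obtain ⟨x, hx⟩ := mem_UU.1 h1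
    rw [eq_mul_inv_iff_mul_eq] at hx
    have h2 := congrArg (fun m : SL₂ => (m : M₂) 1 1) hx
    simp only [Matrix.SpecialLinearGroup.coe_mul, us_coe] at h2
    simp [Matrix.mul_apply, Fin.sum_univ_two] at h2
    exact h2
  · intro hg
    rw [Subgroup.mem_normalizer_iff]
    intro x
    refine ⟨key g hg x, ?_⟩
    intro hx
    have hinv : ((g⁻¹ : SL₂) : M₂) 1 0 = 0 := by
      rw [sl_inv_coe]
      have hg' : (g : M₂) 1 0 = 0 := hg
      simp [hg']
    have := key g⁻¹ hinv _ hx
    have e : g⁻¹ * (g * x * g⁻¹) * g⁻¹⁻¹ = x := by group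
    rwa [e] at this

theorem mckay_p (hodd : Odd (Fintype.card F)) (ℓ : ℕ) [hℓ : Fact ℓ.Prime] (S : Sylow ℓ SL₂) (hd : ℓ ∣ Fintype.card F) :
    mk ℓ (Matrix.SpecialLinearGroup (Fin 2) F) = mk ℓ (Subgroup.normalizer ((S : Subgroup SL₂) : Set SL₂)) := by
  obtain ⟨p, hp, hn⟩ := FiniteField.card F (ringChar F)
  have hℓp : ℓ = ringChar F := by
    rw [hn] at hd
    exact (Nat.prime_dvd_prime_iff_eq hℓ.out hp).1 (hℓ.out.dvd_of_dvd_pow hd)
  have hq1 : 1 < Fintype.card F := Fintype.one_lt_card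
  have hno1 : ¬ ℓ ∣ 1 := fun h => hℓ.out.one_lt.ne' (Nat.dvd_one.1 h)
  have hd1 : ¬ ℓ ∣ Fintype.card F - 1 := by
    intro h
    have := Nat.dvd_sub hd h
    have e : Fintype.card F - (Fintype.card F - 1) = 1 := by omega
    rw [e] at this; exact hno1 this
  have hd2 : ¬ ℓ ∣ Fintype.card F + 1 := by
    intro h
    have := Nat.dvd_sub h hd
    have e : Fintype.card F + 1 - Fintype.card F = 1 := by omega
    rw [e] at this; exact hno1 this
  have hfac : (Nat.card SL₂).factorization ℓ = (p : ℕ) := by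
    rw [card_sl2]
    have e : Fintype.card F ^ 2 - 1 = (Fintype.card F + 1) * (Fintype.card F - 1) := by
      rw [← Nat.sq_sub_sq]
    rw [e, Nat.factorization_mul (by omega) (by
      apply Nat.mul_ne_zero <;> omega), Nat.factorization_mul (by omega) (by omega)]
    simp only [Finsupp.add_apply]
    rw [Nat.factorization_eq_zero_of_not_dvd hd1, Nat.factorization_eq_zero_of_not_dvd hd2, hn, ← hℓp, Nat.Prime.factorization_pow hℓ.out]
    simp
  let PU : Sylow ℓ SL₂ := Sylow.ofCard (UU F) (by rw [card_UU, hfac, hn, hℓp])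
  obtain ⟨g, hg⟩ := MulAction.exists_smul_eq SL₂ S PU
  have hgU : (S : Subgroup SL₂).map (MulAut.conj g).toMonoidHom = UU F := by
    have := congrArg (fun P : Sylow ℓ SL₂ => (P : Subgroup SL₂)) hg
    exact this
  have hNm := Subgroup.map_equiv_normalizer_eq (S : Subgroup SL₂) (MulAut.conj g)
  rw [hgU, norm_UU] at hNm
  have e1 : Subgroup.normalizer ((S : Subgroup SL₂) : Set SL₂) ≃* ((Subgroup.normalizer ((S : Subgroup SL₂) : Set SL₂)).map (MulAut.conj g).toMonoidHom) :=
    Subgroup.equivMapOfInjective _ _ (MulAut.conj g).injective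
  have e2 : mk ℓ (Subgroup.normalizer ((S : Subgroup SL₂) : Set SL₂)) = mk ℓ ((Cfsg.upperTriangularGL 2 F).comap (tg F)) := by
    rw [mk_congr e1 ℓ, hNm]
  rw [e2]
  set B := (Cfsg.upperTriangularGL 2 F).comap (tg F) with hB
  have hUB : UU F ≤ B := by rw [hB, ← norm_UU]; exact Subgroup.le_normalizer
  haveI hnor : ((UU F).subgroupOf B).Normal := by
    rw [hB, ← norm_UU]; exact Subgroup.normal_in_normalizer
  have hcB : Nat.card B = (Fintype.card F - 1) * Fintype.card F := by
    rw [hB, ← Nat.card_congr eqvBS, Nat.card_prod, Nat.card_eq_fintype_card, Nat.card_eq_fintype_card, Fintype.card_units]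
  have hcU : Nat.card ((UU F).subgroupOf B) = Fintype.card F := by
    rw [Nat.card_congr (Subgroup.subgroupOfEquivOfLe hUB).toEquiv, card_UU]
  have hidx : ((UU F).subgroupOf B).index = Fintype.card F - 1 := by
    have h1 := Subgroup.index_mul_card ((UU F).subgroupOf B)
    rw [hcU, hcB] at h1
    exact Nat.eq_of_mul_eq_mul_right (by omega) h1
  have hall : ∀ ψ : IrrCharacter B, ¬ ℓ ∣ ndeg ψ := by
    intro ψ h
    have h1 := ito_degree_dvd ψ.2 ((UU F).subgroupOf B) hnor (by
      intro a ha b hb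
      obtain ⟨x, hx⟩ := mem_UU.1 (Subgroup.mem_subgroupOf.1 ha)
      obtain ⟨y, hy⟩ := mem_UU.1 (Subgroup.mem_subgroupOf.1 hb)
      apply Subtype.ext
      show (a : SL₂) * (b : SL₂) = (b : SL₂) * (a : SL₂)
      rw [← hx, ← hy]
      apply sl_ext
      rw [Matrix.SpecialLinearGroup.coe_mul, Matrix.SpecialLinearGroup.coe_mul, us_coe, us_coe]
      ext i j
      fin_cases i <;> fin_cases j <;> simp [Matrix.mul_apply, Fin.sum_univ_two]
      ring) (ndeg_eq ψ)
    rw [hidx] at h1
    exact hd1 (h.trans h1)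
  rw [mk_all hall]
  have hk : Nat.card (ConjClasses B) = Fintype.card F + 3 := Cfsg.Agent.S2437.result hodd
  rw [hk]
  have hG := mk_SL2 (F := F) hodd ℓ
  have hq : 1 < Fintype.card F := Fintype.one_lt_card
  obtain ⟨k, hkq⟩ := hodd
  have n3 : ¬ ℓ ∣ (Fintype.card F + 1) / 2 := by
    intro h
    apply hd2
    have e : Fintype.card F + 1 = 2 * ((Fintype.card F + 1) / 2) := by omega
    rw [e]; exact h.mul_left _
  have n4 : ¬ ℓ ∣ (Fintype.card F - 1) / 2 := by
    intro h
    apply hd1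
    have e : Fintype.card F - 1 = 2 * ((Fintype.card F - 1) / 2) := by omega
    rw [e]; exact h.mul_left _
  have b1 : bb ℓ 1 = 1 := by unfold bb; rw [if_pos hno1]
  have b2 : bb ℓ (Fintype.card F) = 0 := by unfold bb; rw [if_neg (not_not.2 hd)]
  have b3 : bb ℓ ((Fintype.card F + 1) / 2) = 1 := by unfold bb; rw [if_pos n3]
  have b4 : bb ℓ (Fintype.card F + 1) = 1 := by unfold bb; rw [if_pos hd2]
  have b5 : bb ℓ (Fintype.card F - 1) = 1 := by unfold bb; rw [if_pos hd1]
  have b6 : bb ℓ ((Fintype.card F - 1) / 2) = 1 := by unfold bb; rw [if_pos n4]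
  rw [b1, b2, b3, b4, b5, b6] at hG
  omega

theorem mckay_SL2 (hodd : Odd (Fintype.card F)) (ℓ : ℕ) [hℓ : Fact ℓ.Prime] (S : Sylow ℓ SL₂) :
    mk ℓ (Matrix.SpecialLinearGroup (Fin 2) F) = mk ℓ (Subgroup.normalizer ((S : Subgroup SL₂) : Set SL₂)) := by
  by_cases h2 : ℓ = 2
  · subst h2
    exact mckay_two hodd S
  · by_cases hp : ℓ ∣ Fintype.card F
    · exact mckay_p hodd ℓ S hp
    · by_cases h : ℓ ∣ Fintype.card F - 1 ∨ ℓ ∣ Fintype.card F + 1
      · exact mckay_odd hodd ℓ h2 S h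
      · apply mckay_triv ℓ S
        push Not at h
        rw [card_sl2]
        have e : Fintype.card F ^ 2 - 1 = (Fintype.card F + 1) * (Fintype.card F - 1) := by
          rw [← Nat.sq_sub_sq]
        rw [e, hℓ.out.dvd_mul, hℓ.out.dvd_mul]
        tauto

end

end Cfsg.Agent.H16
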