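import Mathlib
import Cfsg.Agent.H16.SpecL3b
import Cfsg.Agent.H18.Zsig

set_option autoImplicit false
set_option linter.all false

/-! Elements of order `q^(n/2)+1` in `PSL_n(q)`. -/

namespace Cfsg.Agent.H16.SpecLn

open Polynomial Module PGr SpecL3

section arith

/-- geometric sum -/
def G (q n : ℕ) : ℕ := ∑ i ∈ Finset.range n, q ^ i

lemma G_mul {q : ℕ} (hq : 1 ≤ q) (n : ℕ) : G q n * (q - 1) = q ^ n - 1 := by
  obtain ⟨t, rfl⟩ := Nat.exists_eq_add_of_le hq
  rw [Nat.add_sub_cancel_left]
  have h : G (1 + t) n * t + 1 = (1 + t) ^ n := by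
    unfold G
    induction n with
    | zero => simp
    | succ n ih =>
      rw [Finset.sum_range_succ, pow_succ, ← ih, add_mul]
      ring
  omega

lemma G_modEq {q : ℕ} (hq : 1 ≤ q) (n : ℕ) : G q n ≡ n [MOD (q - 1)] := by
  unfold G
  induction n with
  | zero => rfl
  | succ n ih =>
    rw [Finset.sum_range_succ]
    apply Nat.ModEq.add ih
    have h1 : q ≡ 1 [MOD (q - 1)] := by
      have : (1 + (q - 1)) ≡ 1 [MOD (q - 1)] := Nat.add_modEq_right
      rwa [Nat.add_sub_cancel' hq] at this
    have := h1.pow n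
    rwa [one_pow] at this

end arith

section orbit
variable {F : Type*} [Field F] [Fintype F]

theorem frob_orbit {n N : ℕ} [NeZero N] {x : Matrix (Fin n) (Fin n) F} (h : (Fintype.card F).Coprime N) {z : AlgebraicClosure F} (hz : orderOf z = N) (hE : Ev x z)
    (hn : orderOf ((Fintype.card F : ℕ) : ZMod N) = n) :
    (cK x).roots = (Finset.range n).val.map (fun i => z ^ (Fintype.card F ^ i)) := by
  classical
  have hz0 : z ≠ 0 := by
    rintro rfl
    rw [orderOf_eq_zero_iff'.2] at hz
    · exact NeZero.ne N hz.symm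
    · intro n hn
      rw [zero_pow hn.ne']; exact zero_ne_one
  have hinj : Set.InjOn (fun i => z ^ (Fintype.card F ^ i)) (Finset.range n) := by
    intro i hi j hj hij
    have hi' : i < n := by simpa using hi
    have hj' : j < n := by simpa using hj
    obtain ⟨u, rfl⟩ : ∃ u : (AlgebraicClosure F)ˣ, (u : AlgebraicClosure F) = z := ⟨Units.mk0 z hz0, rfl⟩
    have h1 : u ^ (Fintype.card F ^ i) = u ^ (Fintype.card F ^ j) := Units.ext (by simpa using hij)
    rw [pow_inj_mod, ← orderOf_units, hz] at h1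
    have h2 : ((Fintype.card F ^ i : ℕ) : ZMod N) = ((Fintype.card F ^ j : ℕ) : ZMod N) := (ZMod.natCast_eq_natCast_iff _ _ _).2 h1
    have h3 : (qu F N h) ^ i = (qu F N h) ^ j := by
      apply Units.ext
      push_cast at h2
      simpa [qu] using h2
    have ho : orderOf (qu F N h) = n := by rw [orderOf_qu, hn]
    exact pow_injOn_Iio_orderOf (by rw [ho]; exact hi') (by rw [ho]; exact hj') h3
  have hEi : ∀ i, Ev x (z ^ (Fintype.card F ^ i)) := by
    intro i
    induction i with
    | zero => rw [pow_zero, pow_one]; exact hE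
    | succ i ih => rw [pow_succ, pow_mul]; exact ih.pow_card
  symm
  apply Multiset.eq_of_le_of_card_le
  · rw [Multiset.le_iff_subset ((Multiset.nodup_map_iff_inj_on (Finset.range n).nodup).2 (fun i hi j hj hij => hinj hi hj hij))]
    intro u hu
    rw [Multiset.mem_map] at hu
    obtain ⟨i, -, rfl⟩ := hu
    exact ev_iff.1 (hEi i)
  · rw [roots_card, Multiset.card_map, Finset.card_val, Finset.card_range]

/-- the arithmetic condition -/
lemma gcd_dvd_iff {m a : ℕ} (hm : 0 < m) (ha : 0 < a) : Nat.gcd (2 * m) a ∣ m ↔ padicValNat 2 a < padicValNat 2 (2 * m) := by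
  haveI : Fact (Nat.Prime 2) := ⟨Nat.prime_two⟩
  constructor
  · intro h
    by_contra hcon
    push Not at hcon
    have h1 : 2 ^ padicValNat 2 (2 * m) ∣ Nat.gcd (2 * m) a :=
      Nat.dvd_gcd pow_padicValNat_dvd ((pow_dvd_pow 2 hcon).trans pow_padicValNat_dvd)
    have h2 := (padicValNat_dvd_iff_le (p := 2) hm.ne').1 (h1.trans h)
    have h3 : padicValNat 2 (2 * m) = 1 + padicValNat 2 m := by
      rw [padicValNat.mul (by norm_num) hm.ne', padicValNat.self (by norm_num)]
    omega
  · intro h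
    obtain ⟨t, ht⟩ := Nat.gcd_dvd_left (2 * m) a
    rcases Nat.even_or_odd t with he | ho
    · obtain ⟨s, hs⟩ := he
      refine ⟨s, ?_⟩
      have : 2 * m = 2 * (Nat.gcd (2 * m) a * s) := by
        rw [ht, hs]
        have : (Nat.gcd (Nat.gcd (2 * m) a * (s + s)) a) = Nat.gcd (2 * m) a := by rw [← hs, ← ht]
        rw [this]; ring
      omega
    · exfalso
      have h1 : 2 ^ padicValNat 2 (2 * m) ∣ Nat.gcd (2 * m) a := by
        have h2 : 2 ^ padicValNat 2 (2 * m) ∣ Nat.gcd (2 * m) a * t := by rw [← ht]; exact pow_padicValNat_dvd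
        exact Nat.Coprime.dvd_of_dvd_mul_right (Nat.Coprime.pow_left _ (Nat.coprime_two_left.2 ho)) h2
      have h3 := (padicValNat_dvd_iff_le (p := 2) ha.ne').1 (h1.trans (Nat.gcd_dvd_right _ _))
      omega

theorem main {q : ℕ} (hF : Fintype.card F = q) (hodd : Odd q) {n : ℕ} (hn : 4 ≤ n) (heven : Even n) :
    (∃ g : Matrix.ProjectiveSpecialLinearGroup (Fin n) F, orderOf g = q ^ (n / 2) + 1) ↔
      padicValNat 2 (q - 1) < padicValNat 2 n := by
  classical
  obtain ⟨m, hm⟩ := heven
  have hn2 : n / 2 = m := by omega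
  rw [hn2]
  have hnm : n = 2 * m := by omega
  have hq1 : 1 < q := by rw [← hF]; exact Fintype.one_lt_card
  have hq3 : 3 ≤ q := by obtain ⟨t, ht⟩ := hodd; omega
  obtain ⟨p, hpc⟩ := CharP.exists F
  haveI := hpc
  obtain ⟨e, hp, he⟩ := FiniteField.card F p
  haveI : Fact p.Prime := ⟨hp⟩
  have hpq : p ∣ q := by rw [← hF, he]; exact dvd_pow_self p e.ne_zero
  set d := Nat.gcd n (q - 1) with hd
  have hd0 : 0 < d := Nat.gcd_pos_of_pos_left _ (by omega)
  have hdiff : d ∣ m ↔ padicValNat 2 (q - 1) < padicValNat 2 n := by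
    rw [hd, hnm]; exact gcd_dvd_iff (by omega) (by omega)
  rw [← hdiff]
  have hqn : q ^ n - 1 = (q ^ m + 1) * (q ^ m - 1) := by
    rw [hnm, mul_comm 2, pow_mul]
    have := Nat.sq_sub_sq (q ^ m) 1
    rwa [one_pow] at this
  have hGm : G q m * (q - 1) = q ^ m - 1 := G_mul hq1.le m
  have hGn : G q n * (q - 1) = q ^ n - 1 := G_mul hq1.le n
  have hGn' : G q n = (q ^ m + 1) * G q m := by
    have : G q n * (q - 1) = ((q ^ m + 1) * G q m) * (q - 1) := by rw [hGn, hqn, ← hGm]; ring
    exact Nat.eq_of_mul_eq_mul_right (by omega) this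
  have hdG : d ∣ G q m ↔ d ∣ m := by
    have h1 : G q m ≡ m [MOD d] := (G_modEq hq1.le m).of_dvd (Nat.gcd_dvd_right _ _)
    exact h1.dvd_iff dvd_rfl
  have hdGn : d ∣ G q n := by
    have h1 : G q n ≡ n [MOD d] := (G_modEq hq1.le n).of_dvd (Nat.gcd_dvd_right _ _)
    exact (h1.dvd_iff dvd_rfl).2 (Nat.gcd_dvd_left _ _)
  have hGpos : 0 < G q n := by
    have h1 : 0 < q ^ n - 1 := by
      have := Nat.one_lt_pow (n := n) (by omega) hq1
      omega
    rw [← hGn] at h1
    exact Nat.pos_of_mul_pos_right h1 |> fun h => by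
      rcases Nat.eq_zero_or_pos (G q n) with h0 | h0
      · rw [h0, zero_mul] at h1; omega
      · exact h0
  constructor
  · rintro ⟨g, hg⟩
    rw [← hdG]
    obtain ⟨x, rfl⟩ := QuotientGroup.mk_surjective g
    have hgdvd : ∀ j, x ^ j ∈ Subgroup.center (Matrix.SpecialLinearGroup (Fin n) F) → q ^ m + 1 ∣ j := by
      intro j hj
      rw [← hg]; exact mk_dvd hj
    obtain ⟨r, hr, hrn, hrk⟩ := H18.Zsig.zsigmondy (n := n) hq1 (by omega) (by rintro ⟨h, _⟩; omega)
    haveI : Fact r.Prime := ⟨hr⟩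
    haveI : NeZero r := ⟨hr.ne_zero⟩
    have hrm : r ∣ q ^ m + 1 := by
      rw [hqn] at hrn
      rcases hr.dvd_mul.1 hrn with h | h
      · exact h
      · exact absurd h (hrk m (by omega) (by omega))
    have hr1 : ¬ r ∣ q - 1 := by
      have := hrk 1 (by omega) (by omega)
      rwa [pow_one] at this
    obtain ⟨D, hD⟩ := hrm
    have hxc : x ^ (q ^ m + 1) ∈ Subgroup.center (Matrix.SpecialLinearGroup (Fin n) F) := by
      rw [← mk_pow_eq_one_iff, ← hg]; exact pow_orderOf_eq_one _
    have hx1 : x ^ ((q ^ m + 1) * (q - 1)) = 1 := by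
      have h1 := center_pow (by omega) hxc
      rwa [hF, ← pow_mul] at h1
    have hx1' : (x : Matrix (Fin n) (Fin n) F) ^ ((q ^ m + 1) * (q - 1)) = 1 := by
      rw [← Matrix.SpecialLinearGroup.coe_pow, hx1, Matrix.SpecialLinearGroup.coe_one]
    have hqF : (q : F) = 0 := by rw [← hF]; exact FiniteField.cast_card_eq_zero F
    have hcast : (((q ^ m + 1) * (q - 1) : ℕ) : F) ≠ 0 := by
      rw [Nat.cast_mul, Nat.cast_sub (by omega)]
      push_cast
      rw [hqF, zero_pow (by omega)]; simp
    have hDpos : 0 < D * (q - 1) := by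
      apply Nat.mul_pos _ (by omega)
      rw [Nat.pos_iff_ne_zero]; rintro rfl; omega
    obtain ⟨z, hz, hz1⟩ : ∃ z : AlgebraicClosure F, Ev (x : Matrix (Fin n) (Fin n) F) z ∧ z ^ (D * (q - 1)) ≠ 1 := by
      by_contra hcon
      push Not at hcon
      have h1 := pow_one_SL (pow_eq_one_of_ev hcast hx1' hcon hDpos.ne')
      have h2 := hgdvd (D * (q - 1)) (by rw [h1]; exact one_mem _)
      rw [hD, mul_comm r D] at h2
      have h3 : r ∣ q - 1 := Nat.dvd_of_mul_dvd_mul_left (by
        rw [Nat.pos_iff_ne_zero]; rintro rfl; omega) h2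
      exact hr1 h3
    obtain ⟨N, hN⟩ : ∃ N, N = orderOf z := ⟨_, rfl⟩
    have hNd : N ∣ r * (D * (q - 1)) := by
      rw [hN]
      apply orderOf_dvd_of_pow_eq_one
      rw [← mul_assoc, ← hD]
      exact hz.pow_one hx1'
    have hNpos : 0 < N := Nat.pos_of_dvd_of_pos hNd (Nat.mul_pos hr.pos hDpos)
    haveI : NeZero N := ⟨hNpos.ne'⟩
    have hrN : r ∣ N := by
      by_contra hcon
      have h1 : Nat.Coprime N r := ((Nat.Prime.coprime_iff_not_dvd hr).2 hcon).symm
      exact hz1 (orderOf_dvd_iff_pow_eq_one.1 (by rw [← hN]; exact h1.dvd_of_dvd_mul_left hNd))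
    have hcopN : (Fintype.card F).Coprime N := by
      rw [hF]
      have h1 : q.Coprime ((q ^ m + 1) * (q - 1)) := by
        apply Nat.Coprime.mul_right
        · rw [Nat.coprime_comm]
          obtain ⟨t, rfl⟩ : ∃ t, m = t + 1 := ⟨m - 1, by omega⟩
          rw [pow_succ, mul_comm]
          exact (Nat.coprime_mul_left_add_left _ _ _).2 (Nat.coprime_one_left _)
        · exact (Nat.coprime_self_sub_right hq1.le).2 (Nat.coprime_one_right _)
      rw [hD, mul_assoc] at h1
      exact h1.coprime_dvd_right hNd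
    have hordN : orderOf ((Fintype.card F : ℕ) : ZMod N) = n := by
      have h1 := sl1 hcopN hN.symm hz
      rw [Fintype.card_fin] at h1
      have h2 : orderOf ((Fintype.card F : ℕ) : ZMod r) ∣ orderOf ((Fintype.card F : ℕ) : ZMod N) := ord_dvd_ord hrN
      have h3 : n ≤ orderOf ((Fintype.card F : ℕ) : ZMod r) := by
        have hpos : 0 < orderOf ((Fintype.card F : ℕ) : ZMod r) := by
          rw [← orderOf_qu r (hcopN.coprime_dvd_right hrN)]; exact orderOf_pos _
        by_contra hlt
        push Not at hlt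
        exact hrk _ hpos hlt (by
          have := (SylB.dvd_iff (r := r) hq1 (orderOf ((Fintype.card F : ℕ) : ZMod r))).2 (by rw [hF])
          exact this)
      have h4 := Nat.le_of_dvd (by rw [← orderOf_qu N hcopN]; exact orderOf_pos _) h2
      omega
    have hroots := frob_orbit hcopN hN.symm hz hordN
    have hprod := prod_roots x
    rw [hroots, hF] at hprod
    have hzG : z ^ G q n = 1 := by
      rw [G, ← Finset.prod_pow_eq_pow_sum]
      exact hprod
    obtain ⟨D', hD'⟩ := hdGn
    have hD'pos : 0 < D' := by rw [Nat.pos_iff_ne_zero]; rintro rfl; omega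
    obtain ⟨f, hf⟩ : d ∣ q - 1 := Nat.gcd_dvd_right _ _
    have hzD : (z ^ D') ^ q = z ^ D' := by
      have h1 : D' * q = G q n * f + D' := by
        rw [hD']
        have : q = d * f + 1 := by omega
        nth_rewrite 1 [this]
        ring
      rw [← pow_mul, h1, pow_add, pow_mul, hzG, one_pow, one_mul]
    have hc := central_pow_of_ev (D := D') hcast hx1 hD'pos (w := z) (by rw [hF]; exact hzD) (fun u hu => by
      rw [ev_iff, hroots, Multiset.mem_map] at hu
      obtain ⟨i, -, rfl⟩ := hu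
      rw [hF]
      have : ∀ i : ℕ, (z ^ (q ^ i)) ^ D' = z ^ D' := by
        intro i
        induction i with
        | zero => rw [pow_zero, pow_one]
        | succ i ih => rw [pow_succ, ← pow_mul, mul_assoc, pow_mul, mul_comm q D', pow_mul, ih, hzD]
      exact this i)
    obtain ⟨s, hs⟩ := hgdvd D' hc
    rw [hs, hGn'] at hD'
    have : (q ^ m + 1) * G q m = (q ^ m + 1) * (d * s) := by rw [hD']; ring
    exact ⟨s, Nat.eq_of_mul_eq_mul_left (by positivity) this⟩
  · intro h
    rw [← hdG] at h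
    obtain ⟨s, hs⟩ := h
    obtain ⟨E, i1, i2, i3, hE, u, hu⟩ := exists_field_unit (F := F) (d := n) (N := q ^ n - 1) (by omega)
      (by rw [← hGn]; exact mul_ne_zero hGpos.ne' (by omega)) (by rw [hF])
    haveI : FiniteDimensional F E := Module.Finite.of_finite
    obtain ⟨φ, hφ⟩ := H17.exists_unitsHom_gl hE
    have h2 : orderOf (φ u ^ (q - 1)) = G q n := by
      rw [orderOf_pow_of_dvd (by omega) (by rw [orderOf_injective _ hφ, hu, ← hGn]; exact Dvd.intro_left _ rfl), orderOf_injective _ hφ, hu, ← hGn,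
        Nat.mul_div_cancel _ (by omega)]
    have h3 : (Matrix.GeneralLinearGroup.det (φ u ^ (q - 1))) = 1 := by
      rw [map_pow]
      have := pow_card_eq_one' (x := Matrix.GeneralLinearGroup.det (φ u))
      rwa [Nat.card_units, Nat.card_eq_fintype_card, hF] at this
    have h4 : φ u ^ (q - 1) ∈ (Matrix.SpecialLinearGroup.toGL : Matrix.SpecialLinearGroup (Fin n) F →* GL (Fin n) F).range := by
      rw [H5.range_toGL, MonoidHom.mem_ker]; exact h3
    obtain ⟨x, hx⟩ := h4
    have hxo : orderOf x = G q n := by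
      rw [← orderOf_injective _ (Matrix.SpecialLinearGroup.toGL_injective (n := Fin n) (R := F)) x, hx, h2]
    apply orders_of_sl (by omega) (by rw [hd, hF]) hGpos hxo hdGn
    refine ⟨s, ?_⟩
    rw [hGn', hs]
    rw [show (q ^ m + 1) * (d * s) = d * ((q ^ m + 1) * s) by ring, Nat.mul_div_cancel_left _ hd0]

end orbit

end Cfsg.Agent.H16.SpecLn
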