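import Mathlib
import Cfsg.Agent.H16.SpecLn
import Cfsg.Agent.H17.GUConj
import Cfsg.Agent.H5.UnitCenter

set_option autoImplicit false
set_option linter.all false

/-! Eigenvalues of unitary matrices. -/

namespace Cfsg.Agent.H16.PGrU

open Polynomial Module PGr SpecL3 H17

section basic
variable {F : Type*} [Field F] [Fintype F] {q n : ℕ}

lemma exists_phi (hF : Fintype.card F = q ^ 2) : ∃ φ : AlgebraicClosure F →+* AlgebraicClosure F, ∀ y, φ y = y ^ q := by
  obtain ⟨p, hpc⟩ := CharP.exists F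
  haveI := hpc
  obtain ⟨e, hp, he⟩ := FiniteField.card F p
  haveI : Fact p.Prime := ⟨hp⟩
  haveI : CharP (AlgebraicClosure F) p := charP_of_injective_algebraMap (algebraMap F (AlgebraicClosure F)).injective p
  have h1 : q ∣ p ^ (e : ℕ) := by rw [← he, hF]; exact dvd_pow_self q (by norm_num)
  obtain ⟨a, _, ha⟩ := (Nat.dvd_prime_pow hp).1 h1
  exact ⟨iterateFrobenius (AlgebraicClosure F) p a, fun y => by rw [iterateFrobenius_def, ha]⟩

lemma ev_unitary (hF : Fintype.card F = q ^ 2) {σ : F →+* F} (hσ : ∀ x, σ x = x ^ q) {x : Matrix (Fin n) (Fin n) F} (hx : sT n σ x * x = 1)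
    {z : AlgebraicClosure F} (h : Ev x z) : Ev x ((z ^ q)⁻¹) := by
  obtain ⟨φ, hφ⟩ := exists_phi hF
  set y := sT n σ x with hy
  have hcomp : (algebraMap F (AlgebraicClosure F)).comp σ = φ.comp (algebraMap F (AlgebraicClosure F)) := by
    ext a
    simp [hσ, hφ]
  have hcp : y.charpoly = x.charpoly.map σ := by
    rw [hy, sT, Matrix.charpoly_transpose, Matrix.charpoly_map]
  have h1 : Ev y (z ^ q) := by
    unfold Ev at h ⊢
    rw [aeval_def] at h ⊢
    rw [hcp, eval₂_map, hcomp, ← hφ, ← hom_eval₂, h, map_zero]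
  have hxy : x * y = 1 := mul_eq_one_comm.1 hx
  let u : (Matrix (Fin n) (Fin n) (AlgebraicClosure F))ˣ := ⟨x.map (algebraMap F (AlgebraicClosure F)), y.map (algebraMap F (AlgebraicClosure F)), by
      rw [← Matrix.map_mul, hxy, Matrix.map_one _ (map_zero _) (map_one _)], by
      rw [← Matrix.map_mul, hx, Matrix.map_one _ (map_zero _) (map_one _)]⟩
  have h2 : z ^ q ∈ spectrum (AlgebraicClosure F) ((u⁻¹ : (Matrix (Fin n) (Fin n) (AlgebraicClosure F))ˣ) : Matrix (Fin n) (Fin n) (AlgebraicClosure F)) := h1.spec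
  rw [← spectrum.inv₀_mem_iff] at h2
  have h3 : (z ^ q)⁻¹ ∈ spectrum (AlgebraicClosure F) (x.map (algebraMap F (AlgebraicClosure F))) := h2
  rw [Matrix.mem_spectrum_iff_isRoot_charpoly, Matrix.charpoly_map, IsRoot, eval_map_algebraMap] at h3
  exact h3

/-- minus `q` as a unit -/
noncomputable def nq (q N : ℕ) (h : q.Coprime N) : (ZMod N)ˣ := -ZMod.unitOfCoprime q h

lemma coe_nq (N : ℕ) (h : q.Coprime N) : ((nq q N h : (ZMod N)ˣ) : ZMod N) = -(q : ZMod N) := by
  unfold nq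
  rw [Units.val_neg, ZMod.coe_unitOfCoprime]

theorem inj_orbit {N : ℕ} [NeZero N] (h : q.Coprime N) {z : AlgebraicClosure F} (hz : orderOf z = N) {n : ℕ} (hn : n ≤ orderOf (nq q N h)) :
    Set.InjOn (fun i : ℕ => z ^ ((-(q : ℤ)) ^ i)) (Finset.range n) := by
  have hz0 : z ≠ 0 := by
    rintro rfl
    rw [orderOf_eq_zero_iff'.2] at hz
    · exact NeZero.ne N hz.symm
    · intro n hn
      rw [zero_pow hn.ne']; exact zero_ne_one
  intro i hi j hj hij
  have hi' : i < n := by simpa using hi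
  have hj' : j < n := by simpa using hj
  obtain ⟨u, rfl⟩ : ∃ u : (AlgebraicClosure F)ˣ, (u : AlgebraicClosure F) = z := ⟨Units.mk0 z hz0, rfl⟩
  have h1 : u ^ ((-(q : ℤ)) ^ i) = u ^ ((-(q : ℤ)) ^ j) := Units.ext (by simpa using hij)
  rw [zpow_eq_zpow_iff_modEq, ← orderOf_units, hz, ← ZMod.intCast_eq_intCast_iff] at h1
  have h3 : (nq q N h) ^ i = (nq q N h) ^ j := by
    apply Units.ext
    push_cast at h1
    rw [Units.val_pow_eq_pow_val, Units.val_pow_eq_pow_val, coe_nq]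
    exact h1
  exact pow_injOn_Iio_orderOf (lt_of_lt_of_le hi' hn) (lt_of_lt_of_le hj' hn) h3

lemma ev_orbU (hF : Fintype.card F = q ^ 2) {σ : F →+* F} (hσ : ∀ x, σ x = x ^ q) {x : Matrix (Fin n) (Fin n) F} (hx : sT n σ x * x = 1)
    {z : AlgebraicClosure F} (h : Ev x z) (i : ℕ) : Ev x (z ^ ((-(q : ℤ)) ^ i)) := by
  induction i with
  | zero => rw [pow_zero, zpow_one]; exact h
  | succ i ih =>
    have := ev_unitary hF hσ hx ih
    rw [pow_succ, zpow_mul, zpow_neg, zpow_natCast]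
    exact this

theorem ord_nq_le (hF : Fintype.card F = q ^ 2) {σ : F →+* F} (hσ : ∀ x, σ x = x ^ q) {x : Matrix (Fin n) (Fin n) F} (hx : sT n σ x * x = 1)
    {N : ℕ} [NeZero N] (h : q.Coprime N) {z : AlgebraicClosure F} (hz : orderOf z = N) (hE : Ev x z) : orderOf (nq q N h) ≤ n := by
  classical
  have h1 := Ev.card_le (x := x) (S := (Finset.range (orderOf (nq q N h))).image (fun i : ℕ => z ^ ((-(q : ℤ)) ^ i))) (fun w hw => by
    rw [Finset.mem_image] at hw
    obtain ⟨i, _, rfl⟩ := hw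
    exact ev_orbU hF hσ hx hE i)
  rw [Finset.card_image_of_injOn (inj_orbit h hz le_rfl), Finset.card_range, Fintype.card_fin] at h1
  exact h1

theorem unitary_orbit (hF : Fintype.card F = q ^ 2) {σ : F →+* F} (hσ : ∀ x, σ x = x ^ q) {x : Matrix (Fin n) (Fin n) F} (hx : sT n σ x * x = 1)
    {N : ℕ} [NeZero N] (h : q.Coprime N) {z : AlgebraicClosure F} (hz : orderOf z = N) (hE : Ev x z) (hn : n ≤ orderOf (nq q N h)) :
    (cK x).roots = (Finset.range n).val.map (fun i : ℕ => z ^ ((-(q : ℤ)) ^ i)) := by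
  symm
  apply Multiset.eq_of_le_of_card_le
  · rw [Multiset.le_iff_subset ((Multiset.nodup_map_iff_inj_on (Finset.range n).nodup).2 (fun i hi j hj hij => inj_orbit h hz hn hi hj hij))]
    intro u hu
    rw [Multiset.mem_map] at hu
    obtain ⟨i, -, rfl⟩ := hu
    exact ev_iff.1 (ev_orbU hF hσ hx hE i)
  · rw [roots_card, Multiset.card_map, Finset.card_val, Finset.card_range]

end basic

section su
variable {F : Type*} [Field F] [Fintype F] {q n : ℕ}

/-- the matrix of an element of `SU_n` -/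
def mt (x : ↥(Cfsg.SU n F q)) : Matrix (Fin n) (Fin n) F := ((x : Matrix.SpecialLinearGroup (Fin n) F) : Matrix (Fin n) (Fin n) F)

lemma mt_pow (x : ↥(Cfsg.SU n F q)) (j : ℕ) : mt (x ^ j) = mt x ^ j := by
  unfold mt
  rw [Subgroup.coe_pow, Matrix.SpecialLinearGroup.coe_pow]

lemma mt_one : mt (1 : ↥(Cfsg.SU n F q)) = 1 := rfl

lemma mt_inj {x y : ↥(Cfsg.SU n F q)} (h : mt x = mt y) : x = y := Subtype.ext (Subtype.ext h)

lemma mt_unitary {σ : F →+* F} (hσ : ∀ x, σ x = x ^ q) (hσ2 : ∀ x, σ (σ x) = x) (x : ↥(Cfsg.SU n F q)) : sT n σ (mt x) * mt x = 1 :=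
  (mem_GU_sT hσ hσ2 (Matrix.SpecialLinearGroup.toGL (x : Matrix.SpecialLinearGroup (Fin n) F))).1 x.2

lemma central_of_scalar (x : ↥(Cfsg.SU n F q)) {c : F} (h : mt x = Matrix.scalar (Fin n) c) : x ∈ Subgroup.center ↥(Cfsg.SU n F q) := by
  rw [Subgroup.mem_center_iff]
  intro y
  apply mt_inj
  show mt y * mt x = mt x * mt y
  rw [h]
  exact ((Matrix.scalar_commute c (fun r => Commute.all _ _) (mt y)).eq).symm

lemma center_pow (hF : Fintype.card F = q ^ 2) (hn : 2 ≤ n) {z : ↥(Cfsg.SU n F q)} (hz : z ∈ Subgroup.center ↥(Cfsg.SU n F q)) : z ^ (Nat.gcd n (q + 1)) = 1 := by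
  rw [← H5.card_center_SU hF hn]
  have := pow_card_eq_one' (x := (⟨z, hz⟩ : Subgroup.center ↥(Cfsg.SU n F q)))
  exact congrArg Subtype.val this

/-- existence of large cyclic tori -/
theorem exists_torus (hF : Fintype.card F = q ^ 2) {m : ℕ} (hm : 0 < m) :
    ∃ g : ↥(Cfsg.GU (m + m) F q), orderOf g = q ^ (2 * m) - 1 := by
  obtain ⟨σ, hσ, hσ2, hσ1⟩ := H5.exists_frob hF
  have hq := H5.q_pos hF
  obtain ⟨E, i1, i2, i3, hE, u, hu⟩ := exists_field_unit (F := F) (d := m) (N := q ^ (2 * m) - 1) hm.ne'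
      (by have := Nat.one_lt_pow (n := 2 * m) (by omega) (show 1 < q by omega); omega) (by rw [hF, pow_mul])
  haveI : FiniteDimensional F E := Module.Finite.of_finite
  obtain ⟨ψ, hψ⟩ := H17.exists_unitsHom_gl hE
  have hAI := sT_AI (n := m) hσ2
  have hs1 : sT m σ (1 : Matrix (Fin m) (Fin m) F) = 1 := by
    unfold sT
    rw [Matrix.map_one _ (map_zero _) (map_one _), Matrix.transpose_one]
  have hinv : ∀ B : GL (Fin m) F, sT m σ ((B⁻¹ : GL (Fin m) F) : Matrix (Fin m) (Fin m) F) * sT m σ (B : Matrix (Fin m) (Fin m) F) = 1 := by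
    intro B
    rw [← hAI.mul, ← Units.val_mul, mul_inv_cancel, Units.val_one, hs1]
  have hinv' : ∀ B : GL (Fin m) F, sT m σ (B : Matrix (Fin m) (Fin m) F) * sT m σ ((B⁻¹ : GL (Fin m) F) : Matrix (Fin m) (Fin m) F) = 1 := by
    intro B
    rw [← hAI.mul, ← Units.val_mul, inv_mul_cancel, Units.val_one, hs1]
  let h : GL (Fin m) F →* (Matrix (Fin m ⊕ Fin m) (Fin m ⊕ Fin m) F)ˣ :=
    { toFun := fun B => ⟨Matrix.fromBlocks (B : Matrix (Fin m) (Fin m) F) 0 0 (sT m σ ((B⁻¹ : GL (Fin m) F) : Matrix (Fin m) (Fin m) F)),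
        Matrix.fromBlocks ((B⁻¹ : GL (Fin m) F) : Matrix (Fin m) (Fin m) F) 0 0 (sT m σ (B : Matrix (Fin m) (Fin m) F)),
        by rw [Matrix.fromBlocks_multiply, hinv, ← Units.val_mul, mul_inv_cancel, Units.val_one]; simp,
        by rw [Matrix.fromBlocks_multiply, hinv', ← Units.val_mul, inv_mul_cancel, Units.val_one]; simp⟩
      map_one' := by
        apply Units.ext
        show Matrix.fromBlocks ((1 : GL (Fin m) F) : Matrix (Fin m) (Fin m) F) 0 0 (sT m σ (((1 : GL (Fin m) F)⁻¹ : GL (Fin m) F) : Matrix (Fin m) (Fin m) F)) = 1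
        rw [inv_one, Units.val_one, hs1, Matrix.fromBlocks_one]
      map_mul' := fun A B => by
        apply Units.ext
        show Matrix.fromBlocks ((A * B : GL (Fin m) F) : Matrix (Fin m) (Fin m) F) 0 0 (sT m σ (((A * B)⁻¹ : GL (Fin m) F) : Matrix (Fin m) (Fin m) F)) =
          Matrix.fromBlocks (A : Matrix (Fin m) (Fin m) F) 0 0 (sT m σ ((A⁻¹ : GL (Fin m) F) : Matrix (Fin m) (Fin m) F)) *
          Matrix.fromBlocks (B : Matrix (Fin m) (Fin m) F) 0 0 (sT m σ ((B⁻¹ : GL (Fin m) F) : Matrix (Fin m) (Fin m) F))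
        rw [Matrix.fromBlocks_multiply, mul_inv_rev, Units.val_mul, Units.val_mul, hAI.mul]
        simp }
  have hh : Function.Injective h := by
    intro A B hAB
    have h1 : Matrix.fromBlocks (A : Matrix (Fin m) (Fin m) F) 0 0 (sT m σ ((A⁻¹ : GL (Fin m) F) : Matrix (Fin m) (Fin m) F)) =
      Matrix.fromBlocks (B : Matrix (Fin m) (Fin m) F) 0 0 (sT m σ ((B⁻¹ : GL (Fin m) F) : Matrix (Fin m) (Fin m) F)) := congrArg Units.val hAB
    rw [Matrix.fromBlocks_inj] at h1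
    exact Units.ext h1.1
  let e : Fin m ⊕ Fin m ≃ Fin (m + m) := finSumFinEquiv
  let R := Matrix.reindexAlgEquiv F F e
  let A : GL (Fin (m + m)) F := Units.map (R : Matrix (Fin m ⊕ Fin m) (Fin m ⊕ Fin m) F →* Matrix (Fin (m + m)) (Fin (m + m)) F) (h (ψ u))
  have hAo : orderOf A = q ^ (2 * m) - 1 := by
    have h1 : Function.Injective (Units.map (R : Matrix (Fin m ⊕ Fin m) (Fin m ⊕ Fin m) F →* Matrix (Fin (m + m)) (Fin (m + m)) F)) := Units.map_injective R.injective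
    rw [show A = Units.map (R : Matrix (Fin m ⊕ Fin m) (Fin m ⊕ Fin m) F →* Matrix (Fin (m + m)) (Fin (m + m)) F) (h (ψ u)) from rfl, orderOf_injective _ h1, orderOf_injective _ hh, orderOf_injective _ hψ, hu]
  obtain ⟨B, hB⟩ := (gu_similar hF A).2 (by
    set B := ψ u with hBdef
    have hAm : (A : Matrix (Fin (m + m)) (Fin (m + m)) F) = R (Matrix.fromBlocks (B : Matrix (Fin m) (Fin m) F) 0 0 (sT m σ ((B⁻¹ : GL (Fin m) F) : Matrix (Fin m) (Fin m) F))) := rfl
    have hinvA : (((A : Matrix (Fin (m + m)) (Fin (m + m)) F).map (fun x : F => x ^ q)).transpose)⁻¹ =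
        R (Matrix.fromBlocks (sT m σ ((B⁻¹ : GL (Fin m) F) : Matrix (Fin m) (Fin m) F)) 0 0 (B : Matrix (Fin m) (Fin m) F)) := by
      apply Matrix.inv_eq_left_inv
      have h1 : ((A : Matrix (Fin (m + m)) (Fin (m + m)) F).map (fun x : F => x ^ q)).transpose =
          R (Matrix.fromBlocks (sT m σ (B : Matrix (Fin m) (Fin m) F)) 0 0 ((B⁻¹ : GL (Fin m) F) : Matrix (Fin m) (Fin m) F)) := by
        rw [hAm]
        have h2 : Matrix.fromBlocks (sT m σ (B : Matrix (Fin m) (Fin m) F)) 0 0 ((B⁻¹ : GL (Fin m) F) : Matrix (Fin m) (Fin m) F) =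
          ((Matrix.fromBlocks (B : Matrix (Fin m) (Fin m) F) 0 0 (sT m σ ((B⁻¹ : GL (Fin m) F) : Matrix (Fin m) (Fin m) F))).map σ).transpose := by
          rw [Matrix.fromBlocks_map, Matrix.fromBlocks_transpose]
          congr 1
          · ext i j; simp
          · ext i j; simp
          · ext i j
            simp [sT, hσ2]
        rw [h2]
        ext i j
        simp [R, Matrix.reindexAlgEquiv_apply, hσ]
      rw [h1, ← map_mul, Matrix.fromBlocks_multiply, hinv, ← Units.val_mul, mul_inv_cancel, Units.val_one]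
      simp
    rw [hinvA, hAm]
    have hcj : IsConj (Matrix.fromBlocks (B : Matrix (Fin m) (Fin m) F) 0 0 (sT m σ ((B⁻¹ : GL (Fin m) F) : Matrix (Fin m) (Fin m) F)))
        (Matrix.fromBlocks (sT m σ ((B⁻¹ : GL (Fin m) F) : Matrix (Fin m) (Fin m) F)) 0 0 (B : Matrix (Fin m) (Fin m) F)) := by
      refine ⟨⟨Matrix.fromBlocks 0 1 1 0, Matrix.fromBlocks 0 1 1 0, by rw [Matrix.fromBlocks_multiply]; simp, by rw [Matrix.fromBlocks_multiply]; simp⟩, ?_⟩
      show Matrix.fromBlocks 0 1 1 0 * _ = _ * Matrix.fromBlocks 0 1 1 0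
      rw [Matrix.fromBlocks_multiply, Matrix.fromBlocks_multiply]
      simp
    exact (R : Matrix (Fin m ⊕ Fin m) (Fin m ⊕ Fin m) F →* Matrix (Fin (m + m)) (Fin (m + m)) F).map_isConj hcj)
  refine ⟨B, ?_⟩
  rw [← Subgroup.orderOf_coe, ← hAo]
  obtain ⟨c, hc⟩ := isConj_iff.1 hB
  rw [← hc]
  exact (MulAut.conj c).orderOf_eq A

end su

end Cfsg.Agent.H16.PGrU
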