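import Mathlib
import Cfsg.Agent.H16.PGrU

set_option autoImplicit false
set_option linter.all false

/-! Elements of order `q^(n/2) ± 1` in `PSU_n(q)`. -/

namespace Cfsg.Agent.H16.PGrU

open Polynomial Module PGr SpecL3 H17 SpecLn

/-- the alternating sum -/
def AS (q : ℕ) (m : ℕ) : ℤ := ∑ i ∈ Finset.range m, (-(q : ℤ)) ^ i

lemma AS_mul (q m : ℕ) : ((q : ℤ) + 1) * AS q m = 1 - (-(q : ℤ)) ^ m := by
  unfold AS
  induction m with
  | zero => simp
  | succ m ih => rw [Finset.sum_range_succ, mul_add, ih, pow_succ]; ring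

lemma AS_mod (q m : ℕ) : ((q : ℤ) + 1) ∣ AS q m - m := by
  unfold AS
  induction m with
  | zero => simp
  | succ m ih =>
    rw [Finset.sum_range_succ]
    have h1 : ((q : ℤ) + 1) ∣ (-(q : ℤ)) ^ m - 1 := by
      have := sub_dvd_pow_sub_pow (-(q : ℤ)) 1 m
      rw [one_pow] at this
      have h2 : (-(q : ℤ)) - 1 = -((q : ℤ) + 1) := by ring
      rw [h2, neg_dvd] at this
      exact this
    have : (∑ x ∈ Finset.range m, (-(q : ℤ)) ^ x + (-(q : ℤ)) ^ m - ((m + 1 : ℕ) : ℤ)) = (∑ x ∈ Finset.range m, (-(q : ℤ)) ^ x - m) + ((-(q : ℤ)) ^ m - 1) := by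
      push_cast; ring
    rw [this]
    exact dvd_add ih h1

section su
variable {F : Type*} [Field F] [Fintype F] {q n : ℕ}

lemma mk_pow_iff {x : ↥(Cfsg.SU n F q)} {j : ℕ} : (QuotientGroup.mk x : Cfsg.PSU n F q) ^ j = 1 ↔ x ^ j ∈ Subgroup.center ↥(Cfsg.SU n F q) := by
  rw [← QuotientGroup.mk_pow]; exact QuotientGroup.eq_one_iff _

theorem main (hF : Fintype.card F = q ^ 2) (hodd : Odd q) (hn : 4 ≤ n) (heven : Even n) :
    (∃ g : Cfsg.PSU n F q, orderOf g = if Even (n / 2) then q ^ (n / 2) + 1 else q ^ (n / 2) - 1) ↔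
      padicValNat 2 (q + 1) < padicValNat 2 n := by
  classical
  obtain ⟨m, hm⟩ := heven
  have hn2 : n / 2 = m := by omega
  rw [hn2]
  have hnm : n = 2 * m := by omega
  have hm2 : 2 ≤ m := by omega
  obtain ⟨σ, hσ, hσ2, hσ1⟩ := H5.exists_frob hF
  have hq2 : 2 ≤ q := H5.q_pos hF
  have hq3 : 3 ≤ q := by obtain ⟨t, ht⟩ := hodd; omega
  obtain ⟨e, he⟩ : ∃ e, e = if Even m then q ^ m + 1 else q ^ m - 1 := ⟨_, rfl⟩
  obtain ⟨e', he'⟩ : ∃ e', e' = if Even m then q ^ m - 1 else q ^ m + 1 := ⟨_, rfl⟩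
  rw [← he]
  have hqm : 1 < q ^ m := Nat.one_lt_pow (by omega) (by omega)
  have hqm3 : 3 ≤ q ^ m := by
    calc 3 ≤ q := hq3
      _ ≤ q ^ m := Nat.le_self_pow (by omega) q
  have hee' : e * e' = q ^ n - 1 := by
    rw [he, he', hnm, mul_comm 2 m, pow_mul]
    have := Nat.sq_sub_sq (q ^ m) 1
    rw [one_pow] at this
    split_ifs
    · exact this.symm
    · rw [mul_comm]; exact this.symm
  have hepos : 0 < e := by rw [he]; split_ifs <;> omega
  set d := Nat.gcd n (q + 1) with hd
  have hd0 : 0 < d := Nat.gcd_pos_of_pos_left _ (by omega)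
  have hdiff : d ∣ m ↔ padicValNat 2 (q + 1) < padicValNat 2 n := by
    rw [hd, hnm]; exact gcd_dvd_iff (by omega) (by omega)
  rw [← hdiff]
  -- s = e' / (q+1)
  have hASm : ((q : ℤ) + 1) * AS q m = if Even m then -(e' : ℤ) else (e' : ℤ) := by
    rw [AS_mul, he']
    split_ifs with h
    · rw [h.neg_pow, Nat.cast_sub hqm.le]; push_cast; ring
    · rw [Nat.not_even_iff_odd] at h
      rw [h.neg_pow]; push_cast; ring
  obtain ⟨s, hs⟩ : (q + 1) ∣ e' := by
    rw [← Int.natCast_dvd_natCast]
    push_cast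
    split_ifs at hASm with h
    · exact ⟨-AS q m, by rw [mul_neg, hASm, neg_neg]⟩
    · exact ⟨AS q m, hASm.symm⟩
  have hsAS : AS q m = if Even m then -(s : ℤ) else (s : ℤ) := by
    have h1 : ((q : ℤ) + 1) ≠ 0 := by positivity
    apply mul_left_cancel₀ h1
    rw [hASm, hs]
    split_ifs <;> push_cast <;> ring
  have hds : d ∣ s ↔ d ∣ m := by
    have h1 : (d : ℤ) ∣ AS q m - m := by
      have : (d : ℤ) ∣ ((q + 1 : ℕ) : ℤ) := Int.natCast_dvd_natCast.2 (Nat.gcd_dvd_right _ _)
      push_cast at this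
      exact this.trans (AS_mod q m)
    rw [← Int.natCast_dvd_natCast, ← Int.natCast_dvd_natCast]
    have h2 : (d : ℤ) ∣ (s : ℤ) ↔ (d : ℤ) ∣ AS q m := by
      rw [hsAS]; split_ifs
      · rw [dvd_neg]
      · rfl
    rw [h2]
    constructor
    · intro h
      have := dvd_sub h h1
      rwa [sub_sub_cancel] at this
    · intro h
      have := dvd_add h1 h
      rwa [sub_add_cancel] at this
  have hspos : 0 < s := by
    rw [Nat.pos_iff_ne_zero]; rintro rfl
    rw [mul_zero] at hs
    rw [he'] at hs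
    split_ifs at hs <;> omega
  rw [← hds]
  have hS : (e * s) * (q + 1) = q ^ n - 1 := by rw [← hee', hs]; ring
  have hdS : d ∣ e * s := by
    by_cases h : d ∣ s
    · exact h.mul_left _
    · -- use AS q n = ± e*s
      have h1 : (d : ℤ) ∣ AS q n - n := by
        have : (d : ℤ) ∣ ((q + 1 : ℕ) : ℤ) := Int.natCast_dvd_natCast.2 (Nat.gcd_dvd_right _ _)
        push_cast at this
        exact this.trans (AS_mod q n)
      have h2 : (d : ℤ) ∣ (n : ℤ) := Int.natCast_dvd_natCast.2 (Nat.gcd_dvd_left _ _)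
      have h3 : (d : ℤ) ∣ AS q n := by
        have := dvd_add h1 h2
        rwa [sub_add_cancel] at this
      have h4 : AS q n = -((e * s : ℕ) : ℤ) := by
        have h1 : ((q : ℤ) + 1) ≠ 0 := by positivity
        apply mul_left_cancel₀ h1
        rw [AS_mul, (show Even n from ⟨m, hm⟩).neg_pow]
        have h5 : (((e * s) * (q + 1) : ℕ) : ℤ) = (q : ℤ) ^ n - 1 := by
          rw [hS, Nat.cast_sub (Nat.one_le_pow _ _ (by omega))]; push_cast; ring
        push_cast at h5 ⊢
        linarith
      rw [h4, dvd_neg] at h3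
      exact Int.natCast_dvd_natCast.1 h3
  constructor
  · rintro ⟨g, hg⟩
    obtain ⟨x, rfl⟩ := QuotientGroup.mk_surjective g
    have hgdvd : ∀ j, x ^ j ∈ Subgroup.center ↥(Cfsg.SU n F q) → e ∣ j := by
      intro j hj
      rw [← hg]; exact orderOf_dvd_of_pow_eq_one (mk_pow_iff.2 hj)
    -- primitive prime
    obtain ⟨r, hr, hre, hrord⟩ : ∃ r : ℕ, r.Prime ∧ r ∣ e ∧ ∀ j : ℕ, (-(q : ZMod r)) ^ j = 1 → n ∣ j := by
      by_cases hme : Even m
      · obtain ⟨r, hr, hrn, hrk⟩ := H18.Zsig.zsigmondy (n := n) (show 1 < q by omega) (by omega) (by rintro ⟨h, _⟩; omega)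
        haveI : Fact r.Prime := ⟨hr⟩
        have hre : r ∣ e := by
          rw [← hee'] at hrn
          rcases hr.dvd_mul.1 hrn with h | h
          · exact h
          · exfalso
            rw [he', if_pos hme] at h
            exact hrk m (by omega) (by omega) h
        have hrq : ¬ r ∣ q := by
          intro h
          have h1 : r ∣ q ^ n := dvd_pow h (by omega)
          have h2 := Nat.dvd_sub h1 hrn
          rw [Nat.sub_sub_self (Nat.one_le_pow _ _ (by omega))] at h2
          exact hr.one_lt.ne' (Nat.dvd_one.1 h2)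
        have hord : orderOf ((q : ℕ) : ZMod r) = n := by
          apply Nat.le_antisymm
          · exact Nat.le_of_dvd (by omega) ((SylB.dvd_iff (show 1 < q by omega) n).1 hrn)
          · by_contra hlt
            push Not at hlt
            exact hrk _ (SylB.ord_pos hrq) hlt ((SylB.dvd_iff (show 1 < q by omega) _).2 dvd_rfl)
        refine ⟨r, hr, hre, ?_⟩
        intro j hj
        have h1 : ((q : ℕ) : ZMod r) ^ (2 * j) = 1 := by
          have : ((-(q : ZMod r)) ^ j) ^ 2 = 1 := by rw [hj, one_pow]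
          rw [← pow_mul, mul_comm, pow_mul, neg_sq, ← pow_mul] at this
          exact this
        have h2 : 2 * m ∣ 2 * j := by rw [← hnm, ← hord]; exact orderOf_dvd_of_pow_eq_one h1
        obtain ⟨t, ht⟩ := Nat.dvd_of_mul_dvd_mul_left (by norm_num) h2
        have h3 : ((q : ℕ) : ZMod r) ^ j = 1 := by
          have : Even j := by rw [ht]; exact hme.mul_right t
          rw [this.neg_pow] at hj
          exact hj
        rw [← hord]; exact orderOf_dvd_of_pow_eq_one h3
      · rw [Nat.not_even_iff_odd] at hme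
        obtain ⟨r, hr, hrn, hrk⟩ := H18.Zsig.zsigmondy (n := m) (show 1 < q by omega) (by obtain ⟨t, ht⟩ := hme; omega) (by rintro ⟨h, _⟩; omega)
        haveI : Fact r.Prime := ⟨hr⟩
        have hre : r ∣ e := by rw [he, if_neg (Nat.not_even_iff_odd.2 hme)]; exact hrn
        have hrq : ¬ r ∣ q := by
          intro h
          have h1 : r ∣ q ^ m := dvd_pow h (by omega)
          have h2 := Nat.dvd_sub h1 hrn
          rw [Nat.sub_sub_self (Nat.one_le_pow _ _ (by omega))] at h2
          exact hr.one_lt.ne' (Nat.dvd_one.1 h2)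
        have hord : orderOf ((q : ℕ) : ZMod r) = m := by
          apply Nat.le_antisymm
          · exact Nat.le_of_dvd (by omega) ((SylB.dvd_iff (show 1 < q by omega) m).1 hrn)
          · by_contra hlt
            push Not at hlt
            exact hrk _ (SylB.ord_pos hrq) hlt ((SylB.dvd_iff (show 1 < q by omega) _).2 dvd_rfl)
        refine ⟨r, hr, hre, ?_⟩
        intro j hj
        have h1 : ((q : ℕ) : ZMod r) ^ (2 * j) = 1 := by
          have : ((-(q : ZMod r)) ^ j) ^ 2 = 1 := by rw [hj, one_pow]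
          rw [← pow_mul, mul_comm, pow_mul, neg_sq, ← pow_mul] at this
          exact this
        have h2 : m ∣ 2 * j := by rw [← hord]; exact orderOf_dvd_of_pow_eq_one h1
        have h3 : m ∣ j := Nat.Coprime.dvd_of_dvd_mul_left (Nat.coprime_two_right.2 hme) h2
        have h4 : ((q : ℕ) : ZMod r) ^ j = 1 := orderOf_dvd_iff_pow_eq_one.1 (by rw [hord]; exact h3)
        have h5 : Even j := by
          by_contra hj2
          rw [Nat.not_even_iff_odd] at hj2
          rw [hj2.neg_pow, h4] at hj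
          have hr2 : r ≠ 2 := by
            rintro rfl
            have h6 := hrk 1 (by norm_num) (by omega)
            rw [pow_one] at h6
            apply h6
            obtain ⟨t, ht⟩ := hodd
            exact ⟨t, by omega⟩
          haveI : Fact (2 < r) := ⟨by have := hr.two_le; omega⟩
          exact ZMod.neg_one_ne_one hj
        rw [hnm]
        exact Nat.Coprime.mul_dvd_of_dvd_of_dvd (Nat.coprime_two_left.2 hme) h5.two_dvd h3
    haveI : Fact r.Prime := ⟨hr⟩
    haveI : NeZero r := ⟨hr.ne_zero⟩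
    have hr1 : ¬ r ∣ q + 1 := by
      intro h
      have h1 : (-(q : ZMod r)) ^ 1 = 1 := by
        have h2 : ((q + 1 : ℕ) : ZMod r) = 0 := (ZMod.natCast_eq_zero_iff _ _).2 h
        push_cast at h2
        rw [pow_one]
        linear_combination -h2
      have := Nat.le_of_dvd (by norm_num) (hrord 1 h1)
      omega
    obtain ⟨D, hD⟩ := hre
    have hxc : x ^ e ∈ Subgroup.center ↥(Cfsg.SU n F q) := by
      rw [← mk_pow_iff, ← hg]; exact pow_orderOf_eq_one _
    have hx1 : x ^ (e * (q + 1)) = 1 := by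
      have h1 := center_pow hF (by omega) hxc
      rw [← pow_mul] at h1
      obtain ⟨c, hc⟩ : Nat.gcd n (q + 1) ∣ q + 1 := Nat.gcd_dvd_right _ _
      nth_rewrite 1 [hc]
      rw [← mul_assoc, pow_mul, h1, one_pow]
    have hx1' : mt x ^ (e * (q + 1)) = 1 := by rw [← mt_pow, hx1, mt_one]
    have hqF : (q : F) = 0 := by
      have := FiniteField.cast_card_eq_zero F
      rw [hF] at this
      push_cast at this
      exact pow_eq_zero_iff (by norm_num) |>.1 this
    have hcast : ((e * (q + 1) : ℕ) : F) ≠ 0 := by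
      rw [he, Nat.cast_mul]
      split_ifs
      · push_cast
        rw [hqF, zero_pow (by omega)]; simp
      · rw [Nat.cast_sub hqm.le]
        push_cast
        rw [hqF, zero_pow (by omega)]; simp
    have hDpos : 0 < D * (q + 1) := by
      apply Nat.mul_pos _ (by omega)
      rw [Nat.pos_iff_ne_zero]; rintro rfl; omega
    obtain ⟨z, hz, hz1⟩ : ∃ z : AlgebraicClosure F, Ev (mt x) z ∧ z ^ (D * (q + 1)) ≠ 1 := by
      by_contra hcon
      push Not at hcon
      have h1 := pow_eq_one_of_ev hcast hx1' hcon hDpos.ne'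
      rw [← mt_pow, ← mt_one] at h1
      have h1' := mt_inj h1
      have h2 := hgdvd (D * (q + 1)) (by rw [h1']; exact one_mem _)
      rw [hD, mul_comm r D] at h2
      have h3 : r ∣ q + 1 := Nat.dvd_of_mul_dvd_mul_left (by
        rw [Nat.pos_iff_ne_zero]; rintro rfl; omega) h2
      exact hr1 h3
    obtain ⟨N, hN⟩ : ∃ N, N = orderOf z := ⟨_, rfl⟩
    have hNd : N ∣ r * (D * (q + 1)) := by
      rw [hN]
      apply orderOf_dvd_of_pow_eq_one
      rw [← mul_assoc, ← hD]
      exact hz.pow_one hx1'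
    have hNpos : 0 < N := Nat.pos_of_dvd_of_pos hNd (Nat.mul_pos hr.pos hDpos)
    haveI : NeZero N := ⟨hNpos.ne'⟩
    have hrN : r ∣ N := by
      by_contra hcon
      have h1 : Nat.Coprime N r := ((Nat.Prime.coprime_iff_not_dvd hr).2 hcon).symm
      exact hz1 (orderOf_dvd_iff_pow_eq_one.1 (by rw [← hN]; exact h1.dvd_of_dvd_mul_left hNd))
    have hcopN : q.Coprime N := by
      have h1 : q.Coprime (q ^ n - 1) := by
        obtain ⟨t, rfl⟩ : ∃ t, n = t + 1 := ⟨n - 1, by omega⟩
        have h2 : 1 ≤ q ^ (t + 1) := Nat.one_le_pow _ _ (by omega)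
        have h3 : (q ^ (t + 1)).Coprime (q ^ (t + 1) - 1) := (Nat.coprime_self_sub_right h2).2 (Nat.coprime_one_right _)
        exact Nat.Coprime.coprime_dvd_left (dvd_pow_self q (by omega)) h3
      have h4 : q.Coprime (q + 1) := by simp
      have h5 : q.Coprime (e * (q + 1)) := by
        apply Nat.Coprime.mul_right _ h4
        exact h1.coprime_dvd_right (by rw [← hee']; exact Dvd.intro _ rfl)
      rw [hD, mul_assoc] at h5
      exact h5.coprime_dvd_right hNd
    have hnord : n ≤ orderOf (nq q N hcopN) := by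
      apply Nat.le_of_dvd (orderOf_pos _)
      apply hrord
      have h1 := pow_orderOf_eq_one (nq q N hcopN)
      have h2 := congrArg Units.val h1
      rw [Units.val_pow_eq_pow_val, coe_nq, Units.val_one] at h2
      have h3 := congrArg (ZMod.castHom hrN (ZMod r)) h2
      rw [map_pow, map_neg, map_natCast, map_one] at h3
      exact h3
    have hroots := unitary_orbit hF hσ (mt_unitary hσ hσ2 x) hcopN hN.symm hz hnord
    have hz0 : z ≠ 0 := ne_zero_of_root (x := (x : Matrix.SpecialLinearGroup (Fin n) F)) hz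
    have hprod := prod_roots (x : Matrix.SpecialLinearGroup (Fin n) F)
    change (cK (mt x)).roots.prod = 1 at hprod
    rw [hroots] at hprod
    have hprodz : ∀ k : ℕ, ((Finset.range k).val.map (fun i : ℕ => z ^ ((-(q : ℤ)) ^ i))).prod = z ^ AS q k := by
      intro k
      show ∏ i ∈ Finset.range k, z ^ ((-(q : ℤ)) ^ i) = _
      unfold AS
      induction k with
      | zero => simp
      | succ k ih => rw [Finset.prod_range_succ, Finset.sum_range_succ, ih, zpow_add₀ hz0]
    rw [hprodz] at hprod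
    have hASn : AS q n = -((e * s : ℕ) : ℤ) := by
      have h1 : ((q : ℤ) + 1) ≠ 0 := by positivity
      apply mul_left_cancel₀ h1
      rw [AS_mul, (show Even n from ⟨m, hm⟩).neg_pow]
      have h5 : (((e * s) * (q + 1) : ℕ) : ℤ) = (q : ℤ) ^ n - 1 := by
        rw [hS, Nat.cast_sub (Nat.one_le_pow _ _ (by omega))]; push_cast; ring
      push_cast at h5 ⊢
      linarith
    have hzS : z ^ (e * s) = 1 := by
      rw [hASn, zpow_neg, inv_eq_one, zpow_natCast] at hprod
      exact hprod
    obtain ⟨D', hD'⟩ := hdS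
    have hD'pos : 0 < D' := by
      rw [Nat.pos_iff_ne_zero]; rintro rfl
      rw [mul_zero] at hD'
      have := Nat.mul_pos hepos hspos
      omega
    obtain ⟨f, hf⟩ : d ∣ q + 1 := Nat.gcd_dvd_right _ _
    have hzD1 : z ^ (D' * (q + 1)) = 1 := by
      have h1 : D' * (q + 1) = (e * s) * f := by rw [hD', hf]; ring
      rw [h1, pow_mul, hzS, one_pow]
    have hzDq : ((z ^ D') ^ q)⁻¹ = z ^ D' := by
      rw [inv_eq_iff_eq_inv]
      apply eq_inv_of_mul_eq_one_left
      rw [← pow_succ, ← pow_mul, hzD1]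
    have hzD : (z ^ D') ^ Fintype.card F = z ^ D' := by
      rw [hF, pow_two, pow_mul]
      have h1 : (z ^ D') ^ q = (z ^ D')⁻¹ := by rw [← hzDq, inv_inv, hzDq]
      rw [h1, inv_pow, hzDq]
    have hall : ∀ u : AlgebraicClosure F, Ev (mt x) u → u ^ D' = z ^ D' := by
      intro u hu
      rw [ev_iff, hroots, Multiset.mem_map] at hu
      obtain ⟨i, -, rfl⟩ := hu
      have : ∀ i : ℕ, (z ^ ((-(q : ℤ)) ^ i)) ^ D' = z ^ D' := by
        intro i
        induction i with
        | zero => rw [pow_zero, zpow_one]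
        | succ i ih =>
          have h2 : z ^ ((-(q : ℤ)) ^ (i + 1)) = ((z ^ ((-(q : ℤ)) ^ i)) ^ q)⁻¹ := by
            rw [pow_succ, zpow_mul, zpow_neg, zpow_natCast]
          rw [h2, inv_pow, ← pow_mul, mul_comm q D', pow_mul, ih, hzDq]
      exact this i
    obtain ⟨c, hc⟩ := exists_of_frob hzD
    have h1 := aeval_of_ev (x := mt x) hcast hx1' (g := X ^ D' - C c) (X_pow_sub_C_ne_zero hD'pos c) (fun u hu => by simp [hall u hu, hc])
    have h2 : aeval (mt x) (X ^ D' - C c : F[X]) = mt x ^ D' - Matrix.scalar (Fin n) c := by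
      rw [map_sub, map_pow, aeval_X, aeval_C]; rfl
    rw [h2, sub_eq_zero, ← mt_pow] at h1
    obtain ⟨s', hs'⟩ := hgdvd D' (central_of_scalar _ h1)
    rw [hs'] at hD'
    have : e * s = e * (d * s') := by rw [hD']; ring
    exact ⟨s', Nat.eq_of_mul_eq_mul_left hepos this⟩
  · rintro ⟨t, ht⟩
    subst hm
    obtain ⟨g, hg⟩ := exists_torus hF (m := m) (by omega)
    have hqn1 : 0 < q ^ (m + m) - 1 := by
      have := Nat.one_lt_pow (n := m + m) (by omega) (show 1 < q by omega)
      omega
    have h2m : 2 * m = m + m := by ring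
    rw [h2m] at hg
    have h1 : orderOf (g ^ (q + 1)) = e * s := by
      rw [orderOf_pow_of_dvd (by omega) (by rw [hg, ← hS]; exact Dvd.intro_left _ rfl), hg, ← hS, Nat.mul_div_cancel _ (by omega)]
    have h2 : Matrix.GeneralLinearGroup.det ((g ^ (q + 1) : ↥(Cfsg.GU (m + m) F q)) : GL (Fin (m + m)) F) = 1 := by
      have h3 : H5.detGU (m + m) F q g ∈ (H5.detGU (m + m) F q).range := ⟨g, rfl⟩
      rw [H5.detGU_range hσ (by omega)] at h3
      have h4 : (H5.detGU (m + m) F q g) ^ (q + 1) = 1 := by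
        apply Units.ext
        rw [Units.val_pow_eq_pow_val, pow_succ, ← hσ, Units.val_one]
        exact h3
      rw [← map_pow] at h4
      exact h4
    have h4 : ((g ^ (q + 1) : ↥(Cfsg.GU (m + m) F q)) : GL (Fin (m + m)) F) ∈ (Matrix.SpecialLinearGroup.toGL : Matrix.SpecialLinearGroup (Fin (m + m)) F →* GL (Fin (m + m)) F).range := by
      rw [H5.range_toGL, MonoidHom.mem_ker]; exact h2
    obtain ⟨y, hy⟩ := h4
    have hyU : y ∈ Cfsg.SU (m + m) F q := by
      have h5 : Matrix.SpecialLinearGroup.toGL y ∈ Cfsg.GU (m + m) F q := by rw [hy]; exact (g ^ (q + 1)).2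
      exact h5
    have hyo : orderOf (⟨y, hyU⟩ : ↥(Cfsg.SU (m + m) F q)) = e * s := by
      rw [← Subgroup.orderOf_coe]
      show orderOf y = e * s
      rw [← orderOf_injective _ (Matrix.SpecialLinearGroup.toGL_injective (n := Fin (m + m)) (R := F)) y, hy, Subgroup.orderOf_coe, h1]
    apply orders_div (g := (QuotientGroup.mk (⟨y, hyU⟩ : ↥(Cfsg.SU (m + m) F q)) : Cfsg.PSU (m + m) F q)) (N := e * t)
    · have h2 : (QuotientGroup.mk (⟨y, hyU⟩ : ↥(Cfsg.SU (m + m) F q)) : Cfsg.PSU (m + m) F q) ^ (orderOf (QuotientGroup.mk (⟨y, hyU⟩ : ↥(Cfsg.SU (m + m) F q)) : Cfsg.PSU (m + m) F q)) = 1 := pow_orderOf_eq_one _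
      rw [mk_pow_iff] at h2
      have h3 := center_pow hF (by omega) h2
      rw [← hd, ← pow_mul] at h3
      have h4 := orderOf_dvd_of_pow_eq_one h3
      rw [hyo, ht] at h4
      have h5 : (e * t) * d ∣ orderOf (QuotientGroup.mk (⟨y, hyU⟩ : ↥(Cfsg.SU (m + m) F q)) : Cfsg.PSU (m + m) F q) * d := by
        have : e * (d * t) = e * t * d := by ring
        rwa [this] at h4
      exact Nat.dvd_of_mul_dvd_mul_right hd0 h5
    · exact Dvd.intro _ rfl

end su

end Cfsg.Agent.H16.PGrU
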