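import Mathlib
import Cfsg.Agent.H16.SL2Cent
import Cfsg.Agent.H5.Small

set_option autoImplicit false
set_option linter.all false

namespace Cfsg.Agent.H16.Pcl

open Matrix

variable {F : Type*} [Field F]

abbrev M2 (F : Type*) [Field F] := Matrix (Fin 2) (Fin 2) F
abbrev S2 (F : Type*) [Field F] := Matrix.SpecialLinearGroup (Fin 2) F
abbrev P2 (F : Type*) [Field F] := Matrix.ProjectiveSpecialLinearGroup (Fin 2) F

def pm : S2 F →* P2 F := QuotientGroup.mk' _

lemma pm_surj : Function.Surjective (pm (F := F)) := QuotientGroup.mk'_surjective _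

lemma pm_eq_one (z : S2 F) : pm z = 1 ↔ z ∈ Subgroup.center (S2 F) := QuotientGroup.eq_one_iff z

lemma mem_center (z : S2 F) : z ∈ Subgroup.center (S2 F) ↔ (z : M2 F) = 1 ∨ (z : M2 F) = -1 := by
  rw [Matrix.SpecialLinearGroup.mem_center_iff]
  constructor
  · rintro ⟨r, hr, h⟩
    have hr2 : r ^ 2 = 1 := by simpa using hr
    have hr3 : (r - 1) * (r + 1) = 0 := by linear_combination hr2
    rcases (mul_eq_zero.1 hr3).imp sub_eq_zero.1 eq_neg_of_add_eq_zero_left with h1 | h1
    · left; rw [← h, h1]; simp
    · right; rw [← h, h1]; ext i j; fin_cases i <;> fin_cases j <;> simp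
  · rintro (h | h)
    · exact ⟨1, by simp, by rw [h]; simp⟩
    · exact ⟨-1, by simp, by rw [h]; ext i j; fin_cases i <;> fin_cases j <;> simp⟩

/-- preimage in SL₂ of the centralizer of the image of `g` -/
def D (g : S2 F) : Subgroup (S2 F) := (Subgroup.centralizer ({pm g} : Set (P2 F))).comap pm

lemma index_D (g : S2 F) : (D g).index = (Subgroup.centralizer ({pm g} : Set (P2 F))).index :=
  Subgroup.index_comap_of_surjective _ pm_surj

lemma mem_D (g h : S2 F) : h ∈ D g ↔ (h : M2 F) * g = g * h ∨ (h : M2 F) * g = -(g * h) := by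
  unfold D
  rw [Subgroup.mem_comap, Subgroup.mem_centralizer_singleton_iff]
  have h1 : pm g * pm h = pm h * pm g ↔ pm ((g * h)⁻¹ * (h * g)) = 1 := by
    rw [map_mul, map_inv, map_mul, map_mul, inv_mul_eq_one]
  have h2 : pm h * pm g = pm g * pm h ↔ pm ((g * h)⁻¹ * (h * g)) = 1 := by rw [← h1, eq_comm]
  first | rw [h1] | rw [h2]
  rw [pm_eq_one, mem_center]
  have key : ∀ z : S2 F, z = (g * h)⁻¹ * (h * g) → (h : M2 F) * g = (g * h : M2 F) * z := by
    intro z hz
    have : g * h * z = h * g := by rw [hz, mul_inv_cancel_left]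
    have h3 := congrArg (fun x : S2 F => (x : M2 F)) this
    simpa using h3.symm
  constructor
  · rintro (h3 | h3)
    · left
      have := key _ rfl
      rw [h3, mul_one] at this
      exact this
    · right
      have := key _ rfl
      rw [h3, mul_neg, mul_one] at this
      exact this
  · have hinv : ∀ x : M2 F, (g * h : M2 F) * x = (g * h : M2 F) * 1 → x = 1 := by
      intro x hx
      have h5 : (((g * h)⁻¹ : S2 F) : M2 F) * (g * h : M2 F) = 1 := by
        rw [← Matrix.SpecialLinearGroup.coe_mul, ← Matrix.SpecialLinearGroup.coe_mul, inv_mul_cancel, Matrix.SpecialLinearGroup.coe_one]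
      have h6 : (((g * h)⁻¹ : S2 F) : M2 F) * ((g * h : M2 F) * x) = (((g * h)⁻¹ : S2 F) : M2 F) * ((g * h : M2 F) * 1) := by rw [hx]
      rw [mul_one, ← mul_assoc (((g * h)⁻¹ : S2 F) : M2 F) (g * h : M2 F) x, h5, one_mul] at h6
      exact h6
    rintro (h3 | h3)
    · left
      have := key _ rfl
      rw [h3] at this
      exact hinv _ (by rw [mul_one]; exact this.symm)
    · right
      have := key _ rfl
      rw [h3] at this
      have h7 := hinv (-(((g * h)⁻¹ * (h * g) : S2 F) : M2 F)) (by rw [mul_one, mul_neg, ← this, neg_neg])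
      rw [← h7, neg_neg]

lemma D_eq_char_two [CharP F 2] (g : S2 F) : D g = Subgroup.centralizer {g} := by
  ext h
  rw [mem_D, Subgroup.mem_centralizer_singleton_iff]
  have : ∀ x : M2 F, -x = x := fun x => by
    ext i j; rw [Matrix.neg_apply]; exact CharTwo.neg_eq _
  rw [this, or_self]
  constructor
  · intro h1; apply sl_ext; rw [Matrix.SpecialLinearGroup.coe_mul, Matrix.SpecialLinearGroup.coe_mul]; first | exact h1 | exact h1.symm
  · intro h1
    have h2 := congrArg (fun x : S2 F => (x : M2 F)) h1
    simp only [Matrix.SpecialLinearGroup.coe_mul] at h2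
    first | exact h2 | exact h2.symm

lemma D_eq_of_trace (h2 : (2 : F) ≠ 0) (g : S2 F) (ht : (g : M2 F).trace ≠ 0) : D g = Subgroup.centralizer {g} := by
  ext h
  rw [mem_D, Subgroup.mem_centralizer_singleton_iff]
  constructor
  · rintro (h1 | h1)
    · apply sl_ext; rw [Matrix.SpecialLinearGroup.coe_mul, Matrix.SpecialLinearGroup.coe_mul]; first | exact h1 | exact h1.symm
    · exfalso
      have h5 : ((h⁻¹ : S2 F) : M2 F) * (h : M2 F) = 1 := by
        rw [← Matrix.SpecialLinearGroup.coe_mul, inv_mul_cancel, Matrix.SpecialLinearGroup.coe_one]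
      have h6 : ((h⁻¹ : S2 F) : M2 F) * ((h : M2 F) * g) = ((h⁻¹ : S2 F) : M2 F) * (-(g * h)) := by rw [h1]
      rw [← mul_assoc, h5, one_mul] at h6
      have h7 := congrArg Matrix.trace h6
      rw [mul_neg, trace_neg, ← mul_assoc, trace_mul_comm, ← mul_assoc] at h7
      have h8 : (h : M2 F) * ((h⁻¹ : S2 F) : M2 F) = 1 := by
        rw [← Matrix.SpecialLinearGroup.coe_mul, mul_inv_cancel, Matrix.SpecialLinearGroup.coe_one]
      rw [h8, one_mul] at h7
      apply ht
      have : (2 : F) * (g : M2 F).trace = 0 := by linear_combination h7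
      exact (mul_eq_zero.1 this).resolve_left h2
  · intro h1
    left
    have h2 := congrArg (fun x : S2 F => (x : M2 F)) h1
    simp only [Matrix.SpecialLinearGroup.coe_mul] at h2
    first | exact h2 | exact h2.symm

lemma neg_det (A : M2 F) : (-A).det = A.det := by rw [det_fin_two, det_fin_two]; simp

lemma exists_anti [Fintype F] (h2 : (2 : F) ≠ 0) (g : S2 F) (ht : (g : M2 F).trace = 0) :
    ∃ h : S2 F, (h : M2 F) * g = -(g * h) := by
  have hg : ¬ IsScal (g : M2 F) := by
    intro hs
    rw [trace_fin_two, ← hs.2.2] at ht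
    have h3 : (g : M2 F) 0 0 = 0 := by
      have : (2 : F) * (g : M2 F) 0 0 = 0 := by linear_combination ht
      exact (mul_eq_zero.1 this).resolve_left h2
    have h4 := g.2
    rw [det_fin_two, ← hs.2.2, hs.1, h3] at h4
    simp at h4
  let g' : S2 F := ⟨-(g : M2 F), by rw [neg_det]; exact g.2⟩
  have hg' : ¬ IsScal (g' : M2 F) := by
    rintro ⟨a, b, c⟩
    apply hg
    simp only [g', Matrix.neg_apply, neg_eq_zero, neg_inj] at a b c
    exact ⟨a, b, c⟩
  have hc : IsConj g g' := by
    apply sl2_isConj_of_universal (t := 0) (fun c _ => nf_pos_universal 0 (by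
      intro h; apply h2
      have : (2 : F) ^ 2 = 0 := by linear_combination -h
      exact pow_eq_zero_iff two_ne_zero |>.1 this) c) hg hg' ht
    show (-(g : M2 F)).trace = 0
    rw [trace_neg, ht, neg_zero]
  obtain ⟨h, hh⟩ := isConj_iff.1 hc
  refine ⟨h, ?_⟩
  have h1 : h * g = g' * h := by rw [← hh, inv_mul_cancel_right]
  have h3 := congrArg (fun x : S2 F => (x : M2 F)) h1
  simp only [Matrix.SpecialLinearGroup.coe_mul] at h3
  rw [h3]
  show -(g : M2 F) * h = _
  rw [neg_mul]

lemma card_D_zero [Fintype F] (h2 : (2 : F) ≠ 0) (g : S2 F) (ht : (g : M2 F).trace = 0) :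
    Nat.card (D g) = 2 * Nat.card (Subgroup.centralizer ({g} : Set (S2 F))) := by
  have hle : Subgroup.centralizer ({g} : Set (S2 F)) ≤ D g := by
    intro h hh
    rw [Subgroup.mem_centralizer_singleton_iff] at hh
    rw [mem_D]
    left
    have h2 := congrArg (fun x : S2 F => (x : M2 F)) hh
    simp only [Matrix.SpecialLinearGroup.coe_mul] at h2
    first | exact h2 | exact h2.symm
  have hrel : (Subgroup.centralizer ({g} : Set (S2 F))).relIndex (D g) = 2 := by
    unfold Subgroup.relIndex
    rw [Subgroup.index_eq_two_iff_exists_notMem_and]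
    obtain ⟨a, ha⟩ := exists_anti h2 g ht
    have hne : ∀ x : M2 F, x = -x → x = 0 := by
      intro x hx
      ext i j
      have := congrFun (congrFun hx i) j
      rw [Matrix.neg_apply] at this
      have : (2 : F) * x i j = 0 := by linear_combination this
      exact (mul_eq_zero.1 this).resolve_left h2
    refine ⟨⟨a, (mem_D g a).2 (Or.inr ha)⟩, ?_, ?_⟩
    · rw [Subgroup.mem_subgroupOf, Subgroup.mem_centralizer_singleton_iff]
      intro hh
      have h3 := congrArg (fun x : S2 F => (x : M2 F)) hh
      simp only [Matrix.SpecialLinearGroup.coe_mul] at h3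
      have h4 : (a : M2 F) * g = -(a * g) := by
        first | (nth_rewrite 1 [ha]; rw [h3]) | (nth_rewrite 1 [ha]; rw [← h3])
      have h5 := hne _ h4
      have h6 := congrArg det h5
      rw [det_mul, a.2, g.2] at h6
      simp at h6
    · rintro ⟨b, hb⟩
      rw [Subgroup.mem_subgroupOf, Subgroup.mem_subgroupOf, Subgroup.mem_centralizer_singleton_iff, Subgroup.mem_centralizer_singleton_iff]
      rcases (mem_D g b).1 hb with h3 | h3
      · right
        apply sl_ext
        simp only [Matrix.SpecialLinearGroup.coe_mul]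
        first | exact h3 | exact h3.symm
      · left
        apply sl_ext
        simp only [Matrix.SpecialLinearGroup.coe_mul, Subgroup.coe_mul]
        have h5 : (b : M2 F) * a * g = g * (b * a) := by
          rw [mul_assoc, ha, mul_neg, ← mul_assoc, h3, neg_mul, neg_neg, mul_assoc]
        first | exact h5 | exact h5.symm
  have h3 := Subgroup.card_mul_index ((Subgroup.centralizer ({g} : Set (S2 F))).subgroupOf (D g))
  rw [Nat.card_congr (Subgroup.subgroupOfEquivOfLe hle).toEquiv] at h3
  unfold Subgroup.relIndex at hrel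
  rw [hrel] at h3
  omega

lemma card_D_mul [Fintype F] (g : S2 F) :
    Nat.card (D g) * (Subgroup.centralizer ({pm g} : Set (P2 F))).index = Fintype.card F * (Fintype.card F ^ 2 - 1) := by
  rw [← index_D, Subgroup.card_mul_index]
  exact Cfsg.Agent.H5.card_SL2 (F := F) rfl

end Cfsg.Agent.H16.Pcl
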