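import Mathlib
import Cfsg.Agent.H16.PclA

set_option autoImplicit false
set_option linter.all false

namespace Cfsg.Agent.H16.Pcl

open Matrix

variable {F : Type*} [Field F] [Fintype F]

/-- the index function -/
noncomputable def ix (g : P2 F) : ℕ := (Subgroup.centralizer ({g} : Set (P2 F))).index

local notation "q" => Fintype.card F

lemma q_ge : 2 ≤ q := Fintype.one_lt_card

lemma arith1 {a n : ℕ} (ha : 2 ≤ a) (h : (a - 1) * n = a * (a ^ 2 - 1)) : n = a * (a + 1) := by
  obtain ⟨m, rfl⟩ := Nat.exists_eq_add_of_le ha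
  have h1 : 2 + m - 1 = m + 1 := by omega
  have h2 : (2 + m) ^ 2 - 1 = (m + 1) * (m + 3) := by
    have : (2 + m) ^ 2 = (m + 1) * (m + 3) + 1 := by ring
    omega
  rw [h1, h2] at h
  apply Nat.eq_of_mul_eq_mul_left (show 0 < m + 1 by omega)
  rw [h]; ring

lemma arith2 {a n : ℕ} (ha : 2 ≤ a) (h : (a + 1) * n = a * (a ^ 2 - 1)) : n = a * (a - 1) := by
  obtain ⟨m, rfl⟩ := Nat.exists_eq_add_of_le ha
  have h1 : 2 + m - 1 = m + 1 := by omega
  have h2 : (2 + m) ^ 2 - 1 = (m + 1) * (m + 3) := by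
    have : (2 + m) ^ 2 = (m + 1) * (m + 3) + 1 := by ring
    omega
  rw [h2] at h
  rw [h1]
  apply Nat.eq_of_mul_eq_mul_left (show 0 < 2 + m + 1 by omega)
  rw [h]; ring

lemma arith3 {a n : ℕ} (ha : 2 ≤ a) (h : a * n = a * (a ^ 2 - 1)) : n = a ^ 2 - 1 :=
  Nat.eq_of_mul_eq_mul_left (by omega) h

lemma ix_scal (g : S2 F) (hs : IsScal (g : M2 F)) : ix (pm g) = 1 := by
  have h1 : pm g = 1 := by
    rw [pm_eq_one, mem_center]
    have h2 := g.2
    rw [det_fin_two, hs.1, zero_mul, sub_zero, ← hs.2.2] at h2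
    rw [isScal_eq hs]
    have hr3 : ((g : M2 F) 0 0 - 1) * ((g : M2 F) 0 0 + 1) = 0 := by linear_combination h2
    rcases (mul_eq_zero.1 hr3).imp sub_eq_zero.1 eq_neg_of_add_eq_zero_left with h1 | h1
    · left; rw [h1, one_smul]
    · right; rw [h1, neg_smul, one_smul]
  unfold ix
  rw [h1, Subgroup.index_eq_one, eq_top_iff]
  intro x _
  rw [Subgroup.mem_centralizer_singleton_iff]
  simp

lemma scal_or_exists (g : S2 F) : (∀ c : F, c ^ 2 - c * (g : M2 F).trace + 1 ≠ 0) ∨ ∃ c : F, c ≠ 0 ∧ (g : M2 F).trace = c + c⁻¹ := by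
  by_cases h : ∀ c : F, c ^ 2 - c * (g : M2 F).trace + 1 ≠ 0
  · exact Or.inl h
  · push Not at h
    obtain ⟨c, hc⟩ := h
    have hc0 : c ≠ 0 := by rintro rfl; simp at hc
    refine Or.inr ⟨c, hc0, ?_⟩
    field_simp
    linear_combination -hc

lemma isScal_of_ell (g : S2 F) (h : ∀ c : F, c ^ 2 - c * (g : M2 F).trace + 1 ≠ 0) : ¬ IsScal (g : M2 F) :=
  not_isScal_of_noEig (by rw [g.2]; exact h)

/-- elements of given trace -/
def el (t : F) : S2 F := cform t 1 one_ne_zero
lemma el_trace (t : F) : (el t : M2 F).trace = t := cform_trace _ _ _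
lemma el_not (t : F) : ¬ IsScal (el t : M2 F) := cform_not_isScal _ _ _

lemma exists_split (h : 3 ≤ q) : ∃ l : F, l ≠ 0 ∧ l * l ≠ 1 ∨ q = 3 := by
  by_contra hc
  push Not at hc
  classical
  have h1 : (Finset.univ : Finset F) ⊆ {0, 1, -1} := by
    intro x _
    have := hc x
    simp only [Finset.mem_insert, Finset.mem_singleton]
    by_cases hx : x = 0
    · left; exact hx
    · right
      have h2 := this.1 hx
      have hr3 : (x - 1) * (x + 1) = 0 := by linear_combination h2
      exact (mul_eq_zero.1 hr3).imp sub_eq_zero.1 eq_neg_of_add_eq_zero_left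
  have h2 := Finset.card_le_card h1
  have h3 : ({0, 1, -1} : Finset F).card ≤ 3 := Finset.card_le_three
  rw [Finset.card_univ] at h2
  have := (hc 0).2
  omega

/-- some trace is elliptic -/
lemma exists_ell : ∃ t : F, ∀ c : F, c ^ 2 - c * t + 1 ≠ 0 := by
  classical
  by_contra hc
  push Not at hc
  choose f hf using hc
  have h0 : ∀ t, f t ≠ 0 := by intro t h; have := hf t; rw [h] at this; simp at this
  have h1 : ∀ t, t = f t + (f t)⁻¹ := by
    intro t
    have h2 := hf t
    have h3 := h0 t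
    field_simp
    linear_combination -h2
  have hinj : Function.Injective f := by
    intro a b hab
    rw [h1 a, h1 b, hab]
  have hsurj := Finite.injective_iff_surjective.1 hinj
  obtain ⟨t, ht⟩ := hsurj 0
  exact h0 t ht

/-- some nonzero trace is elliptic -/
lemma exists_ell_ne (l : F) (hl0 : l ≠ 0) (hl : l * l ≠ 1) : ∃ t : F, t ≠ 0 ∧ ∀ c : F, c ^ 2 - c * t + 1 ≠ 0 := by
  classical
  by_contra hc
  push Not at hc
  choose f hf using hc
  have h0 : ∀ t (ht : t ≠ 0), f t ht ≠ 0 := by intro t ht h; have := hf t ht; rw [h] at this; simp at this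
  have h1 : ∀ t (ht : t ≠ 0), t = f t ht + (f t ht)⁻¹ := by
    intro t ht
    have h2 := hf t ht
    have h3 := h0 t ht
    field_simp
    linear_combination -h2
  let g : {x : F // x ≠ 0} → {x : F // x ≠ 0} := fun t => ⟨f t.1 t.2, h0 t.1 t.2⟩
  have hinj : Function.Injective g := by
    rintro ⟨a, ha⟩ ⟨b, hb⟩ hab
    have hab' : f a ha = f b hb := congrArg Subtype.val hab
    apply Subtype.ext
    show a = b
    rw [h1 a ha, h1 b hb, hab']
  have hsurj := Finite.injective_iff_surjective.1 hinj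
  obtain ⟨⟨s, hs⟩, hs'⟩ := hsurj ⟨l, hl0⟩
  obtain ⟨⟨t, ht⟩, ht'⟩ := hsurj ⟨l⁻¹, inv_ne_zero hl0⟩
  have e1 : f s hs = l := congrArg Subtype.val hs'
  have e2 : f t ht = l⁻¹ := congrArg Subtype.val ht'
  have e3 : s = t := by rw [h1 s hs, h1 t ht, e1, e2, inv_inv, add_comm]
  subst e3
  rw [e1] at e2
  apply hl
  nth_rewrite 2 [e2]
  exact mul_inv_cancel₀ hl0

section even

variable (h2 : 2 ∣ Fintype.card F)

include h2 in
lemma charTwo : CharP F 2 := by
  obtain ⟨p, hp⟩ := CharP.exists F
  have hpp : p.Prime := (CharP.char_is_prime_or_zero F p).resolve_right (by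
    rintro rfl
    exact CharP.char_ne_zero_of_finite F 0 rfl)
  haveI := Fact.mk hpp
  obtain ⟨n, hp', hn⟩ := FiniteField.card F p
  have : 2 ∣ p := Nat.prime_two.dvd_of_dvd_pow (hn ▸ h2)
  rw [(Nat.prime_dvd_prime_iff_eq Nat.prime_two hpp).1 this]
  exact hp

include h2 in
lemma ix_even_par (g : S2 F) (hs : ¬ IsScal (g : M2 F)) (ht : (g : M2 F).trace = 0) : ix (pm g) = q ^ 2 - 1 := by
  haveI := charTwo h2
  have h := card_D_mul g
  rw [D_eq_char_two, card_cent_sl2_par_even g ht hs] at h
  exact arith3 q_ge h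

include h2 in
lemma ix_even_ell (g : S2 F) (hs : ∀ c : F, c ^ 2 - c * (g : M2 F).trace + 1 ≠ 0) : ix (pm g) = q * (q - 1) := by
  haveI := charTwo h2
  have h := card_D_mul g
  rw [D_eq_char_two, card_cent_sl2_ell g hs] at h
  exact arith2 q_ge h

include h2 in
lemma ix_even_split (g : S2 F) {l : F} (hl0 : l ≠ 0) (hl : l * l ≠ 1)
    (ht : (g : Matrix (Fin 2) (Fin 2) F).trace = l + l⁻¹) : ix (pm g) = q * (q + 1) := by
  haveI := charTwo h2
  have h := card_D_mul g
  rw [D_eq_char_two, card_cent_sl2_split g hl0 hl ht] at h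
  exact arith1 q_ge h

include h2 in
theorem range_even (h4 : 4 ≤ q) : Set.range (ix (F := F)) = {1, q * (q - 1), q ^ 2 - 1, q * (q + 1)} := by
  haveI := charTwo h2
  apply Set.Subset.antisymm
  · rintro _ ⟨x, rfl⟩
    obtain ⟨g, rfl⟩ := pm_surj x
    simp only [Set.mem_insert_iff, Set.mem_singleton_iff]
    by_cases hs : IsScal (g : M2 F)
    · left; exact ix_scal g hs
    · rcases scal_or_exists g with h | ⟨c, hc0, hc⟩
      · right; left; exact ix_even_ell h2 g h
      · by_cases hcc : c * c = 1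
        · right; right; left
          apply ix_even_par h2 g hs
          rw [hc, ← eq_inv_of_mul_eq_one_left hcc]
          exact CharTwo.add_self_eq_zero _
        · right; right; right
          exact ix_even_split h2 g hc0 hcc hc
  · intro n hn
    simp only [Set.mem_insert_iff, Set.mem_singleton_iff] at hn
    rcases hn with rfl | rfl | rfl | rfl
    · exact ⟨pm 1, ix_scal 1 (by simp [IsScal])⟩
    · obtain ⟨t, ht⟩ := exists_ell (F := F)
      exact ⟨pm (el t), ix_even_ell h2 _ (by rw [el_trace]; exact ht)⟩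
    · exact ⟨pm (el 0), ix_even_par h2 _ (el_not 0) (el_trace 0)⟩
    · obtain ⟨l, h5 | h5⟩ := exists_split (F := F) (by omega)
      · exact ⟨pm (el (l + l⁻¹)), ix_even_split h2 _ h5.1 h5.2 (el_trace _)⟩
      · omega

end even

section odd

variable (hodd : ¬ 2 ∣ Fintype.card F)

include hodd in
lemma two_ne : (2 : F) ≠ 0 := by
  intro h
  apply hodd
  obtain ⟨p, hp⟩ := CharP.exists F
  have hpp : p.Prime := (CharP.char_is_prime_or_zero F p).resolve_right (by
    rintro rfl
    exact CharP.char_ne_zero_of_finite F 0 rfl)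
  haveI := Fact.mk hpp
  obtain ⟨n, hp', hn⟩ := FiniteField.card F p
  have h3 : p ∣ 2 := (CharP.cast_eq_zero_iff F p 2).1 (by exact_mod_cast h)
  rw [(Nat.prime_dvd_prime_iff_eq hpp Nat.prime_two).1 h3] at hn
  rw [hn]
  exact dvd_pow_self _ n.ne_zero

include hodd in
lemma ix_odd_par (g : S2 F) (hs : ¬ IsScal (g : M2 F)) {e : F} (he : e * e = 1) (ht : (g : M2 F).trace = e + e) : ix (pm g) = (q ^ 2 - 1) / 2 := by
  have h2 := two_ne hodd
  have h := card_D_mul g
  rw [D_eq_of_trace h2, card_cent_sl2_par_odd g he h2 ht hs] at h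
  · have h3 : 2 * ix (pm g) = q ^ 2 - 1 := by
      apply Nat.eq_of_mul_eq_mul_left (show 0 < q by have := q_ge (F := F); omega)
      rw [← h]; unfold ix; ring
    omega
  · rw [ht]
    intro h0
    have h1 : (2 : F) * e = 0 := by linear_combination h0
    have h3 := (mul_eq_zero.1 h1).resolve_left h2
    rw [h3] at he; simp at he

include hodd in
lemma ix_odd_ell (g : S2 F) (ht : (g : M2 F).trace ≠ 0) (hs : ∀ c : F, c ^ 2 - c * (g : M2 F).trace + 1 ≠ 0) : ix (pm g) = q * (q - 1) := by
  have h2 := two_ne hodd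
  have h := card_D_mul g
  rw [D_eq_of_trace h2 g ht, card_cent_sl2_ell g hs] at h
  exact arith2 q_ge h

include hodd in
lemma ix_odd_ell0 (g : S2 F) (ht : (g : M2 F).trace = 0) (hs : ∀ c : F, c ^ 2 - c * (g : M2 F).trace + 1 ≠ 0) : ix (pm g) = q * (q - 1) / 2 := by
  have h2 := two_ne hodd
  have h := card_D_mul g
  rw [card_D_zero h2 g ht, card_cent_sl2_ell g hs] at h
  have : 2 * ix (pm g) = q * (q - 1) := by
    apply arith2 q_ge
    rw [← h]; unfold ix; ring
  omega

include hodd in
lemma ix_odd_split (g : S2 F) (ht0 : (g : M2 F).trace ≠ 0) {l : F} (hl0 : l ≠ 0) (hl : l * l ≠ 1)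
    (ht : (g : Matrix (Fin 2) (Fin 2) F).trace = l + l⁻¹) : ix (pm g) = q * (q + 1) := by
  have h2 := two_ne hodd
  have h := card_D_mul g
  rw [D_eq_of_trace h2 g ht0, card_cent_sl2_split g hl0 hl ht] at h
  exact arith1 q_ge h

include hodd in
lemma ix_odd_split0 (g : S2 F) (ht0 : (g : M2 F).trace = 0) {l : F} (hl0 : l ≠ 0) (hl : l * l ≠ 1)
    (ht : (g : Matrix (Fin 2) (Fin 2) F).trace = l + l⁻¹) : ix (pm g) = q * (q + 1) / 2 := by
  have h2 := two_ne hodd
  have h := card_D_mul g
  rw [card_D_zero h2 g ht0, card_cent_sl2_split g hl0 hl ht] at h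
  have : 2 * ix (pm g) = q * (q + 1) := by
    apply arith1 q_ge
    rw [← h]; unfold ix; ring
  omega

include hodd in
lemma exists_split_ne (h7 : 7 ≤ q) : ∃ l : F, l ≠ 0 ∧ l * l ≠ 1 ∧ l + l⁻¹ ≠ 0 := by
  classical
  by_contra hc
  push Not at hc
  have hroots : ∀ c : F, (Finset.univ.filter (fun x : F => x * x = c)).card ≤ 2 := by
    intro c
    by_cases he : ∃ y : F, y * y = c
    · obtain ⟨y, hy⟩ := he
      calc _ ≤ ({y, -y} : Finset F).card := by
            apply Finset.card_le_card
            intro x hx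
            rw [Finset.mem_filter] at hx
            have hr3 : (x - y) * (x + y) = 0 := by linear_combination hx.2 - hy
            simp only [Finset.mem_insert, Finset.mem_singleton]
            exact (mul_eq_zero.1 hr3).imp sub_eq_zero.1 eq_neg_of_add_eq_zero_left
        _ ≤ 2 := Finset.card_le_two
    · rw [Finset.card_eq_zero.2]; · omega
      rw [Finset.filter_eq_empty_iff]
      intro x _ hx
      exact he ⟨x, hx⟩
  have h1 : (Finset.univ : Finset F) ⊆ {0} ∪ (Finset.univ.filter (fun x : F => x * x = 1) ∪ Finset.univ.filter (fun x : F => x * x = -1)) := by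
    intro x _
    simp only [Finset.mem_union, Finset.mem_singleton, Finset.mem_filter, Finset.mem_univ, true_and]
    by_cases hx : x = 0
    · left; exact hx
    · right
      by_cases hx1 : x * x = 1
      · left; exact hx1
      · right
        have h5 := hc x hx hx1
        field_simp at h5
        linear_combination h5
  have h2 := Finset.card_le_card h1
  rw [Finset.card_univ] at h2
  have h3 := Finset.card_union_le ({0} : Finset F) (Finset.univ.filter (fun x : F => x * x = 1) ∪ Finset.univ.filter (fun x : F => x * x = -1))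
  have h4 := Finset.card_union_le (Finset.univ.filter (fun x : F => x * x = 1)) (Finset.univ.filter (fun x : F => x * x = -1))
  have h5 := hroots 1
  have h6 := hroots (-1)
  rw [Finset.card_singleton] at h3
  omega

include hodd in
theorem range_odd1 (h7 : 7 ≤ q) (hm : q % 4 = 1) : Set.range (ix (F := F)) =
    {1, (q ^ 2 - 1) / 2, q * (q + 1) / 2, q * (q - 1), q * (q + 1)} := by
  have hsq : IsSquare (-1 : F) := FiniteField.isSquare_neg_one_iff.2 (by omega)
  obtain ⟨i, hi⟩ := hsq
  have h2 := two_ne hodd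
  have hi0 : i ≠ 0 := by rintro rfl; simp at hi
  have hii : i * i ≠ 1 := by
    rw [← hi]; intro h; apply h2; linear_combination -h
  have hti : i + i⁻¹ = 0 := by
    field_simp; linear_combination -hi
  apply Set.Subset.antisymm
  · rintro _ ⟨x, rfl⟩
    obtain ⟨g, rfl⟩ := pm_surj x
    simp only [Set.mem_insert_iff, Set.mem_singleton_iff]
    by_cases hs : IsScal (g : M2 F)
    · left; exact ix_scal g hs
    right
    by_cases ht : (g : M2 F).trace = 0
    · right; left
      exact ix_odd_split0 hodd g ht hi0 hii (by rw [ht, hti])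
    rcases scal_or_exists g with h | ⟨c, hc0, hc⟩
    · right; right; left; exact ix_odd_ell hodd g ht h
    · by_cases hcc : c * c = 1
      · left
        apply ix_odd_par hodd g hs hcc
        nth_rewrite 2 [eq_inv_of_mul_eq_one_left hcc]
        exact hc
      · right; right; right
        exact ix_odd_split hodd g ht hc0 hcc hc
  · obtain ⟨l, hl0, hll, hlt⟩ := exists_split_ne hodd h7
    intro n hn
    simp only [Set.mem_insert_iff, Set.mem_singleton_iff] at hn
    rcases hn with rfl | rfl | rfl | rfl | rfl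
    · exact ⟨pm 1, ix_scal 1 (by simp [IsScal])⟩
    · exact ⟨pm (el (1 + 1)), ix_odd_par hodd _ (el_not _) (one_mul 1) (el_trace _)⟩
    · exact ⟨pm (el 0), ix_odd_split0 hodd _ (el_trace _) hi0 hii (by rw [el_trace, hti])⟩
    · obtain ⟨t, ht0, ht⟩ := exists_ell_ne l hl0 hll
      exact ⟨pm (el t), ix_odd_ell hodd _ (by rw [el_trace]; exact ht0) (by rw [el_trace]; exact ht)⟩
    · exact ⟨pm (el (l + l⁻¹)), ix_odd_split hodd _ (by rw [el_trace]; exact hlt) hl0 hll (el_trace _)⟩

include hodd in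
theorem range_odd3 (h7 : 7 ≤ q) (hm : q % 4 = 3) : Set.range (ix (F := F)) =
    {1, (q ^ 2 - 1) / 2, q * (q - 1) / 2, q * (q + 1), q * (q - 1)} := by
  have hsq : ¬ IsSquare (-1 : F) := fun h => absurd hm (FiniteField.isSquare_neg_one_iff.1 h)
  have h2 := two_ne hodd
  have hell : ∀ c : F, c ^ 2 - c * 0 + 1 ≠ 0 := by
    intro c hc
    exact hsq ⟨c, by linear_combination -hc⟩
  apply Set.Subset.antisymm
  · rintro _ ⟨x, rfl⟩
    obtain ⟨g, rfl⟩ := pm_surj x
    simp only [Set.mem_insert_iff, Set.mem_singleton_iff]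
    by_cases hs : IsScal (g : M2 F)
    · left; exact ix_scal g hs
    right
    by_cases ht : (g : M2 F).trace = 0
    · right; left
      exact ix_odd_ell0 hodd g ht (by rw [ht]; exact hell)
    rcases scal_or_exists g with h | ⟨c, hc0, hc⟩
    · right; right; right; exact ix_odd_ell hodd g ht h
    · by_cases hcc : c * c = 1
      · left
        apply ix_odd_par hodd g hs hcc
        nth_rewrite 2 [eq_inv_of_mul_eq_one_left hcc]
        exact hc
      · right; right; left
        exact ix_odd_split hodd g ht hc0 hcc hc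
  · obtain ⟨l, hl0, hll, hlt⟩ := exists_split_ne hodd h7
    intro n hn
    simp only [Set.mem_insert_iff, Set.mem_singleton_iff] at hn
    rcases hn with rfl | rfl | rfl | rfl | rfl
    · exact ⟨pm 1, ix_scal 1 (by simp [IsScal])⟩
    · exact ⟨pm (el (1 + 1)), ix_odd_par hodd _ (el_not _) (one_mul 1) (el_trace _)⟩
    · exact ⟨pm (el 0), ix_odd_ell0 hodd _ (el_trace _) (by rw [el_trace]; exact hell)⟩
    · exact ⟨pm (el (l + l⁻¹)), ix_odd_split hodd _ (by rw [el_trace]; exact hlt) hl0 hll (el_trace _)⟩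
    · obtain ⟨t, ht0, ht⟩ := exists_ell_ne l hl0 hll
      exact ⟨pm (el t), ix_odd_ell hodd _ (by rw [el_trace]; exact ht0) (by rw [el_trace]; exact ht)⟩

end odd

end Cfsg.Agent.H16.Pcl
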