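import Mathlib
import Cfsg.Agent.H3.Prod
import Cfsg.Agent.H3.Perm
import Cfsg.Agent.H3.CohB
import Cfsg.Agent.H5.Vec

set_option autoImplicit false
set_option linter.all false

/-! The permutation character of `SL_n(q)` on nonzero vectors. -/

namespace Cfsg.Agent.H16.PermV

open Cfsg Cfsg.Agent.H3 Matrix Module
open scoped ComplexConjugate

/-- a sum of `k` nonzero characters of norm `k` -/
theorem irr_of_sum {G T : Type*} [Group G] [Fintype G] [Fintype T] [DecidableEq T] (ξ : T → G → ℂ) (h : ∀ t, IsCharacter G (ξ t)) (h0 : ∀ t, ξ t ≠ 0)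
    (hs : classInner (∑ t, ξ t) (∑ t, ξ t) = Fintype.card T) : ∀ s t, classInner (ξ s) (ξ t) = if s = t then 1 else 0 := by
  have hN : ∀ s t, ∃ N : ℕ, classInner (ξ s) (ξ t) = N := fun s t => classInner_char_nat (h s) (h t)
  choose N hN using hN
  have h1 : ∀ t, 1 ≤ N t t := by
    intro t
    by_contra hcon
    have h2 : N t t = 0 := by omega
    have h3 := hN t t
    rw [h2, classInner_self_eq] at h3
    apply h0 t
    have hc : ((Nat.card G : ℝ)) ≠ 0 := by exact_mod_cast Nat.card_pos.ne'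
    have h4 : ((Nat.card G : ℝ)⁻¹ * ∑ g, ‖ξ t g‖ ^ 2) = 0 := by exact_mod_cast h3
    have h5 : ∑ g, ‖ξ t g‖ ^ 2 = 0 := (mul_eq_zero.1 h4).resolve_left (inv_ne_zero hc)
    rw [Finset.sum_eq_zero_iff_of_nonneg (fun g _ => by positivity)] at h5
    funext g
    have := h5 g (Finset.mem_univ g)
    simpa using this
  rw [classInner_sum_left] at hs
  simp only [classInner_sum_right, hN] at hs
  have hs' : ∑ s : T, ∑ t : T, N s t = ∑ s : T, 1 := by
    have : ((∑ s : T, ∑ t : T, N s t : ℕ) : ℂ) = ((∑ s : T, 1 : ℕ) : ℂ) := by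
      push_cast; rw [hs]; simp
    exact_mod_cast this
  have h6 : ∀ s, 1 ≤ ∑ t, N s t := fun s => (h1 s).trans (Finset.single_le_sum (fun _ _ => Nat.zero_le _) (Finset.mem_univ s))
  have h7 := (Finset.sum_eq_sum_iff_of_le (fun s _ => h6 s)).1 hs'.symm
  intro s t
  rw [hN]
  have h8 := (h7 s (Finset.mem_univ s)).symm
  split_ifs with hst
  · subst hst
    have h9 : N s s ≤ ∑ t, N s t := Finset.single_le_sum (fun _ _ => Nat.zero_le _) (Finset.mem_univ s)
    have h10 := h1 s
    have : N s s = 1 := by omega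
    rw [this]; simp
  · have h9 : N s s + N s t ≤ ∑ t, N s t := by
      rw [← Finset.sum_pair hst]
      exact Finset.sum_le_sum_of_subset (Finset.subset_univ _)
    have h10 := h1 s
    have : N s t = 0 := by omega
    rw [this]; simp

lemma sumExtend_inl' {K V ι : Type*} [DivisionRing K] [AddCommGroup V] [Module K V] {v : ι → V} (hs : LinearIndependent K v) (i : ι) :
    Basis.sumExtend hs (Sum.inl i) = v i := by
  classical
  unfold Basis.sumExtend
  simp only [Basis.reindex_apply, Basis.coe_extend]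
  rfl

section trans
variable {F : Type*} [Field F] {n : ℕ}

/-- `SL_n` is transitive on linearly independent `k`-tuples, `k < n` -/
theorem sl_trans {k : ℕ} (hk : k < n) {a b : Fin k → (Fin n → F)} (ha : LinearIndependent F a) (hb : LinearIndependent F b) :
    ∃ g : Matrix.SpecialLinearGroup (Fin n) F, ∀ i, (g : Matrix (Fin n) (Fin n) F) *ᵥ a i = b i := by
  classical
  have key : ∀ {a : Fin k → (Fin n → F)}, LinearIndependent F a → ∃ B : Basis (Fin k ⊕ Fin (n - k)) F (Fin n → F), ∀ i, B (Sum.inl i) = a i := by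
    intro a ha
    let B := Basis.sumExtend ha
    haveI : Finite (Fin k ⊕ Basis.sumExtendIndex ha) := Module.Finite.finite_basis B
    haveI : Finite (Basis.sumExtendIndex ha) := Finite.of_injective (Sum.inr : _ → Fin k ⊕ Basis.sumExtendIndex ha) Sum.inr_injective
    haveI : Fintype (Basis.sumExtendIndex ha) := Fintype.ofFinite _
    have hc : Fintype.card (Basis.sumExtendIndex ha) = n - k := by
      have := Module.finrank_eq_card_basis B
      rw [finrank_fintype_fun_eq_card, Fintype.card_fin, Fintype.card_sum, Fintype.card_fin] at this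
      omega
    let e : Basis.sumExtendIndex ha ≃ Fin (n - k) := Fintype.equivFinOfCardEq hc
    refine ⟨B.reindex (Equiv.sumCongr (Equiv.refl _) e), fun i => ?_⟩
    rw [Basis.reindex_apply]
    show B (Sum.inl i) = a i
    exact sumExtend_inl' ha i
  obtain ⟨A, hA⟩ := key ha
  obtain ⟨B, hB⟩ := key hb
  let e : (Fin n → F) ≃ₗ[F] (Fin n → F) := A.equiv B (Equiv.refl _)
  have he : ∀ i, e (A i) = B i := fun i => A.equiv_apply _ _ _
  have hdet : LinearMap.det (e : (Fin n → F) →ₗ[F] (Fin n → F)) ≠ 0 := e.isUnit_det'.ne_zero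
  let w : Fin k ⊕ Fin (n - k) → F := fun i => if i = Sum.inr ⟨0, by omega⟩ then (LinearMap.det (e : (Fin n → F) →ₗ[F] (Fin n → F)))⁻¹ else 1
  let s : (Fin n → F) →ₗ[F] (Fin n → F) := Matrix.toLin B B (diagonal w)
  have hs : LinearMap.det s = (LinearMap.det (e : (Fin n → F) →ₗ[F] (Fin n → F)))⁻¹ := by
    rw [LinearMap.det_toLin, det_diagonal]
    rw [Finset.prod_eq_single (Sum.inr ⟨0, by omega⟩)]
    · simp [w]
    · intro j _ hj
      simp only [w]
      rw [if_neg hj]
    · intro h; exact absurd (Finset.mem_univ _) h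
  have hsB : ∀ i, s (B (Sum.inl i)) = B (Sum.inl i) := by
    intro i
    show Matrix.toLin B B (diagonal w) (B (Sum.inl i)) = _
    rw [Matrix.toLin_self, Finset.sum_eq_single (Sum.inl i)]
    · rw [diagonal_apply_eq]
      simp [w]
    · intro j _ hj
      rw [diagonal_apply_ne _ hj, zero_smul]
    · intro h; exact absurd (Finset.mem_univ _) h
  refine ⟨⟨LinearMap.toMatrix' (s ∘ₗ (e : (Fin n → F) →ₗ[F] (Fin n → F))), ?_⟩, fun i => ?_⟩
  · rw [LinearMap.det_toMatrix', LinearMap.det_comp, hs, inv_mul_cancel₀ hdet]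
  · show LinearMap.toMatrix' (s ∘ₗ (e : (Fin n → F) →ₗ[F] (Fin n → F))) *ᵥ a i = b i
    rw [← toLin'_apply, toLin'_toMatrix', LinearMap.comp_apply, ← hA, ← hB]
    show s (e (A (Sum.inl i))) = _
    rw [he, hsB]

end trans

section act
variable (n : ℕ) (F : Type*) [Field F]

abbrev SLn := Matrix.SpecialLinearGroup (Fin n) F
abbrev X := {v : Fin n → F // v ≠ 0}

lemma mulVec_ne (g : SLn n F) {v : Fin n → F} (hv : v ≠ 0) : (g : Matrix (Fin n) (Fin n) F) *ᵥ v ≠ 0 := by
  intro h
  apply hv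
  have : ((g⁻¹ : SLn n F) : Matrix (Fin n) (Fin n) F) *ᵥ ((g : Matrix (Fin n) (Fin n) F) *ᵥ v) = v := by
    rw [mulVec_mulVec, ← Matrix.SpecialLinearGroup.coe_mul, inv_mul_cancel, Matrix.SpecialLinearGroup.coe_one, one_mulVec]
  rw [← this, h, mulVec_zero]

instance actG : MulAction (SLn n F × Fˣ) (X n F) where
  smul x v := ⟨(x.2 : F) • ((x.1 : Matrix (Fin n) (Fin n) F) *ᵥ v.1), smul_ne_zero x.2.ne_zero (mulVec_ne n F x.1 v.2)⟩
  one_smul v := Subtype.ext (by
    show (1 : F) • ((1 : Matrix (Fin n) (Fin n) F) *ᵥ v.1) = v.1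
    rw [one_smul, one_mulVec])
  mul_smul x y v := Subtype.ext (by
    show ((x.2 : F) * (y.2 : F)) • (((x.1 : Matrix (Fin n) (Fin n) F) * (y.1 : Matrix (Fin n) (Fin n) F)) *ᵥ v.1) =
      (x.2 : F) • ((x.1 : Matrix (Fin n) (Fin n) F) *ᵥ ((y.2 : F) • ((y.1 : Matrix (Fin n) (Fin n) F) *ᵥ v.1)))
    rw [mulVec_smul, smul_smul, mulVec_mulVec])

instance actS : MulAction (SLn n F) (X n F) where
  smul x v := ⟨((x : Matrix (Fin n) (Fin n) F) *ᵥ v.1), (mulVec_ne n F x v.2)⟩
  one_smul v := Subtype.ext (by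
    show ((1 : Matrix (Fin n) (Fin n) F) *ᵥ v.1) = v.1
    rw [one_mulVec])
  mul_smul x y v := Subtype.ext (by
    show (((x : Matrix (Fin n) (Fin n) F) * (y : Matrix (Fin n) (Fin n) F)) *ᵥ v.1) =
      ((x : Matrix (Fin n) (Fin n) F) *ᵥ (((y : Matrix (Fin n) (Fin n) F) *ᵥ v.1)))
    rw [mulVec_mulVec])

variable {n F}
lemma smul_coe (x : SLn n F × Fˣ) (v : X n F) : ((x • v : X n F) : Fin n → F) = (x.2 : F) • ((x.1 : Matrix (Fin n) (Fin n) F) *ᵥ v.1) := rfl
lemma smul_coe' (x : SLn n F) (v : X n F) : ((x • v : X n F) : Fin n → F) = ((x : Matrix (Fin n) (Fin n) F) *ᵥ v.1) := rfl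

lemma perm_one (g : SLn n F) : permChar (SLn n F × Fˣ) (X n F) (g, 1) = permChar (SLn n F) (X n F) g := by
  unfold permChar
  congr 1
  apply Nat.card_congr
  apply Equiv.subtypeEquivRight
  intro v
  rw [MulAction.mem_fixedBy, MulAction.mem_fixedBy, Subtype.ext_iff, Subtype.ext_iff, smul_coe, smul_coe', Units.val_one, one_smul]

variable [Fintype F]

lemma orb1 (hn : 2 ≤ n) : Nat.card (MulAction.orbitRel.Quotient (SLn n F × Fˣ) (X n F)) = 1 := by
  haveI : Nontrivial (Fin n) := Fin.nontrivial_iff_two_le.2 hn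
  haveI : MulAction.IsPretransitive (SLn n F × Fˣ) (X n F) := ⟨fun v w => by
    obtain ⟨g, hg⟩ := Cfsg.Agent.H5.exists_SL_mulVec v.2 w.2
    exact ⟨(g, 1), Subtype.ext (by rw [smul_coe, Units.val_one, one_smul, hg])⟩⟩
  haveI : Nonempty (X n F) := ⟨⟨fun _ => 1, fun h => one_ne_zero (congrFun h ⟨0, by omega⟩)⟩⟩
  exact card_orbits_eq_one (G := SLn n F × Fˣ) (X n F)

lemma orb2 (hn : 3 ≤ n) : Nat.card (MulAction.orbitRel.Quotient (SLn n F) (X n F × X n F)) = Fintype.card F := by
  classical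
  haveI : Nontrivial (Fin n) := Fin.nontrivial_iff_two_le.2 (by omega)
  have hcard : Nat.card (Option Fˣ) = Fintype.card F := by
    rw [Nat.card_eq_fintype_card, Fintype.card_option, Fintype.card_units]
    have := Fintype.card_pos (α := F)
    omega
  rw [← hcard]
  -- representatives
  let i0 : Fin n := ⟨0, by omega⟩
  let i1 : Fin n := ⟨1, by omega⟩
  have h01 : i0 ≠ i1 := by intro h; simp [i0, i1] at h
  let e0 : X n F := ⟨Pi.single i0 1, fun h => by have := congrFun h i0; simp at this⟩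
  let e1 : X n F := ⟨Pi.single i1 1, fun h => by have := congrFun h i1; simp at this⟩
  have hsm : ∀ (c : Fˣ) (v : X n F), (c : F) • v.1 ≠ 0 := fun c v => smul_ne_zero c.ne_zero v.2
  let J : Option Fˣ → MulAction.orbitRel.Quotient (SLn n F) (X n F × X n F) := fun o =>
    o.elim (Quotient.mk'' (e0, e1)) (fun c => Quotient.mk'' (e0, ⟨(c : F) • e0.1, hsm c e0⟩))
  symm
  apply Nat.card_congr (Equiv.ofBijective J ⟨?_, ?_⟩)
  · have hrel : ∀ (v w v' w' : X n F), (Quotient.mk'' (v, w) : MulAction.orbitRel.Quotient (SLn n F) (X n F × X n F)) = Quotient.mk'' (v', w') →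
        ∀ c : F, w.1 = c • v.1 ↔ w'.1 = c • v'.1 := by
      intro v w v' w' h c
      obtain ⟨g, hg⟩ := Quotient.exact' h
      have h1 : (g : Matrix (Fin n) (Fin n) F) *ᵥ v'.1 = v.1 := congrArg Subtype.val (congrArg Prod.fst hg)
      have h2 : (g : Matrix (Fin n) (Fin n) F) *ᵥ w'.1 = w.1 := congrArg Subtype.val (congrArg Prod.snd hg)
      rw [← h1, ← h2, ← mulVec_smul]
      constructor
      · intro h3
        have h4 := congrArg (fun x => ((g⁻¹ : SLn n F) : Matrix (Fin n) (Fin n) F) *ᵥ x) h3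
        simp only [mulVec_mulVec, ← Matrix.SpecialLinearGroup.coe_mul, inv_mul_cancel, Matrix.SpecialLinearGroup.coe_one, one_mulVec] at h4
        exact h4
      · intro h3; rw [h3]
    have hno : ∀ c : F, e1.1 ≠ c • e0.1 := by
      intro c h
      have := congrFun h i1
      simp [e0, e1, h01.symm] at this
    have hinj : ∀ a b : F, a • e0.1 = b • e0.1 → a = b := fun a b h => smul_left_injective F e0.2 h
    rintro (_ | a) (_ | b) h
    · rfl
    · exact absurd ((hrel _ _ _ _ h (b : F)).2 rfl) (hno _)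
    · exact absurd ((hrel _ _ _ _ h (a : F)).1 rfl) (hno _)
    · have := (hrel _ _ _ _ h (a : F)).1 rfl
      congr 1
      exact Units.ext (hinj _ _ this).symm
  · intro o
    induction o using Quotient.inductionOn' with
    | h x =>
      obtain ⟨v, w⟩ := x
      by_cases hli : LinearIndependent F ![v.1, w.1]
      · have h01' : LinearIndependent F ![e0.1, e1.1] := by
          rw [LinearIndependent.pair_iff]
          intro s t hst
          have h1 := congrFun hst i0
          have h2 := congrFun hst i1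
          simp [e0, e1, h01, h01.symm] at h1 h2
          exact ⟨h1, h2⟩
        obtain ⟨g, hg⟩ := sl_trans (by omega : 2 < n) hli h01'
        refine ⟨none, ?_⟩
        apply Quotient.sound'
        refine ⟨g, ?_⟩
        exact Prod.ext (Subtype.ext (hg 0)) (Subtype.ext (hg 1))
      · rw [LinearIndependent.pair_iff' v.2] at hli
        push Not at hli
        obtain ⟨a, ha⟩ := hli
        have ha0 : a ≠ 0 := by rintro rfl; rw [zero_smul] at ha; exact w.2 ha.symm
        obtain ⟨g, hg⟩ := Cfsg.Agent.H5.exists_SL_mulVec v.2 e0.2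
        refine ⟨some (Units.mk0 a ha0), ?_⟩
        apply Quotient.sound'
        refine ⟨g, ?_⟩
        refine Prod.ext (Subtype.ext hg) (Subtype.ext ?_)
        show (g : Matrix (Fin n) (Fin n) F) *ᵥ w.1 = a • e0.1
        rw [← ha, mulVec_smul, hg]

variable [DecidableEq F]

/-- the `ψ`-component -/
noncomputable def th (ψ : Fˣ →* ℂˣ) (g : SLn n F) : ℂ :=
  ((Fintype.card Fˣ : ℂ))⁻¹ * ∑ c : Fˣ, (ψ c : ℂ) * permChar (SLn n F × Fˣ) (X n F) (g, c)

lemma th_inner (ψ : Fˣ →* ℂˣ) (χ : SLn n F → ℂ) :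
    classInner (th ψ) χ = classInner (permChar (SLn n F × Fˣ) (X n F)) (fun x => χ x.1 * conj (ψ x.2 : ℂ)) := by
  unfold classInner th
  rw [Fintype.sum_prod_type]
  rw [Nat.card_prod, Nat.card_eq_fintype_card (α := Fˣ), Nat.cast_mul, mul_inv, Finset.mul_sum, Finset.mul_sum]
  apply Finset.sum_congr rfl
  intro g _
  have h2 : ∀ c : Fˣ, permChar (SLn n F × Fˣ) (X n F) (g, c) * conj (χ (g, c).1 * conj (ψ (g, c).2 : ℂ)) =
      ((ψ c : ℂ) * permChar (SLn n F × Fˣ) (X n F) (g, c)) * conj (χ g) := by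
    intro c
    rw [map_mul, Complex.conj_conj]; ring
  rw [Finset.sum_congr rfl (fun c _ => h2 c)]
  rw [← Finset.sum_mul]; ring

lemma th_char (ψ : Fˣ →* ℂˣ) : IsCharacter (SLn n F) (th (n := n) ψ) := by
  rw [isChar_iff]
  constructor
  · intro g h
    unfold th
    congr 1
    apply Finset.sum_congr rfl
    intro c _
    have := char_classFun (isChar_permChar (G := SLn n F × Fˣ) (X n F)) (g, c) (h, 1)
    simp only [Prod.mk_mul_mk, Prod.inv_mk, one_mul, mul_one, inv_one] at this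
    rw [this]
  · intro χ
    rw [th_inner]
    have h1 : IsIrrCharacter Fˣ (fun c => conj (ψ c : ℂ)) := isIrr_conj (isIrr_of_hom ψ)
    exact classInner_char_nat (isChar_permChar _) (irr_isChar (isIrr_prod χ.2 h1))

lemma sum_psi (c : Fˣ) : ∑ᶠ ψ : Fˣ →* ℂˣ, ((ψ c : ℂˣ) : ℂ) = if c = 1 then (Fintype.card Fˣ : ℂ) else 0 := by
  classical
  have hE : Nat.card (Fˣ →* ℂˣ) = Nat.card Fˣ := CommGroup.card_monoidHom_of_hasEnoughRootsOfUnity Fˣ ℂ
  haveI : Finite (Fˣ →* ℂˣ) := (Nat.card_ne_zero.1 (by rw [hE]; exact Nat.card_pos.ne')).2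
  haveI := Fintype.ofFinite (Fˣ →* ℂˣ)
  rw [finsum_eq_sum_of_fintype]
  split_ifs with h
  · subst h
    simp only [map_one, Units.val_one, Finset.sum_const, nsmul_eq_mul, mul_one, Finset.card_univ]
    rw [← Nat.card_eq_fintype_card, ← Nat.card_eq_fintype_card, hE]
  · obtain ⟨ψ, hψ⟩ := CommGroup.exists_apply_ne_one_of_hasEnoughRootsOfUnity Fˣ ℂ h
    have h1 : (ψ c : ℂ) * ∑ φ : Fˣ →* ℂˣ, ((φ c : ℂˣ) : ℂ) = ∑ φ : Fˣ →* ℂˣ, ((φ c : ℂˣ) : ℂ) := by
      rw [Finset.mul_sum, ← Equiv.sum_comp (Equiv.mulLeft ψ) (fun φ : Fˣ →* ℂˣ => ((φ c : ℂˣ) : ℂ))]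
      apply Finset.sum_congr rfl
      intro φ _
      simp
    have h2 : ((ψ c : ℂ) - 1) * ∑ φ : Fˣ →* ℂˣ, ((φ c : ℂˣ) : ℂ) = 0 := by rw [sub_mul, one_mul, h1, sub_self]
    rcases mul_eq_zero.1 h2 with h3 | h3
    · exact absurd (Units.ext (sub_eq_zero.1 h3)) hψ
    · exact h3

theorem decomp (hn : 3 ≤ n) : ∃ χ : Fin (Fintype.card F - 1) → (SLn n F → ℂ),
    (∀ i, IsIrrCharacter (SLn n F) (χ i)) ∧ Function.Injective χ ∧
    ∀ g : SLn n F, (Nat.card {v : Fin n → F // v ≠ 0 ∧ (g : Matrix (Fin n) (Fin n) F).mulVec v = v} : ℂ) = 1 + ∑ i, χ i g := by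
  classical
  have hE : Nat.card (Fˣ →* ℂˣ) = Nat.card Fˣ := CommGroup.card_monoidHom_of_hasEnoughRootsOfUnity Fˣ ℂ
  haveI : Finite (Fˣ →* ℂˣ) := (Nat.card_ne_zero.1 (by rw [hE]; exact Nat.card_pos.ne')).2
  haveI := Fintype.ofFinite (Fˣ →* ℂˣ)
  have hcu : (Fintype.card Fˣ : ℂ) ≠ 0 := by exact_mod_cast Fintype.card_pos.ne'
  have hcE : Fintype.card (Fˣ →* ℂˣ) = Fintype.card F - 1 := by
    rw [← Nat.card_eq_fintype_card, hE, Nat.card_eq_fintype_card, Fintype.card_units]
  have hq1 : 1 < Fintype.card F := Fintype.one_lt_card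
  -- sum of the components
  have hsum : ∀ g : SLn n F, ∑ ψ : Fˣ →* ℂˣ, th ψ g = permChar (SLn n F) (X n F) g := by
    intro g
    unfold th
    rw [← Finset.mul_sum, Finset.sum_comm]
    have h1 : ∀ c : Fˣ, ∑ ψ : Fˣ →* ℂˣ, (ψ c : ℂ) * permChar (SLn n F × Fˣ) (X n F) (g, c) =
        (if c = 1 then (Fintype.card Fˣ : ℂ) else 0) * permChar (SLn n F × Fˣ) (X n F) (g, c) := by
      intro c
      rw [← Finset.sum_mul, ← sum_psi c, finsum_eq_sum_of_fintype]
    rw [Finset.sum_congr rfl (fun c _ => h1 c), Finset.sum_eq_single (1 : Fˣ)]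
    · rw [if_pos rfl, ← mul_assoc, inv_mul_cancel₀ hcu, one_mul, perm_one]
    · intro c _ hc
      rw [if_neg hc, zero_mul]
    · intro h; exact absurd (Finset.mem_univ _) h
  -- value at 1
  have hval : ∀ ψ : Fˣ →* ℂˣ, th (n := n) ψ 1 = ((Fintype.card Fˣ : ℂ))⁻¹ * (Nat.card (X n F) : ℂ) := by
    intro ψ
    unfold th
    congr 1
    rw [Finset.sum_eq_single (1 : Fˣ)]
    · rw [map_one, Units.val_one, one_mul, perm_one]
      unfold permChar
      congr 1
      apply Nat.card_congr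
      apply Equiv.subtypeUnivEquiv
      intro v
      rw [MulAction.mem_fixedBy, one_smul]
    · intro c _ hc
      have : permChar (SLn n F × Fˣ) (X n F) (1, c) = 0 := by
        unfold permChar
        rw [Nat.cast_eq_zero]
        haveI : IsEmpty (MulAction.fixedBy (X n F) ((1, c) : SLn n F × Fˣ)) := ⟨fun v => by
          have h1 := v.2
          rw [MulAction.mem_fixedBy, Subtype.ext_iff, smul_coe] at h1
          have h2 : (c : F) • v.1.1 = (1 : F) • v.1.1 := by
            rw [one_smul]; simpa using h1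
          exact hc (Units.ext (smul_left_injective F v.1.2 h2))⟩
        exact Nat.card_of_isEmpty
      rw [this, mul_zero]
    · intro h; exact absurd (Finset.mem_univ _) h
  have hX : Nat.card (X n F) = Fintype.card F ^ n - 1 := by
    rw [Nat.card_eq_fintype_card]
    rw [Fintype.card_subtype_compl, Fintype.card_fun, Fintype.card_fin, Fintype.card_subtype_eq]
  have hcu' : Fintype.card Fˣ = Fintype.card F - 1 := Fintype.card_units F
  have hbig : Fintype.card Fˣ < Nat.card (X n F) := by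
    rw [hX, hcu']
    have : Fintype.card F ^ 1 < Fintype.card F ^ n := Nat.pow_lt_pow_right hq1 (by omega)
    rw [pow_one] at this
    omega
  have hXne : (Nat.card (X n F) : ℂ) ≠ 0 := by
    have : Nat.card (X n F) ≠ 0 := by omega
    exact_mod_cast this
  have hinner1 : classInner (th (n := n) (1 : Fˣ →* ℂˣ)) (fun _ => 1) = 1 := by
    rw [th_inner]
    have : (fun x : SLn n F × Fˣ => (1 : ℂ) * conj (((1 : Fˣ →* ℂˣ) x.2 : ℂˣ) : ℂ)) = fun _ => 1 := by
      funext x; simp
    rw [this, classInner_permChar_one, orb1 (by omega), Nat.cast_one]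
  -- the family
  let ξ : Option (Fˣ →* ℂˣ) → SLn n F → ℂ := fun o => o.elim (fun _ => 1) (fun ψ => if ψ = 1 then th ψ - (fun _ => 1) else th ψ)
  have hξc : ∀ o, IsCharacter (SLn n F) (ξ o) := by
    rintro (_ | ψ)
    · exact irr_isChar isIrr_one
    · show IsCharacter (SLn n F) (if ψ = 1 then th ψ - (fun _ => 1) else th ψ)
      split_ifs with h
      · subst h
        rw [isChar_iff]
        have hc1 : IsClassFunction (SLn n F) (fun _ => (1 : ℂ)) := fun _ _ => rfl
        refine ⟨fun g h => ?_, fun χ => ?_⟩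
        · show th 1 _ - 1 = th 1 _ - 1
          rw [char_classFun (th_char 1) g h]
        · rw [classInner_sub_left]
          obtain ⟨N, hN⟩ := classInner_char_nat (th_char (n := n) (F := F) 1) (irr_isChar χ.2)
          rw [hN, classInner_irr isIrr_one χ.2]
          split_ifs with h1
          · rw [← h1, hinner1] at hN
            refine ⟨0, ?_⟩
            rw [← hN]; simp
          · exact ⟨N, by simp⟩
      · exact th_char ψ
  have hξ0 : ∀ o, ξ o ≠ 0 := by
    rintro (_ | ψ) h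
    · have := congrFun h 1
      exact one_ne_zero this
    · have h1 : (if ψ = 1 then th ψ - (fun _ => 1) else th ψ : SLn n F → ℂ) 1 = 0 := congrFun h 1
      split_ifs at h1 with h2
      · have h3 : th (n := n) ψ 1 = 1 := sub_eq_zero.1 h1
        rw [hval, inv_mul_eq_iff_eq_mul₀ hcu, mul_one] at h3
        have : Nat.card (X n F) = Fintype.card Fˣ := by exact_mod_cast h3
        omega
      · rw [hval] at h1
        exact (mul_ne_zero (inv_ne_zero hcu) hXne) h1
  have hξs : ∑ o, ξ o = permChar (SLn n F) (X n F) := by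
    funext g
    rw [Finset.sum_apply, Fintype.sum_option, ← hsum g]
    show 1 + ∑ ψ : Fˣ →* ℂˣ, (if ψ = 1 then th ψ - (fun _ => 1) else th ψ : SLn n F → ℂ) g = _
    have h1 : ∀ ψ : Fˣ →* ℂˣ, (if ψ = 1 then th ψ - (fun _ => 1) else th ψ : SLn n F → ℂ) g = th ψ g - (if ψ = 1 then 1 else 0) := by
      intro ψ
      split_ifs with h
      · rfl
      · simp
    rw [Finset.sum_congr rfl (fun ψ _ => h1 ψ), Finset.sum_sub_distrib, Finset.sum_ite_eq' Finset.univ (1 : Fˣ →* ℂˣ)]
    simp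
  have hin := irr_of_sum ξ hξc hξ0 (by
    rw [hξs, classInner_permChar, orb2 hn, Fintype.card_option, hcE]
    congr 1; omega)
  let e : Fin (Fintype.card F - 1) ≃ (Fˣ →* ℂˣ) := (Fintype.equivFinOfCardEq hcE).symm
  refine ⟨fun i => ξ (some (e i)), fun i => ?_, ?_, ?_⟩
  · exact isIrr_of_char_norm (hξc _) (by rw [hin, if_pos rfl])
  · intro i j hij
    by_contra hne
    have hij : ξ (some (e i)) = ξ (some (e j)) := hij
    have h1 := hin (some (e i)) (some (e j))
    rw [if_neg (fun h => hne (e.injective (Option.some_injective _ h))), ← hij, hin, if_pos rfl] at h1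
    exact one_ne_zero h1
  · intro g
    have h1 : (Nat.card {v : Fin n → F // v ≠ 0 ∧ (g : Matrix (Fin n) (Fin n) F).mulVec v = v} : ℂ) = permChar (SLn n F) (X n F) g := by
      unfold permChar
      congr 1
      apply Nat.card_congr
      exact { toFun := fun v => ⟨⟨v.1, v.2.1⟩, Subtype.ext v.2.2⟩
              invFun := fun v => ⟨v.1.1, v.1.2, congrArg Subtype.val v.2⟩
              left_inv := fun v => rfl
              right_inv := fun v => rfl }
    rw [h1, ← hξs, Finset.sum_apply, Fintype.sum_option]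
    congr 1
    exact (Equiv.sum_comp e (fun ψ => ξ (some ψ) g)).symm

end act

end Cfsg.Agent.H16.PermV
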