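import Mathlib
import Cfsg.Agent.H16.TvA

set_option autoImplicit false
set_option linter.all false

/-! Tools for proving that a subgroup of `SL` containing some transvections is everything. -/

namespace Cfsg.Agent.H16.RegF

open Matrix Cfsg.Agent.H16

variable {ι : Type*} [Fintype ι] [DecidableEq ι] {F : Type*} [Field F] {H : Subgroup (SpecialLinearGroup ι F)}

lemma vmv_smul (c : F) (a φ : ι → F) : vecMulVec (c • a) φ = vecMulVec a (c • φ) := by
  ext i j; simp only [vecMulVec_apply, Pi.smul_apply, smul_eq_mul]; ring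

lemma smul_swap {a φ : ι → F} {c : F} (h : InT H (c • a) φ) : InT H a (c • φ) := by
  obtain ⟨h0, g, hg, hge⟩ := h
  refine ⟨?_, g, hg, by rw [hge, vmv_smul]⟩
  rw [dotProduct_smul] at h0
  rw [smul_dotProduct]; exact h0

lemma smul_swap' {a φ : ι → F} {c : F} (h : InT H a (c • φ)) : InT H (c • a) φ := by
  obtain ⟨h0, g, hg, hge⟩ := h
  refine ⟨?_, g, hg, by rw [hge, vmv_smul]⟩
  rw [smul_dotProduct] at h0
  rw [dotProduct_smul]; exact h0

lemma zero_right (a : ι → F) : InT H a 0 := ⟨by simp, 1, H.one_mem, by ext i j; simp [vecMulVec_apply]⟩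

/-- the whole root subgroup is in `H` -/
def Ln (H : Subgroup (SpecialLinearGroup ι F)) (a φ : ι → F) : Prop := ∀ c : F, InT H a (c • φ)

lemma add_full (A : AddSubgroup F) {μ : F} (hμ : Subring.closure ({μ} : Set F) = ⊤) (hs : ∀ c ∈ A, μ * c ∈ A)
    {c0 : F} (h0 : c0 ≠ 0) (hc0 : c0 ∈ A) (c : F) : c ∈ A := by
  have key : ∀ y ∈ Subring.closure ({μ} : Set F), ∀ x ∈ A, y * x ∈ A := by
    intro y hy
    induction hy using Subring.closure_induction with
    | mem y hy => rw [Set.mem_singleton_iff] at hy; subst hy; exact hs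
    | zero => intro x hx; rw [zero_mul]; exact A.zero_mem
    | one => intro x hx; rwa [one_mul]
    | add a b _ _ ha hb => intro x hx; rw [add_mul]; exact A.add_mem (ha x hx) (hb x hx)
    | neg a _ ha => intro x hx; rw [neg_mul]; exact A.neg_mem (ha x hx)
    | mul a b _ _ ha hb => intro x hx; rw [mul_assoc]; exact ha _ (hb x hx)
  have := key (c * c0⁻¹) (by rw [hμ]; trivial) c0 hc0
  rwa [mul_assoc, inv_mul_cancel₀ h0, mul_one] at this

lemma line_full {a φ : ι → F} {c0 : F} (h0 : c0 ≠ 0) (h : InT H a (c0 • φ)) {μ : F} (hμ : Subring.closure ({μ} : Set F) = ⊤)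
    (hs : ∀ c, InT H a (c • φ) → InT H a ((μ * c) • φ)) : Ln H a φ := by
  let A : AddSubgroup F :=
    { carrier := {c | InT H a (c • φ)}
      zero_mem' := by show InT H a ((0 : F) • φ); rw [zero_smul]; exact zero_right a
      add_mem' := by
        intro x y hx hy
        show InT H a ((x + y) • φ)
        rw [add_smul]; exact InT.add_right hx hy
      neg_mem' := by
        intro x hx
        show InT H a ((-x) • φ)
        rw [neg_smul]; exact InT.neg_right hx }
  intro c
  exact add_full A hμ hs h0 h c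

/-- all transvections with centre `w` are in `H` -/
def FC (H : Subgroup (SpecialLinearGroup ι F)) (w : ι → F) : Prop := ∀ φ : ι → F, φ ⬝ᵥ w = 0 → InT H w φ

lemma FC.conj {w : ι → F} (h : FC H w) {g : SpecialLinearGroup ι F} (hg : g ∈ H) : FC H ((g : Matrix ι ι F) *ᵥ w) := by
  intro φ hφ
  have h1 : (φ ᵥ* (g : Matrix ι ι F)) ⬝ᵥ w = 0 := by rw [← dotProduct_mulVec]; exact hφ
  exact (h _ h1).conj hg rfl

lemma FC.conj_inv {w : ι → F} {g : SpecialLinearGroup ι F} (hg : g ∈ H) (h : FC H ((g : Matrix ι ι F) *ᵥ w)) : FC H w := by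
  have := h.conj (H.inv_mem hg)
  rwa [mulVec_mulVec, ← Matrix.SpecialLinearGroup.coe_mul, inv_mul_cancel, Matrix.SpecialLinearGroup.coe_one, one_mulVec] at this

lemma FC.zero : FC H (0 : ι → F) := fun φ _ => InT.zero_left φ

lemma FC.smul {w : ι → F} (h : FC H w) (c : F) : FC H (c • w) := by
  intro φ hφ
  by_cases hc : c = 0
  · subst hc; rw [zero_smul]; exact InT.zero_left φ
  · apply smul_swap'
    apply h
    rw [dotProduct_smul, smul_eq_mul] at hφ
    rw [smul_dotProduct, smul_eq_mul]; exact hφ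

lemma exists_sep {w1 w2 : ι → F} (h : w1 ∉ Submodule.span F ({w2} : Set (ι → F))) : ∃ φ : ι → F, φ ⬝ᵥ w2 = 0 ∧ φ ⬝ᵥ w1 = 1 := by
  obtain ⟨f, hf, hf2⟩ := Submodule.exists_le_ker_of_notMem h
  have e : ∀ v : ι → F, (fun i => f (Pi.single i 1)) ⬝ᵥ v = f v := by
    intro v
    rw [LinearMap.pi_apply_eq_sum_univ f v, dotProduct]
    refine Finset.sum_congr rfl fun i _ => ?_
    rw [smul_eq_mul, mul_comm]
    congr 2
    ext j
    simp [Pi.single_apply, eq_comm]
  have h2 : f w2 = 0 := hf2 (Submodule.mem_span_singleton_self w2)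
  refine ⟨(f w1)⁻¹ • (fun i => f (Pi.single i 1)), ?_, ?_⟩
  · rw [smul_dotProduct, e, h2, smul_zero]
  · rw [smul_dotProduct, e, smul_eq_mul, inv_mul_cancel₀ hf]

lemma FC.add {w1 w2 : ι → F} (h1 : FC H w1) (h2 : FC H w2) : FC H (w1 + w2) := by
  by_cases h : w1 ∈ Submodule.span F ({w2} : Set (ι → F))
  · obtain ⟨c, rfl⟩ := Submodule.mem_span_singleton.1 h
    have := h2.smul (c + 1)
    rwa [add_smul, one_smul] at this
  · obtain ⟨φ, hφ2, hφ1⟩ := exists_sep h
    obtain ⟨_, g, hg, hge⟩ := h2 φ hφ2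
    have := h1.conj hg
    rwa [hge, one_add_mulVec, hφ1, one_smul] at this

/-- the subspace of full centres -/
def FCs (H : Subgroup (SpecialLinearGroup ι F)) : Submodule F (ι → F) where
  carrier := {w | FC H w}
  zero_mem' := FC.zero
  add_mem' := fun h1 h2 => FC.add h1 h2
  smul_mem' := fun c w h => FC.smul h c

lemma mem_FCs {w : ι → F} : w ∈ FCs H ↔ FC H w := Iff.rfl

theorem eq_top_of_FC (h : ∀ i : ι, FC H (Pi.single i 1)) : H = ⊤ := by
  apply eq_top_of_transvection_mem
  intro i j hij c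
  apply Rt.mem hij
  have := (h i).smul c (Pi.single j 1) (by rw [dotProduct_smul, single_one_dotProduct, Pi.single_eq_of_ne hij.symm, smul_zero])
  rw [← Pi.single_smul, smul_eq_mul, mul_one] at this
  exact this

lemma split_comm {G : Type*} [Group G] {K : Subgroup G} {s t : G} (hst : Commute s t) {N : ℕ} (hs : s ^ N = 1) (ht : t ^ (N + 1) = 1)
    (hr : s * t ∈ K) : s ∈ K ∧ t ∈ K := by
  have h1 : (s * t) ^ N = t⁻¹ := by
    rw [hst.mul_pow, hs, one_mul, eq_inv_iff_mul_eq_one, ← pow_succ, ht]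
  have ht' : t ∈ K := by
    have := K.inv_mem (K.pow_mem hr N)
    rwa [h1, inv_inv] at this
  refine ⟨?_, ht'⟩
  have := K.mul_mem hr (K.inv_mem ht')
  rwa [mul_inv_cancel_right] at this

lemma tr_pow {i j : ι} (hij : i ≠ j) (c : F) (n : ℕ) : (SpecialLinearGroup.transvection hij c) ^ n = SpecialLinearGroup.transvection hij ((n : F) * c) := by
  induction n with
  | zero =>
    rw [pow_zero, Nat.cast_zero, zero_mul]
    apply sl_ext
    rw [Matrix.SpecialLinearGroup.transvection_coe, Matrix.SpecialLinearGroup.coe_one]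
    ext k l
    simp
  | succ n ih =>
    rw [pow_succ, ih, ← Matrix.SpecialLinearGroup.transvection_add, Nat.cast_succ, add_mul, one_mul]

lemma tr_pow_card [Fintype F] {i j : ι} (hij : i ≠ j) (c : F) : (SpecialLinearGroup.transvection hij c) ^ (Fintype.card F - 1 + 1) = 1 := by
  rw [tr_pow, Nat.sub_add_cancel Fintype.card_pos]
  have : ((Fintype.card F : ℕ) : F) = 0 := by
    exact FiniteField.cast_card_eq_zero F
  rw [this, zero_mul]
  apply sl_ext
  rw [Matrix.SpecialLinearGroup.transvection_coe, Matrix.SpecialLinearGroup.coe_one]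
  ext k l
  simp

lemma cube_ne_one [Fintype F] {γ : F} (hγ0 : γ ≠ 0) (hγ : ∀ s : F, s ≠ 0 → ∃ k : ℕ, 1 ≤ k ∧ s = γ ^ k) : 
    ∀ N : ℕ, γ ^ N = 1 → Fintype.card F - 1 ∣ N := by
  classical
  intro N hN
  let g : Fˣ := Units.mk0 γ hγ0
  have hg : ∀ x : Fˣ, x ∈ Subgroup.zpowers g := by
    intro x
    obtain ⟨k, _, hk⟩ := hγ x x.ne_zero
    refine ⟨k, ?_⟩
    ext
    simp [g, hk]
  have h1 : orderOf g = Fintype.card F - 1 := by
    rw [orderOf_eq_card_of_forall_mem_zpowers hg, Nat.card_eq_fintype_card, Fintype.card_units]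
  rw [← h1]
  apply orderOf_dvd_of_pow_eq_one
  ext
  simp [g, hN]

theorem closure_cube [Fintype F] {γ : F} (hγ0 : γ ≠ 0) (hγ : ∀ s : F, s ≠ 0 → ∃ k : ℕ, 1 ≤ k ∧ s = γ ^ k) (h4 : Fintype.card F ≠ 4) :
    Subring.closure ({γ ^ 3} : Set F) = ⊤ := by
  classical
  set R := Subring.closure ({γ ^ 3} : Set F) with hR
  let K : Subfield F :=
    { R with
      inv_mem' := by
        intro x hx
        change x⁻¹ ∈ R
        by_cases h : x = 0
        · subst h; rw [_root_.inv_zero]; exact R.zero_mem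
        · have h1 : x ^ (Fintype.card F - 2) = x⁻¹ := by
            apply eq_inv_of_mul_eq_one_left
            rw [← pow_succ]
            have h2 : Fintype.card F - 2 + 1 = Fintype.card F - 1 := by
              have := Fintype.one_lt_card (α := F); omega
            rw [h2]; exact FiniteField.pow_card_sub_one_eq_one x h
          rw [← h1]; exact R.pow_mem hx _ }
  have hK : ∀ x, x ∈ K ↔ x ∈ R := fun x => Iff.rfl
  have hc3 : γ ^ 3 ∈ K := (hK _).2 (Subring.subset_closure (Set.mem_singleton _))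
  have hcard := Module.card_eq_pow_finrank (K := K) (V := F)
  set d := Module.finrank K F with hd
  set m := Fintype.card K with hm
  have hm1 : 1 < m := Fintype.one_lt_card
  have hpw : (γ ^ 3) ^ (m - 1) = 1 := by
    have h1 := FiniteField.pow_card_sub_one_eq_one (⟨γ ^ 3, hc3⟩ : K) (by
      intro h; apply pow_ne_zero 3 hγ0; exact congrArg Subtype.val h)
    have := congrArg Subtype.val h1
    simpa using this
  rw [← pow_mul] at hpw
  have hdvd := cube_ne_one hγ0 hγ _ hpw
  have hle := Nat.le_of_dvd (by omega) hdvd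
  have hd1 : d = 1 ∨ 2 ≤ d := by
    have : 0 < d := by
      rcases Nat.eq_zero_or_pos d with h | h
      · rw [h, pow_zero] at hcard
        have := Fintype.one_lt_card (α := F); omega
      · exact h
    omega
  rcases hd1 with hd1 | hd2
  · rw [hd1, pow_one] at hcard
    rw [eq_top_iff]
    intro x _
    rw [← hK]
    have hinj : Function.Injective (Subtype.val : K → F) := Subtype.val_injective
    have hbij := (Fintype.bijective_iff_injective_and_card (Subtype.val : K → F)).2 ⟨hinj, hcard.symm⟩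
    obtain ⟨y, hy⟩ := hbij.2 x
    rw [← hy]; exact y.2
  · exfalso
    have h5 : m ^ 2 ≤ Fintype.card F := by rw [hcard]; exact Nat.pow_le_pow_right (by omega) hd2
    have h6 : m ≤ 2 := by
      by_contra hcon
      have h7 : 3 ≤ m := by omega
      have h8 : m ^ 2 - 1 ≤ 3 * (m - 1) := by omega
      obtain ⟨x, hx⟩ : ∃ x, m = x + 3 := ⟨m - 3, by omega⟩
      rw [hx] at h8
      have : (x + 3) ^ 2 = x * x + 6 * x + 9 := by ring
      rw [this] at h8
      have h9 : x + 3 - 1 = x + 2 := by omega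
      rw [h9] at h8
      have h10 : x * x + 6 * x + 9 - 1 = x * x + 6 * x + 8 := by omega
      rw [h10] at h8
      nlinarith [h8]
    have h7 : m = 2 := by omega
    rw [h7] at h5 hle
    have : Fintype.card F = 4 := by omega
    exact h4 this

end Cfsg.Agent.H16.RegF
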