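import Mathlib
import Cfsg.Agent.H16.RegF

set_option autoImplicit false
set_option linter.all false

/-! `SL₃(F)` is generated by two conjugate regular unipotent elements (`|F| ≠ 2, 4`). -/

namespace Cfsg.Agent.H16.RegG

open Matrix Cfsg.Agent.H16 Cfsg.Agent.H16.RegF

variable {F : Type*} [Field F]

def uM (k w : F) : Matrix (Fin 3) (Fin 3) F := !![0, k, 1 + k * w; 1, 3 - w, (3 - w) * w - 3 - k; 0, 1, w]

lemma uM_det (k w : F) : (uM k w).det = 1 := by
  rw [uM, det_fin_three]; simp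

def uS (k w : F) : SpecialLinearGroup (Fin 3) F := ⟨uM k w, uM_det k w⟩

def cM (F : Type*) [Field F] : Matrix (Fin 3) (Fin 3) F := !![0, 0, 1; 1, 0, -3; 0, 1, 3]

lemma cM_det : (cM F).det = 1 := by
  rw [cM, det_fin_three]; simp

def cS (F : Type*) [Field F] : SpecialLinearGroup (Fin 3) F := ⟨cM F, cM_det⟩

def quM (k w : F) : Matrix (Fin 3) (Fin 3) F := !![1, 0, k; 0, 1, 3 - w; 0, 0, 1]

lemma quM_det (k w : F) : (quM k w).det = 1 := by
  rw [quM, det_fin_three]; simp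

lemma u_conj (k w : F) : uM k w * quM k w = quM k w * cM F := by
  ext i j
  fin_cases i <;> fin_cases j <;> simp [uM, quM, cM, Matrix.mul_apply, Fin.sum_univ_three] <;> ring

lemma u_nil (k w : F) : (uM k w - 1) ^ 3 = 0 := by
  ext i j
  rw [pow_succ, pow_two]
  fin_cases i <;> fin_cases j <;> simp [uM, Matrix.mul_apply, Fin.sum_univ_three, Matrix.one_apply] <;> ring

lemma u_nil2 (k w : F) : (uM k w - 1) ^ 2 ≠ 0 := by
  intro h
  have := congrFun (congrFun h 2) 0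
  rw [pow_two] at this
  simp [uM, Matrix.mul_apply, Fin.sum_univ_three, Matrix.one_apply] at this

/-- the second element -/
def vM (a k w τ : F) : Matrix (Fin 3) (Fin 3) F :=
  !![-τ / a, (k - τ * (3 - w)) / a, (1 + k * w - τ * ((3 - w) * w - 3 - k)) / a; 1 / a, (3 - w) / a, ((3 - w) * w - 3 - k) / a; 0, a ^ 2, a ^ 2 * w]

def qvM (a k w τ : F) : Matrix (Fin 3) (Fin 3) F :=
  !![1, -τ / a, (τ ^ 2 + k - τ * (3 - w)) / a ^ 2; 0, 1 / a, (3 - w - τ) / a ^ 2; 0, 0, a]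

lemma qvM_det {a : F} (ha : a ≠ 0) (k w τ : F) : (qvM a k w τ).det = 1 := by
  rw [qvM, det_fin_three]; simp [ha]

lemma v_conj {a w : F} (ha : a ≠ 0) (hD : 1 + a + a ^ 2 ≠ 0) {k τ : F} (hk : k = a ^ 2 * (a * (1 + a + a ^ 2) * w ^ 2 - 3 * a * w - 3) / (1 + a + a ^ 2))
    (hτ : τ = (1 - a) * (3 - (1 + a + a ^ 2) * w)) : vM a k w τ * qvM a k w τ = qvM a k w τ * cM F := by
  subst hk hτ
  ext i j
  fin_cases i <;> fin_cases j <;> simp [vM, qvM, cM, Matrix.mul_apply, Fin.sum_univ_three] <;> field_simp <;> ring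

lemma sM_det {a : F} (ha : a ≠ 0) : (diagonal ![a, a, (a ^ 2)⁻¹]).det = 1 := by
  rw [det_diagonal, Fin.prod_univ_three]; simp; field_simp

def sS {a : F} (ha : a ≠ 0) : SpecialLinearGroup (Fin 3) F := ⟨diagonal ![a, a, (a ^ 2)⁻¹], sM_det ha⟩

lemma h01 : (0 : Fin 3) ≠ 1 := by decide

lemma vM_det {a w : F} (ha : a ≠ 0) (hD : 1 + a + a ^ 2 ≠ 0) {k τ : F} (hk : k = a ^ 2 * (a * (1 + a + a ^ 2) * w ^ 2 - 3 * a * w - 3) / (1 + a + a ^ 2))
    (hτ : τ = (1 - a) * (3 - (1 + a + a ^ 2) * w)) : (vM a k w τ).det = 1 := by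
  have h := congrArg Matrix.det (v_conj ha hD hk hτ)
  rw [det_mul, det_mul, qvM_det ha, cM_det, mul_one, mul_one] at h
  exact h

lemma r_mul {a : F} (ha : a ≠ 0) (k w τ : F) :
    ((sS ha * SpecialLinearGroup.transvection h01 τ : SpecialLinearGroup (Fin 3) F) : Matrix (Fin 3) (Fin 3) F) * vM a k w τ = uM k w := by
  rw [Matrix.SpecialLinearGroup.coe_mul, Matrix.SpecialLinearGroup.transvection_coe]
  show diagonal ![a, a, (a ^ 2)⁻¹] * _ * _ = _
  ext i j
  fin_cases i <;> fin_cases j <;>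
    simp [vM, uM, Matrix.mul_apply, Fin.sum_univ_three, Matrix.diagonal_apply, Matrix.one_apply, Matrix.single_apply] <;> field_simp <;> ring

lemma mulVec_u (k w x y z : F) : uM k w *ᵥ ![x, y, z] = ![k * y + (1 + k * w) * z, x + (3 - w) * y + ((3 - w) * w - 3 - k) * z, y + w * z] := by
  ext i; fin_cases i <;> simp [uM, Matrix.mulVec, dotProduct, Fin.sum_univ_three]

lemma vecMul_u (k w x y z : F) : ![x, y, z] ᵥ* uM k w = ![y, k * x + (3 - w) * y + z, (1 + k * w) * x + ((3 - w) * w - 3 - k) * y + w * z] := by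
  ext i; fin_cases i <;> simp [uM, Matrix.vecMul, dotProduct, Fin.sum_univ_three] <;> ring

lemma mulVec_s {a : F} (ha : a ≠ 0) (x y z : F) : (sS ha : SpecialLinearGroup (Fin 3) F).1 *ᵥ ![x, y, z] = ![a * x, a * y, (a ^ 2)⁻¹ * z] := by
  show diagonal ![a, a, (a ^ 2)⁻¹] *ᵥ _ = _
  ext i; fin_cases i <;> simp [Matrix.mulVec, dotProduct, Fin.sum_univ_three, Matrix.diagonal_apply]

lemma vecMul_s {a : F} (ha : a ≠ 0) (x y z : F) : ![x, y, z] ᵥ* (sS ha : SpecialLinearGroup (Fin 3) F).1 = ![x * a, y * a, z * (a ^ 2)⁻¹] := by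
  show _ ᵥ* diagonal ![a, a, (a ^ 2)⁻¹] = _
  ext i; fin_cases i <;> simp [Matrix.vecMul, dotProduct, Fin.sum_univ_three, Matrix.diagonal_apply]

lemma smul3 (c x y z : F) : c • ![x, y, z] = ![c * x, c * y, c * z] := by
  ext i; fin_cases i <;> simp

lemma add3 (x y z x' y' z' : F) : ![x, y, z] + ![x', y', z'] = ![x + x', y + y', z + z'] := by
  ext i; fin_cases i <;> simp

lemma sub3 (x y z x' y' z' : F) : ![x, y, z] - ![x', y', z'] = ![x - x', y - y', z - z'] := by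
  ext i; fin_cases i <;> simp

variable {H : Subgroup (SpecialLinearGroup (Fin 3) F)}

theorem core {a w k τ : F} (ha : a ≠ 0) (ha3 : a ^ 3 ≠ 1) (hcl : Subring.closure ({a ^ 3} : Set F) = ⊤) (hτ : τ ≠ 0) (hm : 1 + k * w ≠ 0)
    (hu : uS k w ∈ H) (hs : sS ha ∈ H) (ht : SpecialLinearGroup.transvection h01 τ ∈ H) : H = ⊤ := by
  -- `t`
  have t0 : InT H ![τ, 0, 0] ![0, 1, 0] := by
    have := Rt.of_mem h01 ht
    unfold Rt at this
    have e1 : (Pi.single (0 : Fin 3) τ : Fin 3 → F) = ![τ, 0, 0] := by ext i; fin_cases i <;> simp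
    have e2 : (Pi.single (1 : Fin 3) (1 : F) : Fin 3 → F) = ![0, 1, 0] := by ext i; fin_cases i <;> simp
    rwa [e1, e2] at this
  -- conjugation by `s` on centre `e2`
  have sconj : ∀ x z c : F, InT H ![0, c, 0] ![x, 0, z] → InT H ![0, c, 0] ![x, 0, z * a ^ 3] := by
    intro x z c h
    have h1 := h.conj hs (φ' := ![x / a, 0, z * a ^ 2]) (by
      rw [vecMul_s]; ext i; fin_cases i <;> simp [ha])
    rw [mulVec_s] at h1
    have e : (![a * 0, a * c, (a ^ 2)⁻¹ * 0] : Fin 3 → F) = a • ![0, c, 0] := by rw [smul3]; simp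
    rw [e] at h1
    have h2 := smul_swap h1
    rw [smul3] at h2
    have e2 : (![a * (x / a), a * 0, a * (z * a ^ 2)] : Fin 3 → F) = ![x, 0, z * a ^ 3] := by
      ext i; fin_cases i <;> simp <;> field_simp
    rwa [e2] at h2
  -- `t' = u t u⁻¹`
  have t1 : InT H ![0, τ, 0] ![-w, 0, 1 + k * w] := by
    have h1 := t0.conj hu (φ' := ![-w, 0, 1 + k * w]) (by
      show _ ᵥ* uM k w = _
      rw [vecMul_u]; ext i; fin_cases i <;> simp <;> ring)
    have h2 : InT H (uM k w *ᵥ ![τ, 0, 0]) ![-w, 0, 1 + k * w] := h1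
    rw [mulVec_u] at h2
    simpa using h2
  have t2 := sconj _ _ _ t1
  have t3 := t2.sub_right t1
  rw [sub3] at t3
  have t4 : InT H ![0, 1, 0] ((τ * ((1 + k * w) * (a ^ 3 - 1))) • ![0, 0, 1]) := by
    have e : (![0, τ, 0] : Fin 3 → F) = τ • ![0, 1, 0] := by rw [smul3]; simp
    rw [e] at t3
    have h2 := smul_swap t3
    rw [smul3] at h2
    rw [smul3]
    have e2 : (![τ * (-w - -w), τ * (0 - 0), τ * ((1 + k * w) * a ^ 3 - (1 + k * w))] : Fin 3 → F) =
      ![τ * ((1 + k * w) * (a ^ 3 - 1)) * 0, τ * ((1 + k * w) * (a ^ 3 - 1)) * 0, τ * ((1 + k * w) * (a ^ 3 - 1)) * 1] := by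
      ext i; fin_cases i
      · show τ * (-w - -w) = τ * ((1 + k * w) * (a ^ 3 - 1)) * 0; ring
      · show τ * (0 - 0) = τ * ((1 + k * w) * (a ^ 3 - 1)) * 0; ring
      · show τ * ((1 + k * w) * a ^ 3 - (1 + k * w)) = τ * ((1 + k * w) * (a ^ 3 - 1)) * 1; ring
    rwa [e2] at h2
  have l23 : Ln H ![0, 1, 0] ![0, 0, 1] := by
    apply line_full _ t4 hcl
    · intro c hc
      rw [smul3] at hc ⊢
      simp only [mul_zero, mul_one] at hc ⊢
      have := sconj _ _ _ hc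
      rwa [mul_comm (a ^ 3) c]
    · exact mul_ne_zero hτ (mul_ne_zero hm (sub_ne_zero.2 ha3))
  -- `x₁₃`
  have l13 : ∀ c : F, InT H ![τ, 0, 0] ![0, 0, c] := by
    intro c
    have h1 := l23 c
    rw [smul3] at h1
    have h2 := t0.comm h1 (by simp [dotProduct, Fin.sum_univ_three])
    have e : ((![0, 1, 0] : Fin 3 → F) ⬝ᵥ ![0, 1, 0]) = 1 := by simp [dotProduct, Fin.sum_univ_three]
    rw [e, one_smul] at h2
    simpa using h2
  have l21 : ∀ c : F, InT H ![0, 1, 0] ![c, 0, 0] := by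
    intro c
    have h1 := (l13 (c / τ)).conj hu (φ' := ![c / τ, 0, -k * (c / τ)]) (by
      show _ ᵥ* uM k w = _
      rw [vecMul_u]; ext i; fin_cases i <;> simp <;> ring)
    have h2 : InT H (uM k w *ᵥ ![τ, 0, 0]) ![c / τ, 0, -k * (c / τ)] := h1
    rw [mulVec_u] at h2
    have e : (![k * 0 + (1 + k * w) * 0, τ + (3 - w) * 0 + ((3 - w) * w - 3 - k) * 0, 0 + w * 0] : Fin 3 → F) = τ • ![0, 1, 0] := by
      rw [smul3]; simp
    rw [e] at h2
    have h3 := smul_swap h2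
    have h4 := h3.add_right (l23 (k * c))
    rw [smul3, smul3, add3] at h4
    have e2 : (![τ * (c / τ) + k * c * 0, τ * 0 + k * c * 0, τ * (-k * (c / τ)) + k * c * 1] : Fin 3 → F) = ![c, 0, 0] := by
      ext i; fin_cases i <;> simp <;> field_simp <;> ring
    rwa [e2] at h4
  have f2 : FC H ![0, 1, 0] := by
    intro φ hφ
    have e : φ = ![φ 0, 0, 0] + φ 2 • ![0, 0, 1] := by
      simp [dotProduct, Fin.sum_univ_three] at hφ
      ext i; fin_cases i <;> simp [hφ]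
    rw [e]
    exact (l21 _).add_right (l23 _)
  have f1 : FC H ![1, 0, 0] := by
    apply FC.conj_inv hu
    show FC H (uM k w *ᵥ ![1, 0, 0])
    rw [mulVec_u]
    simpa using f2
  have f3' : FC H (uM k w *ᵥ ![0, 1, 0]) := f2.conj hu
  rw [mulVec_u] at f3'
  have f3 : FC H ![0, 0, 1] := by
    have := (f3'.add (f1.smul (-k))).add (f2.smul (-(3 - w)))
    rw [smul3, smul3, add3, add3] at this
    simpa using this
  apply eq_top_of_FC
  intro i
  have e0 : (Pi.single (0 : Fin 3) (1 : F) : Fin 3 → F) = ![1, 0, 0] := by ext i; fin_cases i <;> simp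
  have e1 : (Pi.single (1 : Fin 3) (1 : F) : Fin 3 → F) = ![0, 1, 0] := by ext i; fin_cases i <;> simp
  have e2 : (Pi.single (2 : Fin 3) (1 : F) : Fin 3 → F) = ![0, 0, 1] := by ext i; fin_cases i <;> simp
  fin_cases i
  · show FC H (Pi.single (0 : Fin 3) (1 : F)); rw [e0]; exact f1
  · show FC H (Pi.single (1 : Fin 3) (1 : F)); rw [e1]; exact f2
  · show FC H (Pi.single (2 : Fin 3) (1 : F)); rw [e2]; exact f3

end Cfsg.Agent.H16.RegG
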