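import Mathlib
import Cfsg.Agent.H16.RegG
import Cfsg.Agent.H8.F4

set_option autoImplicit false
set_option linter.all false

/-! `SL₃(2)` and `SL₃(4)` are generated by two conjugate regular unipotent elements. -/

namespace Cfsg.Agent.H16.RegS

open Matrix Cfsg.Agent.H16 Cfsg.Agent.H16.RegF Cfsg.Agent.H8 Cfsg.Agent.H8.F4

variable {F : Type*} [Field F]

def MM (H : Subgroup (SpecialLinearGroup (Fin 3) F)) (M : Matrix (Fin 3) (Fin 3) F) : Prop := ∃ g ∈ H, (g : Matrix (Fin 3) (Fin 3) F) = M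

variable {H : Subgroup (SpecialLinearGroup (Fin 3) F)}

lemma MM.mul {A B C : Matrix (Fin 3) (Fin 3) F} (hA : MM H A) (hB : MM H B) (e : A * B = C) : MM H C := by
  obtain ⟨g, hg, rfl⟩ := hA
  obtain ⟨h, hh, rfl⟩ := hB
  exact ⟨g * h, H.mul_mem hg hh, by rw [Matrix.SpecialLinearGroup.coe_mul, e]⟩

lemma MM.inv {A B : Matrix (Fin 3) (Fin 3) F} (hA : MM H A) (e : A * B = 1) : MM H B := by
  obtain ⟨g, hg, rfl⟩ := hA
  refine ⟨g⁻¹, H.inv_mem hg, ?_⟩
  have h1 : ((g⁻¹ : SpecialLinearGroup (Fin 3) F) : Matrix (Fin 3) (Fin 3) F) * (g : Matrix (Fin 3) (Fin 3) F) = 1 := by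
    rw [← Matrix.SpecialLinearGroup.coe_mul, inv_mul_cancel, Matrix.SpecialLinearGroup.coe_one]
  calc ((g⁻¹ : SpecialLinearGroup (Fin 3) F) : Matrix (Fin 3) (Fin 3) F) = ((g⁻¹ : SpecialLinearGroup (Fin 3) F) : Matrix (Fin 3) (Fin 3) F) * ((g : Matrix (Fin 3) (Fin 3) F) * B) := by rw [e, mul_one]
    _ = B := by rw [← mul_assoc, h1, one_mul]

lemma MM.rt {M : Matrix (Fin 3) (Fin 3) F} (h : MM H M) {i j : Fin 3} (hij : i ≠ j) (c : F) (e : (SpecialLinearGroup.transvection hij c : SpecialLinearGroup (Fin 3) F).1 = M) : Rt H i j c := by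
  apply Rt.of_mem hij
  obtain ⟨g, hg, hge⟩ := h
  have : g = SpecialLinearGroup.transvection hij c := sl_ext (by rw [hge]; exact e.symm)
  rw [← this]; exact hg

lemma tr_eq {i j : Fin 3} (hij : i ≠ j) (c : F) : (SpecialLinearGroup.transvection hij c : SpecialLinearGroup (Fin 3) F).1 = 1 + Matrix.single i j c := by
  rw [Matrix.SpecialLinearGroup.transvection_coe]

lemma six {P : Fin 3 → Fin 3 → Prop} (h01 : P 0 1) (h02 : P 0 2) (h10 : P 1 0) (h12 : P 1 2) (h20 : P 2 0) (h21 : P 2 1) : ∀ i j, i ≠ j → P i j := by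
  intro i j h
  fin_cases i <;> fin_cases j <;> first | exact absurd rfl h | assumption

lemma gen2 : ∀ s : ZMod 2, s ≠ 0 → ∃ k : ℕ, 1 ≤ k ∧ s = 1 ^ k := by
  intro s hs
  refine ⟨1, le_rfl, ?_⟩
  revert s; decide

lemma gen4 : ∀ s : F4, s ≠ 0 → ∃ k : ℕ, 1 ≤ k ∧ s = F4.w ^ k := by
  intro s hs
  cases s
  · exact absurd rfl hs
  · exact ⟨3, by norm_num, by decide +kernel⟩
  · exact ⟨1, by norm_num, by decide +kernel⟩
  · exact ⟨2, by norm_num, by decide +kernel⟩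

theorem two_gen (H : Subgroup (SpecialLinearGroup (Fin 3) (ZMod 2))) (hu : MM H !![0, 0, 1; 1, 1, 1; 0, 1, 0]) (hv : MM H !![1, 0, 1; 1, 1, 0; 0, 0, 1]) : H = ⊤ := by
  have hui : MM H !![1, 1, 1; 0, 0, 1; 1, 0, 0] := hu.inv (by decide +kernel)
  have hvi : MM H !![1, 0, 1; 1, 1, 1; 0, 0, 1] := hv.inv (by decide +kernel)
  have n0 : MM H !![0, 1, 0; 0, 0, 1; 1, 0, 1] := hui.mul hv (by decide +kernel)
  have n1 : MM H !![1, 1, 0; 0, 0, 1; 1, 0, 0] := n0.mul hv (by decide +kernel)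
  have n2 : MM H !![1, 1, 0; 0, 1, 0; 0, 0, 1] := n1.mul hu (by decide +kernel)
  have n3 : MM H !![0, 1, 0; 1, 0, 0; 1, 1, 1] := hu.mul hu (by decide +kernel)
  have n4 : MM H !![1, 1, 0; 1, 0, 1; 0, 1, 0] := n3.mul hv (by decide +kernel)
  have n5 : MM H !![1, 1, 0; 0, 1, 1; 1, 1, 1] := n4.mul hu (by decide +kernel)
  have n6 : MM H !![0, 1, 1; 1, 1, 1; 0, 1, 0] := n5.mul hv (by decide +kernel)
  have n7 : MM H !![1, 0, 1; 0, 1, 0; 0, 0, 1] := n6.mul hui (by decide +kernel)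
  have n8 : MM H !![1, 1, 1; 1, 0, 1; 0, 1, 1] := n3.mul hvi (by decide +kernel)
  have n9 : MM H !![0, 1, 0; 0, 1, 1; 1, 0, 1] := n8.mul hui (by decide +kernel)
  have n10 : MM H !![1, 1, 1; 1, 1, 0; 1, 0, 0] := n9.mul hvi (by decide +kernel)
  have n11 : MM H !![1, 0, 0; 1, 1, 0; 0, 0, 1] := n10.mul hu (by decide +kernel)
  have n12 : MM H !![1, 0, 0; 0, 1, 1; 0, 0, 1] := hv.mul hv (by decide +kernel)
  have n13 : MM H !![1, 0, 0; 0, 1, 1; 1, 0, 1] := n8.mul hu (by decide +kernel)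
  have n14 : MM H !![1, 0, 1; 1, 1, 1; 1, 0, 0] := n13.mul hv (by decide +kernel)
  have n15 : MM H !![1, 0, 0; 0, 1, 0; 1, 0, 1] := n14.mul hv (by decide +kernel)
  have n16 : MM H !![0, 1, 1; 1, 1, 0; 0, 1, 0] := hv.mul hu (by decide +kernel)
  have n17 : MM H !![1, 0, 1; 1, 1, 0; 1, 1, 1] := n16.mul hu (by decide +kernel)
  have n18 : MM H !![1, 0, 0; 0, 1, 0; 0, 1, 1] := n17.mul hvi (by decide +kernel)
  have h01 : Rt H 0 1 1 := n2.rt (by decide) _ (by rw [tr_eq]; decide +kernel)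
  have h02 : Rt H 0 2 1 := n7.rt (by decide) _ (by rw [tr_eq]; decide +kernel)
  have h10 : Rt H 1 0 1 := n11.rt (by decide) _ (by rw [tr_eq]; decide +kernel)
  have h12 : Rt H 1 2 1 := n12.rt (by decide) _ (by rw [tr_eq]; decide +kernel)
  have h20 : Rt H 2 0 1 := n15.rt (by decide) _ (by rw [tr_eq]; decide +kernel)
  have h21 : Rt H 2 1 1 := n18.rt (by decide) _ (by rw [tr_eq]; decide +kernel)
  exact eq_top_of_gen (by simp) (six h01 h02 h10 h12 h20 h21) (γ := 1) gen2 (by decide) h01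

theorem four_gen (H : Subgroup (SpecialLinearGroup (Fin 3) F4)) (hu : MM H !![.z, .z, .o; .o, .o, .o; .z, .o, .z]) (hv : MM H !![.w, .z, .w; .v, .v, .w; .w, .w, .z]) : H = ⊤ := by
  have hui : MM H !![.o, .o, .o; .z, .z, .o; .o, .z, .z] := hu.inv (by decide +kernel)
  have hvi : MM H !![.v, .v, .o; .v, .v, .w; .z, .v, .o] := hv.inv (by decide +kernel)
  have n0 : MM H !![.v, .o, .z; .w, .w, .z; .w, .z, .w] := hui.mul hv (by decide +kernel)
  have n1 : MM H !![.o, .o, .w; .w, .w, .z; .z, .w, .w] := n0.mul hu (by decide +kernel)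
  have n2 : MM H !![.o, .v, .z; .w, .w, .z; .w, .z, .w] := n1.mul hu (by decide +kernel)
  have n3 : MM H !![.o, .o, .z; .z, .z, .o; .o, .z, .z] := n2.mul hvi (by decide +kernel)
  have n4 : MM H !![.o, .o, .z; .z, .o, .z; .z, .z, .o] := n3.mul hu (by decide +kernel)
  have n5 : MM H !![.z, .o, .z; .o, .z, .z; .o, .o, .o] := hu.mul hu (by decide +kernel)
  have n6 : MM H !![.v, .v, .w; .w, .z, .w; .v, .o, .z] := n5.mul hv (by decide +kernel)
  have n7 : MM H !![.o, .v, .z; .z, .w, .w; .v, .v, .w] := n6.mul hui (by decide +kernel)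
  have n8 : MM H !![.o, .o, .z; .o, .z, .o; .z, .o, .z] := n7.mul hvi (by decide +kernel)
  have n9 : MM H !![.o, .o, .z; .z, .o, .o; .o, .o, .o] := n8.mul hu (by decide +kernel)
  have n10 : MM H !![.o, .v, .z; .o, .o, .w; .v, .o, .z] := n9.mul hv (by decide +kernel)
  have n11 : MM H !![.o, .o, .w; .v, .o, .z; .v, .v, .w] := n10.mul hui (by decide +kernel)
  have n12 : MM H !![.z, .o, .o; .o, .o, .o; .z, .o, .z] := n11.mul hvi (by decide +kernel)
  have n13 : MM H !![.o, .z, .o; .z, .o, .z; .z, .z, .o] := n12.mul hui (by decide +kernel)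
  have n14 : MM H !![.v, .o, .z; .z, .w, .w; .o, .o, .w] := n6.mul hu (by decide +kernel)
  have n15 : MM H !![.o, .o, .o; .o, .z, .o; .z, .o, .o] := n14.mul hvi (by decide +kernel)
  have n16 : MM H !![.z, .o, .z; .z, .o, .o; .o, .z, .o] := n15.mul hui (by decide +kernel)
  have n17 : MM H !![.v, .v, .w; .o, .o, .w; .z, .w, .w] := n16.mul hv (by decide +kernel)
  have n18 : MM H !![.v, .o, .z; .o, .v, .z; .w, .z, .w] := n17.mul hu (by decide +kernel)
  have n19 : MM H !![.o, .o, .o; .o, .o, .z; .o, .z, .z] := n18.mul hvi (by decide +kernel)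
  have n20 : MM H !![.o, .z, .z; .o, .o, .z; .z, .z, .o] := n19.mul hu (by decide +kernel)
  have n21 : MM H !![.z, .w, .w; .v, .o, .z; .w, .w, .z] := hv.mul hu (by decide +kernel)
  have n22 : MM H !![.w, .z, .w; .o, .o, .w; .w, .w, .z] := n21.mul hu (by decide +kernel)
  have n23 : MM H !![.o, .z, .z; .z, .o, .o; .z, .z, .o] := n22.mul hvi (by decide +kernel)
  have n24 : MM H !![.o, .z, .z; .z, .o, .o; .o, .z, .o] := n15.mul hu (by decide +kernel)
  have n25 : MM H !![.w, .z, .w; .o, .o, .w; .z, .w, .w] := n24.mul hv (by decide +kernel)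
  have n26 : MM H !![.z, .w, .w; .o, .v, .z; .w, .z, .w] := n25.mul hu (by decide +kernel)
  have n27 : MM H !![.w, .z, .w; .v, .v, .w; .z, .w, .w] := n26.mul hu (by decide +kernel)
  have n28 : MM H !![.o, .z, .z; .z, .o, .z; .o, .z, .o] := n27.mul hvi (by decide +kernel)
  have n29 : MM H !![.z, .w, .w; .o, .v, .z; .w, .w, .z] := hv.mul hui (by decide +kernel)
  have n30 : MM H !![.o, .z, .o; .o, .o, .z; .z, .z, .o] := n29.mul hvi (by decide +kernel)
  have n31 : MM H !![.z, .o, .o; .o, .o, .z; .z, .o, .z] := n30.mul hu (by decide +kernel)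
  have n32 : MM H !![.o, .z, .o; .o, .o, .z; .o, .o, .o] := n31.mul hu (by decide +kernel)
  have n33 : MM H !![.z, .w, .w; .o, .v, .z; .v, .o, .z] := n32.mul hv (by decide +kernel)
  have n34 : MM H !![.w, .z, .w; .v, .v, .w; .o, .o, .w] := n33.mul hu (by decide +kernel)
  have n35 : MM H !![.o, .z, .z; .z, .o, .z; .z, .o, .o] := n34.mul hvi (by decide +kernel)
  have n36 : MM H !![.v, .v, .w; .v, .v, .o; .z, .v, .w] := n5.mul hvi (by decide +kernel)
  have n37 : MM H !![.v, .o, .z; .v, .w, .z; .v, .o, .v] := n36.mul hu (by decide +kernel)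
  have n38 : MM H !![.o, .o, .w; .w, .w, .o; .o, .w, .w] := n37.mul hu (by decide +kernel)
  have n39 : MM H !![.w, .z, .z; .z, .v, .z; .z, .w, .o] := n38.mul hv (by decide +kernel)
  have n40 : MM H !![.w, .w, .w; .z, .z, .v; .o, .z, .w] := n39.mul hui (by decide +kernel)
  have n41 : MM H !![.o, .w, .z; .o, .o, .z; .o, .v, .w] := n40.mul hv (by decide +kernel)
  have n42 : MM H !![.o, .o, .v; .o, .o, .z; .v, .o, .w] := n41.mul hui (by decide +kernel)
  have n43 : MM H !![.z, .w, .z; .o, .v, .z; .o, .z, .v] := n42.mul hv (by decide +kernel)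
  have n44 : MM H !![.w, .w, .w; .v, .v, .w; .z, .v, .o] := n43.mul hu (by decide +kernel)
  have n45 : MM H !![.o, .w, .z; .z, .o, .z; .z, .z, .o] := n44.mul hv (by decide +kernel)
  have h01 : Rt H 0 1 1 := n4.rt (by decide) _ (by rw [tr_eq]; decide +kernel)
  have h02 : Rt H 0 2 1 := n13.rt (by decide) _ (by rw [tr_eq]; decide +kernel)
  have h10 : Rt H 1 0 1 := n20.rt (by decide) _ (by rw [tr_eq]; decide +kernel)
  have h12 : Rt H 1 2 1 := n23.rt (by decide) _ (by rw [tr_eq]; decide +kernel)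
  have h20 : Rt H 2 0 1 := n28.rt (by decide) _ (by rw [tr_eq]; decide +kernel)
  have h21 : Rt H 2 1 1 := n35.rt (by decide) _ (by rw [tr_eq]; decide +kernel)
  have h01g : Rt H 0 1 (F4.w) := n45.rt (by decide) _ (by rw [tr_eq]; decide +kernel)
  exact eq_top_of_gen (by simp) (six h01 h02 h10 h12 h20 h21) (γ := F4.w) gen4 (by decide) h01g


/-- the conclusion -/
def PP (F : Type*) [Field F] : Prop :=
  ∃ u g : Matrix.SpecialLinearGroup (Fin 3) F, IsNilpotent ((u : Matrix (Fin 3) (Fin 3) F) - 1) ∧ ((u : Matrix (Fin 3) (Fin 3) F) - 1) ^ (3 - 1) ≠ 0 ∧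
      Subgroup.closure ({u, g * u * g⁻¹} : Set (Matrix.SpecialLinearGroup (Fin 3) F)) = ⊤

theorem two : PP (ZMod 2) := by
  let u : SpecialLinearGroup (Fin 3) (ZMod 2) := ⟨!![0, 0, 1; 1, 1, 1; 0, 1, 0], by decide +kernel⟩
  let g : SpecialLinearGroup (Fin 3) (ZMod 2) := ⟨!![0, 1, 1; 0, 0, 1; 1, 1, 0], by decide +kernel⟩
  let v : SpecialLinearGroup (Fin 3) (ZMod 2) := ⟨!![1, 0, 1; 1, 1, 0; 0, 0, 1], by decide +kernel⟩
  have hv : g * u * g⁻¹ = v := by
    rw [mul_inv_eq_iff_eq_mul]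
    apply sl_ext
    show (!![0, 1, 1; 0, 0, 1; 1, 1, 0] : Matrix (Fin 3) (Fin 3) (ZMod 2)) * !![0, 0, 1; 1, 1, 1; 0, 1, 0] = !![1, 0, 1; 1, 1, 0; 0, 0, 1] * !![0, 1, 1; 0, 0, 1; 1, 1, 0]
    decide +kernel
  refine ⟨u, g, ⟨3, ?_⟩, ?_, ?_⟩
  · show ((!![0, 0, 1; 1, 1, 1; 0, 1, 0] : Matrix (Fin 3) (Fin 3) (ZMod 2)) - 1) ^ 3 = 0
    rw [pow_succ, pow_two]; decide +kernel
  · show ((!![0, 0, 1; 1, 1, 1; 0, 1, 0] : Matrix (Fin 3) (Fin 3) (ZMod 2)) - 1) ^ 2 ≠ 0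
    rw [pow_two]; decide +kernel
  · rw [hv]
    exact two_gen _ ⟨u, Subgroup.subset_closure (by simp), rfl⟩ ⟨v, Subgroup.subset_closure (by simp), rfl⟩

theorem four : PP F4 := by
  let u : SpecialLinearGroup (Fin 3) F4 := ⟨!![.z, .z, .o; .o, .o, .o; .z, .o, .z], by rw [det_fin_three]; decide +kernel⟩
  let g : SpecialLinearGroup (Fin 3) F4 := ⟨!![.w, .w, .w; .v, .w, .o; .v, .w, .w], by rw [det_fin_three]; decide +kernel⟩
  let v : SpecialLinearGroup (Fin 3) F4 := ⟨!![.w, .z, .w; .v, .v, .w; .w, .w, .z], by rw [det_fin_three]; decide +kernel⟩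
  have hv : g * u * g⁻¹ = v := by
    rw [mul_inv_eq_iff_eq_mul]
    apply sl_ext
    show (!![.w, .w, .w; .v, .w, .o; .v, .w, .w] : Matrix (Fin 3) (Fin 3) F4) * !![.z, .z, .o; .o, .o, .o; .z, .o, .z] = !![.w, .z, .w; .v, .v, .w; .w, .w, .z] * !![.w, .w, .w; .v, .w, .o; .v, .w, .w]
    decide +kernel
  refine ⟨u, g, ⟨3, ?_⟩, ?_, ?_⟩
  · show ((!![.z, .z, .o; .o, .o, .o; .z, .o, .z] : Matrix (Fin 3) (Fin 3) F4) - 1) ^ 3 = 0
    rw [pow_succ, pow_two]; decide +kernel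
  · show ((!![.z, .z, .o; .o, .o, .o; .z, .o, .z] : Matrix (Fin 3) (Fin 3) F4) - 1) ^ 2 ≠ 0
    rw [pow_two]; decide +kernel
  · rw [hv]
    exact four_gen _ ⟨u, Subgroup.subset_closure (by simp), rfl⟩ ⟨v, Subgroup.subset_closure (by simp), rfl⟩

theorem PP_transport {K F : Type*} [Field K] [Field F] (e : K ≃+* F) (h : PP K) : PP F := by
  obtain ⟨u, g, ⟨n, hn⟩, h2, h3⟩ := h
  let φ : SpecialLinearGroup (Fin 3) K →* SpecialLinearGroup (Fin 3) F := SpecialLinearGroup.map e.toRingHom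
  have hφ : Function.Surjective φ := by
    intro x
    refine ⟨SpecialLinearGroup.map e.symm.toRingHom x, ?_⟩
    apply sl_ext
    ext i j
    simp [φ]
  have hm : ∀ k : ℕ, (((φ u : SpecialLinearGroup (Fin 3) F) : Matrix (Fin 3) (Fin 3) F) - 1) ^ k = e.toRingHom.mapMatrix (((u : Matrix (Fin 3) (Fin 3) K) - 1) ^ k) := by
    intro k
    rw [map_pow, map_sub, map_one]
    rfl
  refine ⟨φ u, φ g, ⟨n, ?_⟩, ?_, ?_⟩
  · rw [hm, hn, map_zero]
  · intro h
    rw [hm] at h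
    apply h2
    ext i j
    have := congrFun (congrFun h i) j
    simpa using this
  · have : ({φ u, φ g * φ u * (φ g)⁻¹} : Set (SpecialLinearGroup (Fin 3) F)) = φ '' {u, g * u * g⁻¹} := by
      rw [Set.image_pair, map_mul, map_mul, map_inv]
    rw [this, ← MonoidHom.map_closure, h3, ← MonoidHom.range_eq_map, MonoidHom.range_eq_top.2 hφ]

end Cfsg.Agent.H16.RegS
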