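import Mathlib
import Cfsg.Agent.H16.RegS

set_option autoImplicit false
set_option linter.all false

/-! `SL₃(F)` is generated by two conjugate regular unipotent elements. -/

namespace Cfsg.Agent.H16.RegT

open Matrix Cfsg.Agent.H16 Cfsg.Agent.H16.RegF Cfsg.Agent.H16.RegG Cfsg.Agent.H16.RegS

variable {F : Type*} [Field F]

theorem gen [Fintype F] (h2 : Fintype.card F ≠ 2) (h4 : Fintype.card F ≠ 4) : PP F := by
  classical
  obtain ⟨a, ha, hgen⟩ := exists_gen F
  have hq := Fintype.one_lt_card (α := F)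
  have ha3 : a ^ 3 ≠ 1 := by
    intro h
    have := cube_ne_one ha hgen 3 h
    have h5 := (Nat.dvd_prime Nat.prime_three).1 this
    omega
  have ha1 : a ≠ 1 := by intro h; apply ha3; rw [h, one_pow]
  have hD : 1 + a + a ^ 2 ≠ 0 := by
    intro h
    apply ha3
    have : a ^ 3 - 1 = (a - 1) * (1 + a + a ^ 2) := by ring
    rw [h, mul_zero, sub_eq_zero] at this
    exact this
  have hcl := closure_cube ha hgen h4
  obtain ⟨w, k, τ, hk, hτ, hτ0, hm⟩ : ∃ w k τ : F, k = a ^ 2 * (a * (1 + a + a ^ 2) * w ^ 2 - 3 * a * w - 3) / (1 + a + a ^ 2) ∧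
      τ = (1 - a) * (3 - (1 + a + a ^ 2) * w) ∧ τ ≠ 0 ∧ 1 + k * w ≠ 0 := by
    by_cases h3 : (3 : F) = 0
    · refine ⟨-1, _, _, rfl, rfl, ?_, ?_⟩
      · rw [h3, zero_sub, mul_neg_one, neg_neg]
        exact mul_ne_zero (sub_ne_zero.2 ha1.symm) hD
      · rw [h3]
        have e : a ^ 2 * (a * (1 + a + a ^ 2) * (-1) ^ 2 - 0 * a * -1 - 0) / (1 + a + a ^ 2) = a ^ 3 := by
          field_simp; ring
        rw [e]
        intro h
        apply ha3
        linear_combination -h
    · refine ⟨0, _, _, rfl, rfl, ?_, ?_⟩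
      · rw [mul_zero, sub_zero]
        exact mul_ne_zero (sub_ne_zero.2 ha1.symm) h3
      · rw [mul_zero, add_zero]; exact one_ne_zero
  let v : SpecialLinearGroup (Fin 3) F := ⟨vM a k w τ, vM_det ha hD hk hτ⟩
  let qu : SpecialLinearGroup (Fin 3) F := ⟨quM k w, quM_det k w⟩
  let qv : SpecialLinearGroup (Fin 3) F := ⟨qvM a k w τ, qvM_det ha k w τ⟩
  have hu : uS k w * qu = qu * cS F := sl_ext (u_conj k w)
  have hv : v * qv = qv * cS F := sl_ext (v_conj ha hD hk hτ)
  have hvu : (qv * qu⁻¹) * uS k w * (qv * qu⁻¹)⁻¹ = v := by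
    have e1 : uS k w = qu * cS F * qu⁻¹ := by rw [← hu, mul_inv_cancel_right]
    have e2 : v = qv * cS F * qv⁻¹ := by rw [← hv, mul_inv_cancel_right]
    rw [e1, e2]; group
  refine ⟨uS k w, qv * qu⁻¹, ⟨3, u_nil k w⟩, u_nil2 k w, ?_⟩
  rw [hvu]
  set H := Subgroup.closure ({uS k w, v} : Set (SpecialLinearGroup (Fin 3) F)) with hH
  have huH : uS k w ∈ H := Subgroup.subset_closure (by simp)
  have hvH : v ∈ H := Subgroup.subset_closure (by simp)
  have hr : sS ha * SpecialLinearGroup.transvection h01 τ ∈ H := by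
    have e : (sS ha * SpecialLinearGroup.transvection h01 τ) * v = uS k w := sl_ext (r_mul ha k w τ)
    have : sS ha * SpecialLinearGroup.transvection h01 τ = uS k w * v⁻¹ := by rw [← e, mul_inv_cancel_right]
    rw [this]
    exact H.mul_mem huH (H.inv_mem hvH)
  have hcomm : Commute (sS ha) (SpecialLinearGroup.transvection h01 τ) := by
    apply sl_ext
    show diagonal ![a, a, (a ^ 2)⁻¹] * (SpecialLinearGroup.transvection h01 τ : SpecialLinearGroup (Fin 3) F).1 = (SpecialLinearGroup.transvection h01 τ : SpecialLinearGroup (Fin 3) F).1 * diagonal ![a, a, (a ^ 2)⁻¹]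
    rw [tr_eq]
    ext i j
    fin_cases i <;> fin_cases j <;>
      simp [Matrix.mul_apply, Fin.sum_univ_three, Matrix.diagonal_apply, Matrix.one_apply, Matrix.single_apply] <;> ring
  have hsp : (sS ha) ^ (Fintype.card F - 1) = 1 := by
    apply sl_ext
    rw [Matrix.SpecialLinearGroup.coe_pow, Matrix.SpecialLinearGroup.coe_one]
    show (diagonal ![a, a, (a ^ 2)⁻¹]) ^ (Fintype.card F - 1) = 1
    have h1 := FiniteField.pow_card_sub_one_eq_one a ha
    have h2 := FiniteField.pow_card_sub_one_eq_one (a ^ 2)⁻¹ (_root_.inv_ne_zero (pow_ne_zero 2 ha))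
    rw [diagonal_pow, ← diagonal_one]
    congr 1
    ext i; fin_cases i
    · exact h1
    · exact h1
    · exact h2
  obtain ⟨hsH, htH⟩ := split_comm hcomm hsp (tr_pow_card h01 τ) hr
  exact core ha ha3 hcl hτ0 hm huH hsH htH

theorem main {F : Type*} [Field F] [Fintype F] : PP F := by
  by_cases h2 : Fintype.card F = 2
  · exact PP_transport (FiniteField.ringEquivOfCardEq (K := ZMod 2) (K' := F) (by rw [h2]; rfl)) two
  · by_cases h4 : Fintype.card F = 4
    · exact PP_transport (FiniteField.ringEquivOfCardEq (K := Cfsg.Agent.H8.F4) (K' := F) (by rw [h4]; rfl)) four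
    · exact gen h2 h4

end Cfsg.Agent.H16.RegT
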