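import Mathlib
import Cfsg.Agent.H16.TvA

set_option autoImplicit false
set_option linter.all false

/-! Generation of `SL_n(F)` by three conjugate regular unipotents, main construction. -/

namespace Cfsg.Agent.H16

open Matrix

variable {n : ℕ} {F : Type*} [Field F]

/-- regular unipotent -/
def uM (n : ℕ) (F : Type*) [Field F] : Matrix (Fin n) (Fin n) F := Matrix.of fun i j => if i = j then 1 else if j.val = i.val + 1 then 1 else 0
def yM (n : ℕ) (F : Type*) [Field F] : Matrix (Fin n) (Fin n) F := Matrix.of fun i j => if i = j then 1 else if j.val = i.val + 1 ∧ 1 ≤ i.val then 1 else 0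

lemma uM_det : (uM n F).det = 1 := by
  have h : (uM n F).BlockTriangular id := by
    intro i j hij
    simp only [id_eq] at hij
    show (if i = j then (1 : F) else if j.val = i.val + 1 then 1 else 0) = 0
    rw [if_neg (ne_of_gt hij), if_neg (by rw [Fin.lt_def] at hij; omega)]
  rw [Matrix.det_of_upperTriangular h]
  apply Finset.prod_eq_one
  intro i _
  show (if i = i then (1 : F) else _) = 1
  rw [if_pos rfl]

lemma yM_det : (yM n F).det = 1 := by
  have h : (yM n F).BlockTriangular id := by
    intro i j hij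
    simp only [id_eq] at hij
    show (if i = j then (1 : F) else if j.val = i.val + 1 ∧ 1 ≤ i.val then 1 else 0) = 0
    rw [if_neg (ne_of_gt hij), if_neg (by rw [Fin.lt_def] at hij; omega)]
  rw [Matrix.det_of_upperTriangular h]
  apply Finset.prod_eq_one
  intro i _
  show (if i = i then (1 : F) else _) = 1
  rw [if_pos rfl]

def uS (n : ℕ) (F : Type*) [Field F] : SpecialLinearGroup (Fin n) F := ⟨uM n F, uM_det⟩
def yS (n : ℕ) (F : Type*) [Field F] : SpecialLinearGroup (Fin n) F := ⟨yM n F, yM_det⟩

lemma uS_coe : ((uS n F : SpecialLinearGroup (Fin n) F) : Matrix (Fin n) (Fin n) F) = uM n F := rfl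
lemma yS_coe : ((yS n F : SpecialLinearGroup (Fin n) F) : Matrix (Fin n) (Fin n) F) = yM n F := rfl

lemma uM_mulVec (v : Fin n → F) (i : Fin n) : (uM n F *ᵥ v) i = v i + (if h : i.val + 1 < n then v ⟨i.val + 1, h⟩ else 0) := by
  show ∑ j, (if i = j then (1 : F) else if j.val = i.val + 1 then 1 else 0) * v j = _
  have e : ∀ j : Fin n, (if i = j then (1 : F) else if j.val = i.val + 1 then 1 else 0) * v j = (if i = j then v j else 0) + (if j.val = i.val + 1 then v j else 0) := by
    intro j
    by_cases h1 : i = j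
    · subst h1
      rw [if_pos rfl, if_pos rfl, if_neg (by omega)]; ring
    · rw [if_neg h1, if_neg h1]
      split_ifs <;> ring
  rw [Finset.sum_congr rfl fun j _ => e j, Finset.sum_add_distrib, Finset.sum_ite_eq, if_pos (Finset.mem_univ _)]
  congr 1
  split_ifs with h
  · rw [Finset.sum_eq_single ⟨i.val + 1, h⟩]
    · rw [if_pos rfl]
    · intro j _ hj
      rw [if_neg (fun hh => hj (Fin.ext hh))]
    · intro hh; exact absurd (Finset.mem_univ _) hh
  · apply Finset.sum_eq_zero
    intro j _
    rw [if_neg]
    intro hh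
    have := j.2
    omega

lemma yM_mulVec (v : Fin n → F) (i : Fin n) : (yM n F *ᵥ v) i = v i + (if h : i.val + 1 < n ∧ 1 ≤ i.val then v ⟨i.val + 1, h.1⟩ else 0) := by
  show ∑ j, (if i = j then (1 : F) else if j.val = i.val + 1 ∧ 1 ≤ i.val then 1 else 0) * v j = _
  have e : ∀ j : Fin n, (if i = j then (1 : F) else if j.val = i.val + 1 ∧ 1 ≤ i.val then 1 else 0) * v j = (if i = j then v j else 0) + (if j.val = i.val + 1 ∧ 1 ≤ i.val then v j else 0) := by
    intro j
    by_cases h1 : i = j
    · subst h1
      rw [if_pos rfl, if_pos rfl, if_neg (by omega)]; ring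
    · rw [if_neg h1, if_neg h1]
      split_ifs <;> ring
  rw [Finset.sum_congr rfl fun j _ => e j, Finset.sum_add_distrib, Finset.sum_ite_eq, if_pos (Finset.mem_univ _)]
  congr 1
  split_ifs with h
  · rw [Finset.sum_eq_single ⟨i.val + 1, h.1⟩]
    · rw [if_pos ⟨rfl, h.2⟩]
    · intro j _ hj
      rw [if_neg (fun hh => hj (Fin.ext hh.1))]
    · intro hh; exact absurd (Finset.mem_univ _) hh
  · apply Finset.sum_eq_zero
    intro j _
    rw [if_neg]
    intro hh
    have := j.2
    omega

lemma vecMul_yM (φ : Fin n → F) (j : Fin n) : (φ ᵥ* yM n F) j = φ j + (if h : 2 ≤ j.val then φ ⟨j.val - 1, by omega⟩ else 0) := by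
  show ∑ i, φ i * (if i = j then (1 : F) else if j.val = i.val + 1 ∧ 1 ≤ i.val then 1 else 0) = _
  have e : ∀ i : Fin n, φ i * (if i = j then (1 : F) else if j.val = i.val + 1 ∧ 1 ≤ i.val then 1 else 0) = (if i = j then φ i else 0) + (if j.val = i.val + 1 ∧ 1 ≤ i.val then φ i else 0) := by
    intro i
    by_cases h1 : i = j
    · subst h1
      rw [if_pos rfl, if_pos rfl, if_neg (by omega)]; ring
    · rw [if_neg h1, if_neg h1]
      split_ifs <;> ring
  rw [Finset.sum_congr rfl fun i _ => e i, Finset.sum_add_distrib, Finset.sum_ite_eq' , if_pos (Finset.mem_univ _)]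
  congr 1
  split_ifs with h
  · rw [Finset.sum_eq_single ⟨j.val - 1, by omega⟩]
    · rw [if_pos (by constructor <;> simp <;> omega)]
    · intro i _ hi
      rw [if_neg]
      rintro ⟨hh, _⟩
      exact hi (Fin.ext (by simp; omega))
    · intro hh; exact absurd (Finset.mem_univ _) hh
  · apply Finset.sum_eq_zero
    intro i _
    rw [if_neg]
    omega

lemma vecMul_uM (φ : Fin n → F) (j : Fin n) : (φ ᵥ* uM n F) j = φ j + (if h : 1 ≤ j.val then φ ⟨j.val - 1, by omega⟩ else 0) := by
  show ∑ i, φ i * (if i = j then (1 : F) else if j.val = i.val + 1 then 1 else 0) = _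
  have e : ∀ i : Fin n, φ i * (if i = j then (1 : F) else if j.val = i.val + 1 then 1 else 0) = (if i = j then φ i else 0) + (if j.val = i.val + 1 then φ i else 0) := by
    intro i
    by_cases h1 : i = j
    · subst h1
      rw [if_pos rfl, if_pos rfl, if_neg (by omega)]; ring
    · rw [if_neg h1, if_neg h1]
      split_ifs <;> ring
  rw [Finset.sum_congr rfl fun i _ => e i, Finset.sum_add_distrib, Finset.sum_ite_eq' , if_pos (Finset.mem_univ _)]
  congr 1
  split_ifs with h
  · rw [Finset.sum_eq_single ⟨j.val - 1, by omega⟩]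
    · rw [if_pos (by simp; omega)]
    · intro i _ hi
      rw [if_neg]
      intro hh
      exact hi (Fin.ext (by simp; omega))
    · intro hh; exact absurd (Finset.mem_univ _) hh
  · apply Finset.sum_eq_zero
    intro i _
    rw [if_neg]
    omega

lemma mat_ext_mulVec {A B : Matrix (Fin n) (Fin n) F} (h : ∀ (v : Fin n → F) i, (A *ᵥ v) i = (B *ᵥ v) i) : A = B := by
  ext i j
  have := h (Pi.single j 1) i
  rw [mulVec_single_one, mulVec_single_one] at this
  exact this

/-- signed cycle -/
def QM (n : ℕ) (F : Type*) [Field F] : Matrix (Fin n) (Fin n) F := Matrix.of fun i j => if i.val = 0 then (if j.val + 1 = n then 1 else 0) else (if j.val + 1 = i.val then -1 else 0)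

lemma QM_mulVec (v : Fin n → F) (i : Fin n) : (QM n F *ᵥ v) i = if h : i.val = 0 then v ⟨n - 1, by omega⟩ else - v ⟨i.val - 1, by omega⟩ := by
  show ∑ j, (if i.val = 0 then (if j.val + 1 = n then (1 : F) else 0) else (if j.val + 1 = i.val then -1 else 0)) * v j = _
  split_ifs with h
  · rw [Finset.sum_eq_single ⟨n - 1, by omega⟩]
    · rw [if_pos (by simp; omega), one_mul]
    · intro j _ hj
      rw [if_neg, zero_mul]
      intro hh
      exact hj (Fin.ext (by simp; omega))
    · intro hh; exact absurd (Finset.mem_univ _) hh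
  · rw [Finset.sum_eq_single ⟨i.val - 1, by omega⟩]
    · rw [if_pos (by simp; omega), neg_one_mul]
    · intro j _ hj
      rw [if_neg, zero_mul]
      intro hh
      exact hj (Fin.ext (by simp; omega))
    · intro hh; exact absurd (Finset.mem_univ _) hh

lemma QM_det (hn : 1 ≤ n) : (QM n F).det = 1 := by
  obtain ⟨m, rfl⟩ : ∃ m, n = m + 1 := ⟨n - 1, by omega⟩
  have h : QM (m + 1) F = (Equiv.Perm.permMatrix F (finRotate (m + 1))⁻¹) * Matrix.diagonal (fun j : Fin (m + 1) => if j.val = m then (1 : F) else -1) := by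
    ext i j
    rw [Matrix.mul_diagonal, Equiv.Perm.permMatrix, PEquiv.toMatrix_apply, Equiv.toPEquiv_apply]
    show (if i.val = 0 then (if j.val + 1 = m + 1 then (1 : F) else 0) else (if j.val + 1 = i.val then -1 else 0)) = _
    have e : (j ∈ some ((finRotate (m + 1))⁻¹ i)) ↔ i = finRotate (m + 1) j := by
      rw [Option.mem_def, Option.some.injEq, Equiv.Perm.inv_eq_iff_eq]
    by_cases hj : j.val = m
    · have hr : finRotate (m + 1) j = 0 := by
        have : j = Fin.last m := Fin.ext hj
        rw [this, finRotate_last]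
      rw [if_pos hj]
      by_cases hi : i.val = 0
      · rw [if_pos hi, if_pos (by omega), if_pos (e.2 (by rw [hr]; exact Fin.ext hi)), one_mul]
      · rw [if_neg hi, if_neg (by have := i.2; omega), if_neg (fun h => hi (by rw [e.1 h, hr]; rfl)), zero_mul]
    · have hr : (finRotate (m + 1) j).val = j.val + 1 := by
        rw [coe_finRotate_of_ne_last]
        intro h; apply hj; rw [h]; rfl
      rw [if_neg hj]
      by_cases hi : i.val = 0
      · rw [if_pos hi, if_neg (by omega), if_neg (fun h => by have := congrArg Fin.val (e.1 h); omega), zero_mul]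
      · rw [if_neg hi]
        by_cases hij : j.val + 1 = i.val
        · rw [if_pos hij, if_pos (e.2 (Fin.ext (by omega))), one_mul]
        · rw [if_neg hij, if_neg (fun h => hij (by have := congrArg Fin.val (e.1 h); omega)), zero_mul]
  rw [h, Matrix.det_mul, Matrix.det_permutation, Matrix.det_diagonal, Equiv.Perm.sign_inv, sign_finRotate]
  have h2 : ∏ j : Fin (m + 1), (if j.val = m then (1 : F) else -1) = (-1) ^ m := by
    rw [Fin.prod_univ_castSucc]
    have : ∀ i : Fin m, (if (Fin.castSucc i).val = m then (1 : F) else -1) = -1 := by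
      intro i
      rw [if_neg]
      have := i.2
      simp; omega
    rw [Finset.prod_congr rfl fun i _ => this i]
    simp
  rw [h2]
  simp only [Nat.add_sub_cancel, Units.val_pow_eq_pow_val, Units.val_neg, Units.val_one, Int.cast_pow, Int.cast_neg, Int.cast_one]
  rw [← pow_add, ← two_mul, pow_mul]; simp

def QS (n : ℕ) (F : Type*) [Field F] (hn : 1 ≤ n) : SpecialLinearGroup (Fin n) F := ⟨QM n F, QM_det hn⟩

end Cfsg.Agent.H16
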