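import Mathlib
import Cfsg.Agent.H16.RegU

set_option autoImplicit false
set_option linter.all false

/-! Generation of `SL_n(F)` by three conjugate regular unipotents. -/

namespace Cfsg.Agent.H16

open Matrix

variable {n : ℕ} {F : Type*} [Field F]

lemma sd (i j : Fin n) (c : F) : (Pi.single i 1 : Fin n → F) ⬝ᵥ (Pi.single j c : Fin n → F) = if i = j then c else 0 := by
  rw [single_dotProduct, one_mul, Pi.single_apply]

def iz (hn : 3 ≤ n) : Fin n := ⟨0, by omega⟩
def io (hn : 3 ≤ n) : Fin n := ⟨1, by omega⟩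
def it (hn : 3 ≤ n) : Fin n := ⟨2, by omega⟩
def il (hn : 3 ≤ n) : Fin n := ⟨n - 1, by omega⟩

/-- vector `a = -e_l + ε e_1` -/
def av (hn : 3 ≤ n) (ε : F) : Fin n → F := Pi.single (io hn) ε - Pi.single (il hn) 1
def vv (hn : 3 ≤ n) (ε : F) : Fin n → F := Pi.single (il hn) 1 - Pi.single (it hn) ε

section conj
variable (hn : 3 ≤ n) (ε : F)

lemma izo : iz hn ≠ io hn := by intro h; have := congrArg Fin.val h; simp [iz, io] at this
lemma izt : iz hn ≠ it hn := by intro h; have := congrArg Fin.val h; simp [iz, it] at this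
lemma izl : iz hn ≠ il hn := by intro h; have := congrArg Fin.val h; simp [iz, il] at this; omega
lemma iol : io hn ≠ il hn := by intro h; have := congrArg Fin.val h; simp [io, il] at this; omega
lemma iot : io hn ≠ it hn := by intro h; have := congrArg Fin.val h; simp [io, it] at this

lemma z_av : (Pi.single (iz hn) 1 : Fin n → F) ⬝ᵥ av hn ε = 0 := by
  unfold av
  rw [dotProduct_sub, sd, sd, if_neg (izo hn), if_neg (izl hn), sub_zero]

lemma z_vv : (Pi.single (iz hn) 1 : Fin n → F) ⬝ᵥ vv hn ε = 0 := by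
  unfold vv
  rw [dotProduct_sub, sd, sd, if_neg (izt hn), if_neg (izl hn), sub_zero]

def G0 : SpecialLinearGroup (Fin n) F := tv (av hn ε) (Pi.single (iz hn) 1) (z_av hn ε)
def KK : SpecialLinearGroup (Fin n) F := tv (vv hn ε) (Pi.single (iz hn) 1) (z_vv hn ε)
def X0 {n : ℕ} (hn : 3 ≤ n) (F : Type*) [Field F] : SpecialLinearGroup (Fin n) F := tv (Pi.single (il hn) (-1)) (Pi.single (iz hn) 1) (by rw [sd, if_neg (izl hn)])
def X1 {n : ℕ} (hn : 3 ≤ n) (F : Type*) [Field F] : SpecialLinearGroup (Fin n) F := tv (Pi.single (iz hn) 1) (Pi.single (io hn) 1) (by rw [sd, if_neg (izo hn).symm])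
def XX (θ : F) : SpecialLinearGroup (Fin n) F := tv (Pi.single (iz hn) θ) (Pi.single (il hn) 1) (by rw [sd, if_neg (izl hn).symm])

lemma z_yM : (Pi.single (iz hn) 1 : Fin n → F) ᵥ* yM n F = Pi.single (iz hn) 1 := by
  ext j
  rw [vecMul_yM]
  by_cases h : 2 ≤ j.val
  · rw [dif_pos h, Pi.single_apply, Pi.single_apply, if_neg, if_neg, add_zero]
    · intro hh; have := congrArg Fin.val hh; simp [iz] at this; omega
    · intro hh; have := congrArg Fin.val hh; simp [iz] at this; omega
  · rw [dif_neg h, add_zero]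

lemma yM_single (j : Fin n) (hj : 2 ≤ j.val) (c : F) : yM n F *ᵥ Pi.single j c = Pi.single j c + Pi.single ⟨j.val - 1, by omega⟩ c := by
  ext i
  rw [yM_mulVec, Pi.add_apply]
  congr 1
  by_cases h : i.val + 1 < n ∧ 1 ≤ i.val
  · rw [dif_pos h, Pi.single_apply, Pi.single_apply]
    by_cases h2 : i.val + 1 = j.val
    · rw [if_pos (Fin.ext h2), if_pos (Fin.ext (by simp; omega))]
    · rw [if_neg (fun hh => h2 (congrArg Fin.val hh)), if_neg]
      intro hh; have := congrArg Fin.val hh; simp at this; omega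
  · rw [dif_neg h, Pi.single_apply, if_neg]
    intro hh; have := congrArg Fin.val hh; simp at this; have := j.2; omega

lemma yM_single' (j : Fin n) (hj : j.val ≤ 1) (c : F) : yM n F *ᵥ Pi.single j c = Pi.single j c := by
  ext i
  rw [yM_mulVec]
  by_cases h : i.val + 1 < n ∧ 1 ≤ i.val
  · have h2 : (Pi.single j c : Fin n → F) ⟨i.val + 1, h.1⟩ = 0 := by
      rw [Pi.single_apply, if_neg]
      intro hh; have := congrArg Fin.val hh; simp at this; omega
    rw [dif_pos h, h2, add_zero]
  · rw [dif_neg h, add_zero]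

lemma single_yM (j : Fin n) (hj : 1 ≤ j.val) (hj2 : j.val + 1 < n) (c : F) : (Pi.single j c : Fin n → F) ᵥ* yM n F = Pi.single j c + Pi.single ⟨j.val + 1, hj2⟩ c := by
  ext i
  rw [vecMul_yM, Pi.add_apply]
  congr 1
  by_cases h : 2 ≤ i.val
  · rw [dif_pos h, Pi.single_apply, Pi.single_apply]
    by_cases h2 : i.val = j.val + 1
    · rw [if_pos (Fin.ext (by simp; omega)), if_pos (Fin.ext h2)]
    · rw [if_neg, if_neg (fun hh => h2 (congrArg Fin.val hh))]
      intro hh; have := congrArg Fin.val hh; simp at this; omega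
  · rw [dif_neg h, Pi.single_apply, if_neg]
    intro hh; have := congrArg Fin.val hh; simp at this; omega

lemma U_eq : uS n F = yS n F * X1 hn F := by
  apply sl_ext
  rw [Matrix.SpecialLinearGroup.coe_mul, uS_coe, yS_coe, X1, tv_coe, Matrix.mul_add, Matrix.mul_one, mul_vecMulVec, yM_single' _ (by simp [iz])]
  ext i j
  rw [Matrix.add_apply, vecMulVec_apply]
  show (if i = j then (1 : F) else if j.val = i.val + 1 then 1 else 0) = (if i = j then (1 : F) else if j.val = i.val + 1 ∧ 1 ≤ i.val then 1 else 0) + _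
  rw [Pi.single_apply, Pi.single_apply]
  by_cases h1 : i = j
  · subst h1
    rw [if_pos rfl, if_pos rfl]
    by_cases h2 : i = iz hn
    · rw [if_neg (fun hh : i = io hn => izo hn (h2.symm.trans hh)), mul_zero, add_zero]
    · rw [if_neg h2, zero_mul, add_zero]
  · rw [if_neg h1, if_neg h1]
    by_cases h2 : i = iz hn
    · rw [if_pos h2, one_mul]
      have hi : i.val = 0 := by rw [h2]; rfl
      rw [if_neg (by omega : ¬ (j.val = i.val + 1 ∧ 1 ≤ i.val)), zero_add]
      by_cases h3 : j = io hn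
      · rw [if_pos h3, if_pos (by rw [h3, hi]; rfl)]
      · rw [if_neg h3, if_neg]
        intro hh
        apply h3
        exact Fin.ext (by rw [hh, hi]; rfl)
    · rw [if_neg h2, zero_mul, add_zero]
      have hi : i.val ≠ 0 := fun h => h2 (Fin.ext h)
      by_cases h3 : j.val = i.val + 1
      · rw [if_pos h3, if_pos ⟨h3, by omega⟩]
      · rw [if_neg h3, if_neg (fun h => h3 h.1)]

lemma Q_conj : QS n F (by omega) * uS n F = X0 hn F * yS n F * QS n F (by omega) := by
  apply sl_ext
  simp only [Matrix.SpecialLinearGroup.coe_mul, uS_coe, yS_coe, X0, tv_coe]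
  show QM n F * uM n F = (1 + vecMulVec (Pi.single (il hn) (-1)) (Pi.single (iz hn) 1)) * yM n F * QM n F
  rw [Matrix.add_mul, Matrix.one_mul, vecMulVec_mul, z_yM]
  apply mat_ext_mulVec
  intro v i
  rw [← mulVec_mulVec, ← mulVec_mulVec, Matrix.add_mulVec, Pi.add_apply, vecMulVec_mulVec, QM_mulVec, yM_mulVec]
  have e2 : (Pi.single (iz hn) 1 : Fin n → F) ⬝ᵥ (QM n F *ᵥ v) = v ⟨n - 1, by omega⟩ := by
    rw [single_dotProduct, one_mul, QM_mulVec, dif_pos (by rfl)]
  rw [e2]
  simp only [uM_mulVec]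
  have e3 : (MulOpposite.op (v ⟨n - 1, by omega⟩) • (Pi.single (il hn) (-1) : Fin n → F)) i = if i.val = n - 1 then - v ⟨n - 1, by omega⟩ else 0 := by
    rw [Pi.smul_apply, op_smul_eq_mul, Pi.single_apply]
    by_cases h : i = il hn
    · rw [if_pos h, if_pos (by rw [h]; rfl)]; ring
    · rw [if_neg h, if_neg (fun hh : i.val = n - 1 => h (Fin.ext hh)), zero_mul]
  rw [e3, QM_mulVec]
  by_cases hi : i.val = 0
  · rw [dif_pos hi, dif_pos hi, dif_neg (by simp; omega), dif_neg (by omega), if_neg (by omega), add_zero, add_zero]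
  · rw [dif_neg hi, dif_neg hi, dif_pos (show i.val - 1 + 1 < n by have := i.2; omega)]
    have e4 : (⟨i.val - 1 + 1, by omega⟩ : Fin n) = i := Fin.ext (by simp; omega)
    by_cases h2 : i.val = n - 1
    · rw [dif_neg (by omega), if_pos h2]
      have e5 : (⟨n - 1, by omega⟩ : Fin n) = i := Fin.ext h2.symm
      rw [e5]
      have e6 : v ⟨(⟨i.val - 1, by omega⟩ : Fin n).val + 1, by simp; omega⟩ = v i := congrArg v e4
      rw [e6]; ring
    · rw [dif_pos (by have := i.2; omega), if_neg h2, QM_mulVec, dif_neg (by simp)]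
      have e6 : v ⟨(⟨i.val - 1, by omega⟩ : Fin n).val + 1, by simp; omega⟩ = v i := congrArg v e4
      have e7 : v ⟨(⟨i.val + 1, by omega⟩ : Fin n).val - 1, by simp⟩ = v i := congrArg v (Fin.ext (by simp))
      rw [e6, e7]; ring

lemma K_conj : KK hn ε * (X0 hn F * yS n F) = yS n F * G0 hn ε * KK hn ε := by
  apply sl_ext
  simp only [Matrix.SpecialLinearGroup.coe_mul, yS_coe, X0, KK, G0, tv_coe]
  have h1 : (1 + vecMulVec (Pi.single (il hn) (-1)) (Pi.single (iz hn) 1)) * yM n F = yM n F + vecMulVec (Pi.single (il hn) (-1)) (Pi.single (iz hn) 1) := by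
    rw [Matrix.add_mul, Matrix.one_mul, vecMulVec_mul, z_yM]
  have h2 : (1 + vecMulVec (vv hn ε) (Pi.single (iz hn) 1)) * (yM n F + vecMulVec (Pi.single (il hn) (-1)) (Pi.single (iz hn) 1))
    = yM n F + vecMulVec (vv hn ε + Pi.single (il hn) (-1)) (Pi.single (iz hn) 1) := by
    rw [Matrix.add_mul, Matrix.one_mul, Matrix.mul_add, vecMulVec_mul, z_yM, vecMulVec_mul_vecMulVec, sd, if_neg (izl hn), zero_smul, vecMulVec_zero, add_zero, add_vecMulVec]
    abel
  have h3 : yM n F * (1 + vecMulVec (av hn ε) (Pi.single (iz hn) 1)) * (1 + vecMulVec (vv hn ε) (Pi.single (iz hn) 1))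
    = yM n F + vecMulVec (yM n F *ᵥ (av hn ε + vv hn ε)) (Pi.single (iz hn) 1) := by
    rw [Matrix.mul_assoc, Matrix.mul_add, Matrix.mul_one, Matrix.add_mul, Matrix.one_mul, vecMulVec_mul_vecMulVec, z_vv, zero_smul, vecMulVec_zero, add_zero, add_assoc,
      ← add_vecMulVec, Matrix.mul_add, Matrix.mul_one, mul_vecMulVec]
  rw [h1, h2, h3]
  congr 2
  have h4 : av hn ε + vv hn ε = Pi.single (io hn) ε - Pi.single (it hn) ε := by unfold av vv; abel
  rw [h4, Matrix.mulVec_sub, yM_single' _ (by simp [io]), yM_single _ (by simp [it])]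
  have h5 : (⟨(it hn).val - 1, by omega⟩ : Fin n) = io hn := rfl
  rw [h5]
  unfold vv
  rw [Pi.single_neg]
  abel

/-- `y G₀` is conjugate to `u` -/
lemma W_conj : yS n F * G0 hn ε = (KK hn ε * QS n F (by omega)) * uS n F * (KK hn ε * QS n F (by omega))⁻¹ := by
  have h1 := Q_conj (F := F) hn
  have h2 := K_conj (F := F) hn ε
  rw [eq_mul_inv_iff_mul_eq, mul_assoc (KK hn ε), h1, ← mul_assoc (yS n F * G0 hn ε), ← h2]
  simp only [mul_assoc]

def Tg (θ : F) : SpecialLinearGroup (Fin n) F := tv (Pi.single (iz hn) θ) (Pi.single (⟨n - 2, by omega⟩ : Fin n) 1)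
  (by rw [sd, if_neg]; intro h; have := congrArg Fin.val h; simp [iz] at this; omega)

lemma uM_z (c : F) : uM n F *ᵥ Pi.single (iz hn) c = Pi.single (iz hn) c := by
  ext i
  rw [uM_mulVec]
  split_ifs with h
  · have h2 : (Pi.single (iz hn) c : Fin n → F) ⟨i.val + 1, h⟩ = 0 := by
      rw [Pi.single_apply, if_neg]
      intro hh; have := congrArg Fin.val hh; simp [iz] at this
    rw [h2, add_zero]
  · rw [add_zero]

lemma X_conj (θ : F) : uS n F * XX hn θ = Tg hn θ * uS n F * (Tg hn θ)⁻¹ := by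
  rw [eq_mul_inv_iff_mul_eq]
  apply sl_ext
  simp only [Matrix.SpecialLinearGroup.coe_mul, uS_coe, XX, Tg, tv_coe]
  have hz2 : ¬ (il hn = iz hn) := (izl hn).symm
  rw [Matrix.mul_assoc, Matrix.add_mul 1, Matrix.one_mul, Matrix.mul_add (vecMulVec _ _), Matrix.mul_one, vecMulVec_mul_vecMulVec, sd, if_neg hz2, zero_smul, vecMulVec_zero, add_zero,
    add_assoc, ← vecMulVec_add, Matrix.mul_add, Matrix.mul_one, mul_vecMulVec, uM_z, Matrix.add_mul, Matrix.one_mul, vecMulVec_mul]
  congr 2
  ext j
  rw [vecMul_uM, Pi.add_apply]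
  congr 1
  rw [Pi.single_apply]
  by_cases h : 1 ≤ j.val
  · rw [dif_pos h, Pi.single_apply]
    by_cases h2 : j = il hn
    · have h3 : j.val = n - 1 := by rw [h2]; rfl
      rw [if_pos h2, if_pos (Fin.ext (by simp; omega))]
    · rw [if_neg h2, if_neg]
      intro hh
      apply h2
      have := congrArg Fin.val hh
      simp at this
      exact Fin.ext (by simp [il]; have := j.2; omega)
  · rw [dif_neg h, if_neg]
    intro hh
    have := congrArg Fin.val hh
    simp [il] at this
    omega

/-- `u` is regular unipotent -/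
lemma u_nilp (hn : 3 ≤ n) : (uM n F - 1) ^ n = 0 ∧ (uM n F - 1) ^ (n - 1) ≠ 0 := by
  have key : ∀ k : ℕ, (uM n F - 1) ^ k = Matrix.of fun i j : Fin n => if j.val = i.val + k then (1 : F) else 0 := by
    intro k
    induction k with
    | zero =>
      rw [pow_zero]
      ext i j
      rw [Matrix.one_apply]
      show _ = if j.val = i.val + 0 then (1 : F) else 0
      by_cases h : i = j
      · rw [if_pos h, if_pos (by rw [h]; rfl)]
      · rw [if_neg h, if_neg (fun hh => h (Fin.ext (by omega)))]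
    | succ k ih =>
      rw [pow_succ', ih]
      apply mat_ext_mulVec
      intro v i
      rw [← mulVec_mulVec, sub_mulVec, Pi.sub_apply, one_mulVec, uM_mulVec, add_sub_cancel_left]
      have e : ∀ (m : ℕ) (i : Fin n), ((Matrix.of fun i j : Fin n => if j.val = i.val + m then (1 : F) else 0) *ᵥ v) i = if h : i.val + m < n then v ⟨i.val + m, h⟩ else 0 := by
        intro m i
        show ∑ j : Fin n, (if j.val = i.val + m then (1 : F) else 0) * v j = _
        split_ifs with h
        · rw [Finset.sum_eq_single ⟨i.val + m, h⟩]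
          · rw [if_pos rfl, one_mul]
          · intro j _ hj
            rw [if_neg (fun hh => hj (Fin.ext hh)), zero_mul]
          · intro hh; exact absurd (Finset.mem_univ _) hh
        · apply Finset.sum_eq_zero
          intro j _
          rw [if_neg, zero_mul]
          have := j.2
          omega
      rw [e]
      by_cases h : i.val + 1 < n
      · rw [dif_pos h, e]
        by_cases h2 : i.val + (k + 1) < n
        · rw [dif_pos h2, dif_pos (by simp; omega)]
          congr 1
          exact Fin.ext (by simp; omega)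
        · rw [dif_neg h2, dif_neg (by simp; omega)]
      · rw [dif_neg h, dif_neg (by omega)]
  constructor
  · rw [key n]
    ext i j
    show (if j.val = i.val + n then (1 : F) else 0) = 0
    rw [if_neg]
    have := j.2
    omega
  · rw [key]
    intro h
    have h2 := congrFun (congrFun h (⟨0, by omega⟩ : Fin n)) (⟨n - 1, by omega⟩ : Fin n)
    simp at h2

end conj

end Cfsg.Agent.H16
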