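import Mathlib
import Cfsg.Agent.H16.RegU2

set_option autoImplicit false
set_option linter.all false

/-! Generation of `SL_n(F)` by three conjugate regular unipotents: the generation arguments. -/

namespace Cfsg.Agent.H16

open Matrix

variable {n : ℕ} {F : Type*} [Field F]

lemma tv_inv {ι : Type*} [Fintype ι] [DecidableEq ι] (a φ : ι → F) (h : φ ⬝ᵥ a = 0) :
    (tv a φ h : SpecialLinearGroup ι F)⁻¹ = tv (-a) φ (by rw [dotProduct_neg, h, neg_zero]) := by
  rw [inv_eq_iff_mul_eq_one]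
  apply sl_ext
  rw [Matrix.SpecialLinearGroup.coe_mul, tv_coe, tv_coe, Matrix.mul_add, Matrix.mul_one, Matrix.add_mul, Matrix.one_mul, vecMulVec_mul_vecMulVec, dotProduct_neg, h, neg_zero, zero_smul, vecMulVec_zero, add_zero,
    add_assoc, ← add_vecMulVec, add_neg_cancel, zero_vecMulVec, add_zero]
  rfl

lemma all_of_zero {H : Subgroup (SpecialLinearGroup (Fin n) F)} (z : Fin n) (h1 : ∀ j, j ≠ z → Rt H z j 1) (h2 : ∀ j, j ≠ z → Rt H j z 1) :
    ∀ i j : Fin n, i ≠ j → Rt H i j 1 := by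
  intro i j hij
  by_cases hi : i = z
  · subst hi; exact h1 j hij.symm
  · by_cases hj : j = z
    · subst hj; exact h2 i hij
    · have := (h2 i hi).comm (h1 j hj) hij
      rwa [mul_one] at this

/-- From `y` and the first root element, all root elements in row `0`. -/
lemma row_zero {H : Subgroup (SpecialLinearGroup (Fin n) F)} (hn : 3 ≤ n) (hy : yS n F ∈ H) (h : Rt H (iz hn) (io hn) 1) :
    ∀ (k : ℕ) (hk : k < n), 1 ≤ k → Rt H (iz hn) ⟨k, hk⟩ 1 := by
  intro k hk h1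
  induction k, h1 using Nat.le_induction with
  | base => exact h
  | succ k h1 ih =>
    have ih' := ih (by omega)
    have e : ((yS n F : SpecialLinearGroup (Fin n) F) : Matrix (Fin n) (Fin n) F) *ᵥ (Pi.single (iz hn) 1) = Pi.single (iz hn) 1 := by
      rw [yS_coe, yM_single' _ (by simp [iz])]
    have h3 : InT H (((yS n F : SpecialLinearGroup (Fin n) F) : Matrix (Fin n) (Fin n) F) *ᵥ (Pi.single (iz hn) 1)) (Pi.single ⟨k, by omega⟩ 1) := by
      rw [e]; exact ih'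
    have h4 := InT.conj_inv hy h3
    rw [yS_coe, single_yM ⟨k, by omega⟩ h1 hk] at h4
    have h5 := h4.sub_right ih'
    rwa [add_sub_cancel_left] at h5

lemma y_conj_col {H : Subgroup (SpecialLinearGroup (Fin n) F)} (hn : 3 ≤ n) (hy : yS n F ∈ H) {a : Fin n → F} (h : InT H a (Pi.single (iz hn) 1)) :
    InT H (yM n F *ᵥ a) (Pi.single (iz hn) 1) := h.conj hy (by rw [yS_coe, z_yM])

/-- downward propagation in column `0` -/
lemma col_zero {H : Subgroup (SpecialLinearGroup (Fin n) F)} (hn : 3 ≤ n) (hy : yS n F ∈ H) (m : ℕ) (hm : m < n) (h : Rt H ⟨m, hm⟩ (iz hn) 1) :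
    ∀ (d : ℕ), ∀ (hk : d + 1 ≤ m), Rt H ⟨m - d, by omega⟩ (iz hn) 1 := by
  intro d
  induction d with
  | zero => intro _; exact h
  | succ d ih =>
    intro hk
    have ih' := ih (by omega)
    have h3 := y_conj_col hn hy ih'
    rw [yM_single ⟨m - d, by omega⟩ (by simp; omega)] at h3
    have h5 := h3.sub_left ih'
    rw [add_sub_cancel_left] at h5
    exact h5

theorem gen4 (hn : 3 ≤ n) (h4 : 4 ≤ n) {H : Subgroup (SpecialLinearGroup (Fin n) F)} {γ : F} (hγ : ∀ s : F, s ≠ 0 → ∃ k : ℕ, 1 ≤ k ∧ s = γ ^ k)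
    (hu : uS n F ∈ H) (hX : uS n F * XX hn (-1) ∈ H) (hY : yS n F * G0 hn γ ∈ H) : H = ⊤ := by
  have hX' : XX hn (-1 : F) ∈ H := by
    have := H.mul_mem (H.inv_mem hu) hX
    rwa [inv_mul_cancel_left] at this
  have hr : (X1 hn F)⁻¹ * G0 hn γ ∈ H := by
    have := H.mul_mem (H.inv_mem hu) hY
    rw [U_eq hn, _root_.mul_inv_rev, mul_assoc, inv_mul_cancel_left] at this
    exact this
  have iX : InT H (Pi.single (iz hn) (-1)) (Pi.single (il hn) 1) := InT.of_mem hX' (by rw [sd, if_neg (izl hn).symm]) (tv_coe _ _ _)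
  -- step 2
  have hdl : (Pi.single (il hn) 1 : Fin n → F) ⬝ᵥ av hn γ = -1 := by
    unfold av
    rw [dotProduct_sub, sd, sd, if_neg (iol hn).symm, if_pos rfl, zero_sub]
  have hdo : (Pi.single (io hn) 1 : Fin n → F) ⬝ᵥ av hn γ = γ := by
    unfold av
    rw [dotProduct_sub, sd, sd, if_neg (iol hn), if_pos rfl, sub_zero]
  have rc : (((X1 hn F)⁻¹ * G0 hn γ : SpecialLinearGroup (Fin n) F) : Matrix (Fin n) (Fin n) F)
      = (1 + vecMulVec (-Pi.single (iz hn) 1) (Pi.single (io hn) 1)) * (1 + vecMulVec (av hn γ) (Pi.single (iz hn) 1)) := by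
    rw [Matrix.SpecialLinearGroup.coe_mul, X1, tv_inv, tv_coe, G0, tv_coe]
  have iX' : InT H (av hn γ - Pi.single (iz hn) 1) (Pi.single (il hn) 1 - Pi.single (iz hn) 1) := by
    have e1 : (((X1 hn F)⁻¹ * G0 hn γ : SpecialLinearGroup (Fin n) F) : Matrix (Fin n) (Fin n) F) *ᵥ (av hn γ - Pi.single (iz hn) 1) = Pi.single (iz hn) (-1) := by
      have e2 : av hn γ - Pi.single (iz hn) 1 + -av hn γ = Pi.single (iz hn) (-1 : F) := by
        rw [Pi.single_neg]; abel
      rw [rc, ← mulVec_mulVec, one_add_mulVec (av hn γ), dotProduct_sub, z_av, sd, if_pos rfl, zero_sub, neg_one_smul, e2, one_add_mulVec, sd, if_neg (izo hn).symm, zero_smul, add_zero]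
    have e3 : (Pi.single (il hn) 1 : Fin n → F) ᵥ* (((X1 hn F)⁻¹ * G0 hn γ : SpecialLinearGroup (Fin n) F) : Matrix (Fin n) (Fin n) F) = Pi.single (il hn) 1 - Pi.single (iz hn) 1 := by
      rw [rc, ← vecMul_vecMul, vecMul_one_add (-Pi.single (iz hn) 1), dotProduct_neg, sd, if_neg (izl hn).symm, neg_zero, zero_smul, add_zero, vecMul_one_add, hdl, neg_one_smul, ← sub_eq_add_neg]
    have h1 : InT H ((((X1 hn F)⁻¹ * G0 hn γ : SpecialLinearGroup (Fin n) F) : Matrix (Fin n) (Fin n) F) *ᵥ (av hn γ - Pi.single (iz hn) 1)) (Pi.single (il hn) 1) := by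
      rw [e1]; exact iX
    have h2 := InT.conj_inv hr h1
    rwa [e3] at h2
  -- step 3
  have iG : InT H (av hn γ) (Pi.single (iz hn) 1) := by
    have h1 := iX'.conj hX' (φ' := -Pi.single (iz hn) 1) (by
      rw [XX, tv_coe, vecMul_one_add, neg_dotProduct, sd, if_pos rfl, neg_neg, one_smul]; abel)
    rw [XX, tv_coe, one_add_mulVec, dotProduct_sub, hdl, sd, if_neg (izl hn).symm, sub_zero, neg_one_smul, Pi.single_neg, neg_neg, sub_add_cancel] at h1
    have h2 := h1.neg_right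
    rwa [neg_neg] at h2
  have hG : G0 hn γ ∈ H := iG.mem (tv_coe _ _ _)
  have hX1 : X1 hn F ∈ H := by
    have := H.mul_mem hG (H.inv_mem hr)
    rwa [_root_.mul_inv_rev, inv_inv, mul_inv_cancel_left] at this
  have hy : yS n F ∈ H := by
    have := H.mul_mem hu (H.inv_mem hX1)
    rwa [U_eq hn, mul_inv_cancel_right] at this
  have r01 : Rt H (iz hn) (io hn) 1 := InT.of_mem hX1 (by rw [sd, if_neg (izo hn).symm]) (tv_coe _ _ _)
  have hrow := row_zero hn hy r01
  -- column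
  have hl1 : Rt H ⟨n - 2, by omega⟩ (iz hn) 1 := by
    have h1 := y_conj_col hn hy iG
    have h2 : yM n F *ᵥ av hn γ = av hn γ - Pi.single ⟨n - 2, by omega⟩ 1 := by
      unfold av
      rw [Matrix.mulVec_sub, yM_single' _ (by simp [io]), yM_single _ (by simp [il]; omega)]
      have h5 : (⟨(il hn).val - 1, by omega⟩ : Fin n) = ⟨n - 2, by omega⟩ := Fin.ext (by simp [il]; omega)
      rw [h5]; abel
    rw [h2] at h1
    have h3 := iG.sub_left h1
    rwa [sub_sub_cancel] at h3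
  have hcol := col_zero hn hy (n - 2) (by omega) hl1
  have r20 : Rt H (it hn) (iz hn) 1 := by
    have := hcol (n - 4) (by omega)
    convert this using 1
    exact Fin.ext (by simp [it]; omega)
  have r10 : Rt H (io hn) (iz hn) 1 := by
    have := hcol (n - 3) (by omega)
    convert this using 1
    exact Fin.ext (by simp [io]; omega)
  have r21 : Rt H (it hn) (io hn) 1 := by
    have := r20.comm r01 (iot hn).symm
    rwa [one_mul] at this
  have r20γ : InT H (Pi.single (it hn) γ) (Pi.single (iz hn) 1) := by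
    have := InT.comm r21 iG (by rw [sd, if_neg (izt hn)])
    rw [hdo, ← Pi.single_smul, smul_eq_mul, mul_one] at this
    exact this
  have r02 : Rt H (iz hn) (it hn) 1 := hrow 2 (by omega) (by omega)
  have r12 : Rt H (io hn) (it hn) 1 := by
    have := r10.comm r02 (iot hn)
    rwa [one_mul] at this
  have r10γ : Rt H (io hn) (iz hn) γ := by
    have := r12.comm r20γ (izo hn).symm
    rwa [one_mul] at this
  have rl0 : Rt H (il hn) (iz hn) 1 := by
    have := InT.sub_left r10γ iG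
    unfold av at this
    rwa [sub_sub_cancel] at this
  refine eq_top_of_gen (by rw [Fintype.card_fin]; exact hn) (all_of_zero (iz hn) ?_ ?_) hγ (izo hn).symm r10γ
  · intro j hj
    have h1 : 1 ≤ j.val := by
      rcases Nat.eq_zero_or_pos j.val with h | h
      · exact absurd (Fin.ext h) hj
      · exact h
    exact hrow j.val j.2 h1
  · intro j hj
    have h1 : 1 ≤ j.val := by
      rcases Nat.eq_zero_or_pos j.val with h | h
      · exact absurd (Fin.ext h) hj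
      · exact h
    by_cases h2 : j.val = n - 1
    · have : j = il hn := Fin.ext h2
      rw [this]; exact rl0
    · have := hcol (n - 2 - j.val) (by have := j.2; omega)
      convert this using 1
      exact Fin.ext (by simp; have := j.2; omega)

theorem gen3_two (hn : 3 ≤ n) (h3 : n = 3) (hc : (2 : F) = 0) {H : Subgroup (SpecialLinearGroup (Fin n) F)} {γ : F} (hγ0 : γ ≠ 0) (hγ : ∀ s : F, s ≠ 0 → ∃ k : ℕ, 1 ≤ k ∧ s = γ ^ k)
    (hu : uS n F ∈ H) (hX : uS n F * XX hn γ ∈ H) (hY : yS n F * G0 hn (0 : F) ∈ H) : H = ⊤ := by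
  have hcn : ∀ v : Fin n → F, -v = v := by
    intro v
    rw [neg_eq_iff_add_eq_zero, ← two_smul F, hc, zero_smul]
  have hX' : XX hn γ ∈ H := by
    have := H.mul_mem (H.inv_mem hu) hX
    rwa [inv_mul_cancel_left] at this
  have hr : (X1 hn F)⁻¹ * G0 hn 0 ∈ H := by
    have := H.mul_mem (H.inv_mem hu) hY
    rw [U_eq hn, _root_.mul_inv_rev, mul_assoc, inv_mul_cancel_left] at this
    exact this
  have r0l : Rt H (iz hn) (il hn) γ := InT.of_mem hX' (by rw [sd, if_neg (izl hn).symm]) (tv_coe _ _ _)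
  have hav : av hn (0 : F) = Pi.single (il hn) 1 := by
    unfold av
    rw [Pi.single_zero, zero_sub, hcn]
  have rc : (((X1 hn F)⁻¹ * G0 hn 0 : SpecialLinearGroup (Fin n) F) : Matrix (Fin n) (Fin n) F)
      = (1 + vecMulVec (Pi.single (iz hn) 1) (Pi.single (io hn) 1)) * (1 + vecMulVec (Pi.single (il hn) 1) (Pi.single (iz hn) 1)) := by
    rw [Matrix.SpecialLinearGroup.coe_mul, X1, tv_inv, tv_coe, G0, tv_coe, hcn, hav]
  have rv : ∀ v : Fin n → F, (((X1 hn F)⁻¹ * G0 hn 0 : SpecialLinearGroup (Fin n) F) : Matrix (Fin n) (Fin n) F) *ᵥ v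
      = v + (Pi.single (iz hn) 1 ⬝ᵥ v) • Pi.single (il hn) 1 + (Pi.single (io hn) 1 ⬝ᵥ v) • Pi.single (iz hn) 1 := by
    intro v
    rw [rc, ← mulVec_mulVec, one_add_mulVec, one_add_mulVec, dotProduct_add, dotProduct_smul, sd, if_neg (iol hn), smul_zero, add_zero]
  -- r² = T(l,1,1)
  have rl1 : Rt H (il hn) (io hn) 1 := by
    refine InT.of_mem (H.mul_mem hr hr) (by rw [sd, if_neg (iol hn)]) ?_
    apply mat_ext_mulVec
    intro v i
    rw [Matrix.SpecialLinearGroup.coe_mul ((X1 hn F)⁻¹ * G0 hn 0) ((X1 hn F)⁻¹ * G0 hn 0), ← mulVec_mulVec, rv, rv, one_add_mulVec]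
    congr 1
    simp only [dotProduct_add, dotProduct_smul, sd, if_neg (izl hn), if_pos rfl, if_neg (izo hn), if_neg (izo hn).symm, if_neg (iol hn), smul_zero, add_zero, smul_eq_mul, mul_one, if_true]
    simp only [Pi.add_apply, Pi.smul_apply, smul_eq_mul]
    linear_combination ((Pi.single (iz hn) 1 ⬝ᵥ v) * (Pi.single (il hn) 1 : Fin n → F) i + (Pi.single (io hn) 1 ⬝ᵥ v) * (Pi.single (iz hn) 1 : Fin n → F) i) * hc
  have step1 : ∀ s, Rt H (il hn) (io hn) s → Rt H (iz hn) (io hn) (γ * s) := fun s hs => r0l.comm hs (izo hn)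
  have step2 : ∀ s, Rt H (iz hn) (io hn) s → Rt H (il hn) (io hn) s := by
    intro s hs
    have h1 := hs.conj hr (φ' := Pi.single (io hn) 1) (by
      rw [rc, ← vecMul_vecMul, vecMul_one_add (Pi.single (iz hn) 1), sd, if_neg (izo hn).symm, zero_smul, add_zero, vecMul_one_add, sd, if_neg (iol hn), zero_smul, add_zero])
    rw [rv, sd, if_pos rfl, sd, if_neg (izo hn).symm, zero_smul, add_zero] at h1
    have h2 := h1.sub_left hs
    rw [add_sub_cancel_left, ← Pi.single_smul, smul_eq_mul, mul_one] at h2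
    exact h2
  have hpow : ∀ k : ℕ, 1 ≤ k → Rt H (iz hn) (io hn) (γ ^ k) := by
    intro k hk
    induction k, hk using Nat.le_induction with
    | base => rw [pow_one]; have := step1 1 rl1; rwa [mul_one] at this
    | succ k hk ih => rw [pow_succ']; exact step1 _ (step2 _ ih)
  have r01 : Rt H (iz hn) (io hn) 1 := by
    obtain ⟨k, hk, hk2⟩ := hγ 1 one_ne_zero
    rw [hk2]; exact hpow k hk
  have hX1 : X1 hn F ∈ H := InT.mem r01 (tv_coe _ _ _)
  have hG : G0 hn (0 : F) ∈ H := by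
    have := H.mul_mem hX1 hr
    rwa [mul_inv_cancel_left] at this
  have hy : yS n F ∈ H := by
    have := H.mul_mem hu (H.inv_mem hX1)
    rwa [U_eq hn, mul_inv_cancel_right] at this
  have hrow := row_zero hn hy r01
  have rl0 : Rt H (il hn) (iz hn) 1 := by
    refine InT.of_mem hG (by rw [sd, if_neg (izl hn)]) ?_
    rw [G0, tv_coe, hav]
  have r10 : Rt H (io hn) (iz hn) 1 := by
    have h3 := y_conj_col hn hy rl0
    rw [yM_single _ (by simp [il]; omega)] at h3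
    have h5 := h3.sub_left rl0
    rw [add_sub_cancel_left] at h5
    have e : (⟨(il hn).val - 1, by omega⟩ : Fin n) = io hn := Fin.ext (show n - 1 - 1 = 1 by omega)
    rw [e] at h5
    exact h5
  refine eq_top_of_gen (by rw [Fintype.card_fin]; exact hn) (all_of_zero (iz hn) ?_ ?_) hγ (izl hn) r0l
  · intro j hj
    have h1 : 1 ≤ j.val := by
      rcases Nat.eq_zero_or_pos j.val with h | h
      · exact absurd (Fin.ext h) hj
      · exact h
    exact hrow j.val j.2 h1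
  · intro j hj
    have h1 : 1 ≤ j.val := by
      rcases Nat.eq_zero_or_pos j.val with h | h
      · exact absurd (Fin.ext h) hj
      · exact h
    by_cases h2 : j.val = n - 1
    · have : j = il hn := Fin.ext h2
      rw [this]; exact rl0
    · have : j = io hn := Fin.ext (show j.val = 1 by have := j.2; omega)
      rw [this]; exact r10

/-! ### `n = 3`, odd characteristic -/

def pS (F : Type*) [Field F] : SpecialLinearGroup (Fin 3) F := ⟨!![0, 0, 1; 1, 0, 0; 0, 1, 0], by rw [det_fin_three]; simp⟩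
def vS (a₁ a₂ b : F) : SpecialLinearGroup (Fin 3) F := ⟨!![1, a₁, b; 0, 1, a₂; 0, 0, 1], by rw [det_fin_three]; simp⟩

lemma vec3_ext {v w : Fin 3 → F} (h0 : v 0 = w 0) (h1 : v 1 = w 1) (h2 : v 2 = w 2) : v = w := by
  ext i; fin_cases i <;> assumption

lemma pS_mulVec (v : Fin 3 → F) : ((pS F : SpecialLinearGroup (Fin 3) F) : Matrix (Fin 3) (Fin 3) F) *ᵥ v = ![v 2, v 0, v 1] := by
  show (!![0, 0, 1; 1, 0, 0; 0, 1, 0] : Matrix (Fin 3) (Fin 3) F) *ᵥ v = _
  apply vec3_ext <;> simp [mulVec, dotProduct, Fin.sum_univ_three]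

lemma vecMul_pS (v : Fin 3 → F) : v ᵥ* ((pS F : SpecialLinearGroup (Fin 3) F) : Matrix (Fin 3) (Fin 3) F) = ![v 1, v 2, v 0] := by
  show v ᵥ* (!![0, 0, 1; 1, 0, 0; 0, 1, 0] : Matrix (Fin 3) (Fin 3) F) = _
  apply vec3_ext <;> simp [vecMul, dotProduct, Fin.sum_univ_three]

lemma gen3_odd {H : Subgroup (SpecialLinearGroup (Fin 3) F)} {γ : F} (hγ : ∀ s : F, s ≠ 0 → ∃ k : ℕ, 1 ≤ k ∧ s = γ ^ k) (hγ0 : γ ≠ 0)
    (a₁ a₂ b θ : F) (h1 : a₁ ≠ 0) (hθ : a₁ * θ = γ) (hu : vS a₁ a₂ b ∈ H) (hX : Rt H 0 2 θ) (hP : pS F ∈ H) : H = ⊤ := by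
  have P1 : ∀ s, Rt H 0 2 s → Rt H 1 0 s := by
    intro s hs
    have := hs.conj hP (φ' := Pi.single 0 1) (by rw [vecMul_pS]; apply vec3_ext <;> simp)
    rw [pS_mulVec] at this
    unfold Rt
    convert this using 1
    apply vec3_ext <;> simp
  have P2 : ∀ s, Rt H 1 0 s → Rt H 2 1 s := by
    intro s hs
    have := hs.conj hP (φ' := Pi.single 1 1) (by rw [vecMul_pS]; apply vec3_ext <;> simp)
    rw [pS_mulVec] at this
    unfold Rt
    convert this using 1
    apply vec3_ext <;> simp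
  have P3 : ∀ s, Rt H 2 0 s → Rt H 0 1 s := by
    intro s hs
    have := hs.conj hP (φ' := Pi.single 1 1) (by rw [vecMul_pS]; apply vec3_ext <;> simp)
    rw [pS_mulVec] at this
    unfold Rt
    convert this using 1
    apply vec3_ext <;> simp
  have P4 : ∀ s, Rt H 0 1 s → Rt H 1 2 s := by
    intro s hs
    have := hs.conj hP (φ' := Pi.single 2 1) (by rw [vecMul_pS]; apply vec3_ext <;> simp)
    rw [pS_mulVec] at this
    unfold Rt
    convert this using 1
    apply vec3_ext <;> simp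
  have U1 : ∀ s, Rt H 1 2 s → Rt H 0 2 (a₁ * s) := by
    intro s hs
    have := hs.conj hu (φ' := Pi.single 2 1) (by
      show (Pi.single 2 1 : Fin 3 → F) ᵥ* (!![1, a₁, b; 0, 1, a₂; 0, 0, 1] : Matrix (Fin 3) (Fin 3) F) = _
      apply vec3_ext <;> simp [vecMul, dotProduct, Fin.sum_univ_three])
    have h2 := this.sub_left hs
    unfold Rt
    convert h2 using 1
    show _ = (!![1, a₁, b; 0, 1, a₂; 0, 0, 1] : Matrix (Fin 3) (Fin 3) F) *ᵥ _ - _
    apply vec3_ext <;> simp [mulVec, dotProduct, Fin.sum_univ_three, mul_comm]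
  have M : ∀ s t, Rt H 0 2 s → Rt H 0 2 t → Rt H 2 0 (s * t) := fun s t hs ht => (P2 _ (P1 _ hs)).comm (P1 _ ht) (by decide)
  have key : ∀ k : ℕ, 1 ≤ k → ∀ s, a₁ * s = γ ^ k → Rt H 0 2 s := by
    intro k hk
    induction k, hk using Nat.le_induction with
    | base =>
      intro s hs
      rw [pow_one, ← hθ] at hs
      rw [mul_left_cancel₀ h1 hs]; exact hX
    | succ k hk ih =>
      intro s hs
      have h2 := ih (γ ^ k / a₁) (by field_simp)
      have h3 := U1 _ (P4 _ (P3 _ (M _ _ h2 hX)))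
      have h4 : a₁ * (γ ^ k / a₁ * θ) = s := by
        apply mul_left_cancel₀ h1
        rw [hs, pow_succ, ← hθ]; field_simp
      rwa [h4] at h3
  have hall : ∀ s, s ≠ 0 → Rt H 0 2 s := by
    intro s hs
    obtain ⟨k, hk, hk2⟩ := hγ (a₁ * s) (mul_ne_zero h1 hs)
    exact key k hk s hk2
  have r02 := hall 1 one_ne_zero
  have r20 : Rt H 2 0 1 := by have := M _ _ r02 r02; rwa [mul_one] at this
  refine eq_top_of_gen (by rw [Fintype.card_fin]) (all_of_zero 0 ?_ ?_) hγ (by decide : (0 : Fin 3) ≠ 2) (hall γ hγ0)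
  · intro j hj
    fin_cases j
    · exact absurd rfl hj
    · exact P3 _ r20
    · exact r02
  · intro j hj
    fin_cases j
    · exact absurd rfl hj
    · exact P1 _ r02
    · exact r20

lemma vS_nilp (a₁ a₂ b : F) (h1 : a₁ ≠ 0) (h2 : a₂ ≠ 0) : (((vS a₁ a₂ b : SpecialLinearGroup (Fin 3) F) : Matrix (Fin 3) (Fin 3) F) - 1) ^ 3 = 0 ∧ (((vS a₁ a₂ b : SpecialLinearGroup (Fin 3) F) : Matrix (Fin 3) (Fin 3) F) - 1) ^ 2 ≠ 0 := by
  have e : ((vS a₁ a₂ b : SpecialLinearGroup (Fin 3) F) : Matrix (Fin 3) (Fin 3) F) - 1 = !![0, a₁, b; 0, 0, a₂; 0, 0, 0] := by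
    show (!![1, a₁, b; 0, 1, a₂; 0, 0, 1] : Matrix (Fin 3) (Fin 3) F) - 1 = _
    rw [Matrix.one_fin_three]
    ext i j
    fin_cases i <;> fin_cases j <;> simp
  have e2 : (!![0, a₁, b; 0, 0, a₂; 0, 0, 0] : Matrix (Fin 3) (Fin 3) F) ^ 2 = !![0, 0, a₁ * a₂; 0, 0, 0; 0, 0, 0] := by
    rw [pow_two]
    ext i j
    fin_cases i <;> fin_cases j <;> simp [Matrix.mul_apply, Fin.sum_univ_three]
  rw [e]
  constructor
  · rw [pow_succ, e2]
    ext i j
    fin_cases i <;> fin_cases j <;> simp [Matrix.mul_apply, Fin.sum_univ_three]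
  · rw [e2]
    intro h
    have := congrFun (congrFun h 0) 2
    simp at this
    rcases this with h | h
    · exact h1 h
    · exact h2 h

/-- `n = 3`, abstract version -/
lemma three_odd_aux {γ : F} (hγ : ∀ s : F, s ≠ 0 → ∃ k : ℕ, 1 ≤ k ∧ s = γ ^ k) (hγ0 : γ ≠ 0)
    (a₁ a₂ b : F) (h1 : a₁ ≠ 0) (h2 : a₂ ≠ 0) (h : SpecialLinearGroup (Fin 3) F) (hh : h * vS a₁ a₂ b = vS a₁ a₂ b * pS F * h) :
    ∃ u g h : Matrix.SpecialLinearGroup (Fin 3) F, (IsNilpotent ((u : Matrix (Fin 3) (Fin 3) F) - 1) ∧ ((u : Matrix (Fin 3) (Fin 3) F) - 1) ^ (3 - 1) ≠ 0) ∧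
      Subgroup.closure ({u, g * u * g⁻¹, h * u * h⁻¹} : Set (Matrix.SpecialLinearGroup (Fin 3) F)) = ⊤ := by
  have h3 := vS_nilp a₁ a₂ b h1 h2
  let θ : F := γ / a₁
  have h01 : (0 : Fin 3) ≠ 1 := by decide
  have h02 : (0 : Fin 3) ≠ 2 := by decide
  refine ⟨vS a₁ a₂ b, SpecialLinearGroup.transvection h01 (θ / a₂), h, ⟨⟨3, h3.1⟩, h3.2⟩, ?_⟩
  set g := SpecialLinearGroup.transvection h01 (θ / a₂) with hg
  have hP : h * vS a₁ a₂ b * h⁻¹ = vS a₁ a₂ b * pS F := by rw [hh, mul_inv_cancel_right]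
  have hX : g * vS a₁ a₂ b * g⁻¹ = vS a₁ a₂ b * SpecialLinearGroup.transvection h02 θ := by
    rw [mul_inv_eq_iff_eq_mul]
    apply sl_ext
    simp only [Matrix.SpecialLinearGroup.coe_mul, hg, Matrix.SpecialLinearGroup.transvection_coe]
    have hv : ((vS a₁ a₂ b : SpecialLinearGroup (Fin 3) F) : Matrix (Fin 3) (Fin 3) F) = !![1, a₁, b; 0, 1, a₂; 0, 0, 1] := rfl
    have e1 : (1 : Matrix (Fin 3) (Fin 3) F) + single 0 1 (θ / a₂) = !![1, θ / a₂, 0; 0, 1, 0; 0, 0, 1] := by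
      ext i j
      fin_cases i <;> fin_cases j <;> simp [Matrix.single_apply, Matrix.one_apply]
    have e2 : (1 : Matrix (Fin 3) (Fin 3) F) + single 0 2 θ = !![1, 0, θ; 0, 1, 0; 0, 0, 1] := by
      ext i j
      fin_cases i <;> fin_cases j <;> simp [Matrix.single_apply, Matrix.one_apply]
    rw [hv, e1, e2]
    ext i j
    fin_cases i <;> fin_cases j <;> simp [Matrix.mul_apply, Fin.sum_univ_three] <;> (try field_simp) <;> ring
  set H := Subgroup.closure ({vS a₁ a₂ b, g * vS a₁ a₂ b * g⁻¹, h * vS a₁ a₂ b * h⁻¹} : Set (Matrix.SpecialLinearGroup (Fin 3) F)) with hH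
  have m1 : vS a₁ a₂ b ∈ H := Subgroup.subset_closure (by simp)
  have m2 : vS a₁ a₂ b * SpecialLinearGroup.transvection h02 θ ∈ H := by rw [← hX]; exact Subgroup.subset_closure (by simp)
  have m3 : vS a₁ a₂ b * pS F ∈ H := by rw [← hP]; exact Subgroup.subset_closure (by simp)
  have m2' := H.mul_mem (H.inv_mem m1) m2
  have m3' := H.mul_mem (H.inv_mem m1) m3
  rw [inv_mul_cancel_left] at m2' m3'
  exact gen3_odd hγ hγ0 a₁ a₂ b θ h1 (by simp only [θ]; field_simp) m1 (Rt.of_mem h02 m2') m3'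

lemma three_odd {γ : F} (hγ : ∀ s : F, s ≠ 0 → ∃ k : ℕ, 1 ≤ k ∧ s = γ ^ k) (hγ0 : γ ≠ 0) (hc : (2 : F) ≠ 0) :
    ∃ u g h : Matrix.SpecialLinearGroup (Fin 3) F, (IsNilpotent ((u : Matrix (Fin 3) (Fin 3) F) - 1) ∧ ((u : Matrix (Fin 3) (Fin 3) F) - 1) ^ (3 - 1) ≠ 0) ∧
      Subgroup.closure ({u, g * u * g⁻¹, h * u * h⁻¹} : Set (Matrix.SpecialLinearGroup (Fin 3) F)) = ⊤ := by
  by_cases hc3 : (3 : F) = 0
  · refine three_odd_aux hγ hγ0 1 (-1) (-1) one_ne_zero (neg_ne_zero.2 one_ne_zero) ⟨!![-1, 1, -1; 1, 0, 0; 1, -1, 0], ?_⟩ ?_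
    · rw [det_fin_three]; simp
    · apply sl_ext
      show (!![-1, 1, -1; 1, 0, 0; 1, -1, 0] : Matrix (Fin 3) (Fin 3) F) * !![1, 1, -1; 0, 1, -1; 0, 0, 1] = !![1, 1, -1; 0, 1, -1; 0, 0, 1] * !![0, 0, 1; 1, 0, 0; 0, 1, 0] * !![-1, 1, -1; 1, 0, 0; 1, -1, 0]
      ext i j
      fin_cases i <;> fin_cases j <;> simp [Matrix.mul_apply, Fin.sum_univ_three] <;> linear_combination hc3
  · refine three_odd_aux hγ hγ0 (3/2) (3/2) (-3/4) (div_ne_zero hc3 hc) (div_ne_zero hc3 hc) ⟨!![1/3, -1/3, -3/2; -2/3, -4/3, 0; -2/3, -1/3, 0], ?_⟩ ?_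
    · rw [det_fin_three]; simp; field_simp; ring
    · apply sl_ext
      show (!![1/3, -1/3, -3/2; -2/3, -4/3, 0; -2/3, -1/3, 0] : Matrix (Fin 3) (Fin 3) F) * !![1, 3/2, -3/4; 0, 1, 3/2; 0, 0, 1] = !![1, 3/2, -3/4; 0, 1, 3/2; 0, 0, 1] * !![0, 0, 1; 1, 0, 0; 0, 1, 0] * !![1/3, -1/3, -3/2; -2/3, -4/3, 0; -2/3, -1/3, 0]
      have h4 : (4 : F) ≠ 0 := by have := mul_ne_zero hc hc; norm_num at this; exact this
      ext i j
      fin_cases i <;> fin_cases j <;> simp [Matrix.mul_apply, Fin.sum_univ_three] <;> (try field_simp) <;> ring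

theorem three_gen [Finite F] (n : ℕ) (hn : 3 ≤ n) :
    ∃ u g h : Matrix.SpecialLinearGroup (Fin n) F, (IsNilpotent ((u : Matrix (Fin n) (Fin n) F) - 1) ∧ ((u : Matrix (Fin n) (Fin n) F) - 1) ^ (n - 1) ≠ 0) ∧
      Subgroup.closure ({u, g * u * g⁻¹, h * u * h⁻¹} : Set (Matrix.SpecialLinearGroup (Fin n) F)) = ⊤ := by
  obtain ⟨γ, hγ0, hγ⟩ := exists_gen F
  by_cases h4 : 4 ≤ n
  · refine ⟨uS n F, Tg hn (-1), KK hn γ * QS n F (by omega), ⟨⟨n, (u_nilp hn).1⟩, (u_nilp hn).2⟩, ?_⟩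
    rw [← X_conj, ← W_conj]
    exact gen4 hn h4 hγ (Subgroup.subset_closure (by simp)) (Subgroup.subset_closure (by simp)) (Subgroup.subset_closure (by simp))
  · have h3 : n = 3 := by omega
    by_cases hc : (2 : F) = 0
    · refine ⟨uS n F, Tg hn γ, KK hn 0 * QS n F (by omega), ⟨⟨n, (u_nilp hn).1⟩, (u_nilp hn).2⟩, ?_⟩
      rw [← X_conj, ← W_conj]
      exact gen3_two hn h3 hc hγ0 hγ (Subgroup.subset_closure (by simp)) (Subgroup.subset_closure (by simp)) (Subgroup.subset_closure (by simp))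
    · subst h3
      exact three_odd hγ hγ0 hc

end Cfsg.Agent.H16
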