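import Mathlib
import Cfsg.Agent.H16.FlagB

set_option autoImplicit false
set_option linter.all false

/-! Intersections of Sylow 2-subgroups in extensions of `SL_n(2)` of degree two. -/

namespace Cfsg.Agent.H16.SL2Ext

open Cfsg Cfsg.Agent.H16
open scoped Pointwise

/-- a self-normalizing `p`-subgroup is a maximal `p`-subgroup -/
theorem max_of_selfnorm {M : Type*} [Group M] [Finite M] {p : ℕ} [Fact p.Prime] {B Q : Subgroup M}
    (hself : ∀ g : M, (∀ b ∈ B, g * b * g⁻¹ ∈ B) → g ∈ B) (hQ : IsPGroup p Q) (hBQ : B ≤ Q) : Q = B := by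
  by_contra hne
  have hlt : B < Q := lt_of_le_of_ne hBQ (Ne.symm hne)
  haveI : Group.IsNilpotent Q := hQ.isNilpotent
  have h1 : B.subgroupOf Q < ⊤ := by
    rw [lt_top_iff_ne_top, Ne, Subgroup.subgroupOf_eq_top]
    exact fun h => hne (le_antisymm h hBQ)
  have h2 := Group.normalizerCondition_of_isNilpotent (G := Q) _ h1
  obtain ⟨g, hg1, hg2⟩ := SetLike.exists_of_lt h2
  apply hg2
  rw [Subgroup.mem_subgroupOf]
  apply hself
  intro b hb
  rw [Subgroup.mem_normalizer_iff] at hg1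
  have := (hg1 ⟨b, hBQ hb⟩).1 (by rw [Subgroup.mem_subgroupOf]; exact hb)
  rw [Subgroup.mem_subgroupOf] at this
  exact this

theorem core {G M : Type*} [Group G] [Finite G] [Group M] (N : Subgroup G) [N.Normal] (hidx : N.index = 2) (e : N ≃* M)
    (B : Subgroup M) (hB : IsPGroup 2 B) (hself : ∀ g : M, (∀ b ∈ B, g * b * g⁻¹ ∈ B) → g ∈ B)
    (w0 : M) (hopp : ∀ g : M, (∀ b ∈ B, g⁻¹ * b * g ∈ B → b = 1) → ∃ b ∈ B, ∃ b' ∈ B, g = b * w0 * b')
    (H : Sylow 2 G) (x : G) :
    (H : Subgroup G) ⊓ MulAut.conj x • (H : Subgroup G) ≠ ⊥ := by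
  classical
  haveI : Fact (Nat.Prime 2) := ⟨Nat.prime_two⟩
  haveI : Finite M := Finite.of_equiv N e.toEquiv
  -- the image of `B` in `G`
  obtain ⟨C, hC⟩ : ∃ C : Subgroup G, C = (B.comap e.toMonoidHom).map N.subtype := ⟨_, rfl⟩
  have memC : ∀ g : G, g ∈ C ↔ ∃ h : g ∈ N, e ⟨g, h⟩ ∈ B := by
    intro g
    rw [hC, Subgroup.mem_map]
    constructor
    · rintro ⟨y, hy, rfl⟩
      exact ⟨y.2, hy⟩
    · rintro ⟨h, hg⟩
      exact ⟨⟨g, h⟩, hg, rfl⟩
  have hCN : C ≤ N := fun g hg => ((memC g).1 hg).1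
  have hCp : IsPGroup 2 C := by
    rw [hC]
    exact (hB.comap_of_injective e.toMonoidHom e.injective).map _
  have hselfC : ∀ g ∈ N, (∀ b ∈ C, g * b * g⁻¹ ∈ C) → g ∈ C := by
    intro g hg h
    rw [memC]
    refine ⟨hg, hself _ ?_⟩
    intro b hb
    obtain ⟨y, rfl⟩ := e.surjective b
    have h1 := h y.1 ((memC _).2 ⟨y.2, hb⟩)
    obtain ⟨h2, h3⟩ := (memC _).1 h1
    have e1 : (⟨g * y.1 * g⁻¹, h2⟩ : N) = ⟨g, hg⟩ * y * ⟨g, hg⟩⁻¹ := rfl
    rw [e1, map_mul, map_mul, map_inv] at h3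
    exact h3
  obtain ⟨v0, hv0⟩ : ∃ v0 : G, v0 = (e.symm w0 : G) := ⟨_, rfl⟩
  have hoppC : ∀ g ∈ N, (∀ b ∈ C, g⁻¹ * b * g ∈ C → b = 1) → ∃ b ∈ C, ∃ b' ∈ C, g = b * v0 * b' := by
    intro g hg h
    obtain ⟨b, hb, b', hb', hgb⟩ := hopp (e ⟨g, hg⟩) (by
      intro b hb hb2
      obtain ⟨y, rfl⟩ := e.surjective b
      have h1 := h y.1 ((memC _).2 ⟨y.2, hb⟩) (by
        rw [memC]
        have h2 : g⁻¹ * y.1 * g ∈ N := N.mul_mem (N.mul_mem (N.inv_mem hg) y.2) hg
        refine ⟨h2, ?_⟩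
        have e1 : (⟨g⁻¹ * y.1 * g, h2⟩ : N) = ⟨g, hg⟩⁻¹ * y * ⟨g, hg⟩ := rfl
        rw [e1, map_mul, map_mul, map_inv]
        exact hb2)
      have h3 : y = 1 := Subtype.ext h1
      rw [h3, map_one])
    refine ⟨(e.symm b : G), (memC _).2 ⟨(e.symm b).2, by simpa using hb⟩, (e.symm b' : G), (memC _).2 ⟨(e.symm b').2, by simpa using hb'⟩, ?_⟩
    have h4 : (⟨g, hg⟩ : N) = e.symm b * e.symm w0 * e.symm b' := by
      rw [← map_mul, ← map_mul, ← hgb, e.symm_apply_apply]
    rw [hv0]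
    exact congrArg Subtype.val h4
  -- a Sylow subgroup containing `C`
  obtain ⟨H', hCH⟩ := hCp.exists_le_sylow
  have hmax : ∀ Q : Subgroup G, IsPGroup 2 Q → Q ≤ N → C ≤ Q → Q = C := by
    intro Q hQ hQN hCQ
    have h1 := max_of_selfnorm (M := N) (p := 2) (B := C.subgroupOf N) (Q := Q.subgroupOf N) (by
      intro g hg
      rw [Subgroup.mem_subgroupOf]
      apply hselfC g.1 g.2
      intro b hb
      have := hg ⟨b, hCN hb⟩ (by rw [Subgroup.mem_subgroupOf]; exact hb)
      rw [Subgroup.mem_subgroupOf] at this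
      exact this) (hQ.comap_of_injective N.subtype N.subtype_injective) (by
      intro g hg
      exact hCQ hg)
    apply le_antisymm _ hCQ
    intro g hg
    have : (⟨g, hQN hg⟩ : N) ∈ Q.subgroupOf N := by rw [Subgroup.mem_subgroupOf]; exact hg
    rw [h1, Subgroup.mem_subgroupOf] at this
    exact this
  have hHN : (H' : Subgroup G) ⊓ N = C :=
    hmax _ (H'.2.to_le inf_le_left) inf_le_right (le_inf hCH hCN)
  have hH'N : ¬ (H' : Subgroup G) ≤ N := by
    intro h
    have h1 : N.index ∣ (H' : Subgroup G).index := Subgroup.index_dvd_of_le h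
    rw [hidx] at h1
    exact H'.not_dvd_index h1
  have hnormC : ∀ h ∈ (H' : Subgroup G), ∀ b ∈ C, h * b * h⁻¹ ∈ C := by
    intro h hh b hb
    rw [← hHN]
    exact Subgroup.mem_inf.2 ⟨Subgroup.mul_mem _ (Subgroup.mul_mem _ hh (hCH hb)) (Subgroup.inv_mem _ hh), (inferInstance : N.Normal).conj_mem b (hCN hb) h⟩
  -- main claim for `H'`
  have main : ∀ y : G, (H' : Subgroup G) ⊓ MulAut.conj y • (H' : Subgroup G) ≠ ⊥ := by
    intro y hbot
    have htriv : ∀ t ∈ (H' : Subgroup G), y⁻¹ * t * y ∈ (H' : Subgroup G) → t = 1 := by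
      intro t ht hty
      have : t ∈ (H' : Subgroup G) ⊓ MulAut.conj y • (H' : Subgroup G) := by
        refine ⟨ht, ?_⟩
        change t ∈ MulAut.conj y • (H' : Subgroup G)
        rw [Subgroup.mem_pointwise_smul_iff_inv_smul_mem]
        have e1 : (MulAut.conj y)⁻¹ • t = y⁻¹ * t * y := by
          rw [← map_inv]
          change MulAut.conj y⁻¹ t = _
          rw [MulAut.conj_apply, inv_inv]
        rw [e1]; exact hty
      rw [hbot, Subgroup.mem_bot] at this
      exact this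
    -- `G = N H'`
    obtain ⟨k0, hk0, hk0N⟩ : ∃ k ∈ (H' : Subgroup G), k ∉ N := by
      by_contra hcon
      push Not at hcon
      exact hH'N hcon
    have hGN : ∀ g : G, ∃ k ∈ (H' : Subgroup G), g * k⁻¹ ∈ N := by
      intro g
      by_cases hg : g ∈ N
      · exact ⟨1, one_mem _, by simpa using hg⟩
      · refine ⟨k0, hk0, ?_⟩
        have h1 := (Subgroup.mul_mem_iff_of_index_two hidx (a := g) (b := k0⁻¹)).2
        apply h1
        constructor
        · intro h; exact absurd h hg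
        · intro h; exact absurd (by simpa using h) hk0N
    have key : ∀ h : (H' : Subgroup G), ∃ b : C, ∃ k ∈ (H' : Subgroup G), (h : G) * y = (b : G) * v0 * k := by
      intro h
      obtain ⟨k, hk, hn⟩ := hGN (h * y)
      obtain ⟨b, hb, b', hb', hbb⟩ := hoppC _ hn (by
        intro b hb hb2
        have h1 : k⁻¹ * ((↑h * y * k⁻¹)⁻¹ * b * (↑h * y * k⁻¹)) * k⁻¹⁻¹ ∈ C := hnormC _ (inv_mem hk) _ hb2
        have e1 : k⁻¹ * ((↑h * y * k⁻¹)⁻¹ * b * (↑h * y * k⁻¹)) * k⁻¹⁻¹ = y⁻¹ * ((h : G)⁻¹ * b * (h : G)) * y := by group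
        rw [e1] at h1
        have h3 := htriv ((h : G)⁻¹ * b * (h : G)) (mul_mem (mul_mem (inv_mem h.2) (hCH hb)) h.2) (hCH h1)
        have : b = (h : G) * ((h : G)⁻¹ * b * (h : G)) * (h : G)⁻¹ := by group
        rw [this, h3]; group)
      refine ⟨⟨b, hb⟩, b' * k, mul_mem (hCH hb') hk, ?_⟩
      have : (h : G) * y = (h * y * k⁻¹) * k := by group
      rw [this, hbb]; group
    choose f k hk hf using key
    have hinj : Function.Injective f := by
      intro h h' hh
      have h1 := hf h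
      have h2 := hf h'
      rw [hh] at h1
      have h3 : y⁻¹ * ((h' : G)⁻¹ * h) * y = (k h')⁻¹ * k h := by
        have e1 : y⁻¹ * ((h' : G)⁻¹ * h) * y = ((h' : G) * y)⁻¹ * ((h : G) * y) := by group
        rw [e1, h1, h2]; group
      have h4 := htriv ((h' : G)⁻¹ * h) (mul_mem (inv_mem h'.2) h.2) (by rw [h3]; exact mul_mem (inv_mem (hk h')) (hk h))
      exact Subtype.ext (inv_mul_eq_one.1 h4).symm
    have hcard := Nat.card_le_card_of_injective f hinj
    have heq := Subgroup.eq_of_le_of_card_ge hCH hcard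
    exact hH'N (by rw [← heq]; exact hCN)
  -- transfer to `H`
  obtain ⟨g, hg⟩ := MulAction.exists_smul_eq G H' H
  have hgH : MulAut.conj g • (H' : Subgroup G) = (H : Subgroup G) := by
    rw [← hg]; rfl
  intro hbot
  apply main (g⁻¹ * x * g)
  rw [eq_bot_iff]
  intro t ht
  have h1 : MulAut.conj g • t ∈ (H : Subgroup G) ⊓ MulAut.conj x • (H : Subgroup G) := by
    refine ⟨?_, ?_⟩
    · change MulAut.conj g • t ∈ (H : Subgroup G)
      rw [← hgH]
      exact Subgroup.smul_mem_pointwise_smul _ _ _ ht.1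
    · change MulAut.conj g • t ∈ MulAut.conj x • (H : Subgroup G)
      rw [← hgH, smul_smul, ← map_mul]
      have e1 : x * g = g * (g⁻¹ * x * g) := by group
      rw [e1, map_mul, ← smul_smul]
      exact Subgroup.smul_mem_pointwise_smul _ _ _ ht.2
  rw [hbot, Subgroup.mem_bot] at h1
  rw [Subgroup.mem_bot]
  exact (map_eq_one_iff _ (MulAut.conj g).injective).1 h1

/-! ### the group `GL_n(2)` -/

section mat
variable {n : ℕ}

local notation "F₂" => ZMod 2

theorem two_cases : ∀ a : ZMod 2, a ≠ 0 → a = 1 := by decide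

theorem isP (n : ℕ) : IsPGroup 2 (upperTriangularGL n (ZMod 2)) := by
  haveI : Fact (Nat.Prime 2) := ⟨Nat.prime_two⟩
  rintro ⟨g, hg⟩
  refine ⟨n, ?_⟩
  apply Subtype.ext
  apply Units.ext
  have h1 : (g : Matrix (Fin n) (Fin n) F₂).BlockTriangular id := hg
  have hdiag : ∀ i, (g : Matrix (Fin n) (Fin n) F₂) i i = 1 := by
    intro i
    have hdet : (g : Matrix (Fin n) (Fin n) F₂).det ≠ 0 := by
      have := (Matrix.isUnit_iff_isUnit_det _).1 g.isUnit
      exact this.ne_zero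
    rw [Matrix.det_of_upperTriangular h1] at hdet
    have h2 := Finset.prod_ne_zero_iff.1 hdet i (Finset.mem_univ i)
    exact two_cases _ h2
  have hcp : (g : Matrix (Fin n) (Fin n) F₂).charpoly = (Polynomial.X - Polynomial.C 1) ^ n := by
    rw [Matrix.charpoly_of_upperTriangular _ h1]
    simp [hdiag]
  have h4 := Matrix.aeval_self_charpoly (g : Matrix (Fin n) (Fin n) F₂)
  rw [hcp] at h4
  simp only [map_pow, map_sub, Polynomial.aeval_X, Polynomial.aeval_C, map_one] at h4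
  have hle : n ≤ 2 ^ n := Nat.lt_two_pow_self.le
  have h5 : ((g : Matrix (Fin n) (Fin n) F₂) - 1) ^ (2 ^ n) = 0 := by
    rw [← Nat.add_sub_of_le hle, pow_add, h4, zero_mul]
  haveI : CharP (Matrix (Fin n) (Fin n) F₂) 2 ∨ True := Or.inr trivial
  have h6 : ((g : Matrix (Fin n) (Fin n) F₂) - 1) ^ (2 ^ n) = (g : Matrix (Fin n) (Fin n) F₂) ^ (2 ^ n) - 1 := by
    rcases Nat.eq_zero_or_pos n with hn | hn
    · subst hn
      exact Subsingleton.elim _ _
    · haveI : Nonempty (Fin n) := ⟨⟨0, hn⟩⟩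
      haveI : CharP (Matrix (Fin n) (Fin n) F₂) 2 := Matrix.charP 2
      rw [sub_pow_char_pow_of_commute _ _ (Commute.one_right _), one_pow]
  rw [h6] at h5
  have h7 := sub_eq_zero.1 h5
  simpa using h7

/-- elementary matrices -/
def el (i j : Fin n) (h : i ≠ j) : GL (Fin n) F₂ :=
  Matrix.GeneralLinearGroup.mkOfDetNeZero (Matrix.transvection i j (1 : F₂)) (by rw [Matrix.det_transvection_of_ne i j h]; exact one_ne_zero)

theorem el_coe (i j : Fin n) (h : i ≠ j) : ((el i j h : GL (Fin n) F₂) : Matrix (Fin n) (Fin n) F₂) = Matrix.transvection i j 1 := rfl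

theorem el_mem (i j : Fin n) (h : i < j) : el i j h.ne ∈ upperTriangularGL n F₂ := by
  change (Matrix.transvection i j (1 : F₂)).BlockTriangular id
  intro a b hab
  change b < a at hab
  unfold Matrix.transvection
  rw [Matrix.add_apply, Matrix.one_apply_ne hab.ne', Matrix.single_apply]
  rw [if_neg, add_zero]
  rintro ⟨rfl, rfl⟩
  exact absurd hab (not_lt.2 h.le)

theorem el_ne (i j : Fin n) (h : i ≠ j) : el i j h ≠ 1 := by
  intro h1
  have h2 := congrArg (fun z : GL (Fin n) F₂ => (z : Matrix (Fin n) (Fin n) F₂) i j) h1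
  simp only [el_coe, Matrix.transvection, Matrix.add_apply, Units.val_one, Matrix.one_apply_ne h, Matrix.single_apply_same, zero_add] at h2
  exact one_ne_zero h2

theorem el_lt (i j : Fin n) (h : i ≠ j) (hm : el i j h ∈ upperTriangularGL n F₂) : i < j := by
  by_contra hcon
  have hji : j < i := lt_of_le_of_ne (not_lt.1 hcon) (Ne.symm h)
  have h1 : (Matrix.transvection i j (1 : F₂)).BlockTriangular id := hm
  have h2 := h1 (i := i) (j := j) hji
  unfold Matrix.transvection at h2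
  rw [Matrix.add_apply, Matrix.one_apply_ne h, Matrix.single_apply_same, zero_add] at h2
  exact one_ne_zero h2

theorem pm_conj (w : Equiv.Perm (Fin n)) (i j : Fin n) (h : i ≠ j) :
    pm n F₂ w * el i j h * (pm n F₂ w)⁻¹ = el (w i) (w j) (fun e => h (w.injective e)) := by
  rw [mul_inv_eq_iff_eq_mul]
  apply Units.ext
  rw [Units.val_mul, Units.val_mul, el_coe, el_coe, pm_coe]
  unfold Matrix.transvection
  rw [mul_add, add_mul, mul_one, one_mul]
  congr 1
  ext a b
  rw [Matrix.mul_apply, Matrix.mul_apply, Finset.sum_eq_single i, Finset.sum_eq_single (w j)]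
  · simp only [Matrix.of_apply, Matrix.single_apply, true_and, and_true, mul_ite, mul_one, mul_zero, ite_mul, one_mul, zero_mul,
      EmbeddingLike.apply_eq_iff_eq]
    by_cases h1 : a = w i <;> by_cases h2 : j = b <;> simp [h1, h2, eq_comm]
  · intro c _ hc
    rw [Matrix.single_apply, if_neg (fun h' => hc h'.2.symm), zero_mul]
  · intro h'; exact absurd (Finset.mem_univ _) h'
  · intro c _ hc
    rw [Matrix.single_apply, if_neg (fun h' => hc h'.1.symm), mul_zero]
  · intro h'; exact absurd (Finset.mem_univ _) h'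

theorem strictMono_eq_one (w : Equiv.Perm (Fin n)) (h : ∀ i j : Fin n, i < j → w i < w j) : w = 1 := by
  have h1 : StrictMono w := fun i j hij => h i j hij
  have h2 : ∀ i, i ≤ w i := fun i => h1.le_apply
  have h3 : StrictMono w.symm := by
    intro i j hij
    by_contra hcon
    rcases (not_lt.1 hcon).lt_or_eq with h4 | h4
    · have := h1 h4
      simp only [Equiv.apply_symm_apply] at this
      exact absurd hij (not_lt.2 this.le)
    · have := w.symm.injective h4
      exact absurd hij (this ▸ lt_irrefl _)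
  ext i
  have h5 : w i ≤ i := by
    have := h3.le_apply (x := w i)
    simpa using this
  exact congrArg Fin.val (le_antisymm h5 (h2 i))

theorem selfnorm (g : GL (Fin n) F₂) (h : ∀ b ∈ upperTriangularGL n F₂, g * b * g⁻¹ ∈ upperTriangularGL n F₂) :
    g ∈ upperTriangularGL n F₂ := by
  obtain ⟨b, hb, b', hb', w, hw⟩ := gl_bruhat g
  have hg : g = b⁻¹ * pm n F₂ w * b'⁻¹ := by rw [← hw]; group
  have hw1 : w = 1 := by
    apply strictMono_eq_one
    intro i j hij
    have h1 := h (b' * el i j hij.ne * b'⁻¹) (mul_mem (mul_mem hb' (el_mem i j hij)) (inv_mem hb'))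
    have h2 : pm n F₂ w * el i j hij.ne * (pm n F₂ w)⁻¹ = b * (g * (b' * el i j hij.ne * b'⁻¹) * g⁻¹) * b⁻¹ := by
      rw [hg]; group
    rw [pm_conj] at h2
    apply el_lt (w i) (w j) (fun e => hij.ne (w.injective e))
    rw [h2]
    exact mul_mem (mul_mem hb h1) (inv_mem hb)
  rw [hg, hw1, map_one, mul_one]
  exact mul_mem (inv_mem hb) (inv_mem hb')

theorem opp (g : GL (Fin n) F₂) (h : ∀ b ∈ upperTriangularGL n F₂, g⁻¹ * b * g ∈ upperTriangularGL n F₂ → b = 1) :
    ∃ b ∈ upperTriangularGL n F₂, ∃ b' ∈ upperTriangularGL n F₂, g = b * pm n F₂ Fin.revPerm * b' := by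
  obtain ⟨b, hb, b', hb', w, hw⟩ := gl_bruhat g
  have hg : g = b⁻¹ * pm n F₂ w * b'⁻¹ := by rw [← hw]; group
  have hanti : ∀ i j : Fin n, i < j → w j < w i := by
    intro i j hij
    by_contra hcon
    have hlt : w i < w j := lt_of_le_of_ne (not_lt.1 hcon) (fun e => hij.ne (w.injective e))
    have h1 := h (b⁻¹ * el (w i) (w j) hlt.ne * b) (mul_mem (mul_mem (inv_mem hb) (el_mem _ _ hlt)) hb) (by
      have e1 : g⁻¹ * (b⁻¹ * el (w i) (w j) hlt.ne * b) * g = b' * el i j hij.ne * b'⁻¹ := by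
        have := pm_conj w i j hij.ne
        rw [← this, hg]; group
      rw [e1]
      exact mul_mem (mul_mem hb' (el_mem _ _ hij)) (inv_mem hb'))
    apply el_ne (w i) (w j) hlt.ne
    have : el (w i) (w j) hlt.ne = b * (b⁻¹ * el (w i) (w j) hlt.ne * b) * b⁻¹ := by group
    rw [this, h1]; group
  have hw0 : w = Fin.revPerm := by
    have h1 : Fin.revPerm * w = 1 := by
      apply strictMono_eq_one
      intro i j hij
      rw [Equiv.Perm.mul_apply, Equiv.Perm.mul_apply]
      simp only [Fin.revPerm_apply]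
      exact Fin.rev_lt_rev.2 (hanti i j hij)
    have h2 : (Fin.revPerm : Equiv.Perm (Fin n)) * Fin.revPerm = 1 := by ext i; simp
    calc w = Fin.revPerm * (Fin.revPerm * w) := by rw [← mul_assoc, h2, one_mul]
      _ = Fin.revPerm := by rw [h1, mul_one]
  exact ⟨b⁻¹, inv_mem hb, b'⁻¹, inv_mem hb', by rw [hg, hw0]⟩

/-- `SL_n(2) = GL_n(2)` -/
theorem exists_equiv (n : ℕ) : Nonempty (Matrix.SpecialLinearGroup (Fin n) F₂ ≃* GL (Fin n) F₂) := by
  refine ⟨MulEquiv.ofBijective (Matrix.SpecialLinearGroup.toGL) ⟨?_, ?_⟩⟩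
  · intro a b hab
    apply Subtype.ext
    exact congrArg (fun z : GL (Fin n) F₂ => (z : Matrix (Fin n) (Fin n) F₂)) hab
  · intro g
    have hdet : (g : Matrix (Fin n) (Fin n) F₂).det = 1 := by
      have := (Matrix.isUnit_iff_isUnit_det _).1 g.isUnit
      exact two_cases _ this.ne_zero
    exact ⟨⟨g, hdet⟩, Units.ext rfl⟩

end mat

theorem main2486 {G : Type*} [Group G] [Finite G] {n : ℕ} (hn : 4 ≤ n) (N : Subgroup G) [N.Normal]
    (e : N ≃* Matrix.SpecialLinearGroup (Fin n) (ZMod 2)) (hidx : N.index = 2)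
    (H : Sylow 2 G) (x : G) :
    (H : Subgroup G) ⊓ MulAut.conj x • (H : Subgroup G) ≠ ⊥ := by
  obtain ⟨f⟩ := exists_equiv n
  exact core N hidx (e.trans f) (upperTriangularGL n (ZMod 2)) (isP n) selfnorm _ opp H x

end Cfsg.Agent.H16.SL2Ext
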