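import Mathlib
import Cfsg.Agent.H5.UnitGen2
set_option autoImplicit false
set_option linter.all false

/-! Involutions of `SU_3(q)`, `q` odd. -/

namespace Cfsg.Agent.H16.SU3Inv

open Matrix Cfsg Cfsg.Agent.H5 FormData

variable {F : Type*} [Field F] {σ : F →+* F} {q : ℕ}

local notation "h⟪" x ", " y "⟫" => hB (Fin 3) σ x y

/-- `A` is the involution with fixed space spanned by the unit vector `u` -/
def IsR (σ : F →+* F) (A : SU 3 F q) (u : Fin 3 → F) : Prop := ∀ x, sv A x = -x + (2 * hB (Fin 3) σ u x) • u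

theorem exists_IsR (hσ : ∀ x, σ x = x ^ q) (hσ2 : ∀ a, σ (σ a) = a) {u : Fin 3 → F} (hu : h⟪u, u⟫ = 1) :
    ∃ A : SU 3 F q, IsR σ A u := by
  have hS := hB_symm (ι := Fin 3) hσ2
  obtain ⟨M, hM⟩ : ∃ M : Matrix (Fin 3) (Fin 3) F, M = (2 : F) • Matrix.vecMulVec u (fun j => σ (u j)) - 1 := ⟨_, rfl⟩
  have hMx : ∀ x, M.mulVec x = -x + (2 * h⟪u, x⟫) • u := by
    intro x
    have e : (Matrix.vecMulVec u (fun j => σ (u j))).mulVec x = h⟪u, x⟫ • u := by
      funext k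
      simp only [Matrix.mulVec, Matrix.vecMulVec_apply, dotProduct, Pi.smul_apply, smul_eq_mul, hB_apply, Finset.sum_mul]
      apply Finset.sum_congr rfl
      intro i _
      ring
    rw [hM, Matrix.sub_mulVec, Matrix.smul_mulVec, Matrix.one_mulVec, e, smul_smul]
    abel
  have hdet : M.det = 1 := by
    have h1 : (-M).det = -1 := by
      have h2 := det_of_rank2 (M := -M) (u1 := u) (u2 := 0) (φ1 := (-2 : F) • hB (Fin 3) σ u) (φ2 := 0) (by
        intro x
        rw [Matrix.neg_mulVec, hMx, LinearMap.smul_apply, smul_eq_mul, smul_zero, add_zero]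
        module)
      rw [h2, LinearMap.smul_apply, hu]
      simp
      norm_num
    rw [Matrix.det_neg] at h1
    simp only [Fintype.card_fin] at h1
    linear_combination -h1
  refine ⟨⟨⟨M, hdet⟩, (mem_SU_iff hσ).mpr ?_⟩, fun x => hMx x⟩
  intro x y
  change h⟪M.mulVec x, M.mulVec y⟫ = h⟪x, y⟫
  rw [hMx, hMx]
  have e1 : ∀ z w : Fin 3 → F, h⟪-z, w⟫ = -h⟪z, w⟫ := fun z w => by rw [map_neg, LinearMap.neg_apply]
  have e2 : ∀ z w : Fin 3 → F, h⟪z, -w⟫ = -h⟪z, w⟫ := fun z w => by rw [map_neg]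
  have e3 : σ 2 = 2 := map_ofNat σ 2
  rw [bl_add, br_add, br_add, bl_smul, bl_smul, br_smul, br_smul, e1, e1, e2, e2, hu, map_mul, hS, e3]
  ring

theorem sv_neg (A : SU 3 F q) (x : Fin 3 → F) : sv A (-x) = - sv A x := by
  have := sv_smul A (-1 : F) x
  rwa [neg_one_smul, neg_one_smul] at this

theorem IsR.fix {A : SU 3 F q} {u : Fin 3 → F} (h : IsR σ A u) (hu : h⟪u, u⟫ = 1) : sv A u = u := by
  rw [h, hu]; module

theorem IsR.sq {A : SU 3 F q} {u : Fin 3 → F} (h : IsR σ A u) (hu : h⟪u, u⟫ = 1) : A * A = 1 := by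
  apply sv_ext
  intro x
  rw [sv_mul, h x, sv_add, sv_neg, sv_smul, h.fix hu, h x, sv_one]
  module

theorem IsR.ne_one (h2 : (2 : F) ≠ 0) {A : SU 3 F q} {u : Fin 3 → F} (h : IsR σ A u) : A ≠ 1 := by
  rintro rfl
  have h1 : ∀ x : Fin 3 → F, x = h⟪u, x⟫ • u := by
    intro x
    have h3 := h x
    rw [sv_one] at h3
    have h4 : (2 : F) • x = (2 : F) • (h⟪u, x⟫ • u) := by
      rw [smul_smul, two_smul]
      nth_rewrite 1 [h3]
      abel
    exact smul_right_injective _ h2 h4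
  have e0 := h1 (Pi.single 0 1)
  have e1 := h1 (Pi.single 1 1)
  have a0 := congrFun e0 0
  have a1 := congrFun e0 1
  have b1 := congrFun e1 1
  simp only [Pi.single_eq_same, Pi.smul_apply, smul_eq_mul, ne_eq, one_ne_zero, not_false_eq_true, Pi.single_eq_of_ne] at a0 a1 b1
  rcases mul_eq_zero.1 a1.symm with h5 | h5
  · rw [h5, zero_mul] at a0; exact one_ne_zero a0
  · rw [h5, mul_zero] at b1; exact one_ne_zero b1

theorem IsR.eq_iff (h2 : (2 : F) ≠ 0) {A B : SU 3 F q} {u v : Fin 3 → F} (hA : IsR σ A u) (hB' : IsR σ B v)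
    (hu : h⟪u, u⟫ = 1) (hv : h⟪v, v⟫ = 1) : A = B ↔ ∃ c : F, v = c • u := by
  constructor
  · rintro rfl
    refine ⟨h⟪u, v⟫, ?_⟩
    have h3 := hA v
    rw [hB'.fix hv] at h3
    apply smul_right_injective _ h2
    change (2 : F) • v = (2 : F) • (h⟪u, v⟫ • u)
    rw [smul_smul, two_smul]
    nth_rewrite 1 [h3]
    abel
  · rintro ⟨c, rfl⟩
    rw [bl_smul, br_smul, hu, mul_one] at hv
    apply sv_ext
    intro x
    rw [hA, hB', bl_smul, smul_smul]
    congr 2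
    linear_combination (-2 * h⟪u, x⟫) * hv

theorem IsR.comm_iff (h2 : (2 : F) ≠ 0) (hσ2 : ∀ a, σ (σ a) = a) {A B : SU 3 F q} {u v : Fin 3 → F} (hA : IsR σ A u) (hB' : IsR σ B v)
    (hu : h⟪u, u⟫ = 1) (hv : h⟪v, v⟫ = 1) : Commute A B ↔ h⟪u, v⟫ = 0 ∨ ∃ c : F, v = c • u := by
  have hS := hB_symm (ι := Fin 3) hσ2
  have hAB : ∀ x, sv (A * B) x = x - (2 * h⟪u, x⟫) • u - (2 * h⟪v, x⟫) • v + (4 * (h⟪v, x⟫ * h⟪u, v⟫)) • u := by
    intro x
    rw [sv_mul, hB' x, sv_add, sv_neg, sv_smul, hA x, hA v]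
    module
  have hBA : ∀ x, sv (B * A) x = x - (2 * h⟪v, x⟫) • v - (2 * h⟪u, x⟫) • u + (4 * (h⟪u, x⟫ * h⟪v, u⟫)) • v := by
    intro x
    rw [sv_mul, hA x, sv_add, sv_neg, sv_smul, hB' x, hB' u]
    module
  have h4 : (4 : F) ≠ 0 := by
    have : (4 : F) = 2 * 2 := by norm_num
    rw [this]; exact mul_ne_zero h2 h2
  constructor
  · intro h
    by_cases h0 : h⟪u, v⟫ = 0
    · exact Or.inl h0
    right
    have h5 := hAB v
    rw [h.eq, hBA v, hv] at h5
    have h6 : (4 : F) • ((h⟪u, v⟫ * h⟪v, u⟫) • v) = (4 : F) • (h⟪u, v⟫ • u) := by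
      rw [smul_smul, smul_smul]
      have := h5
      rw [one_mul] at this
      linear_combination (exp := 1) this
    have h7 := smul_right_injective _ h4 h6
    rw [mul_smul] at h7
    have h8 := smul_right_injective _ h0 h7
    have h9 : h⟪v, u⟫ ≠ 0 := by
      rw [← hS]
      exact fun h10 => h0 ((map_eq_zero σ).1 h10)
    refine ⟨(h⟪v, u⟫)⁻¹, ?_⟩
    change h⟪v, u⟫ • v = u at h8
    nth_rewrite 2 [← h8]
    rw [smul_smul, inv_mul_cancel₀ h9, one_smul]
  · rintro (h | ⟨c, rfl⟩)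
    · have h' : h⟪v, u⟫ = 0 := by rw [← hS, h, map_zero]
      apply sv_ext
      intro x
      rw [hAB, hBA, h, h']
      module
    · apply sv_ext
      intro x
      rw [hAB, hBA]
      simp only [bl_smul, br_smul, hu]
      module

theorem IsR.conj (hσ : ∀ x, σ x = x ^ q) {A g : SU 3 F q} {u : Fin 3 → F} (hA : IsR σ A u) : IsR σ (g * A * g⁻¹) (sv g u) := by
  intro x
  rw [sv_mul, sv_mul, hA, sv_add, sv_neg, sv_smul, sv_inv', ← sv_isom hσ g u, sv_inv']

theorem exists_unit [Finite F] (hσ1 : σ ≠ RingHom.id F) (hσ2 : ∀ a, σ (σ a) = a) {w : Fin 3 → F} (hw : h⟪w, w⟫ ≠ 0) :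
    ∃ c : F, c ≠ 0 ∧ h⟪c • w, c • w⟫ = 1 := by
  have hS := hB_symm (ι := Fin 3) hσ2
  obtain ⟨c, hc0, hc⟩ := norm_surj hσ1 hσ2 (c := (h⟪w, w⟫)⁻¹) (by rw [map_inv₀, hS]) (inv_ne_zero hw)
  refine ⟨c, hc0, ?_⟩
  rw [bl_smul, br_smul, ← mul_assoc, mul_comm (σ c), hc, inv_mul_cancel₀ hw]

/-- the key: an eigenspace of dimension one -/
theorem one_dim [Finite F] (hσ : ∀ x, σ x = x ^ q) (hσ1 : σ ≠ RingHom.id F) (hσ2 : ∀ a, σ (σ a) = a) (h2 : (2 : F) ≠ 0) {A : SU 3 F q}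
    (hAA : A * A = 1) {ε : F} (hε : ε * ε = 1) (hσε : σ ε = ε) (P : Submodule F (Fin 3 → F)) (hP : ∀ x, x ∈ P ↔ sv A x = ε • x)
    (h1 : Module.finrank F P = 1) : ∃ u : Fin 3 → F, h⟪u, u⟫ = 1 ∧ ∀ x, x + ε • sv A x = (2 * h⟪u, x⟫) • u := by
  have hS := hB_symm (ι := Fin 3) hσ2
  obtain ⟨⟨u0, hu0P⟩, hu00, hspan⟩ := finrank_eq_one_iff'.1 h1
  have hspan' : ∀ x, x ∈ P → ∃ c : F, x = c • u0 := by
    intro x hx
    obtain ⟨c, hc⟩ := hspan ⟨x, hx⟩
    exact ⟨c, (congrArg Subtype.val hc).symm⟩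
  have hu0 : u0 ≠ 0 := fun h => hu00 (Subtype.ext h)
  have hmem : ∀ x, x + ε • sv A x ∈ P := by
    intro x
    rw [hP, sv_add, sv_smul, ← sv_mul, hAA, sv_one, smul_add, smul_smul, hε, one_smul, add_comm]
  have hinner : ∀ y ∈ P, ∀ x, h⟪y, x + ε • sv A x⟫ = 2 * h⟪y, x⟫ := by
    intro y hy x
    have h3 := sv_isom hσ A y x
    rw [(hP y).1 hy, bl_smul, hσε] at h3
    rw [br_add, br_smul, h3]; ring
  have hnz : h⟪u0, u0⟫ ≠ 0 := by
    intro h0
    apply hu0
    apply hB_nd (σ := σ)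
    intro x
    obtain ⟨c, hc⟩ := hspan' _ (hmem x)
    have h3 := hinner u0 hu0P x
    rw [hc, br_smul, h0, mul_zero] at h3
    rcases mul_eq_zero.1 h3.symm with h4 | h4
    · exact absurd h4 h2
    · exact h4
  obtain ⟨c, hc0, hc⟩ := exists_unit hσ1 hσ2 hnz
  refine ⟨c • u0, hc, fun x => ?_⟩
  obtain ⟨d, hd⟩ := hspan' _ (hmem x)
  have hcu : c • u0 ∈ P := P.smul_mem _ hu0P
  have h3 := hinner _ hcu x
  have hd' : x + ε • sv A x = (d * c⁻¹) • (c • u0) := by
    rw [hd, smul_smul, mul_assoc, inv_mul_cancel₀ hc0, mul_one]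
  rw [hd', br_smul, hc, mul_one] at h3
  rw [hd', h3]

theorem inv_IsR [Finite F] (hσ : ∀ x, σ x = x ^ q) (hσ1 : σ ≠ RingHom.id F) (hσ2 : ∀ a, σ (σ a) = a) (h2 : (2 : F) ≠ 0) {A : SU 3 F q}
    (hA1 : A ≠ 1) (hAA : A * A = 1) : ∃ u : Fin 3 → F, h⟪u, u⟫ = 1 ∧ IsR σ A u := by
  obtain ⟨f, hf⟩ : ∃ f : (Fin 3 → F) →ₗ[F] (Fin 3 → F), ∀ x, f x = sv A x :=
    ⟨Matrix.mulVecLin ((A : Matrix.SpecialLinearGroup (Fin 3) F) : Matrix (Fin 3) (Fin 3) F), fun x => rfl⟩
  have hP1 : ∀ x, x ∈ LinearMap.ker (f - LinearMap.id) ↔ sv A x = (1 : F) • x := by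
    intro x
    rw [LinearMap.mem_ker, LinearMap.sub_apply, LinearMap.id_apply, hf, sub_eq_zero, one_smul]
  have hP2 : ∀ x, x ∈ LinearMap.ker (f + LinearMap.id) ↔ sv A x = (-1 : F) • x := by
    intro x
    rw [LinearMap.mem_ker, LinearMap.add_apply, LinearMap.id_apply, hf, add_eq_zero_iff_eq_neg, neg_one_smul]
  obtain ⟨P, hPe⟩ : ∃ P, P = LinearMap.ker (f - LinearMap.id) := ⟨_, rfl⟩
  obtain ⟨Q, hQe⟩ : ∃ P, P = LinearMap.ker (f + LinearMap.id) := ⟨_, rfl⟩
  rw [← hPe] at hP1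
  rw [← hQe] at hP2
  have hcompl : IsCompl P Q := by
    constructor
    · rw [Submodule.disjoint_def]
      intro x hx1 hx2
      rw [hP1] at hx1
      rw [hP2, hx1, one_smul, neg_one_smul] at hx2
      have h3 : (2 : F) • x = 0 := by
        rw [two_smul]
        nth_rewrite 1 [hx2]
        exact neg_add_cancel x
      exact (smul_eq_zero.1 h3).resolve_left h2
    · rw [codisjoint_iff, eq_top_iff]
      intro x _
      have hx : x = (2 : F)⁻¹ • (x + sv A x) + (2 : F)⁻¹ • (x - sv A x) := by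
        rw [← smul_add, add_add_sub_cancel, ← two_smul F x, smul_smul, inv_mul_cancel₀ h2, one_smul]
      rw [hx]
      apply Submodule.add_mem_sup
      · apply P.smul_mem
        rw [hP1, sv_add, ← sv_mul, hAA, sv_one, one_smul, add_comm]
      · apply Q.smul_mem
        rw [hP2, sub_eq_add_neg, sv_add, sv_neg, ← sv_mul, hAA, sv_one]
        module
  have hdim := Submodule.finrank_add_eq_of_isCompl hcompl
  rw [Module.finrank_fin_fun] at hdim
  have hdetA : ((A : Matrix.SpecialLinearGroup (Fin 3) F) : Matrix (Fin 3) (Fin 3) F).det = 1 := (A : Matrix.SpecialLinearGroup (Fin 3) F).2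
  have hm1 : (-1 : F) ≠ 1 := by
    intro h
    apply h2
    linear_combination -h
  by_cases hp : Module.finrank F P = 1
  · obtain ⟨u, hu, hx⟩ := one_dim hσ hσ1 hσ2 h2 hAA (mul_one 1) (map_one σ) P hP1 hp
    refine ⟨u, hu, fun x => ?_⟩
    rw [← hx x, one_smul]; abel
  by_cases hq : Module.finrank F Q = 1
  · exfalso
    obtain ⟨u, hu, hx⟩ := one_dim hσ hσ1 hσ2 h2 hAA (by norm_num : (-1 : F) * (-1) = 1) (by rw [map_neg, map_one]) Q hP2 hq
    have h3 := det_of_rank2 (M := ((A : Matrix.SpecialLinearGroup (Fin 3) F) : Matrix (Fin 3) (Fin 3) F)) (u1 := u) (u2 := 0)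
      (φ1 := (-2 : F) • hB (Fin 3) σ u) (φ2 := 0) (by
        intro x
        change sv A x = _
        have h4 := hx x
        rw [LinearMap.smul_apply, smul_eq_mul, smul_zero, add_zero]
        have h5 : sv A x = x - (2 * h⟪u, x⟫) • u := by rw [← h4]; module
        rw [h5]; module)
    rw [hdetA, LinearMap.smul_apply, hu] at h3
    simp at h3
    apply h2
    linear_combination h3
  exfalso
  have hcase : Module.finrank F P = 0 ∨ Module.finrank F Q = 0 := by omega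
  rcases hcase with h0 | h0
  · rw [Submodule.finrank_eq_zero] at h0
    have hA' : ∀ x, sv A x = (-1 : F) • x := by
      intro x
      have hx : x + sv A x ∈ P := by
        rw [hP1, sv_add, ← sv_mul, hAA, sv_one, one_smul, add_comm]
      rw [h0, Submodule.mem_bot] at hx
      rw [neg_one_smul]; exact eq_neg_of_add_eq_zero_right hx
    have hM : ((A : Matrix.SpecialLinearGroup (Fin 3) F) : Matrix (Fin 3) (Fin 3) F) = -1 := by
      apply Matrix.ext_of_mulVec_single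
      intro i
      have := hA' (Pi.single i 1)
      rw [Matrix.neg_mulVec, Matrix.one_mulVec, ← neg_one_smul F]
      exact this
    rw [hM, Matrix.det_neg, Matrix.det_one, Fintype.card_fin] at hdetA
    apply hm1
    linear_combination hdetA
  · rw [Submodule.finrank_eq_zero] at h0
    apply hA1
    apply sv_ext
    intro x
    have hx : x - sv A x ∈ Q := by
      rw [hP2, sub_eq_add_neg, sv_add, sv_neg, ← sv_mul, hAA, sv_one]
      module
    rw [h0, Submodule.mem_bot, sub_eq_zero] at hx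
    rw [sv_one]; exact hx.symm

end Cfsg.Agent.H16.SU3Inv
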