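import Mathlib
import Cfsg.Agent.H16.SU3Inv
set_option autoImplicit false
set_option linter.all false

/-! Counting involutions of `SU_3(q)`, `q` odd. -/

namespace Cfsg.Agent.H16.SU3Inv

open Matrix Cfsg Cfsg.Agent.H5 FormData

variable {F : Type*} [Field F] {σ : F →+* F} {q : ℕ}

local notation "h⟪" x ", " y "⟫" => hB (Fin 3) σ x y

theorem card_units [Fintype F] (hF : Fintype.card F = q ^ 2) (hσ : ∀ x, σ x = x ^ q) (hσ1 : σ ≠ RingHom.id F) (hσ2 : ∀ a, σ (σ a) = a) (h2 : (2 : F) ≠ 0)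
    (P : SU 3 F q → Prop) (Q : (Fin 3 → F) → Prop)
    (h : ∀ A u, h⟪u, u⟫ = 1 → IsR σ A u → (P A ↔ Q u)) :
    Nat.card {u : Fin 3 → F // h⟪u, u⟫ = 1 ∧ Q u} = (q + 1) * Nat.card {A : SU 3 F q // A ≠ 1 ∧ A * A = 1 ∧ P A} := by
  classical
  have hR : ∀ u : {u : Fin 3 → F // h⟪u, u⟫ = 1 ∧ Q u}, ∃ A : {A : SU 3 F q // A ≠ 1 ∧ A * A = 1 ∧ P A}, IsR σ A.1 u.1 := by
    intro u
    obtain ⟨A, hA⟩ := exists_IsR hσ hσ2 u.2.1
    exact ⟨⟨A, hA.ne_one h2, hA.sq u.2.1, (h A u u.2.1 hA).2 u.2.2⟩, hA⟩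
  choose R hR using hR
  rw [Nat.card_congr (Equiv.sigmaFiberEquiv R).symm]
  letI : Fintype {A : SU 3 F q // A ≠ 1 ∧ A * A = 1 ∧ P A} := Fintype.ofFinite _
  rw [Nat.card_sigma]
  have hfib : ∀ A : {A : SU 3 F q // A ≠ 1 ∧ A * A = 1 ∧ P A}, Nat.card {u // R u = A} = q + 1 := by
    intro A
    obtain ⟨u0, hu0, hA⟩ := inv_IsR hσ hσ1 hσ2 h2 A.2.1 A.2.2.1
    rw [← card_norm_eq hF hσ (map_one σ) one_ne_zero]
    have hQ : ∀ c : F, σ c * c = 1 → h⟪c • u0, c • u0⟫ = 1 ∧ IsR σ A.1 (c • u0) := by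
      intro c hc
      have h1 : h⟪c • u0, c • u0⟫ = 1 := by rw [bl_smul, br_smul, hu0, mul_one, hc]
      refine ⟨h1, ?_⟩
      obtain ⟨B, hB'⟩ := exists_IsR hσ hσ2 h1
      have h3 : A.1 = B := (hA.eq_iff h2 hB' hu0 h1).2 ⟨c, rfl⟩
      rw [h3]; exact hB'
    refine Nat.card_congr ⟨fun u => ⟨h⟪u0, u.1.1⟫, ?_⟩, fun c => ⟨⟨c.1 • u0, (hQ c.1 c.2).1, (h A.1 _ (hQ c.1 c.2).1 (hQ c.1 c.2).2).1 A.2.2.2⟩, ?_⟩, ?_, ?_⟩
    · have h3 : IsR σ A.1 u.1.1 := by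
        have := hR u.1
        rwa [u.2] at this
      obtain ⟨c, hc⟩ := (hA.eq_iff h2 h3 hu0 u.1.2.1).1 rfl
      have h4 := u.1.2.1
      rw [hc, bl_smul, br_smul, hu0, mul_one] at h4
      rw [hc, br_smul, hu0, mul_one]
      exact h4
    · apply Subtype.ext
      have h3 := hR ⟨c.1 • u0, (hQ c.1 c.2).1, (h A.1 _ (hQ c.1 c.2).1 (hQ c.1 c.2).2).1 A.2.2.2⟩
      exact (h3.eq_iff h2 (hQ c.1 c.2).2 (hQ c.1 c.2).1 (hQ c.1 c.2).1).2 ⟨1, (one_smul _ _).symm⟩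
    · intro u
      apply Subtype.ext; apply Subtype.ext
      have h3 : IsR σ A.1 u.1.1 := by
        have := hR u.1
        rwa [u.2] at this
      obtain ⟨c, hc⟩ := (hA.eq_iff h2 h3 hu0 u.1.2.1).1 rfl
      change h⟪u0, u.1.1⟫ • u0 = u.1.1
      rw [hc, br_smul, hu0, mul_one]
    · intro c
      apply Subtype.ext
      change h⟪u0, c.1 • u0⟫ = c.1
      rw [br_smul, hu0, mul_one]
  simp_rw [hfib]
  rw [Finset.sum_const, smul_eq_mul, Finset.card_univ, ← Nat.card_eq_fintype_card, mul_comm]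

/-- the standing facts -/
structure St (F : Type*) [Field F] [Fintype F] (σ : F →+* F) (q : ℕ) : Prop where
  hF : Fintype.card F = q ^ 2
  hσ : ∀ x, σ x = x ^ q
  hσ2 : ∀ a, σ (σ a) = a
  hσ1 : σ ≠ RingHom.id F
  h2 : (2 : F) ≠ 0
  hq : 3 ≤ q

theorem exists_St [Fintype F] (hq : Odd q) (hF : Fintype.card F = q ^ 2) : ∃ σ : F →+* F, St F σ q := by
  obtain ⟨σ, hσ, hσ2, hσ1⟩ := exists_frob hF
  refine ⟨σ, hF, hσ, hσ2, hσ1, ?_, ?_⟩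
  · intro h
    obtain ⟨p, hp⟩ := CharP.exists F
    haveI := hp
    have hpp : p.Prime := CharP.char_is_prime F p
    have h1 : p ∣ 2 := (CharP.cast_eq_zero_iff F p 2).1 (by exact_mod_cast h)
    have h3 : p = 2 := (Nat.prime_dvd_prime_iff_eq hpp Nat.prime_two).1 h1
    subst h3
    obtain ⟨n, _, hn⟩ := FiniteField.card F 2
    rw [hF] at hn
    have : Odd (q ^ 2) := hq.pow
    rw [hn] at this
    exact (Nat.not_odd_iff_even.2 ((Nat.even_pow.2 ⟨even_two, n.ne_zero⟩))) this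
  · have := q_pos hF
    rcases hq with ⟨k, hk⟩
    omega

variable [Fintype F]

theorem UWtop (s : St F σ q) : UW (hB (Fin 3) σ) 3 ⊤ := ⟨by simp, fun x _ hx => hB_nd x (fun y => hx y Submodule.mem_top)⟩

/-- orthogonal complement of a unit vector -/
noncomputable def orth (σ : F →+* F) (u : Fin 3 → F) : Submodule F (Fin 3 → F) := ⊤ ⊓ LinearMap.ker (hB (Fin 3) σ u)

omit [Fintype F] in
theorem mem_orth {u x : Fin 3 → F} : x ∈ orth σ u ↔ h⟪u, x⟫ = 0 := by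
  unfold orth
  rw [Submodule.mem_inf, LinearMap.mem_ker]
  exact ⟨fun h => h.2, fun h => ⟨Submodule.mem_top, h⟩⟩

theorem UWorth (s : St F σ q) {u : Fin 3 → F} (hu : h⟪u, u⟫ = 1) : UW (hB (Fin 3) σ) 2 (orth σ u) :=
  UW_step (hB_symm s.hσ2) 2 ⊤ u (UWtop s) Submodule.mem_top hu

theorem card_all (s : St F σ q) : (q + 1) * Nat.card {A : SU 3 F q // A ≠ 1 ∧ A * A = 1} = q ^ 2 * (q ^ 3 + 1) := by
  have h1 := card_units s.hF s.hσ s.hσ1 s.hσ2 s.h2 (fun _ => True) (fun _ => True) (fun _ _ _ _ => Iff.rfl)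
  have h3 := UW_card s.hσ1 s.hσ2 (hB_symm s.hσ2) 3 ⊤ (UWtop s) 1
  rw [nvec_one s.hF s.hσ s.hσ2 2 (map_one σ) one_ne_zero] at h3
  rw [if_pos even_two] at h3
  have e1 : Nat.card {x : Fin 3 → F // x ∈ (⊤ : Submodule F (Fin 3 → F)) ∧ h⟪x, x⟫ = 1} = Nat.card {u : Fin 3 → F // h⟪u, u⟫ = 1 ∧ True} :=
    Nat.card_congr (Equiv.subtypeEquivRight (fun x => by simp))
  have e2 : Nat.card {A : SU 3 F q // A ≠ 1 ∧ A * A = 1 ∧ True} = Nat.card {A : SU 3 F q // A ≠ 1 ∧ A * A = 1} :=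
    Nat.card_congr (Equiv.subtypeEquivRight (fun x => by simp))
  rw [e2] at h1
  rw [← h1, ← e1, h3]

theorem arith1 (q : ℕ) : (q + 1) * (q ^ 2 * (q ^ 2 - q + 1)) = q ^ 2 * (q ^ 3 + 1) := by
  have h : q ≤ q ^ 2 := Nat.le_self_pow (by norm_num) q
  zify [h]
  ring

theorem card_inv (s : St F σ q) : Nat.card {A : SU 3 F q // A ≠ 1 ∧ A * A = 1} = q ^ 2 * (q ^ 2 - q + 1) := by
  apply Nat.eq_of_mul_eq_mul_left (Nat.succ_pos q)
  rw [Nat.succ_eq_add_one, card_all s, arith1]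

theorem conj_all (s : St F σ q) {t x : SU 3 F q} (ht : t ≠ 1) (ht2 : t * t = 1) (hx : x ≠ 1) (hx2 : x * x = 1) :
    ∃ g : SU 3 F q, g * t * g⁻¹ = x := by
  obtain ⟨u, hu, hut⟩ := inv_IsR s.hσ s.hσ1 s.hσ2 s.h2 ht ht2
  obtain ⟨v, hv, hvx⟩ := inv_IsR s.hσ s.hσ1 s.hσ2 s.h2 hx hx2
  obtain ⟨g, _, hg, _⟩ := suT_trans s.hF s.hσ s.hσ1 s.hσ2 (le_refl 2) (fun _ => by have := s.hq; omega) (UWtop s)
    Submodule.mem_top Submodule.mem_top hu hv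
  refine ⟨g, ?_⟩
  have h1 := hut.conj s.hσ (g := g)
  rw [hg] at h1
  exact (h1.eq_iff s.h2 hvx hv hv).2 ⟨1, (one_smul _ _).symm⟩

theorem card_SU3 (s : St F σ q) : Nat.card (SU 3 F q) = q ^ 3 * (q ^ 2 - 1) * (q ^ 3 + 1) := by
  have h := card_SU_mul s.hF (n := 3) (by norm_num)
  have h1 : ordU q 3 = (q + 1) * (q ^ 3 * (q ^ 2 - 1) * (q ^ 3 + 1)) := by
    unfold ordU
    simp [Finset.prod_range_succ]
    ring
  rw [h1] at h
  exact Nat.eq_of_mul_eq_mul_left (Nat.succ_pos q) h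

theorem card_cent (s : St F σ q) {t : SU 3 F q} (ht : t ≠ 1) (ht2 : t * t = 1) :
    Nat.card (Subgroup.centralizer ({t} : Set (SU 3 F q))) = q * (q + 1) * (q ^ 2 - 1) := by
  classical
  have hstab : ∀ g : SU 3 F q, g * t * g⁻¹ ≠ 1 ∧ (g * t * g⁻¹) * (g * t * g⁻¹) = 1 := by
    intro g
    constructor
    · intro h
      apply ht
      have : t = g⁻¹ * (g * t * g⁻¹) * g := by group
      rw [this, h]; group
    · have : (g * t * g⁻¹) * (g * t * g⁻¹) = g * (t * t) * g⁻¹ := by group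
      rw [this, ht2]; group
  let f : SU 3 F q → {A : SU 3 F q // A ≠ 1 ∧ A * A = 1} := fun g => ⟨g * t * g⁻¹, hstab g⟩
  have h1 : Nat.card (SU 3 F q) = Nat.card {A : SU 3 F q // A ≠ 1 ∧ A * A = 1} * Nat.card (Subgroup.centralizer ({t} : Set (SU 3 F q))) := by
    rw [Nat.card_congr (Equiv.sigmaFiberEquiv f).symm]
    letI : Fintype {A : SU 3 F q // A ≠ 1 ∧ A * A = 1} := Fintype.ofFinite _
    rw [Nat.card_sigma]
    have hfib : ∀ A : {A : SU 3 F q // A ≠ 1 ∧ A * A = 1}, Nat.card {g // f g = A} = Nat.card (Subgroup.centralizer ({t} : Set (SU 3 F q))) := by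
      intro A
      obtain ⟨g0, hg0⟩ := conj_all s ht ht2 A.2.1 A.2.2
      refine Nat.card_congr ⟨fun g => ⟨g0⁻¹ * g.1, ?_⟩, fun c => ⟨g0 * c.1, ?_⟩, ?_, ?_⟩
      · rw [Subgroup.mem_centralizer_singleton_iff]
        have h3 : g.1 * t * g.1⁻¹ = A.1 := congrArg Subtype.val g.2
        rw [← hg0] at h3
        have h4 : g.1 * t = g0 * t * g0⁻¹ * g.1 := by rw [← h3]; group
        rw [mul_assoc, h4]; group
      · apply Subtype.ext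
        have h3 := Subgroup.mem_centralizer_singleton_iff.1 c.2
        change g0 * c.1 * t * (g0 * c.1)⁻¹ = A.1
        rw [← hg0, mul_assoc g0, h3]; group
      · intro g
        apply Subtype.ext
        change g0 * (g0⁻¹ * g.1) = g.1
        group
      · intro c
        apply Subtype.ext
        change g0⁻¹ * (g0 * c.1) = c.1
        group
    simp_rw [hfib]
    rw [Finset.sum_const, smul_eq_mul, Finset.card_univ, ← Nat.card_eq_fintype_card]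
  rw [card_SU3 s, card_inv s] at h1
  have hq := s.hq
  have hpos : 0 < q ^ 2 * (q ^ 2 - q + 1) := by positivity
  apply Nat.eq_of_mul_eq_mul_left hpos
  rw [← h1]
  have h : q ≤ q ^ 2 := Nat.le_self_pow (by norm_num) q
  have h' : 1 ≤ q ^ 2 := Nat.one_le_pow _ _ (by omega)
  zify [h, h']
  ring

/-- commuting, distinct -/
theorem comm_ne_iff (s : St F σ q) {A B : SU 3 F q} {u v : Fin 3 → F} (hA : IsR σ A u) (hB' : IsR σ B v)
    (hu : h⟪u, u⟫ = 1) (hv : h⟪v, v⟫ = 1) : (B ≠ A ∧ Commute A B) ↔ h⟪u, v⟫ = 0 := by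
  rw [hA.comm_iff s.h2 s.hσ2 hB' hu hv]
  constructor
  · rintro ⟨h1, h3 | h3⟩
    · exact h3
    · exact absurd ((hA.eq_iff s.h2 hB' hu hv).2 h3).symm h1
  · intro h3
    refine ⟨?_, Or.inl h3⟩
    intro h4
    obtain ⟨c, hc⟩ := (hA.eq_iff s.h2 hB' hu hv).1 h4.symm
    rw [hc, br_smul, hu, mul_one] at h3
    rw [hc, h3, zero_smul, map_zero] at hv
    exact zero_ne_one hv

theorem card_third (s : St F σ q) {t x : SU 3 F q} (ht : t ≠ 1) (ht2 : t * t = 1) (hx : x ≠ 1) (hx2 : x * x = 1) (hxt : x ≠ t)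
    (hc : Commute t x) : Nat.card {y : SU 3 F q // y ≠ 1 ∧ y * y = 1 ∧ y ≠ t ∧ y ≠ x ∧ Commute t y ∧ Commute x y} = 1 := by
  obtain ⟨u, hu, hut⟩ := inv_IsR s.hσ s.hσ1 s.hσ2 s.h2 ht ht2
  obtain ⟨v, hv, hvx⟩ := inv_IsR s.hσ s.hσ1 s.hσ2 s.h2 hx hx2
  have huv := (comm_ne_iff s hut hvx hu hv).1 ⟨hxt, hc⟩
  have h1 := card_units s.hF s.hσ s.hσ1 s.hσ2 s.h2 (fun y => y ≠ t ∧ y ≠ x ∧ Commute t y ∧ Commute x y) (fun w => h⟪u, w⟫ = 0 ∧ h⟪v, w⟫ = 0)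
    (fun A w hw hA => by
      constructor
      · rintro ⟨a1, a2, a3, a4⟩
        exact ⟨(comm_ne_iff s hut hA hu hw).1 ⟨a1, a3⟩, (comm_ne_iff s hvx hA hv hw).1 ⟨a2, a4⟩⟩
      · rintro ⟨b1, b2⟩
        have c1 := (comm_ne_iff s hut hA hu hw).2 b1
        have c2 := (comm_ne_iff s hvx hA hv hw).2 b2
        exact ⟨c1.1, c2.1, c1.2, c2.2⟩)
  have hW := UW_step (hB_symm s.hσ2) 1 (orth σ u) v (UWorth s hu) (mem_orth.2 huv) hv
  have h3 := UW_card s.hσ1 s.hσ2 (hB_symm s.hσ2) 1 _ hW 1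
  rw [nvec_one s.hF s.hσ s.hσ2 0 (map_one σ) one_ne_zero, if_pos (by decide)] at h3
  have e1 : Nat.card {y : Fin 3 → F // y ∈ orth σ u ⊓ LinearMap.ker (hB (Fin 3) σ v) ∧ h⟪y, y⟫ = 1} =
      Nat.card {w : Fin 3 → F // h⟪w, w⟫ = 1 ∧ h⟪u, w⟫ = 0 ∧ h⟪v, w⟫ = 0} :=
    Nat.card_congr (Equiv.subtypeEquivRight (fun y => by
      rw [Submodule.mem_inf, mem_orth, LinearMap.mem_ker]; tauto))
  rw [← e1, h3] at h1
  have h4 : (q + 1) * 1 = (q + 1) * Nat.card {y : SU 3 F q // y ≠ 1 ∧ y * y = 1 ∧ y ≠ t ∧ y ≠ x ∧ Commute t y ∧ Commute x y} := by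
    rw [← h1]; ring
  exact (Nat.eq_of_mul_eq_mul_left (Nat.succ_pos q) h4).symm

theorem main2360 (hq : Odd q) (hF : Fintype.card F = q ^ 2) (t : ↥(Cfsg.SU 3 F q)) (ht : t ≠ 1) (ht2 : t * t = 1) :
    (∀ x : ↥(Cfsg.SU 3 F q), x ≠ 1 → x * x = 1 → ∃ g : ↥(Cfsg.SU 3 F q), g * t * g⁻¹ = x) ∧
    Nat.card {x : ↥(Cfsg.SU 3 F q) // x ≠ 1 ∧ x * x = 1} = q ^ 2 * (q ^ 2 - q + 1) ∧
    Nat.card ↥(Subgroup.centralizer ({t} : Set ↥(Cfsg.SU 3 F q))) = q * (q + 1) * (q ^ 2 - 1) ∧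
    ∀ x : ↥(Cfsg.SU 3 F q), x ≠ 1 → x * x = 1 → x ≠ t → Commute t x →
      Nat.card {y : ↥(Cfsg.SU 3 F q) // y ≠ 1 ∧ y * y = 1 ∧ y ≠ t ∧ y ≠ x ∧ Commute t y ∧ Commute x y} = 1 := by
  obtain ⟨σ, s⟩ := exists_St hq hF
  exact ⟨fun x hx hx2 => conj_all s ht ht2 hx hx2, card_inv s, card_cent s ht ht2,
    fun x hx hx2 hxt hc => card_third s ht ht2 hx hx2 hxt hc⟩

end Cfsg.Agent.H16.SU3Inv
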