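import Mathlib
import Cfsg.Agent.H16.SU3Inv2
set_option autoImplicit false
set_option linter.all false

/-! The commuting involution graph of `SU_3(q)`, `q` odd. -/

namespace Cfsg.Agent.H16.SU3Inv

open Matrix Cfsg Cfsg.Agent.H5 FormData

variable {F : Type*} [Field F] {σ : F →+* F} {q : ℕ} [Fintype F]

local notation "h⟪" x ", " y "⟫" => hB (Fin 3) σ x y

theorem UWbot {W : Submodule F (Fin 3 → F)} (h : UW (hB (Fin 3) σ) 0 W) {x : Fin 3 → F} (hx : x ∈ W) : x = 0 := by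
  have := Submodule.finrank_eq_zero.1 h.1
  rw [this] at hx
  exact (Submodule.mem_bot F).1 hx

theorem mem_step {W : Submodule F (Fin 3 → F)} {w x : Fin 3 → F} : x ∈ W ⊓ LinearMap.ker (hB (Fin 3) σ w) ↔ x ∈ W ∧ h⟪w, x⟫ = 0 := by
  rw [Submodule.mem_inf, LinearMap.mem_ker]

theorem UWone (s : St F σ q) {W : Submodule F (Fin 3 → F)} (h : UW (hB (Fin 3) σ) 1 W) :
    ∃ e ∈ W, h⟪e, e⟫ = 1 ∧ ∀ x ∈ W, x = h⟪e, x⟫ • e := by
  obtain ⟨v, hv1, hv2⟩ := exists_orthonormal s.hσ1 s.hσ2 (hB_symm s.hσ2) 1 W h.1 h.2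
  have he : h⟪v 0, v 0⟫ = 1 := by rw [hv2, if_pos rfl]
  refine ⟨v 0, hv1 0, he, fun x hx => ?_⟩
  have h0 := UW_step (hB_symm s.hσ2) 0 W (v 0) h (hv1 0) he
  have : x - h⟪v 0, x⟫ • v 0 = 0 := by
    apply UWbot h0
    rw [mem_step]
    refine ⟨W.sub_mem hx (W.smul_mem _ (hv1 0)), ?_⟩
    rw [br_sub, br_smul, he]; ring
  exact sub_eq_zero.1 this

theorem UWtwo (s : St F σ q) {W : Submodule F (Fin 3 → F)} (h : UW (hB (Fin 3) σ) 2 W) :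
    ∃ w1 ∈ W, ∃ w2 ∈ W, h⟪w1, w1⟫ = 1 ∧ h⟪w2, w2⟫ = 1 ∧ h⟪w1, w2⟫ = 0 ∧ ∀ x ∈ W, x = h⟪w1, x⟫ • w1 + h⟪w2, x⟫ • w2 := by
  obtain ⟨v, hv1, hv2⟩ := exists_orthonormal s.hσ1 s.hσ2 (hB_symm s.hσ2) 2 W h.1 h.2
  have he : h⟪v 0, v 0⟫ = 1 := by rw [hv2, if_pos rfl]
  have h1 := UW_step (hB_symm s.hσ2) 1 W (v 0) h (hv1 0) he
  obtain ⟨e, heW, hee, hx⟩ := UWone s h1
  rw [mem_step] at heW
  refine ⟨v 0, hv1 0, e, heW.1, he, hee, heW.2, fun x hxW => ?_⟩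
  have h3 : x - h⟪v 0, x⟫ • v 0 ∈ W ⊓ LinearMap.ker (hB (Fin 3) σ (v 0)) := by
    rw [mem_step]
    refine ⟨W.sub_mem hxW (W.smul_mem _ (hv1 0)), ?_⟩
    rw [br_sub, br_smul, he]; ring
  have h4 := hx _ h3
  have h5 : h⟪e, v 0⟫ = 0 := by rw [← hB_symm s.hσ2, heW.2, map_zero]
  rw [br_sub, br_smul, h5, mul_zero, sub_zero] at h4
  rw [← h4]; abel

/-- the component orthogonal to `u` -/
noncomputable def cmp (σ : F →+* F) (u v : Fin 3 → F) : Fin 3 → F := v - (hB (Fin 3) σ u v) • u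

theorem cmp_orth {u v : Fin 3 → F} (hu : h⟪u, u⟫ = 1) : h⟪u, cmp σ u v⟫ = 0 := by
  unfold cmp
  rw [br_sub, br_smul, hu]; ring

theorem cmp_norm (s : St F σ q) {u v : Fin 3 → F} (hu : h⟪u, u⟫ = 1) (hv : h⟪v, v⟫ = 1) :
    h⟪cmp σ u v, cmp σ u v⟫ = 1 - σ h⟪u, v⟫ * h⟪u, v⟫ := by
  unfold cmp
  rw [br_sub, br_smul, bl_sub, bl_sub, bl_smul, bl_smul, hu, hv, ← hB_symm s.hσ2 u v]; ring

theorem exists_common (s : St F σ q) {A B : SU 3 F q} {u v : Fin 3 → F} (hA : IsR σ A u) (hB' : IsR σ B v)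
    (hu : h⟪u, u⟫ = 1) (hv : h⟪v, v⟫ = 1) (hn : h⟪cmp σ u v, cmp σ u v⟫ ≠ 0) :
    ∃ y : SU 3 F q, y ≠ 1 ∧ y * y = 1 ∧ Commute A y ∧ Commute y B := by
  obtain ⟨c, hc0, hc⟩ := exists_unit s.hσ1 s.hσ2 hn
  have h1 := UW_step (hB_symm s.hσ2) 1 (orth σ u) (c • cmp σ u v) (UWorth s hu)
    (mem_orth.2 (by rw [br_smul, cmp_orth hu, mul_zero])) hc
  obtain ⟨e, heW, hee, _⟩ := UWone s h1
  rw [mem_step, mem_orth, bl_smul] at heW
  have h3 : h⟪cmp σ u v, e⟫ = 0 := by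
    rcases mul_eq_zero.1 heW.2 with h4 | h4
    · exact absurd ((map_eq_zero σ).1 h4) hc0
    · exact h4
  have h5 : h⟪v, e⟫ = 0 := by
    unfold cmp at h3
    rw [bl_sub, bl_smul, heW.1, mul_zero, sub_zero] at h3
    exact h3
  obtain ⟨y, hy⟩ := exists_IsR s.hσ s.hσ2 hee
  refine ⟨y, hy.ne_one s.h2, hy.sq hee, (hA.comm_iff s.h2 s.hσ2 hy hu hee).2 (Or.inl heW.1), ?_⟩
  exact ((hB'.comm_iff s.h2 s.hσ2 hy hv hee).2 (Or.inl h5)).symm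

theorem cmp_ne (s : St F σ q) {u v : Fin 3 → F} (hu : h⟪u, u⟫ = 1) : cmp σ u v ≠ 0 ↔ ¬ ∃ c : F, v = c • u := by
  rw [not_iff_not]
  unfold cmp
  constructor
  · intro h
    exact ⟨_, sub_eq_zero.1 h⟩
  · rintro ⟨c, rfl⟩
    rw [br_smul, hu, mul_one, sub_self]

/-- the far pairs -/
theorem far_iff (s : St F σ q) {t A : SU 3 F q} {u v : Fin 3 → F} (ht : IsR σ t u) (hA : IsR σ A v)
    (hu : h⟪u, u⟫ = 1) (hv : h⟪v, v⟫ = 1) :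
    (¬ Commute t A ∧ ∀ y : SU 3 F q, y ≠ 1 → y * y = 1 → ¬ (Commute t y ∧ Commute y A)) ↔
      (cmp σ u v ≠ 0 ∧ h⟪cmp σ u v, cmp σ u v⟫ = 0) := by
  constructor
  · rintro ⟨h1, h3⟩
    rw [ht.comm_iff s.h2 s.hσ2 hA hu hv] at h1
    push Not at h1
    refine ⟨(cmp_ne s hu).2 (by push Not; exact h1.2), ?_⟩
    by_contra hn
    obtain ⟨y, hy1, hy2, hy3, hy4⟩ := exists_common s ht hA hu hv hn
    exact h3 y hy1 hy2 ⟨hy3, hy4⟩
  · rintro ⟨h1, h3⟩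
    rw [cmp_ne s hu] at h1
    have hN := cmp_norm s hu hv
    rw [h3] at hN
    have ha : h⟪u, v⟫ ≠ 0 := by
      intro h0
      rw [h0, mul_zero, sub_zero] at hN
      exact zero_ne_one hN
    have hnc : ¬ Commute t A := by
      rw [ht.comm_iff s.h2 s.hσ2 hA hu hv]
      push Not
      push Not at h1
      exact ⟨ha, h1⟩
    refine ⟨hnc, ?_⟩
    rintro y hy1 hy2 ⟨hy3, hy4⟩
    obtain ⟨w, hw, hyw⟩ := inv_IsR s.hσ s.hσ1 s.hσ2 s.h2 hy1 hy2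
    rw [ht.comm_iff s.h2 s.hσ2 hyw hu hw] at hy3
    rcases hy3 with h4 | h4
    · have hy4' := hy4
      rw [hyw.comm_iff s.h2 s.hσ2 hA hw hv] at hy4
      rcases hy4 with h5 | h5
      · have h6 := UW_step (hB_symm s.hσ2) 1 (orth σ u) w (UWorth s hu) (mem_orth.2 h4) hw
        obtain ⟨e, heW, hee, hx⟩ := UWone s h6
        have hwu : h⟪w, u⟫ = 0 := by rw [← hB_symm s.hσ2, h4, map_zero]
        have h7 : cmp σ u v ∈ orth σ u ⊓ LinearMap.ker (hB (Fin 3) σ w) := by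
          rw [mem_step, mem_orth]
          refine ⟨cmp_orth hu, ?_⟩
          unfold cmp
          rw [br_sub, br_smul, h5, hwu]; ring
        have h8 := hx _ h7
        have h9 := h3
        rw [h8, bl_smul, br_smul, hee, mul_one] at h9
        apply (cmp_ne s hu).2 h1
        rcases mul_eq_zero.1 h9 with h10 | h10
        · rw [h8, (map_eq_zero σ).1 h10, zero_smul]
        · rw [h8, h10, zero_smul]
      · apply hnc
        have : A = y := ((hyw.eq_iff s.h2 hA hw hv).2 h5).symm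
        rw [this]
        exact (ht.comm_iff s.h2 s.hσ2 hyw hu hw).2 (Or.inl h4)
    · apply hnc
      have : t = y := (ht.eq_iff s.h2 hyw hu hw).2 h4
      rw [this]; exact hy4

theorem card_isotropic (s : St F σ q) {u : Fin 3 → F} (hu : h⟪u, u⟫ = 1) :
    Nat.card {x : Fin 3 → F // x ∈ orth σ u ∧ h⟪x, x⟫ = 0 ∧ x ≠ 0} = (q ^ 2 - 1) * (q + 1) := by
  have h1 := UW_card s.hσ1 s.hσ2 (hB_symm s.hσ2) 2 (orth σ u) (UWorth s hu) 0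
  rw [nvec_isotropic s.hF s.hσ s.hσ2 1, if_neg (by decide)] at h1
  have h3 : {x : Fin 3 → F | x ∈ orth σ u ∧ h⟪x, x⟫ = 0 ∧ x ≠ 0} = {x : Fin 3 → F | x ∈ orth σ u ∧ h⟪x, x⟫ = 0} \ {0} := by
    ext x
    simp only [Set.mem_ofPred_eq, Set.mem_diff, Set.mem_singleton_iff]
    tauto
  have h4 : Nat.card {x : Fin 3 → F // x ∈ orth σ u ∧ h⟪x, x⟫ = 0 ∧ x ≠ 0} = ({x : Fin 3 → F | x ∈ orth σ u ∧ h⟪x, x⟫ = 0 ∧ x ≠ 0}).ncard := rfl
  have h5 : Nat.card {x : Fin 3 → F // x ∈ orth σ u ∧ h⟪x, x⟫ = 0} = ({x : Fin 3 → F | x ∈ orth σ u ∧ h⟪x, x⟫ = 0}).ncard := rfl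
  rw [h4, h3, Set.ncard_diff_singleton_of_mem, ← h5, h1, Nat.add_sub_cancel]
  · norm_num
  · refine ⟨(orth σ u).zero_mem, ?_⟩
    rw [map_zero]

theorem card_far (s : St F σ q) {t : SU 3 F q} {u : Fin 3 → F} (ht : IsR σ t u) (hu : h⟪u, u⟫ = 1) :
    Nat.card {x : SU 3 F q // x ≠ 1 ∧ x * x = 1 ∧ (¬ Commute t x ∧ ∀ y : SU 3 F q, y ≠ 1 → y * y = 1 → ¬ (Commute t y ∧ Commute y x))} =
      (q + 1) * (q ^ 2 - 1) := by
  have h1 := card_units s.hF s.hσ s.hσ1 s.hσ2 s.h2 (fun x => ¬ Commute t x ∧ ∀ y : SU 3 F q, y ≠ 1 → y * y = 1 → ¬ (Commute t y ∧ Commute y x))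
    (fun v => cmp σ u v ≠ 0 ∧ h⟪cmp σ u v, cmp σ u v⟫ = 0) (fun A v hv hA => far_iff s ht hA hu hv)
  have h3 : Nat.card {v : Fin 3 → F // h⟪v, v⟫ = 1 ∧ (cmp σ u v ≠ 0 ∧ h⟪cmp σ u v, cmp σ u v⟫ = 0)} =
      Nat.card ({a : F // σ a * a = 1} × {x : Fin 3 → F // x ∈ orth σ u ∧ h⟪x, x⟫ = 0 ∧ x ≠ 0}) := by
    refine Nat.card_congr ⟨fun v => (⟨h⟪u, v.1⟫, ?_⟩, ⟨cmp σ u v.1, mem_orth.2 (cmp_orth hu), v.2.2.2, v.2.2.1⟩), fun p => ⟨p.1.1 • u + p.2.1, ?_⟩, ?_, ?_⟩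
    · have := cmp_norm s hu v.2.1
      rw [v.2.2.2] at this
      linear_combination this
    · have h4 := mem_orth.1 p.2.2.1
      have h4' : h⟪p.2.1, u⟫ = 0 := by rw [← hB_symm s.hσ2, h4, map_zero]
      have h5 : h⟪u, p.1.1 • u + p.2.1⟫ = p.1.1 := by rw [br_add, br_smul, hu, h4]; ring
      have h6 : cmp σ u (p.1.1 • u + p.2.1) = p.2.1 := by
        unfold cmp
        rw [h5]; abel
      rw [h6]
      refine ⟨?_, p.2.2.2.2, p.2.2.2.1⟩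
      rw [bl_add, bl_smul, br_add, br_add, br_smul, br_smul, hu, h4, h4', p.2.2.2.1]
      linear_combination p.1.2
    · intro v
      apply Subtype.ext
      change h⟪u, v.1⟫ • u + cmp σ u v.1 = v.1
      unfold cmp; abel
    · intro p
      have h4 := mem_orth.1 p.2.2.1
      have h5 : h⟪u, p.1.1 • u + p.2.1⟫ = p.1.1 := by rw [br_add, br_smul, hu, h4]; ring
      have h6 : cmp σ u (p.1.1 • u + p.2.1) = p.2.1 := by
        unfold cmp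
        rw [h5]; abel
      exact Prod.ext (Subtype.ext h5) (Subtype.ext h6)
  rw [h3, Nat.card_prod, card_norm_eq s.hF s.hσ (map_one σ) one_ne_zero, card_isotropic s hu] at h1
  have h4 := Nat.eq_of_mul_eq_mul_left (Nat.succ_pos q) h1
  rw [← h4]; ring

theorem card_near (s : St F σ q) {t : SU 3 F q} {u : Fin 3 → F} (ht : IsR σ t u) (hu : h⟪u, u⟫ = 1) :
    Nat.card {x : SU 3 F q // x ≠ 1 ∧ x * x = 1 ∧ (x ≠ t ∧ Commute t x)} = q * (q - 1) := by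
  have h1 := card_units s.hF s.hσ s.hσ1 s.hσ2 s.h2 (fun x => x ≠ t ∧ Commute t x)
    (fun v => h⟪u, v⟫ = 0) (fun A v hv hA => comm_ne_iff s ht hA hu hv)
  have h3 := UW_card s.hσ1 s.hσ2 (hB_symm s.hσ2) 2 (orth σ u) (UWorth s hu) 1
  rw [nvec_one s.hF s.hσ s.hσ2 1 (map_one σ) one_ne_zero, if_neg (by decide)] at h3
  have e1 : Nat.card {x : Fin 3 → F // x ∈ orth σ u ∧ h⟪x, x⟫ = 1} = Nat.card {v : Fin 3 → F // h⟪v, v⟫ = 1 ∧ h⟪u, v⟫ = 0} :=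
    Nat.card_congr (Equiv.subtypeEquivRight (fun x => by rw [mem_orth]; tauto))
  rw [← e1, h3] at h1
  apply Nat.eq_of_mul_eq_mul_left (Nat.succ_pos q)
  rw [Nat.succ_eq_add_one, ← h1]
  have hq := s.hq
  obtain ⟨k, rfl⟩ : ∃ k, q = k + 1 := ⟨q - 1, by omega⟩
  rw [Nat.add_sub_cancel]
  have h : 1 ≤ (k + 1) ^ 2 := Nat.one_le_pow _ _ (by omega)
  norm_num
  zify [h]
  ring

theorem main2356' (s : St F σ q) (t : ↥(Cfsg.SU 3 F q)) (ht : t ≠ 1) (ht2 : t * t = 1) :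
    Nat.card {x : ↥(Cfsg.SU 3 F q) // x ≠ 1 ∧ x * x = 1 ∧ x ≠ t ∧ Commute t x} = q * (q - 1) ∧
    Nat.card {x : ↥(Cfsg.SU 3 F q) // x ≠ 1 ∧ x * x = 1 ∧ ¬ Commute t x ∧
        ∃ y : ↥(Cfsg.SU 3 F q), y ≠ 1 ∧ y * y = 1 ∧ Commute t y ∧ Commute y x} = q * (q - 2) * (q ^ 2 - 1) ∧
    Nat.card {x : ↥(Cfsg.SU 3 F q) // x ≠ 1 ∧ x * x = 1 ∧ ¬ Commute t x ∧
        ∀ y : ↥(Cfsg.SU 3 F q), y ≠ 1 → y * y = 1 → ¬ (Commute t y ∧ Commute y x)} = (q + 1) * (q ^ 2 - 1) ∧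
    ∀ x : ↥(Cfsg.SU 3 F q), x ≠ 1 → x * x = 1 →
      ∃ y z : ↥(Cfsg.SU 3 F q), y ≠ 1 ∧ y * y = 1 ∧ z ≠ 1 ∧ z * z = 1 ∧
        Commute t y ∧ Commute y z ∧ Commute z x := by
  classical
  obtain ⟨u, hu, hut⟩ := inv_IsR s.hσ s.hσ1 s.hσ2 s.h2 ht ht2
  have hnear := card_near s hut hu
  have hfar := card_far s hut hu
  have htot := card_inv s
  refine ⟨hnear, ?_, hfar, ?_⟩
  · obtain ⟨m, hm⟩ : ∃ m, m = Nat.card {x : ↥(Cfsg.SU 3 F q) // x ≠ 1 ∧ x * x = 1 ∧ ¬ Commute t x ∧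
        ∃ y : ↥(Cfsg.SU 3 F q), y ≠ 1 ∧ y * y = 1 ∧ Commute t y ∧ Commute y x} := ⟨_, rfl⟩
    rw [← hm]
    letI : Fintype (SU 3 F q) := Fintype.ofFinite _
    have hsum : Nat.card {A : SU 3 F q // A ≠ 1 ∧ A * A = 1} = (∑ x : SU 3 F q, (if x = t then 1 else 0)) + q * (q - 1) + m + (q + 1) * (q ^ 2 - 1) := by
      rw [← hnear, ← hfar, hm]
      simp only [Nat.card_eq_fintype_card, Fintype.card_subtype, Finset.card_filter]
      rw [← Finset.sum_add_distrib, ← Finset.sum_add_distrib, ← Finset.sum_add_distrib]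
      apply Finset.sum_congr rfl
      intro x _
      by_cases hx : x ≠ 1 ∧ x * x = 1
      · rw [if_pos hx]
        by_cases hxt : x = t
        · subst hxt
          simp [hx]
        · by_cases hc : Commute t x
          · simp [hx, hxt, hc]
          · by_cases hy : ∃ y : ↥(Cfsg.SU 3 F q), y ≠ 1 ∧ y * y = 1 ∧ Commute t y ∧ Commute y x
            · rw [if_neg hxt, if_neg (fun h9 => hc h9.2.2.2), if_pos ⟨hx.1, hx.2, hc, hy⟩, if_neg]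
              rintro ⟨_, _, _, h5⟩
              obtain ⟨y, y1, y2, y3, y4⟩ := hy
              exact h5 y y1 y2 ⟨y3, y4⟩
            · rw [if_neg hxt, if_neg (fun h9 => hc h9.2.2.2), if_neg (fun h9 => hy h9.2.2.2), if_pos]
              refine ⟨hx.1, hx.2, hc, ?_⟩
              rintro y y1 y2 ⟨y3, y4⟩
              exact hy ⟨y, y1, y2, y3, y4⟩
      · have hxt : x ≠ t := by
          rintro rfl
          exact hx ⟨ht, ht2⟩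
        rw [if_neg hx, if_neg hxt, if_neg (fun h9 => hx ⟨h9.1, h9.2.1⟩), if_neg (fun h9 => hx ⟨h9.1, h9.2.1⟩), if_neg (fun h9 => hx ⟨h9.1, h9.2.1⟩)]
    have hone : (∑ x : SU 3 F q, (if x = t then 1 else 0)) = 1 := by simp
    rw [htot, hone] at hsum
    have hq3 := s.hq
    obtain ⟨k, rfl⟩ : ∃ k, q = k + 2 := ⟨q - 2, by omega⟩
    have h' : 1 ≤ (k + 2) ^ 2 := Nat.one_le_pow _ _ (by omega)
    have h'' : k + 2 ≤ (k + 2) ^ 2 := Nat.le_self_pow (by norm_num) _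
    have e : k + 2 - 1 = k + 1 := by omega
    have e' : k + 2 - 2 = k := by omega
    rw [e'] 
    rw [e] at hsum
    zify [h', h''] at hsum ⊢
    linear_combination -hsum
  · intro x hx hx2
    by_cases hc : Commute t x
    · exact ⟨t, x, ht, ht2, hx, hx2, Commute.refl t, hc, Commute.refl x⟩
    by_cases hy : ∃ y : ↥(Cfsg.SU 3 F q), y ≠ 1 ∧ y * y = 1 ∧ Commute t y ∧ Commute y x
    · obtain ⟨y, y1, y2, y3, y4⟩ := hy
      exact ⟨y, x, y1, y2, hx, hx2, y3, y4, Commute.refl x⟩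
    obtain ⟨v, hv, hxv⟩ := inv_IsR s.hσ s.hσ1 s.hσ2 s.h2 hx hx2
    have hfar' := (far_iff s hut hxv hu hv).1 ⟨hc, by
      rintro y y1 y2 ⟨y3, y4⟩
      exact hy ⟨y, y1, y2, y3, y4⟩⟩
    obtain ⟨w1, hw1, w2, hw2, e1, e2, e12, hspan⟩ := UWtwo s (UWorth s hu)
    have hv' := hspan _ (mem_orth.2 (cmp_orth (v := v) hu))
    have hN := hfar'.2
    have e21 : h⟪w2, w1⟫ = 0 := by rw [← hB_symm s.hσ2, e12, map_zero]
    have hw1u : h⟪w1, u⟫ = 0 := by rw [← hB_symm s.hσ2, mem_orth.1 hw1, map_zero]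
    have hw2u : h⟪w2, u⟫ = 0 := by rw [← hB_symm s.hσ2, mem_orth.1 hw2, map_zero]
    have c1 : h⟪w1, cmp σ u v⟫ = h⟪w1, v⟫ := by unfold cmp; rw [br_sub, br_smul, hw1u]; ring
    have c2 : h⟪w2, cmp σ u v⟫ = h⟪w2, v⟫ := by unfold cmp; rw [br_sub, br_smul, hw2u]; ring
    rw [c1, c2] at hv'
    have hsum : σ h⟪w1, v⟫ * h⟪w1, v⟫ + σ h⟪w2, v⟫ * h⟪w2, v⟫ = 0 := by
      rw [hv', bl_add, bl_smul, bl_smul, br_add, br_add, br_smul, br_smul, br_smul, br_smul, e1, e2, e12, e21] at hN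
      linear_combination hN
    have key : ∀ w : Fin 3 → F, h⟪w, w⟫ = 1 → h⟪u, w⟫ = 0 → σ h⟪w, v⟫ * h⟪w, v⟫ ≠ 1 →
        ∃ y z : ↥(Cfsg.SU 3 F q), y ≠ 1 ∧ y * y = 1 ∧ z ≠ 1 ∧ z * z = 1 ∧ Commute t y ∧ Commute y z ∧ Commute z x := by
      intro w hw huw hne
      obtain ⟨y, hyw⟩ := exists_IsR s.hσ s.hσ2 hw
      obtain ⟨z, z1, z2, z3, z4⟩ := exists_common s hyw hxv hw hv (by
        rw [cmp_norm s hw hv]
        intro h0
        exact hne (sub_eq_zero.1 h0).symm)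
      exact ⟨y, z, hyw.ne_one s.h2, hyw.sq hw, z1, z2, (hut.comm_iff s.h2 s.hσ2 hyw hu hw).2 (Or.inl huw), z3, z4⟩
    by_cases hb : σ h⟪w1, v⟫ * h⟪w1, v⟫ = 1
    · apply key w2 e2 (mem_orth.1 hw2)
      intro h0
      rw [hb, h0] at hsum
      apply s.h2
      linear_combination hsum
    · exact key w1 e1 (mem_orth.1 hw1) hb

theorem main2356 {F : Type*} [Field F] [Fintype F] {q : ℕ} (hq : Odd q)
    (hF : Fintype.card F = q ^ 2) (t : ↥(Cfsg.SU 3 F q)) (ht : t ≠ 1) (ht2 : t * t = 1) :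
    Nat.card {x : ↥(Cfsg.SU 3 F q) // x ≠ 1 ∧ x * x = 1 ∧ x ≠ t ∧ Commute t x} = q * (q - 1) ∧
    Nat.card {x : ↥(Cfsg.SU 3 F q) // x ≠ 1 ∧ x * x = 1 ∧ ¬ Commute t x ∧
        ∃ y : ↥(Cfsg.SU 3 F q), y ≠ 1 ∧ y * y = 1 ∧ Commute t y ∧ Commute y x} = q * (q - 2) * (q ^ 2 - 1) ∧
    Nat.card {x : ↥(Cfsg.SU 3 F q) // x ≠ 1 ∧ x * x = 1 ∧ ¬ Commute t x ∧
        ∀ y : ↥(Cfsg.SU 3 F q), y ≠ 1 → y * y = 1 → ¬ (Commute t y ∧ Commute y x)} = (q + 1) * (q ^ 2 - 1) ∧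
    ∀ x : ↥(Cfsg.SU 3 F q), x ≠ 1 → x * x = 1 →
      ∃ y z : ↥(Cfsg.SU 3 F q), y ≠ 1 ∧ y * y = 1 ∧ z ≠ 1 ∧ z * z = 1 ∧
        Commute t y ∧ Commute y z ∧ Commute z x := by
  obtain ⟨σ, s⟩ := exists_St hq hF
  exact main2356' s t ht ht2

end Cfsg.Agent.H16.SU3Inv
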