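import Mathlib
import Cfsg.Agent.H5.MaxSing

set_option autoImplicit false
set_option linter.all false
set_option maxHeartbeats 400000

/-! Sylow 2-subgroups of orthogonal groups of plus type over the field with two elements. -/

namespace Cfsg.Agent.H16.SylO

open Cfsg.Agent.H5 Module

variable {F V : Type*} [Field F] [Finite F] [AddCommGroup V] [Module F V] [FiniteDimensional F V]
  {Q : QuadraticForm F V}

/-- stability -/
def St (K : Subgroup (OG Q)) (A : Submodule F V) : Prop := ∀ g ∈ K, ∀ x ∈ A, g x ∈ A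

/-- a vector fixed modulo `A` -/
theorem fixed_vec (hF : Nat.card F = 2) {K : Subgroup (OG Q)} (hK : IsPGroup 2 K) {A B : Submodule F V} (hA : St K A) (hB : St K B)
    (hAB : ¬ B ≤ A) : ∃ b ∈ B, b ∉ A ∧ ∀ g ∈ K, g b - b ∈ A := by
  classical
  haveI : Fact (Nat.Prime 2) := ⟨Nat.prime_two⟩
  haveI : Finite V := Module.finite_of_finite F
  haveI : Finite (V ⧸ A) := Module.finite_of_finite F
  let X := ↥(B.map A.mkQ)
  haveI : Finite X := inferInstanceAs (Finite ↥(B.map A.mkQ))
  let φ : K → (V ⧸ A) →ₗ[F] (V ⧸ A) := fun g => A.mapQ A g.1.1.toLinearMap (fun x hx => hA g.1 g.2 x hx)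
  have hφ : ∀ (g : K) (x : V), φ g (A.mkQ x) = A.mkQ (g.1 x) := fun g x => rfl
  have hφB : ∀ (g : K) (x : V ⧸ A), x ∈ B.map A.mkQ → φ g x ∈ B.map A.mkQ := by
    rintro g _ ⟨b, hb, rfl⟩
    exact ⟨g.1 b, hB g.1 g.2 b hb, (hφ g b).symm⟩
  letI : MulAction K X :=
    { smul := fun g x => ⟨φ g x.1, hφB g x.1 x.2⟩
      one_smul := by
        rintro ⟨x, hx⟩
        apply Subtype.ext
        obtain ⟨y, rfl⟩ := A.mkQ_surjective x
        rfl
      mul_smul := by
        rintro g h ⟨x, hx⟩
        apply Subtype.ext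
        obtain ⟨y, rfl⟩ := A.mkQ_surjective x
        rfl }
  have hsm : ∀ (g : K) (x : X), (g • x).1 = φ g x.1 := fun g x => rfl
  have hne : B.map A.mkQ ≠ ⊥ := by
    intro h
    apply hAB
    intro b hb
    have h1 : A.mkQ b ∈ B.map A.mkQ := ⟨b, hb, rfl⟩
    rw [h, Submodule.mem_bot] at h1
    rwa [Submodule.mkQ_apply, Submodule.Quotient.mk_eq_zero] at h1
  have hpos : 0 < finrank F X := by
    rw [Module.finrank_pos_iff]
    exact Submodule.nontrivial_iff_ne_bot.2 hne
  have hdvd : 2 ∣ Nat.card X := by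
    rw [Module.natCard_eq_pow_finrank (K := F), hF]
    exact dvd_pow_self 2 hpos.ne'
  have h0 : (0 : X) ∈ MulAction.fixedPoints K X := by
    intro g
    apply Subtype.ext
    rw [hsm]
    exact map_zero (φ g)
  obtain ⟨⟨x, ⟨b, hb, rfl⟩⟩, hx1, hx2⟩ := hK.exists_fixed_point_of_prime_dvd_card_of_fixed_point X hdvd h0
  refine ⟨b, hb, ?_, ?_⟩
  · intro hbA
    apply hx2
    apply Subtype.ext
    have h1 : A.mkQ b = 0 := by rwa [Submodule.mkQ_apply, Submodule.Quotient.mk_eq_zero]
    exact h1.symm
  · intro g hg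
    have h1 := congrArg Subtype.val (hx1 ⟨g, hg⟩)
    rw [hsm] at h1
    have h2 : A.mkQ (g b) = A.mkQ b := h1
    rwa [Submodule.mkQ_apply, Submodule.mkQ_apply, Submodule.Quotient.eq] at h2

theorem St.oc {K : Subgroup (OG Q)} {A : Submodule F V} (hA : St K A) : St K (oc Q A) := by
  intro g hg x hx y hy
  have h1 : y = g ((g⁻¹ : OG Q) y) := (og_inv' g y).symm
  rw [h1, og_p]
  exact hx _ (hA g⁻¹ (K.inv_mem hg) y hy)

omit [Finite F] in
/-- enlarging a stable totally singular subspace -/
theorem extend {K : Subgroup (OG Q)} {M : Submodule F V} (hM : St K M) (hT : TS Q M) {b : V} (hb : b ∈ oc Q M) (hbM : b ∉ M)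
    (hQ : Q b = 0) (hg : ∀ g ∈ K, g b - b ∈ M) : ∃ M' : Submodule F V, St K M' ∧ TS Q M' ∧ finrank F M' = finrank F M + 1 := by
  refine ⟨M ⊔ Submodule.span F {b}, ?_, ?_, ?_⟩
  · intro g hgK x hx
    obtain ⟨a, ha, c, hc, rfl⟩ := Submodule.mem_sup.mp hx
    obtain ⟨s, rfl⟩ := Submodule.mem_span_singleton.mp hc
    rw [og_add, og_smul]
    apply Submodule.add_mem
    · exact Submodule.mem_sup_left (hM g hgK a ha)
    · apply Submodule.smul_mem
      have : g b = (g b - b) + b := by abel
      rw [this]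
      exact Submodule.add_mem _ (Submodule.mem_sup_left (hg g hgK)) (Submodule.mem_sup_right (Submodule.mem_span_singleton_self b))
  · intro x hx
    obtain ⟨a, ha, c, hc, rfl⟩ := Submodule.mem_sup.mp hx
    obtain ⟨s, rfl⟩ := Submodule.mem_span_singleton.mp hc
    rw [q_add, q_smul, hT a ha, hQ, pr_smul, hb a ha]
    ring
  · rw [Submodule.finrank_sup_span_singleton hbM]

variable {m : ℕ} (hnd : ND Q) (hV : finrank F V = 2 * m) (hF : Nat.card F = 2)
include hF

omit [AddCommGroup V] [Module F V] [FiniteDimensional F V] in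
theorem f2_cases (x : F) : x = 0 ∨ x = 1 := by
  haveI := Fintype.ofFinite F
  by_cases hx : x = 0
  · exact Or.inl hx
  · right
    have := FiniteField.pow_card_sub_one_eq_one x hx
    rw [← Nat.card_eq_fintype_card, hF] at this
    simpa using this

omit [AddCommGroup V] [Module F V] [FiniteDimensional F V] in
theorem f2_two : (2 : F) = 0 := by
  rcases f2_cases hF (2 : F) with h | h
  · exact h
  · exfalso
    have h1 : (1 : F) = 0 := by linear_combination h
    exact one_ne_zero h1

include hnd hV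

theorem step {K : Subgroup (OG Q)} (hK : IsPGroup 2 K) {M : Submodule F V} (hM : St K M) (hT : TS Q M) (hk : finrank F M + 1 < m) :
    ∃ M' : Submodule F V, St K M' ∧ TS Q M' ∧ finrank F M' = finrank F M + 1 := by
  have h2 := f2_two hF
  have hoc := finrank_oc hnd M
  have hAB : ¬ oc Q M ≤ M := by
    intro h
    have := Submodule.finrank_mono h
    omega
  obtain ⟨b, hb, hbM, hg⟩ := fixed_vec hF hK hM hM.oc hAB
  rcases f2_cases hF (Q b) with hQ | hQ
  · exact extend hM hT hb hbM hQ hg
  · obtain ⟨A, hAdef⟩ : ∃ A, A = M ⊔ Submodule.span F {b} := ⟨_, rfl⟩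
    have hbA : b ∈ A := by rw [hAdef]; exact Submodule.mem_sup_right (Submodule.mem_span_singleton_self b)
    have hMA : M ≤ A := by rw [hAdef]; exact le_sup_left
    have hA : St K A := by
      intro g hgK x hx
      rw [hAdef] at hx
      obtain ⟨a, ha, c, hc, rfl⟩ := Submodule.mem_sup.mp hx
      obtain ⟨s, rfl⟩ := Submodule.mem_span_singleton.mp hc
      rw [og_add, og_smul]
      apply Submodule.add_mem
      · exact hMA (hM g hgK a ha)
      · apply Submodule.smul_mem
        have : g b = (g b - b) + b := by abel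
        rw [this]
        exact A.add_mem (hMA (hg g hgK)) hbA
    have hAr : finrank F A = finrank F M + 1 := by rw [hAdef, Submodule.finrank_sup_span_singleton hbM]
    have hoA := finrank_oc hnd A
    have hAB' : ¬ oc Q A ≤ A := by
      intro h
      have := Submodule.finrank_mono h
      omega
    obtain ⟨c, hc, hcA, hgc⟩ := fixed_vec hF hK hA hA.oc hAB'
    have hbc : pB Q b c = 0 := hc b hbA
    have hbb : pB Q b b = 0 := by rw [pB_self, h2, zero_mul]
    -- a singular representative
    obtain ⟨d, hdo, hdA, hdQ, hdg⟩ : ∃ d, d ∈ oc Q A ∧ d ∉ A ∧ Q d = 0 ∧ ∀ g ∈ K, g d - d ∈ A := by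
      rcases f2_cases hF (Q c) with h | h
      · exact ⟨c, hc, hcA, h, hgc⟩
      · refine ⟨c + b, ?_, ?_, ?_, ?_⟩
        · apply (oc Q A).add_mem hc
          intro x hx
          rw [hAdef] at hx
          obtain ⟨a, ha, e, he, rfl⟩ := Submodule.mem_sup.mp hx
          obtain ⟨s, rfl⟩ := Submodule.mem_span_singleton.mp he
          rw [pl_add, pl_smul, hbb, hb a ha]; ring
        · intro h'
          apply hcA
          have := A.sub_mem h' hbA
          rwa [add_sub_cancel_right] at this
        · rw [q_add, h, hQ, pB_symm, hbc]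
          linear_combination h2
        · intro g hgK
          have e : g (c + b) - (c + b) = (g c - c) + (g b - b) := by rw [og_add]; abel
          rw [e]
          exact A.add_mem (hgc g hgK) (hMA (hg g hgK))
    have hdM : d ∈ oc Q M := oc_anti hMA hdo
    refine extend hM hT hdM (fun h => hdA (hMA h)) hdQ ?_
    intro g hgK
    have h3 := hdg g hgK
    rw [hAdef] at h3
    obtain ⟨a, ha, e, he, h4⟩ := Submodule.mem_sup.mp h3
    obtain ⟨s, rfl⟩ := Submodule.mem_span_singleton.mp he
    have h5 : g d = d + (a + s • b) := by rw [h4]; abel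
    have h6 : Q (g d) = 0 := by rw [og_q, hdQ]
    have h7 : pB Q d a = 0 := by rw [pB_symm]; exact hdM a ha
    have h8 : pB Q d b = 0 := by rw [pB_symm]; exact hdo b hbA
    have h9 : pB Q a b = 0 := hb a ha
    rw [h5, q_add, q_add, q_smul, hdQ, hT a ha, hQ, pr_add, pr_smul, pr_smul, h7, h8, h9] at h6
    have h10 : s * s = 0 := by linear_combination h6
    have h11 : s = 0 := mul_self_eq_zero.1 h10
    rw [h11, zero_smul, add_zero] at h4
    rw [← h4]; exact ha

theorem exists_stable {K : Subgroup (OG Q)} (hK : IsPGroup 2 K) (k : ℕ) (hk : k < m) :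
    ∃ M : Submodule F V, St K M ∧ TS Q M ∧ finrank F M = k := by
  induction k with
  | zero =>
    refine ⟨⊥, ?_, ?_, finrank_bot F V⟩
    · intro g _ x hx
      rw [Submodule.mem_bot] at hx ⊢
      rw [hx, og_zero]
    · intro x hx
      rw [Submodule.mem_bot] at hx
      rw [hx, q_zero]
  | succ k ih =>
    obtain ⟨M, h1, h2, h3⟩ := ih (by omega)
    obtain ⟨M', h4, h5, h6⟩ := step hnd hV hF hK h1 h2 (by omega)
    exact ⟨M', h4, h5, by omega⟩

end Cfsg.Agent.H16.SylO
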