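import Mathlib
import Cfsg.Agent.H16.SylO

set_option autoImplicit false
set_option linter.all false
set_option maxHeartbeats 400000

/-! Sylow 2-subgroups of orthogonal groups of plus type over the field with two elements, II. -/

namespace Cfsg.Agent.H16.SylO

open Cfsg.Agent.H5 Module
open scoped Pointwise

variable {F V : Type*} [Field F] [Finite F] [AddCommGroup V] [Module F V] [FiniteDimensional F V]
  {Q : QuadraticForm F V}

/-- pointwise stabilizer -/
def Cp (Q : QuadraticForm F V) (U : Submodule F V) : Subgroup (OG Q) where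
  carrier := {g | ∀ x ∈ U, g x = x}
  one_mem' := fun x _ => og_one x
  mul_mem' := fun {g h} hg hh x hx => by
    change g (h x) = x
    rw [hh x hx, hg x hx]
  inv_mem' := fun {g} hg x hx => by
    change (g⁻¹ : OG Q) x = x
    calc (g⁻¹ : OG Q) x = (g⁻¹ : OG Q) (g x) := by rw [hg x hx]
      _ = x := og_inv g x

omit [Finite F] in
theorem mem_Cp {U : Submodule F V} {g : OG Q} : g ∈ Cp Q U ↔ ∀ x ∈ U, g x = x := Iff.rfl

variable {m : ℕ} (hnd : ND Q) (hV : finrank F V = 2 * m) (hF : Nat.card F = 2)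
include hnd hV hF

theorem Cp_pGroup {E : Submodule F V} (hE : TS Q E) (hEm : finrank F E = m) {U : Submodule F V} (hU : TS Q U) (hUm : finrank F U + 1 = m) :
    IsPGroup 2 (Cp Q U) := by
  have h2 := f2_two hF
  have hadd : ∀ v : V, v + v = 0 := by
    intro v
    have : (2 : F) • v = 0 := by rw [h2, zero_smul]
    rwa [two_smul] at this
  obtain ⟨W, X, hW, hWm, hX, hXm, hUW, hUX, hne⟩ := hE.exists_two hnd hV hEm hU hUm
  have hsup : W ⊔ X = oc Q U := by
    have hinf : finrank F (W ⊓ X : Submodule F V) + 1 = m := by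
      have h1 := Submodule.finrank_mono (le_inf hUW hUX)
      have h2 : finrank F (W ⊓ X : Submodule F V) ≠ m := by
        intro h
        apply hne
        have h3 : W ⊓ X = W := Submodule.eq_of_le_of_finrank_eq inf_le_left (by omega)
        exact Submodule.eq_of_le_of_finrank_eq (inf_eq_left.mp h3) (by omega)
      have h4 := Submodule.finrank_mono (inf_le_left : W ⊓ X ≤ W)
      omega
    apply Submodule.eq_of_le_of_finrank_eq
    · apply sup_le
      · exact hW.le_oc.trans (oc_anti hUW)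
      · exact hX.le_oc.trans (oc_anti hUX)
    · have h1 := Submodule.finrank_sup_add_finrank_inf_eq W X
      have h2 := finrank_oc hnd U
      omega
  rintro ⟨g, hg⟩
  refine ⟨3, ?_⟩
  -- images
  have hmap : ∀ Z : Submodule F V, TS Q Z → finrank F Z = m → U ≤ Z →
      TS Q (Z.map g.1.toLinearMap) ∧ finrank F (Z.map g.1.toLinearMap) = m ∧ U ≤ Z.map g.1.toLinearMap := by
    intro Z hZ hZm hUZ
    refine ⟨?_, ?_, ?_⟩
    · rintro _ ⟨z, hz, rfl⟩
      exact (og_q g z).trans (hZ z hz)
    · rw [← hZm]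
      exact LinearEquiv.finrank_map_eq g.1 Z
    · intro u hu
      exact ⟨u, hUZ hu, hg u hu⟩
  have hinj : ∀ {Z Z' : Submodule F V}, Z.map g.1.toLinearMap = Z'.map g.1.toLinearMap → Z = Z' := by
    intro Z Z' h
    exact Submodule.map_injective_of_injective g.1.injective h
  obtain ⟨w1, w2, w3⟩ := hmap W hW hWm hUW
  obtain ⟨x1, x2, x3⟩ := hmap X hX hXm hUX
  have hWX := TS.two hnd hV hUm hW hWm hX hXm w1 w2 hUW hUX w3 hne
  have hXX := TS.two hnd hV hUm hW hWm hX hXm x1 x2 hUW hUX x3 hne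
  have hst : (∀ w ∈ W, g (g w) ∈ W) ∧ (∀ x ∈ X, g (g x) ∈ X) := by
    rcases hWX with h | h
    · have h' : X.map g.1.toLinearMap = X := by
        rcases hXX with h' | h'
        · exact absurd (hinj (h.trans h'.symm)) hne
        · exact h'
      have k1 : ∀ w ∈ W, g w ∈ W := fun w hw => by rw [← h]; exact ⟨w, hw, rfl⟩
      have k2 : ∀ w ∈ X, g w ∈ X := fun w hw => by rw [← h']; exact ⟨w, hw, rfl⟩
      exact ⟨fun w hw => k1 _ (k1 w hw), fun w hw => k2 _ (k2 w hw)⟩
    · have h' : X.map g.1.toLinearMap = W := by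
        rcases hXX with h' | h'
        · exact h'
        · exact absurd (hinj (h.trans h'.symm)) hne
      have k1 : ∀ w ∈ W, g w ∈ X := fun w hw => by rw [← h]; exact ⟨w, hw, rfl⟩
      have k2 : ∀ w ∈ X, g w ∈ W := fun w hw => by rw [← h']; exact ⟨w, hw, rfl⟩
      exact ⟨fun w hw => k2 _ (k1 w hw), fun w hw => k1 _ (k2 w hw)⟩
  obtain ⟨h, hh⟩ : ∃ h, h = g * g := ⟨_, rfl⟩
  have hhC : h ∈ Cp Q U := by rw [hh]; exact mul_mem hg hg
  have hhW : ∀ w ∈ W, h w ∈ W := fun w hw => by rw [hh]; exact hst.1 w hw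
  have hhX : ∀ w ∈ X, h w ∈ X := fun w hw => by rw [hh]; exact hst.2 w hw
  have aux : ∀ Z : Submodule F V, finrank F Z = m → U ≤ Z → (∀ z ∈ Z, h z ∈ Z) → ∀ z ∈ Z, h z - z ∈ U := by
    intro Z hZm hUZ hhZ z hz
    by_cases hzU : z ∈ U
    · rw [hhC z hzU, sub_self]; exact U.zero_mem
    · have hZeq : U ⊔ Submodule.span F {z} = Z := by
        apply Submodule.eq_of_le_of_finrank_eq
        · exact sup_le hUZ (by rw [Submodule.span_singleton_le_iff_mem]; exact hz)
        · rw [Submodule.finrank_sup_span_singleton hzU]; omega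
      have h3 := hhZ z hz
      rw [← hZeq] at h3
      obtain ⟨a, ha, e, he, h4⟩ := Submodule.mem_sup.mp h3
      obtain ⟨s, rfl⟩ := Submodule.mem_span_singleton.mp he
      rcases f2_cases hF s with hs | hs
      · exfalso
        apply hzU
        rw [hs, zero_smul, add_zero] at h4
        have h5 : h a = h z := by rw [hhC a ha, h4]
        rw [← og_inj h h5]; exact ha
      · rw [hs, one_smul] at h4
        rw [← h4, add_sub_cancel_right]; exact ha
  have a1 : ∀ x ∈ oc Q U, h x - x ∈ U := by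
    intro x hx
    rw [← hsup] at hx
    obtain ⟨w, hw, y, hy, rfl⟩ := Submodule.mem_sup.mp hx
    have e : h (w + y) - (w + y) = (h w - w) + (h y - y) := by rw [og_add]; abel
    rw [e]
    exact U.add_mem (aux W hWm hUW hhW w hw) (aux X hXm hUX hhX y hy)
  have a2 : ∀ x, h x - x ∈ oc Q U := by
    intro x u hu
    rw [pr_sub]
    have : pB Q u (h x) = pB Q u x := by
      conv_lhs => rw [← hhC u hu]
      rw [og_p]
    rw [this, sub_self]
  have a3 : ∀ x, h (h x) - x ∈ U := by
    intro x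
    have h3 := a1 _ (a2 x)
    have e : h (h x) - x = (h (h x - x) - (h x - x)) + ((h x - x) + (h x - x)) := by rw [og_sub]; abel
    rw [e, hadd, add_zero]; exact h3
  apply Subtype.ext
  apply og_ext
  intro x
  have e1 : ((g ^ 2 ^ 3 : OG Q)) x = h (h (h (h x))) := by
    have : (g ^ 2 ^ 3 : OG Q) = h * h * h * h := by
      rw [hh, show (2 : ℕ) ^ 3 = 8 from rfl]
      simp only [pow_succ, pow_zero, one_mul, mul_assoc]
    rw [this]; rfl
  change (g ^ 2 ^ 3 : OG Q) x = x
  rw [e1]
  have h4 := a3 x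
  have e2 : h (h x) = x + (h (h x) - x) := by abel
  rw [e2, og_add, og_add, hhC _ h4, hhC _ h4]
  have e3 : h (h x) + (h (h x) - x) = x + ((h (h x) - x) + (h (h x) - x)) := by abel
  rw [e3, hadd, add_zero]

theorem Cp_le {E : Submodule F V} (hE : TS Q E) (hEm : finrank F E = m) (H : Sylow 2 (OG Q)) {U : Submodule F V} (hU : TS Q U) (hUm : finrank F U + 1 = m)
    (hst : St (H : Subgroup (OG Q)) U) : Cp Q U ≤ H := by
  have h1 := Cp_pGroup hnd hV hF hE hEm hU hUm
  have hn : (H : Subgroup (OG Q)) ≤ Subgroup.normalizer (Cp Q U : Set (OG Q)) := by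
    intro g hg
    rw [Subgroup.mem_normalizer_iff]
    intro c
    constructor
    · intro hc x hx
      change g (c ((g⁻¹ : OG Q) x)) = x
      rw [hc _ (hst g⁻¹ (inv_mem hg) x hx), og_inv']
    · intro hc x hx
      have h3 := hc (g x) (hst g hg x hx)
      have h4 : (g * c * g⁻¹ : OG Q) (g x) = g (c ((g⁻¹ : OG Q) (g x))) := rfl
      rw [h4, og_inv] at h3
      exact og_inj g h3
  have h2 := IsPGroup.to_sup_of_normal_right' H.isPGroup' h1 hn
  have h3 := H.is_maximal' h2 le_sup_left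
  rw [← h3]
  exact le_sup_right

theorem exists_common {U U' : Submodule F V} (hU : TS Q U) (hUm : finrank F U + 1 = m) (hU' : TS Q U') (hUm' : finrank F U' + 1 = m) :
    ∃ g : OG Q, g ≠ 1 ∧ g ∈ Cp Q U ∧ g ∈ Cp Q U' := by
  by_cases hA : ∃ u ∈ U ⊓ oc Q U', ∃ u' ∈ U' ⊓ oc Q U, u ≠ 0 ∧ u' ≠ 0 ∧ u ≠ u'
  · obtain ⟨u, ⟨hu1, hu2⟩, u', ⟨hu1', hu2'⟩, hu0, hu0', hne⟩ := hA
    have hQu : Q u = 0 := hU u hu1
    have hQu' : Q u' = 0 := hU' u' hu1'
    have huu : pB Q u u' = 0 := hu2' u hu1
    refine ⟨eich hQu huu, ?_, ?_, ?_⟩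
    · intro h1
      obtain ⟨x, hx⟩ := hnd.one hu0
      have h2 : eich hQu huu x = x := by rw [h1]; rfl
      rw [eich_apply, hx, hQu'] at h2
      have h3 : u' = pB Q u' x • u := by
        have : x + (1 : F) • u' - pB Q u' x • u - ((0 : F) * 1) • u = x + (u' - pB Q u' x • u) := by module
        rw [this] at h2
        exact sub_eq_zero.1 (add_eq_left.1 h2)
      rcases f2_cases hF (pB Q u' x) with h | h
      · rw [h, zero_smul] at h3; exact hu0' h3
      · rw [h, one_smul] at h3; exact hne h3.symm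
    · intro x hx
      rw [eich_apply, hU.pb hu1 hx, pB_symm Q u' x, hu2' x hx]
      simp
    · intro x hx
      rw [eich_apply, hU'.pb hu1' hx, pB_symm Q u x, hu2 x hx]
      simp
  · push Not at hA
    obtain ⟨a, ha, hQa⟩ : ∃ a ∈ oc Q U ⊓ oc Q U', Q a ≠ 0 := by
      by_contra hcon
      push Not at hcon
      obtain ⟨Y, hY⟩ : ∃ Y, Y = oc Q U ⊓ oc Q U' := ⟨_, rfl⟩
      have hYT : TS Q Y := by intro y hy; rw [hY] at hy; exact hcon y hy
      have hYr : finrank F Y = 2 + finrank F (U ⊓ U' : Submodule F V) := by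
        rw [hY, ← oc_sup]
        have h1 := finrank_oc hnd (U ⊔ U')
        have h2 := Submodule.finrank_sup_add_finrank_inf_eq U U'
        have h3 := Submodule.finrank_mono (le_sup_left : U ≤ U ⊔ U')
        omega
      have key : ∀ Z : Submodule F V, TS Q Z → finrank F Z + 1 = m → Y ≤ oc Q Z → finrank F Y ≤ finrank F (Y ⊓ Z : Submodule F V) + 1 := by
        intro Z hZ hZm hYZ
        have h1 := (TS.sup_of hYT hZ hYZ).finrank_le hnd hV
        have h2 := Submodule.finrank_sup_add_finrank_inf_eq Y Z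
        omega
      have k1 := key U hU hUm (by rw [hY]; exact inf_le_left)
      have k2 := key U' hU' hUm' (by rw [hY]; exact inf_le_right)
      have n1 : Y ⊓ U ≠ ⊥ := by
        intro h; rw [h, finrank_bot] at k1; omega
      have n2 : Y ⊓ U' ≠ ⊥ := by
        intro h; rw [h, finrank_bot] at k2; omega
      obtain ⟨u, ⟨hu1, hu2⟩, hu0⟩ := Submodule.exists_mem_ne_zero_of_ne_bot n1
      obtain ⟨u', ⟨hu1', hu2'⟩, hu0'⟩ := Submodule.exists_mem_ne_zero_of_ne_bot n2
      have hYU : ∀ y, y ∈ Y → y ∈ oc Q U ∧ y ∈ oc Q U' := by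
        intro y hy; rw [hY] at hy; exact hy
      have hall : ∀ v, v ∈ Y → v ∈ U → v ≠ 0 → v = u' := fun v hv hvU hv0 =>
        hA v ⟨hvU, (hYU v hv).2⟩ u' ⟨hu2', (hYU u' hu1').1⟩ hv0 hu0'
      have huu := hall u hu1 hu2 hu0
      have hint : (U ⊓ U' : Submodule F V) ≠ ⊥ := by
        intro h
        apply hu0
        have : u ∈ U ⊓ U' := ⟨hu2, by rw [huu]; exact hu2'⟩
        rw [h, Submodule.mem_bot] at this
        exact this
      have hpos : 0 < finrank F (U ⊓ U' : Submodule F V) := by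
        rw [Module.finrank_pos_iff]
        exact Submodule.nontrivial_iff_ne_bot.2 hint
      have hle : Y ⊓ U ≤ Submodule.span F {u'} := by
        intro v hv
        by_cases hv0 : v = 0
        · rw [hv0]; exact Submodule.zero_mem _
        · rw [hall v hv.1 hv.2 hv0]; exact Submodule.mem_span_singleton_self _
      have h5 := Submodule.finrank_mono hle
      rw [finrank_span_singleton hu0'] at h5
      omega
    refine ⟨refl hQa, ?_, ?_, ?_⟩
    · intro h1
      have ha0 : a ≠ 0 := by rintro rfl; exact hQa (q_zero Q)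
      obtain ⟨x, hx⟩ := hnd.ne ha0
      have h2 : refl hQa x = x := by rw [h1]; rfl
      rw [refl_apply, sub_eq_self, smul_eq_zero] at h2
      rcases h2 with h2 | h2
      · exact (mul_ne_zero (inv_ne_zero hQa) hx) h2
      · exact ha0 h2
    · intro x hx
      apply refl_fix
      rw [pB_symm]
      exact ha.1 x hx
    · intro x hx
      apply refl_fix
      rw [pB_symm]
      exact ha.2 x hx

theorem sylow_inf (hm : 1 ≤ m) {E : Submodule F V} (hE : TS Q E) (hEm : finrank F E = m) (H H' : Sylow 2 (OG Q)) :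
    (H : Subgroup (OG Q)) ⊓ H' ≠ ⊥ := by
  obtain ⟨U, h1, h2, h3⟩ := exists_stable hnd hV hF H.isPGroup' (m - 1) (by omega)
  obtain ⟨U', h1', h2', h3'⟩ := exists_stable hnd hV hF H'.isPGroup' (m - 1) (by omega)
  obtain ⟨g, hg, hgU, hgU'⟩ := exists_common hnd hV hF h2 (by omega) h2' (by omega)
  intro h
  apply hg
  have h4 : g ∈ (H : Subgroup (OG Q)) ⊓ H' :=
    ⟨Cp_le hnd hV hF hE hEm H h2 (by omega) h1 hgU, Cp_le hnd hV hF hE hEm H' h2' (by omega) h1' hgU'⟩
  rw [h, Subgroup.mem_bot] at h4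
  exact h4

end Cfsg.Agent.H16.SylO
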